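import Mathlib
import Cfsg.Prelude
import Cfsg.Agent.Helper1.Burnside

set_option autoImplicit false

namespace Cfsg.Agent.Helper22

universe u

/-- A nontrivial finite solvable group has a normal subgroup of prime index. -/
theorem exists_normal_prime_index : ∀ (n : ℕ) (G : Type u) [Group G] [Finite G] [Nontrivial G],
    Nat.card G = n → Group.IsSolvable G → ∃ M : Subgroup G, M.Normal ∧ M.index.Prime := by
  intro n
  induction n using Nat.strong_induction_on with
  | _ n ih =>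
    intro G _ _ _ hn hsolv
    by_cases hs : ∀ N : Subgroup G, N.Normal → N = ⊥ ∨ N = ⊤
    · haveI : IsSimpleGroup G :=
        { exists_pair_ne := exists_pair_ne G, eq_bot_or_eq_top_of_normal := hs }
      have hcomm := IsSimpleGroup.comm_iff_isSolvable.mpr hsolv
      letI : CommGroup G := { (inferInstance : Group G) with mul_comm := hcomm }
      have hp : (Nat.card G).Prime := IsSimpleGroup.prime_card
      refine ⟨⊥, Subgroup.normal_bot, ?_⟩
      rw [Subgroup.index_bot]; exact hp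
    · push Not at hs
      obtain ⟨N, hN, hNbot, hNtop⟩ := hs
      haveI := hN
      haveI := hsolv
      have hidx1 : N.index ≠ 1 := fun h => hNtop (Subgroup.index_eq_one.mp h)
      have hcardQ : Nat.card (G ⧸ N) = N.index := (Subgroup.index_eq_card N).symm
      haveI : Nontrivial (G ⧸ N) := by
        rw [← Finite.one_lt_card_iff_nontrivial, hcardQ]
        have : N.index ≠ 0 := Subgroup.index_ne_zero_of_finite
        omega
      have hlt : Nat.card (G ⧸ N) < n := by
        rw [hcardQ, ← hn, ← Subgroup.card_mul_index N]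
        have h1 : Nat.card N ≠ 1 := fun h => hNbot (Subgroup.card_eq_one.mp h)
        have h2 : 0 < Nat.card N := Nat.card_pos
        have h3 : 0 < N.index := Nat.pos_of_ne_zero Subgroup.index_ne_zero_of_finite
        have h4 : 2 ≤ Nat.card N := by omega
        nlinarith
      obtain ⟨Mb, hMn, hMp⟩ := ih (Nat.card (G ⧸ N)) hlt (G ⧸ N) rfl inferInstance
      refine ⟨Mb.comap (QuotientGroup.mk' N), hMn.comap _, ?_⟩
      rw [Subgroup.index_comap_of_surjective _ (QuotientGroup.mk'_surjective N)]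
      exact hMp

section

variable {G : Type u} [Group G]

theorem sq_or_cube (hΦ : ∀ g : G, orderOf g = 1 ∨ orderOf g = 2 ∨ orderOf g = 3) (g : G) :
    g ^ 2 = 1 ∨ g ^ 3 = 1 := by
  rcases hΦ g with h | h | h
  · left; rw [orderOf_eq_one_iff.mp h, one_pow]
  · left; rw [← h]; exact pow_orderOf_eq_one g
  · right; rw [← h]; exact pow_orderOf_eq_one g

theorem eq_one_of_sq_of_cube (g : G) (h2 : g ^ 2 = 1) (h3 : g ^ 3 = 1) : g = 1 := by
  calc g = g ^ 3 * (g ^ 2)⁻¹ := by group
    _ = 1 := by rw [h2, h3]; simp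

/-- No element of order 6. -/
theorem no_comm_two_three (hΦ : ∀ g : G, orderOf g = 1 ∨ orderOf g = 2 ∨ orderOf g = 3)
    (x n : G) (hx3 : x ^ 3 = 1) (hx : x ≠ 1) (hn2 : n ^ 2 = 1) (hn : n ≠ 1)
    (hc : x * n = n * x) : False := by
  have hcomm : Commute x n := hc
  rcases sq_or_cube hΦ (x * n) with h | h
  · rw [hcomm.mul_pow, hn2, mul_one] at h
    exact hx (eq_one_of_sq_of_cube x h hx3)
  · rw [hcomm.mul_pow, hx3, one_mul] at h
    exact hn (eq_one_of_sq_of_cube n hn2 h)

/-- A normal subgroup of index 2 is abelian. -/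
theorem comm_of_index_two (hΦ : ∀ g : G, orderOf g = 1 ∨ orderOf g = 2 ∨ orderOf g = 3)
    (M : Subgroup G) [M.Normal] (hM : M.index = 2) : ∀ a ∈ M, ∀ b ∈ M, a * b = b * a := by
  have hne : M ≠ ⊤ := by
    intro h
    rw [h, Subgroup.index_top] at hM
    omega
  obtain ⟨g, hg⟩ : ∃ g : G, g ∉ M := by
    by_contra hcon
    push Not at hcon
    exact hne ((Subgroup.eq_top_iff' M).mpr hcon)
  have hsq : ∀ m ∈ M, (g * m) ^ 2 = 1 := by
    intro m hm
    have hgm : g * m ∉ M := fun h => hg ((Subgroup.mul_mem_cancel_right M hm).mp h)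
    rcases sq_or_cube hΦ (g * m) with h | h
    · exact h
    · exfalso
      apply hgm
      have h2 : (g * m) ^ 2 ∈ M := by
        have := M.pow_index_mem (g * m)
        rwa [hM] at this
      have : g * m = (g * m) ^ 3 * ((g * m) ^ 2)⁻¹ := by group
      rw [this, h, one_mul]
      exact M.inv_mem h2
  have hg2 : g ^ 2 = 1 := by
    have := hsq 1 M.one_mem
    rwa [mul_one] at this
  have hginv : g⁻¹ = g := by
    rw [inv_eq_iff_mul_eq_one, ← pow_two]; exact hg2
  have hconj : ∀ m ∈ M, g * m * g⁻¹ = m⁻¹ := by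
    intro m hm
    have h := hsq m hm
    rw [hginv]
    rw [pow_two] at h
    have h' : g * m * g * m = 1 := by rw [← h]; group
    exact eq_inv_of_mul_eq_one_left h'
  intro a ha b hb
  have h1 := hconj (a * b) (M.mul_mem ha hb)
  have h2 : g * (a * b) * g⁻¹ = (g * a * g⁻¹) * (g * b * g⁻¹) := by group
  rw [h2, hconj a ha, hconj b hb, mul_inv_rev] at h1
  have h3 := congrArg (fun t => t⁻¹) h1
  simp only [mul_inv_rev, inv_inv] at h3
  exact h3.symm

theorem not_six_of_index_two [Finite G]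
    (hΦ : ∀ g : G, orderOf g = 1 ∨ orderOf g = 2 ∨ orderOf g = 3)
    (M : Subgroup G) [M.Normal] (hM : M.index = 2) (h2 : 2 ∣ Nat.card M)
    (h3 : 3 ∣ Nat.card M) : False := by
  haveI : Fact (Nat.Prime 2) := ⟨Nat.prime_two⟩
  haveI : Fact (Nat.Prime 3) := ⟨Nat.prime_three⟩
  obtain ⟨n, hn⟩ := exists_prime_orderOf_dvd_card' (G := M) 2 h2
  obtain ⟨x, hx⟩ := exists_prime_orderOf_dvd_card' (G := M) 3 h3
  have hn' : orderOf (n : G) = 2 := by rw [Subgroup.orderOf_coe]; exact hn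
  have hx' : orderOf (x : G) = 3 := by rw [Subgroup.orderOf_coe]; exact hx
  apply no_comm_two_three hΦ (x : G) (n : G)
  · rw [← hx']; exact pow_orderOf_eq_one _
  · intro h; rw [h, orderOf_one] at hx'; omega
  · rw [← hn']; exact pow_orderOf_eq_one _
  · intro h; rw [h, orderOf_one] at hn'; omega
  · exact comm_of_index_two hΦ M hM _ x.2 _ n.2

theorem mem_of_sq_of_index_three (M : Subgroup G) [M.Normal] (hM : M.index = 3) (g : G)
    (h : g ^ 2 = 1) : g ∈ M := by
  have h3 : g ^ 3 ∈ M := by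
    have := M.pow_index_mem g
    rwa [hM] at this
  have : g = g ^ 3 * (g ^ 2)⁻¹ := by group
  rw [this, h, inv_one, mul_one]
  exact h3

open scoped IsMulCommutative in
/-- A subgroup consisting of all elements of square one, if nontrivial, excludes `9 ∣ |G|`. -/
theorem no_nine [Finite G] (hΦ : ∀ g : G, orderOf g = 1 ∨ orderOf g = 2 ∨ orderOf g = 3)
    (B : Subgroup G) (hB : ∀ g, g ∈ B ↔ g ^ 2 = 1) (hBne : B ≠ ⊥) (h9 : 3 ^ 2 ∣ Nat.card G) :
    False := by
  haveI : Fact (Nat.Prime 3) := ⟨Nat.prime_three⟩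
  obtain ⟨K, hK⟩ := Sylow.exists_subgroup_card_pow_prime 3 h9
  have hKc : IsMulCommutative K := IsPGroup.isMulCommutative_of_card_eq_prime_sq hK
  have hKcomm : ∀ a b : K, a * b = b * a := fun a b => mul_comm' a b
  have hK3 : ∀ k : K, k ^ 3 = 1 := by
    intro k
    rcases sq_or_cube hΦ (k : G) with h | h
    · have h1 : orderOf k ∣ 2 := by
        rw [← Subgroup.orderOf_coe]; exact orderOf_dvd_of_pow_eq_one h
      have h2 : orderOf k ∣ 3 ^ 2 := hK ▸ orderOf_dvd_natCard k
      have h3 : orderOf k ∣ Nat.gcd 2 (3 ^ 2) := Nat.dvd_gcd h1 h2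
      have h4 : orderOf k = 1 := Nat.dvd_one.mp (by simpa using h3)
      rw [orderOf_eq_one_iff.mp h4, one_pow]
    · apply Subtype.ext
      simpa using h
  haveI : Nontrivial K := by
    rw [← Finite.one_lt_card_iff_nontrivial, hK]; norm_num
  obtain ⟨x, hx⟩ := exists_ne (1 : K)
  obtain ⟨y, hy⟩ : ∃ y : K, y ∉ Subgroup.zpowers x := by
    by_contra hcon
    push Not at hcon
    have h1 : Subgroup.zpowers x = ⊤ := (Subgroup.eq_top_iff' _).mpr hcon
    have h2 : Nat.card (Subgroup.zpowers x) = 9 := by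
      rw [h1, Subgroup.card_top, hK]; norm_num
    rw [Nat.card_zpowers] at h2
    have h3 : orderOf x ∣ 3 := orderOf_dvd_of_pow_eq_one (hK3 x)
    have := Nat.le_of_dvd (by norm_num) h3
    omega
  have hy1 : y ≠ 1 := fun h => hy (h ▸ Subgroup.one_mem _)
  have hxy1 : x * y ≠ 1 := by
    intro h
    apply hy
    rw [eq_inv_of_mul_eq_one_right h]
    exact Subgroup.inv_mem _ (Subgroup.mem_zpowers x)
  have hxyy1 : x * y ^ 2 ≠ 1 := by
    intro h
    apply hy
    have h1 : y ^ 2 = x⁻¹ := eq_inv_of_mul_eq_one_right h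
    have h2 : y = (y ^ 2) ^ 2 := by
      have := hK3 y
      calc y = y ^ 3 * y := by rw [this, one_mul]
        _ = (y ^ 2) ^ 2 := by group
    rw [h2, h1]
    exact Subgroup.pow_mem _ (Subgroup.inv_mem _ (Subgroup.mem_zpowers x)) 2
  -- move to `G`
  obtain ⟨x', hx'⟩ : ∃ x' : G, x' = (x : G) := ⟨_, rfl⟩
  obtain ⟨y', hy'⟩ : ∃ y' : G, y' = (y : G) := ⟨_, rfl⟩
  have hc : Commute x' y' := by
    have h : (x : G) * (y : G) = (y : G) * (x : G) := by
      have := congrArg Subtype.val (hKcomm x y)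
      simpa using this
    rw [hx', hy']
    exact h
  have hx3 : x' ^ 3 = 1 := by
    have := congrArg Subtype.val (hK3 x); rw [hx']; simpa using this
  have hy3 : y' ^ 3 = 1 := by
    have := congrArg Subtype.val (hK3 y); rw [hy']; simpa using this
  have hx1 : x' ≠ 1 := by
    rw [hx']; intro h; exact hx (Subtype.ext h)
  have hy1' : y' ≠ 1 := by
    rw [hy']; intro h; exact hy1 (Subtype.ext h)
  have hxy1' : x' * y' ≠ 1 := by
    rw [hx', hy']; intro h; exact hxy1 (Subtype.ext (by simpa using h))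
  have hxyy1' : x' * y' ^ 2 ≠ 1 := by
    rw [hx', hy']; intro h; exact hxyy1 (Subtype.ext (by simpa using h))
  -- properties of `B`
  have hBconj : ∀ (e : G), ∀ u ∈ B, e * u * e⁻¹ ∈ B := by
    intro e u hu
    rw [hB] at hu ⊢
    rw [conj_pow, hu]; group
  have hBcomm : ∀ u ∈ B, ∀ w ∈ B, u * w = w * u := by
    intro u hu w hw
    have h1 := (hB _).mp (B.mul_mem hu hw)
    have hu2 := (hB _).mp hu
    have hw2 := (hB _).mp hw
    rw [pow_two] at h1 hu2 hw2
    calc u * w = (u * w)⁻¹ := (inv_eq_of_mul_eq_one_right h1).symm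
      _ = w⁻¹ * u⁻¹ := mul_inv_rev u w
      _ = w * u := by rw [inv_eq_of_mul_eq_one_right hw2, inv_eq_of_mul_eq_one_right hu2]
  have hrel : ∀ z : G, z ^ 3 = 1 → z ≠ 1 → ∀ u ∈ B,
      (z * u * z⁻¹) * (z ^ 2 * u * (z ^ 2)⁻¹) * u = 1 := by
    intro z hz3 hz1 u hu
    have h3 : (z * u) ^ 3 = 1 := by
      rcases sq_or_cube hΦ (z * u) with h | h
      · exfalso
        have h1 : z * u ∈ B := (hB _).mpr h
        have h2 : z ∈ B := (Subgroup.mul_mem_cancel_right B hu).mp h1
        exact hz1 (eq_one_of_sq_of_cube z ((hB z).mp h2) hz3)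
      · exact h
    have hz' : (z ^ 2)⁻¹ = z := by
      rw [inv_eq_iff_mul_eq_one, ← pow_succ]; exact hz3
    rw [hz']
    calc z * u * z⁻¹ * (z ^ 2 * u * z) * u = z * u * (z * u) * (z * u) := by group
      _ = (z * u) ^ 3 := by rw [pow_succ, pow_succ, pow_one]
      _ = 1 := h3
  obtain ⟨v, hvB, hv1⟩ : ∃ v : G, v ∈ B ∧ v ≠ 1 := by
    obtain ⟨v, hv⟩ := (Subgroup.ne_bot_iff_exists_ne_one (H := B)).mp hBne
    exact ⟨(v : G), v.2, fun e => hv (Subtype.ext e)⟩
  -- the seven conjugates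
  have m3 : y' * v * y'⁻¹ ∈ B := hBconj y' v hvB
  have m6 : y' ^ 2 * v * (y' ^ 2)⁻¹ ∈ B := hBconj _ v hvB
  have m4 : (x' * y') * v * (x' * y')⁻¹ ∈ B := hBconj _ v hvB
  have m8 : (x' ^ 2 * y' ^ 2) * v * (x' ^ 2 * y' ^ 2)⁻¹ ∈ B := hBconj _ v hvB
  have m5 : (x' * y' ^ 2) * v * (x' * y' ^ 2)⁻¹ ∈ B := hBconj _ v hvB
  have m7 : (x' ^ 2 * y') * v * (x' ^ 2 * y')⁻¹ ∈ B := hBconj _ v hvB
  have R2 : (y' * v * y'⁻¹) * (y' ^ 2 * v * (y' ^ 2)⁻¹) * v = 1 := hrel y' hy3 hy1' v hvB
  have R3 : ((x' * y') * v * (x' * y')⁻¹) * ((x' ^ 2 * y' ^ 2) * v * (x' ^ 2 * y' ^ 2)⁻¹) * v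
      = 1 := by
    have h := hrel (x' * y') (by rw [hc.mul_pow, hx3, hy3, one_mul]) hxy1' v hvB
    rwa [hc.mul_pow] at h
  have R4 : ((x' * y' ^ 2) * v * (x' * y' ^ 2)⁻¹) * ((x' ^ 2 * y') * v * (x' ^ 2 * y')⁻¹) * v
      = 1 := by
    have hc2 : Commute x' (y' ^ 2) := hc.pow_right 2
    have h := hrel (x' * y' ^ 2) (by
      rw [hc2.mul_pow, hx3, ← pow_mul, one_mul]
      calc y' ^ (2 * 3) = (y' ^ 3) ^ 2 := by rw [← pow_mul]
        _ = 1 := by rw [hy3, one_pow]) hxyy1' v hvB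
    have e : (x' * y' ^ 2) ^ 2 = x' ^ 2 * y' := by
      rw [hc2.mul_pow, ← pow_mul]
      congr 1
      calc y' ^ (2 * 2) = y' ^ 3 * y' := by group
        _ = y' := by rw [hy3, one_mul]
    rwa [e] at h
  have R5 : ((x' * y') * v * (x' * y')⁻¹) * ((x' ^ 2 * y') * v * (x' ^ 2 * y')⁻¹) *
      (y' * v * y'⁻¹) = 1 := by
    have h := hrel x' hx3 hx1 (y' * v * y'⁻¹) m3
    calc _ = (x' * (y' * v * y'⁻¹) * x'⁻¹) * (x' ^ 2 * (y' * v * y'⁻¹) * (x' ^ 2)⁻¹) *
        (y' * v * y'⁻¹) := by group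
      _ = 1 := h
  have R6 : ((x' * y' ^ 2) * v * (x' * y' ^ 2)⁻¹) *
      ((x' ^ 2 * y' ^ 2) * v * (x' ^ 2 * y' ^ 2)⁻¹) * (y' ^ 2 * v * (y' ^ 2)⁻¹) = 1 := by
    have h := hrel x' hx3 hx1 (y' ^ 2 * v * (y' ^ 2)⁻¹) m6
    calc _ = (x' * (y' ^ 2 * v * (y' ^ 2)⁻¹) * x'⁻¹) *
        (x' ^ 2 * (y' ^ 2 * v * (y' ^ 2)⁻¹) * (x' ^ 2)⁻¹) * (y' ^ 2 * v * (y' ^ 2)⁻¹) := by group
      _ = 1 := h
  -- compute in the commutative group `B`
  haveI : IsMulCommutative B := ⟨⟨fun a b => Subtype.ext (hBcomm a a.2 b b.2)⟩⟩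
  have hsq : ∀ b : B, b * b = 1 := by
    intro b
    apply Subtype.ext
    have := (hB _).mp b.2
    rw [pow_two] at this
    simpa using this
  have key : ∀ b0 b3 b4 b5 b6 b7 b8 : B, b3 * b6 * b0 = 1 → b5 * b8 * b6 = 1 →
      b4 * b8 * b0 = 1 → b4 * b7 * b3 = 1 → b5 * b7 * b0 = 1 → b0 = 1 := by
    intro b0 b3 b4 b5 b6 b7 b8 r2 r6 r3 r5 r4
    have hcm : ∀ a b : B, a * b = b * a := fun a b => mul_comm' a b
    have e : (b3 * b6 * b0) * (b5 * b8 * b6) * (b4 * b8 * b0) * (b4 * b7 * b3) * (b5 * b7 * b0) =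
        b0 * ((b0 * b3 * b4 * b5 * b6 * b7 * b8) * (b0 * b3 * b4 * b5 * b6 * b7 * b8)) := by
      ac_rfl
    rw [r2, r6, r3, r5, r4, hsq (b0 * b3 * b4 * b5 * b6 * b7 * b8)] at e
    simpa using e.symm
  have h0 := key ⟨v, hvB⟩ ⟨_, m3⟩ ⟨_, m4⟩ ⟨_, m5⟩ ⟨_, m6⟩ ⟨_, m7⟩ ⟨_, m8⟩
    (Subtype.ext R2) (Subtype.ext R6) (Subtype.ext R3) (Subtype.ext R5) (Subtype.ext R4)
  exact hv1 (congrArg Subtype.val h0)

end

/-- Structure of finite groups all of whose elements have order 1, 2 or 3. -/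
theorem orders_123_structure : ∀ (n : ℕ) (G : Type u) [Group G] [Finite G], Nat.card G = n →
    (∀ g : G, orderOf g = 1 ∨ orderOf g = 2 ∨ orderOf g = 3) →
    (∃ a, Nat.card G = 2 ^ a) ∨ (∃ b, Nat.card G = 3 ^ b) ∨
    (∃ b, 1 ≤ b ∧ Nat.card G = 2 * 3 ^ b) ∨
    (∃ a, 1 ≤ a ∧ Nat.card G = 3 * 2 ^ a ∧
      ∃ P : Subgroup G, (∀ g, g ∈ P ↔ g ^ 2 = 1) ∧ Nat.card P = 2 ^ a) := by
  intro n
  induction n using Nat.strong_induction_on with
  | _ n ih =>
    intro G _ _ hn hΦ
    haveI : Fact (Nat.Prime 2) := ⟨Nat.prime_two⟩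
    haveI : Fact (Nat.Prime 3) := ⟨Nat.prime_three⟩
    have hpos : 0 < Nat.card G := Nat.card_pos
    -- primes dividing `|G|` are 2 or 3
    have hprimes : ∀ q : ℕ, q.Prime → q ∣ Nat.card G → q = 2 ∨ q = 3 := by
      intro q hq hqd
      haveI : Fact q.Prime := ⟨hq⟩
      obtain ⟨g, hg⟩ := exists_prime_orderOf_dvd_card' (G := G) q hqd
      rcases hΦ g with h | h | h
      · rw [hg] at h; exact absurd h hq.one_lt.ne'
      · left; rw [← hg, h]
      · right; rw [← hg, h]
    by_cases htriv : Nat.card G = 1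
    · left; exact ⟨0, by rw [htriv, pow_zero]⟩
    haveI : Nontrivial G := Finite.one_lt_card_iff_nontrivial.mp (by omega)
    -- solvable
    have hsolv : Group.IsSolvable G := by
      obtain ⟨a, n', h2, hn'⟩ := Nat.exists_eq_pow_mul_and_not_dvd hpos.ne' 2 (by norm_num)
      have hn'0 : n' ≠ 0 := by
        rintro rfl
        rw [mul_zero] at hn'
        omega
      obtain ⟨b, n'', h3, hn''⟩ := Nat.exists_eq_pow_mul_and_not_dvd hn'0 3 (by norm_num)
      have h1 : n'' = 1 := by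
        by_contra hne
        obtain ⟨q, hq, hqd⟩ := Nat.exists_prime_and_dvd hne
        have hqn' : q ∣ n' := hqd.trans (hn'' ▸ Dvd.intro_left _ rfl)
        have hqG : q ∣ Nat.card G := hqn'.trans (hn' ▸ Dvd.intro_left _ rfl)
        rcases hprimes q hq hqG with rfl | rfl
        · exact h2 hqn'
        · exact h3 hqd
      rw [h1, mul_one] at hn''
      rw [hn''] at hn'
      exact Cfsg.Agent.Helper1.isSolvable_of_card_eq_prime_pow_mul_prime_pow 2 3 a b
        Nat.prime_two Nat.prime_three hn'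
    obtain ⟨M, hMn, hMp⟩ := exists_normal_prime_index (Nat.card G) G rfl hsolv
    haveI := hMn
    have hcardM : Nat.card M * M.index = Nat.card G := Subgroup.card_mul_index M
    have hMlt : Nat.card M < n := by
      rw [← hn, ← hcardM]
      have h1 := hMp.two_le
      have h2 : 0 < Nat.card M := Nat.card_pos
      nlinarith
    have hΦM : ∀ g : M, orderOf g = 1 ∨ orderOf g = 2 ∨ orderOf g = 3 := by
      intro g
      rw [← Subgroup.orderOf_coe]
      exact hΦ g
    have hIH := ih (Nat.card M) hMlt M rfl hΦM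
    have hp23 : M.index = 2 ∨ M.index = 3 :=
      hprimes _ hMp (hcardM ▸ Dvd.intro_left _ rfl)
    rcases hp23 with hp | hp
    · -- index 2
      rw [hp] at hcardM
      rcases hIH with ⟨a, ha⟩ | ⟨b, hb⟩ | ⟨b, hb1, hb⟩ | ⟨a, ha1, ha, -⟩
      · left; exact ⟨a + 1, by rw [← hcardM, ha, pow_succ]⟩
      · rcases Nat.eq_zero_or_pos b with rfl | hbpos
        · left; exact ⟨1, by rw [← hcardM, hb]; norm_num⟩
        · right; right; left
          exact ⟨b, hbpos, by rw [← hcardM, hb, mul_comm]⟩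
      · exfalso
        apply not_six_of_index_two hΦ M hp
        · rw [hb]; exact Dvd.intro _ rfl
        · rw [hb]; exact (dvd_pow_self 3 (by omega)).mul_left 2
      · exfalso
        apply not_six_of_index_two hΦ M hp
        · rw [ha]; exact (dvd_pow_self 2 (by omega)).mul_left 3
        · rw [ha]; exact Dvd.intro _ rfl
    · -- index 3
      rw [hp] at hcardM
      rcases hIH with ⟨a, ha⟩ | ⟨b, hb⟩ | ⟨b, hb1, hb⟩ | ⟨a, ha1, ha, P₀, hP₀, hP₀card⟩
      · rcases Nat.eq_zero_or_pos a with rfl | hapos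
        · right; left; exact ⟨1, by rw [← hcardM, ha]; norm_num⟩
        · right; right; right
          refine ⟨a, hapos, by rw [← hcardM, ha, mul_comm], M, ?_, ha⟩
          intro g
          constructor
          · intro hg
            rcases sq_or_cube hΦ g with h | h
            · exact h
            · have h1 : orderOf (⟨g, hg⟩ : M) ∣ 3 := by
                rw [Subgroup.orderOf_mk]; exact orderOf_dvd_of_pow_eq_one h
              have h2 : orderOf (⟨g, hg⟩ : M) ∣ 2 ^ a := ha ▸ orderOf_dvd_natCard _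
              have h3 : orderOf (⟨g, hg⟩ : M) ∣ Nat.gcd 3 (2 ^ a) := Nat.dvd_gcd h1 h2
              have h4 : Nat.gcd 3 (2 ^ a) = 1 :=
                Nat.Coprime.pow_right a (by norm_num)
              rw [h4, Nat.dvd_one, Subgroup.orderOf_mk, orderOf_eq_one_iff] at h3
              rw [h3, one_pow]
          · exact mem_of_sq_of_index_three M hp g
      · right; left; exact ⟨b + 1, by rw [← hcardM, hb, pow_succ]⟩
      · right; right; left
        exact ⟨b + 1, by omega, by rw [← hcardM, hb, pow_succ]; ring⟩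
      · exfalso
        apply no_nine hΦ (P₀.map M.subtype)
        · intro g
          constructor
          · rintro ⟨m, hm, rfl⟩
            have := (hP₀ m).mp hm
            have h2 := congrArg Subtype.val this
            simpa using h2
          · intro hg
            have hgM := mem_of_sq_of_index_three M hp g hg
            refine ⟨⟨g, hgM⟩, (hP₀ _).mpr ?_, rfl⟩
            apply Subtype.ext
            simpa using hg
        · intro hbot
          have h1 : Nat.card (P₀.map M.subtype) = 2 ^ a := by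
            rw [Subgroup.card_map_of_injective M.subtype_injective, hP₀card]
          rw [hbot, Subgroup.card_bot] at h1
          have : 2 ≤ 2 ^ a := by
            calc 2 = 2 ^ 1 := (pow_one 2).symm
              _ ≤ 2 ^ a := Nat.pow_le_pow_right (by norm_num) ha1
          omega
        · rw [← hcardM, ha]
          exact ⟨2 ^ a, by ring⟩

end Cfsg.Agent.Helper22
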