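import Mathlib
import Cfsg.Agent.Helper22.Subnorm1

set_option autoImplicit false
open scoped Pointwise

namespace Cfsg.Agent.Helper22
open Subgroup

section
variable {G : Type*} [Group G]

/-- `R` witnesses that `g` is in the `M`-relative subnormaliser of `H`. -/
def SWit (p : ℕ) (H M R : Subgroup G) (g : G) : Prop :=
  M ≤ R ∧ (∃ k : ℕ, M.relIndex R = p ^ k) ∧ H ≤ R ∧ MulAut.conj g • R = R

def SMset (p : ℕ) (H M : Subgroup G) : Set G := {g | ∃ R, SWit p H M R g}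

theorem conj_mul_smul (x y : G) (R : Subgroup G) :
    MulAut.conj (x * y) • R = MulAut.conj x • MulAut.conj y • R := by
  rw [map_mul, mul_smul]

theorem conj_inv_smul_of (x : G) (A B : Subgroup G) (h : MulAut.conj x • A = B) :
    MulAut.conj x⁻¹ • B = A := by
  rw [← h, map_inv, inv_smul_smul]

theorem eq_one_of_dvd_pow_of_dvd_coprime {p d a k : ℕ} (h1 : d ∣ p ^ k) (h2 : d ∣ a)
    (h3 : a.Coprime p) : d = 1 :=
  Nat.eq_one_of_dvd_coprimes (Nat.Coprime.pow_left k h3.symm) h1 h2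

theorem dvd_pow_exists {p : ℕ} (hp : p.Prime) {d k : ℕ} (h : d ∣ p ^ k) : ∃ i, d = p ^ i := by
  obtain ⟨i, -, hi⟩ := (Nat.dvd_prime_pow hp).mp h
  exact ⟨i, hi⟩

theorem SMset_mono (p : ℕ) [Fact p.Prime] (H M M' : Subgroup G) [M'.Normal] (hMM : M ≤ M') :
    SMset p H M ⊆ SMset p H M' := by
  rintro g ⟨R, hMR, ⟨k, hk⟩, hHR, hg⟩
  refine ⟨R ⊔ M', le_sup_right, ?_, hHR.trans le_sup_left, ?_⟩
  · have h1 : M'.relIndex (R ⊔ M') = (M' ⊓ R).relIndex R := by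
      rw [relIndex_sup_right, inf_relIndex_right]
    have h2 : (M' ⊓ R).relIndex R ∣ M.relIndex R := relIndex_dvd_of_le_left R (le_inf hMM hMR)
    rw [h1]
    rw [hk] at h2
    exact dvd_pow_exists (Fact.out) h2
  · rw [Subgroup.smul_sup, hg, Subgroup.Normal.conj_smul_eq_self]

theorem SMset_eq_of_pow (p : ℕ) [Fact p.Prime] (H M M' : Subgroup G) [M'.Normal] (hMM : M ≤ M')
    (k : ℕ) (hk : M.relIndex M' = p ^ k) : SMset p H M = SMset p H M' := by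
  apply Set.Subset.antisymm (SMset_mono p H M M' hMM)
  rintro g ⟨R, hMR, ⟨j, hj⟩, hHR, hg⟩
  refine ⟨R, hMM.trans hMR, ⟨k + j, ?_⟩, hHR, hg⟩
  rw [← relIndex_mul_relIndex M M' R hMM hMR, hk, hj, pow_add]

theorem SMset_top (p : ℕ) (H : Subgroup G) : SMset p H ⊤ = Set.univ := by
  apply Set.eq_univ_of_forall
  intro g
  exact ⟨⊤, le_rfl, ⟨0, by simp⟩, le_top, by simp⟩

theorem mem_SMset_bot (p : ℕ) [Fact p.Prime] [Finite G] (H : Subgroup G) (g : G) :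
    g ∈ SMset p H ⊥ ↔ ∃ R : Subgroup G, IsPGroup p R ∧ H ≤ R ∧ g ∈ normalizer (R : Set G) := by
  constructor
  · rintro ⟨R, -, ⟨k, hk⟩, hHR, hg⟩
    rw [relIndex_bot_left] at hk
    exact ⟨R, IsPGroup.of_card hk, hHR, (mem_normalizer_iff_conj_smul R g).mpr hg⟩
  · rintro ⟨R, hR, hHR, hg⟩
    obtain ⟨k, hk⟩ := IsPGroup.iff_card.mp hR
    exact ⟨R, bot_le, ⟨k, by rw [relIndex_bot_left, hk]⟩, hHR,
      (mem_normalizer_iff_conj_smul R g).mp hg⟩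

/-- Complements of `M'/M` in `R'/M`. -/
def Scompl (M M' R' : Subgroup G) : Set (Subgroup G) :=
  {R | M ≤ R ∧ R ≤ R' ∧ R ⊔ M' = R' ∧ R ⊓ M' = M}

theorem Scompl_relIndex (M M' R' R : Subgroup G) [M'.Normal] (hR : R ∈ Scompl M M' R') :
    M.relIndex R = M'.relIndex R' := by
  obtain ⟨h1, h2, h3, h4⟩ := hR
  rw [← h3, relIndex_sup_right, ← inf_relIndex_right M' R, inf_comm M' R, h4]

theorem Scompl_eq_of_le [Finite G] (M M' R' R₁ R₂ : Subgroup G) [M'.Normal]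
    (h1 : R₁ ∈ Scompl M M' R') (h2 : R₂ ∈ Scompl M M' R') (hle : R₁ ≤ R₂) : R₁ = R₂ := by
  apply le_antisymm hle
  rw [← relIndex_eq_one]
  have e1 := Scompl_relIndex M M' R' R₁ h1
  have e2 := Scompl_relIndex M M' R' R₂ h2
  have e3 := relIndex_mul_relIndex M R₁ R₂ h1.1 hle
  rw [e1, e2] at e3
  have hne : M'.relIndex R' ≠ 0 := by
    intro h
    have := relIndex_dvd_card (H := M') (K := R')
    rw [h, zero_dvd_iff] at this
    exact Nat.card_pos.ne' this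
  exact Nat.eq_of_mul_eq_mul_left (Nat.pos_of_ne_zero hne) (by rw [e3, mul_one])

theorem Scompl_conj (M M' R' R : Subgroup G) [M.Normal] [M'.Normal] (x : G)
    (hx : MulAut.conj x • R' = R') (hR : R ∈ Scompl M M' R') :
    MulAut.conj x • R ∈ Scompl M M' R' := by
  obtain ⟨h1, h2, h3, h4⟩ := hR
  refine ⟨?_, ?_, ?_, ?_⟩
  · have := (Subgroup.pointwise_smul_le_pointwise_smul_iff (a := MulAut.conj x)).mpr h1
    rwa [Subgroup.Normal.conj_smul_eq_self] at this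
  · have := (Subgroup.pointwise_smul_le_pointwise_smul_iff (a := MulAut.conj x)).mpr h2
    rwa [hx] at this
  · conv_lhs => rw [← Subgroup.Normal.conj_smul_eq_self x M']
    rw [← Subgroup.smul_sup, h3, hx]
  · conv_lhs => rw [← Subgroup.Normal.conj_smul_eq_self x M']
    rw [← Subgroup.smul_inf, h4, Subgroup.Normal.conj_smul_eq_self]

theorem exists_sylow_in (p : ℕ) [Fact p.Prime] [Finite G] (K Q : Subgroup G) (hQ : IsPGroup p Q)
    (hQK : Q ≤ K) :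
    ∃ S : Subgroup G, IsPGroup p S ∧ Q ≤ S ∧ S ≤ K ∧ (S.relIndex K).Coprime p := by
  obtain ⟨S, hS⟩ := (hQ.comap_subtype (K := K)).exists_le_sylow
  refine ⟨(S : Subgroup K).map K.subtype, S.2.map _, ?_, ?_, ?_⟩
  · intro q hq
    exact ⟨⟨q, hQK hq⟩, hS (mem_subgroupOf.mpr hq), rfl⟩
  · exact map_subtype_le _
  · have h1 : ((S : Subgroup K).map K.subtype).relIndex K = (S : Subgroup K).index := by
      show (((S : Subgroup K).map K.subtype).comap K.subtype).index = _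
      rw [comap_map_eq_self_of_injective (subtype_injective K)]
    rw [h1]
    exact ((Nat.Prime.coprime_iff_not_dvd Fact.out).mpr S.not_dvd_index).symm

theorem conj_of_sylow_in (p : ℕ) [Fact p.Prime] [Finite G] (K S₁ S₂ : Subgroup G)
    (h₁ : IsPGroup p S₁) (h₂ : IsPGroup p S₂) (hS₁ : S₁ ≤ K) (hS₂ : S₂ ≤ K)
    (hi₁ : (S₁.relIndex K).Coprime p) (hi₂ : (S₂.relIndex K).Coprime p) :
    ∃ r ∈ K, MulAut.conj r • S₁ = S₂ := by
  have hnd : ∀ S : Subgroup G, (S.relIndex K).Coprime p → ¬ p ∣ (S.subgroupOf K).index :=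
    fun S hS => (Nat.Prime.coprime_iff_not_dvd Fact.out).mp hS.symm
  obtain ⟨r, hr⟩ := MulAction.exists_smul_eq K
    ((h₁.comap_subtype (K := K)).toSylow (hnd S₁ hi₁))
    ((h₂.comap_subtype (K := K)).toSylow (hnd S₂ hi₂))
  refine ⟨r, r.2, ?_⟩
  have h3 := congrArg (fun P : Sylow p K => (P : Subgroup K)) hr
  simp only [Sylow.coe_subgroup_smul] at h3
  have h4 : MulAut.conj r • S₁.subgroupOf K = S₂.subgroupOf K := h3
  rw [Subgroup.conj_smul_subgroupOf hS₁, subgroupOf_inj] at h4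
  rw [inf_of_le_left hS₂, inf_of_le_left (Subgroup.conj_smul_le_of_le hS₁ r)] at h4
  exact h4

theorem Scompl_exists (p : ℕ) [Fact p.Prime] [Finite G] (H M M' R' : Subgroup G) [M.Normal]
    [M'.Normal] (hMM : M ≤ M') (hcop : (M.relIndex M').Coprime p) (hM'R' : M' ≤ R') (j : ℕ)
    (hj : M'.relIndex R' = p ^ j) (hH : IsPGroup p H) (hHR' : H ≤ R') :
    ∃ R ∈ Scompl M M' R', H ≤ R := by
  obtain ⟨S, hS, hHS, hSR', hSc⟩ := exists_sylow_in p R' H hH hHR'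
  refine ⟨S ⊔ M, ⟨le_sup_right, sup_le hSR' (hMM.trans hM'R'), ?_, ?_⟩, hHS.trans le_sup_left⟩
  · have hle : S ⊔ M ⊔ M' ≤ R' := sup_le (sup_le hSR' (hMM.trans hM'R')) hM'R'
    apply le_antisymm hle
    rw [← relIndex_eq_one]
    have d1 : (S ⊔ M ⊔ M').relIndex R' ∣ S.relIndex R' :=
      relIndex_dvd_of_le_left R' (le_sup_left.trans le_sup_left)
    have d2 : (S ⊔ M ⊔ M').relIndex R' ∣ M'.relIndex R' := relIndex_dvd_of_le_left R' le_sup_right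
    rw [hj] at d2
    exact eq_one_of_dvd_pow_of_dvd_coprime d2 d1 hSc
  · apply le_antisymm _ (le_inf le_sup_right hMM)
    rw [← relIndex_eq_one]
    obtain ⟨a, ha⟩ := IsPGroup.iff_card.mp hS
    have d1 : M.relIndex ((S ⊔ M) ⊓ M') ∣ M.relIndex (S ⊔ M) :=
      Dvd.intro _ (relIndex_mul_relIndex M ((S ⊔ M) ⊓ M') (S ⊔ M)
        (le_inf le_sup_right hMM) inf_le_left)
    have d2 : M.relIndex ((S ⊔ M) ⊓ M') ∣ M.relIndex M' :=
      Dvd.intro _ (relIndex_mul_relIndex M ((S ⊔ M) ⊓ M') M'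
        (le_inf le_sup_right hMM) inf_le_right)
    rw [relIndex_sup_right] at d1
    have d3 : M.relIndex S ∣ p ^ a := ha ▸ relIndex_dvd_card (H := M) (K := S)
    exact eq_one_of_dvd_pow_of_dvd_coprime (d1.trans d3) d2 hcop

theorem Scompl_trans (p : ℕ) [Fact p.Prime] [Finite G] (M M' R' : Subgroup G) [M.Normal]
    [M'.Normal] (hMM : M ≤ M') (hcop : (M.relIndex M').Coprime p) (hM'R' : M' ≤ R') (j : ℕ)
    (hj : M'.relIndex R' = p ^ j) (R₁ R₂ : Subgroup G) (h1 : R₁ ∈ Scompl M M' R')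
    (h2 : R₂ ∈ Scompl M M' R') : ∃ m ∈ M', MulAut.conj m • R₁ = R₂ := by
  have key : ∀ R ∈ Scompl M M' R', ∃ S : Subgroup G, IsPGroup p S ∧ S ≤ R' ∧
      (S.relIndex R').Coprime p ∧ S ⊔ M = R := by
    intro R hR
    obtain ⟨S, hS, -, hSR, hSc⟩ := exists_sylow_in p R ⊥ IsPGroup.of_bot bot_le
    have hidx := Scompl_relIndex M M' R' R hR
    refine ⟨S, hS, hSR.trans hR.2.1, ?_, ?_⟩
    · rw [← relIndex_mul_relIndex S R R' hSR hR.2.1]
      apply Nat.Coprime.mul_left hSc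
      have e1 := relIndex_mul_relIndex M R R' hR.1 hR.2.1
      have e2 := relIndex_mul_relIndex M M' R' hMM hM'R'
      rw [hidx, ← e2, mul_comm (M.relIndex M')] at e1
      have hpos : 0 < M'.relIndex R' := by rw [hj]; exact pow_pos (Nat.Prime.pos Fact.out) j
      rw [Nat.eq_of_mul_eq_mul_left hpos e1]
      exact hcop
    · apply le_antisymm (sup_le hSR hR.1)
      rw [← relIndex_eq_one]
      have d1 : (S ⊔ M).relIndex R ∣ S.relIndex R := relIndex_dvd_of_le_left R le_sup_left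
      have d2 : (S ⊔ M).relIndex R ∣ M.relIndex R := relIndex_dvd_of_le_left R le_sup_right
      rw [hidx, hj] at d2
      exact eq_one_of_dvd_pow_of_dvd_coprime d2 d1 hSc
  obtain ⟨S₁, hS₁, hS₁R', hc₁, e₁⟩ := key R₁ h1
  obtain ⟨S₂, hS₂, hS₂R', hc₂, e₂⟩ := key R₂ h2
  obtain ⟨r, hr, hconj⟩ := conj_of_sylow_in p R' S₁ S₂ hS₁ hS₂ hS₁R' hS₂R' hc₁ hc₂
  have hr' : r ∈ M' ⊔ R₁ := by rw [sup_comm, h1.2.2.1]; exact hr
  obtain ⟨m, hm, r₁, hr₁, rfl⟩ := mem_sup_of_normal_left.mp hr'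
  refine ⟨m, hm, ?_⟩
  have e3 : MulAut.conj (m * r₁) • R₁ = R₂ := by
    rw [← e₁, Subgroup.smul_sup, hconj, Subgroup.Normal.conj_smul_eq_self, e₂]
  rw [conj_mul_smul, Subgroup.conj_smul_eq_self_of_mem hr₁] at e3
  exact e3

theorem Scompl_D_iff (H M M' R' R₀ : Subgroup G) [M.Normal] [M'.Normal]
    (hR₀ : R₀ ∈ Scompl M M' R') (hH : H ≤ R₀) (m : G) (hm : m ∈ M') :
    H ≤ MulAut.conj m • R₀ ↔ ∀ h ∈ H, h * m * h⁻¹ * m⁻¹ ∈ M := by
  constructor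
  · intro hle h hh
    have h1 : m⁻¹ * h * m ∈ R₀ := (mem_conj_smul_iff R₀ m h).mp (hle hh)
    have h2 : m⁻¹ * h * m * h⁻¹ ∈ R₀ := R₀.mul_mem h1 (R₀.inv_mem (hH hh))
    have h3 : m⁻¹ * h * m * h⁻¹ ∈ M' := by
      have : m⁻¹ * h * m * h⁻¹ = m⁻¹ * (h * m * h⁻¹) := by group
      rw [this]
      exact M'.mul_mem (M'.inv_mem hm) (‹M'.Normal›.conj_mem m hm h)
    have h4 : m⁻¹ * h * m * h⁻¹ ∈ M := by
      have : m⁻¹ * h * m * h⁻¹ ∈ R₀ ⊓ M' := ⟨h2, h3⟩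
      rwa [hR₀.2.2.2] at this
    have h5 := ‹M.Normal›.conj_mem _ h4 m
    have : m * (m⁻¹ * h * m * h⁻¹) * m⁻¹ = h * m * h⁻¹ * m⁻¹ := by group
    rwa [this] at h5
  · intro hD h hh
    rw [mem_conj_smul_iff]
    have h1 := ‹M.Normal›.conj_mem _ (hD h hh) m⁻¹
    have : m⁻¹ * (h * m * h⁻¹ * m⁻¹) * m⁻¹⁻¹ * h = m⁻¹ * h * m := by group
    rw [← this]
    exact R₀.mul_mem (hR₀.1 h1) (hH hh)

theorem card_subtype_eq_of_inverse {α β : Type*} (P : α → Prop) (Q : β → Prop) (f : α → β)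
    (g : β → α) (hf : ∀ a, P a → Q (f a)) (hg : ∀ b, Q b → P (g b))
    (hgf : ∀ a, P a → g (f a) = a) (hfg : ∀ b, Q b → f (g b) = b) :
    Nat.card {a // P a} = Nat.card {b // Q b} :=
  Nat.card_congr ⟨fun a => ⟨f a, hf a a.2⟩, fun b => ⟨g b, hg b b.2⟩,
    fun a => Subtype.ext (hgf a a.2), fun b => Subtype.ext (hfg b b.2)⟩

theorem card_pairs_const {α β : Type*} [Finite α] [Finite β] (P : α → Prop) (Q : α → β → Prop)
    (c : ℕ) (h : ∀ a, P a → Nat.card {b // Q a b} = c) :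
    Nat.card {q : α × β // P q.1 ∧ Q q.1 q.2} = Nat.card {a // P a} * c := by
  classical
  have := Fintype.ofFinite {a // P a}
  have e : {q : α × β // P q.1 ∧ Q q.1 q.2} ≃ Σ a : {a // P a}, {b // Q a.1 b} :=
    { toFun := fun q => ⟨⟨q.1.1, q.2.1⟩, ⟨q.1.2, q.2.2⟩⟩
      invFun := fun s => ⟨(s.1.1, s.2.1), s.1.2, s.2.2⟩
      left_inv := by rintro ⟨⟨a, b⟩, h1, h2⟩; rfl
      right_inv := by rintro ⟨⟨a, ha⟩, ⟨b, hb⟩⟩; rfl }
  rw [Nat.card_congr e, Nat.card_sigma]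
  rw [Finset.sum_congr rfl (fun a _ => h a.1 a.2), Finset.sum_const, smul_eq_mul, Finset.card_univ,
    Nat.card_eq_fintype_card]

theorem D_card_dvd [Finite G] (H M M' : Subgroup G) [M.Normal] (hMM : M ≤ M') :
    Nat.card M ∣ Nat.card {u : G // u ∈ M' ∧ ∀ h ∈ H, h * u * h⁻¹ * u⁻¹ ∈ M} := by
  let D : Subgroup G :=
    { carrier := {u | u ∈ M' ∧ ∀ h ∈ H, h * u * h⁻¹ * u⁻¹ ∈ M}
      mul_mem' := by
        rintro u v ⟨hu1, hu2⟩ ⟨hv1, hv2⟩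
        refine ⟨M'.mul_mem hu1 hv1, fun h hh => ?_⟩
        have e : h * (u * v) * h⁻¹ * (u * v)⁻¹ =
            (h * u * h⁻¹ * u⁻¹) * (u * (h * v * h⁻¹ * v⁻¹) * u⁻¹) := by group
        rw [e]
        exact M.mul_mem (hu2 h hh) (‹M.Normal›.conj_mem _ (hv2 h hh) u)
      one_mem' := ⟨M'.one_mem, fun h _ => by simp⟩
      inv_mem' := by
        rintro u ⟨hu1, hu2⟩
        refine ⟨M'.inv_mem hu1, fun h hh => ?_⟩
        have e : h * u⁻¹ * h⁻¹ * u⁻¹⁻¹ = u⁻¹ * (h * u * h⁻¹ * u⁻¹)⁻¹ * u⁻¹⁻¹ := by group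
        rw [e]
        exact ‹M.Normal›.conj_mem _ (M.inv_mem (hu2 h hh)) u⁻¹ }
  have hle : M ≤ D := by
    intro u hu
    refine ⟨hMM hu, fun h hh => ?_⟩
    exact M.mul_mem (‹M.Normal›.conj_mem u hu h) (M.inv_mem hu)
  exact Subgroup.card_dvd_of_le hle

theorem SM_fiber_card (p : ℕ) [Fact p.Prime] [Finite G] (H M M' : Subgroup G) [M.Normal]
    [M'.Normal] (hH : IsPGroup p H) (hMM : M ≤ M') (hcop : (M.relIndex M').Coprime p) (x : G)
    (hx : x ∈ SMset p H M') :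
    Nat.card {m : G // m ∈ M' ∧ x * m ∈ SMset p H M} =
      Nat.card {u : G // u ∈ M' ∧ ∀ h ∈ H, h * u * h⁻¹ * u⁻¹ ∈ M} := by
  classical
  obtain ⟨R₁', hR₁'⟩ := hx
  obtain ⟨R', -, hmin⟩ := Finite.exists_le_minimal (p := fun R => SWit p H M' R x) hR₁'
  obtain ⟨⟨hM'R', ⟨j, hj⟩, hHR', hxR'⟩, hmin'⟩ := hmin
  have hM'conj : ∀ m ∈ M', MulAut.conj m • R' = R' :=
    fun m hm => Subgroup.conj_smul_eq_self_of_mem (hM'R' hm)
  have key3 : ∀ m ∈ M', ∀ R₁, SWit p H M R₁ (x * m) →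
      (R₁ ⊓ R' ∈ Scompl M M' R' ∧ H ≤ R₁ ⊓ R' ∧
        MulAut.conj (x * m) • (R₁ ⊓ R') = R₁ ⊓ R') := by
    rintro m hm R₁ ⟨hMR₁, ⟨k, hk⟩, hHR₁, hc⟩
    have hcR' : MulAut.conj (x * m) • R' = R' := by rw [conj_mul_smul, hM'conj m hm, hxR']
    have hcinf : MulAut.conj (x * m) • (R₁ ⊓ R') = R₁ ⊓ R' := by
      rw [Subgroup.smul_inf, hc, hcR']
    have hR₂le : (R₁ ⊓ R') ⊔ M' ≤ R' := sup_le inf_le_right hM'R'
    have hwit : SWit p H M' ((R₁ ⊓ R') ⊔ M') x := by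
      refine ⟨le_sup_right, ?_, (le_inf hHR₁ hHR').trans le_sup_left, ?_⟩
      · have := relIndex_mul_relIndex M' ((R₁ ⊓ R') ⊔ M') R' le_sup_right hR₂le
        rw [hj] at this
        exact dvd_pow_exists Fact.out (Dvd.intro _ this)
      · have e1 : MulAut.conj (x * m) • ((R₁ ⊓ R') ⊔ M') = (R₁ ⊓ R') ⊔ M' := by
          rw [Subgroup.smul_sup, hcinf, Subgroup.Normal.conj_smul_eq_self]
        have e2 : MulAut.conj m • ((R₁ ⊓ R') ⊔ M') = (R₁ ⊓ R') ⊔ M' :=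
          Subgroup.conj_smul_eq_self_of_mem (le_sup_right (a := R₁ ⊓ R') hm)
        rw [conj_mul_smul, e2] at e1
        exact e1
    have hR₂ : (R₁ ⊓ R') ⊔ M' = R' := le_antisymm hR₂le (hmin' hwit hR₂le)
    have hMle : M ≤ R₁ ⊓ R' ⊓ M' := le_inf (le_inf hMR₁ (hMM.trans hM'R')) hMM
    refine ⟨⟨le_inf hMR₁ (hMM.trans hM'R'), inf_le_right, hR₂, ?_⟩, le_inf hHR₁ hHR', hcinf⟩
    apply le_antisymm _ hMle
    rw [← relIndex_eq_one]
    have d1 : M.relIndex (R₁ ⊓ R' ⊓ M') ∣ M.relIndex R₁ :=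
      Dvd.intro _ (relIndex_mul_relIndex M (R₁ ⊓ R' ⊓ M') R₁ hMle (inf_le_left.trans inf_le_left))
    have d2 : M.relIndex (R₁ ⊓ R' ⊓ M') ∣ M.relIndex M' :=
      Dvd.intro _ (relIndex_mul_relIndex M (R₁ ⊓ R' ⊓ M') M' hMle inf_le_right)
    rw [hk] at d1
    exact eq_one_of_dvd_pow_of_dvd_coprime d1 d2 hcop
  have key4 : ∀ m ∈ M', ∀ Ra Rb, Ra ∈ Scompl M M' R' → Rb ∈ Scompl M M' R' → H ≤ Ra → H ≤ Rb →
      MulAut.conj (x * m) • Ra = Ra → MulAut.conj (x * m) • Rb = Rb → Ra = Rb := by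
    intro m hm Ra Rb hRa hRb hHa hHb hca hcb
    have hw : SWit p H M (Ra ⊓ Rb) (x * m) := by
      refine ⟨le_inf hRa.1 hRb.1, ?_, le_inf hHa hHb, by rw [Subgroup.smul_inf, hca, hcb]⟩
      have := relIndex_mul_relIndex M (Ra ⊓ Rb) Ra (le_inf hRa.1 hRb.1) inf_le_left
      rw [Scompl_relIndex M M' R' Ra hRa, hj] at this
      exact dvd_pow_exists Fact.out (Dvd.intro _ this)
    have h3 := (key3 m hm _ hw).1
    rw [inf_of_le_left (inf_le_left.trans hRa.2.1)] at h3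
    have ea := Scompl_eq_of_le M M' R' _ _ h3 hRa inf_le_left
    have eb := Scompl_eq_of_le M M' R' _ _ h3 hRb inf_le_right
    exact ea.symm.trans eb
  have hφ : ∀ m : G, ∃ R : Subgroup G, (m ∈ M' ∧ x * m ∈ SMset p H M) →
      (R ∈ Scompl M M' R' ∧ H ≤ R ∧ MulAut.conj (x * m) • R = R) := by
    intro m
    by_cases hm : m ∈ M' ∧ x * m ∈ SMset p H M
    · obtain ⟨R₁, hR₁⟩ := hm.2
      exact ⟨R₁ ⊓ R', fun _ => key3 m hm.1 R₁ hR₁⟩
    · exact ⟨⊥, fun h => absurd h hm⟩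
  choose φ hφ using hφ
  have hconv : ∀ m R, R ∈ Scompl M M' R' → H ≤ R → MulAut.conj (x * m) • R = R →
      x * m ∈ SMset p H M := by
    intro m R hR hHR hc
    exact ⟨R, hR.1, ⟨j, by rw [Scompl_relIndex M M' R' R hR, hj]⟩, hHR, hc⟩
  obtain ⟨R₀, hR₀, hHR₀⟩ := Scompl_exists p H M M' R' hMM hcop hM'R' j hj hH hHR'
  have hxinv : MulAut.conj x⁻¹ • R' = R' := conj_inv_smul_of x R' R' hxR'
  have hm₀ : ∀ R : Subgroup G, ∃ m₀ : G, R ∈ Scompl M M' R' →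
      (m₀ ∈ M' ∧ MulAut.conj (x * m₀) • R = R) := by
    intro R
    by_cases hR : R ∈ Scompl M M' R'
    · obtain ⟨m₀, hm₀, e⟩ := Scompl_trans p M M' R' hMM hcop hM'R' j hj R
        (MulAut.conj x⁻¹ • R) hR (Scompl_conj M M' R' R x⁻¹ hxinv hR)
      refine ⟨m₀, fun _ => ⟨hm₀, ?_⟩⟩
      rw [conj_mul_smul, e, map_inv, smul_inv_smul]
    · exact ⟨1, fun h => absurd h hR⟩
  choose m₀ hm₀ using hm₀
  have huu : ∀ R : Subgroup G, ∃ u : G, R ∈ Scompl M M' R' →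
      (u ∈ M' ∧ MulAut.conj u • R₀ = R) := by
    intro R
    by_cases hR : R ∈ Scompl M M' R'
    · obtain ⟨u, hu, e⟩ := Scompl_trans p M M' R' hMM hcop hM'R' j hj R₀ R hR₀ hR
      exact ⟨u, fun _ => ⟨hu, e⟩⟩
    · exact ⟨1, fun h => absurd h hR⟩
  choose uu huu using huu
  -- forward computation
  have hfc : ∀ m, (m ∈ M' ∧ x * m ∈ SMset p H M) →
      (m₀ (φ m))⁻¹ * m * uu (φ m) ∈ M' ∧
        MulAut.conj ((m₀ (φ m))⁻¹ * m * uu (φ m)) • R₀ = φ m := by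
    intro m hm
    obtain ⟨hφ1, hφ2, hφ3⟩ := hφ m hm
    obtain ⟨hm1, hm2⟩ := hm₀ (φ m) hφ1
    obtain ⟨hu1, hu2⟩ := huu (φ m) hφ1
    refine ⟨M'.mul_mem (M'.mul_mem (M'.inv_mem hm1) hm.1) hu1, ?_⟩
    have e : (m₀ (φ m))⁻¹ * m * uu (φ m) = (x * m₀ (φ m))⁻¹ * ((x * m) * uu (φ m)) := by group
    rw [e, conj_mul_smul, conj_mul_smul, hu2, hφ3, conj_inv_smul_of _ _ _ hm2]
  -- backward computation
  have hbc : ∀ u, (u ∈ M' ∧ ∀ h ∈ H, h * u * h⁻¹ * u⁻¹ ∈ M) →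
      MulAut.conj u • R₀ ∈ Scompl M M' R' ∧ H ≤ MulAut.conj u • R₀ ∧
      m₀ (MulAut.conj u • R₀) * u * (uu (MulAut.conj u • R₀))⁻¹ ∈ M' ∧
      MulAut.conj (x * (m₀ (MulAut.conj u • R₀) * u * (uu (MulAut.conj u • R₀))⁻¹)) •
        (MulAut.conj u • R₀) = MulAut.conj u • R₀ := by
    intro u hu
    have hS : MulAut.conj u • R₀ ∈ Scompl M M' R' :=
      Scompl_conj M M' R' R₀ u (hM'conj u hu.1) hR₀
    obtain ⟨hm1, hm2⟩ := hm₀ _ hS
    obtain ⟨hu1, hu2⟩ := huu _ hS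
    refine ⟨hS, (Scompl_D_iff H M M' R' R₀ hR₀ hHR₀ u hu.1).mpr hu.2,
      M'.mul_mem (M'.mul_mem hm1 hu.1) (M'.inv_mem hu1), ?_⟩
    have e : x * (m₀ (MulAut.conj u • R₀) * u * (uu (MulAut.conj u • R₀))⁻¹) =
        (x * m₀ (MulAut.conj u • R₀)) * (u * (uu (MulAut.conj u • R₀))⁻¹) := by group
    rw [e, conj_mul_smul (x * m₀ (MulAut.conj u • R₀)), conj_mul_smul u,
      conj_inv_smul_of _ _ _ hu2]
    exact hm2
  apply card_subtype_eq_of_inverse _ _ (fun m => (m₀ (φ m))⁻¹ * m * uu (φ m))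
    (fun u => m₀ (MulAut.conj u • R₀) * u * (uu (MulAut.conj u • R₀))⁻¹)
  · intro m hm
    obtain ⟨h1, h2⟩ := hfc m hm
    refine ⟨h1, (Scompl_D_iff H M M' R' R₀ hR₀ hHR₀ _ h1).mp ?_⟩
    rw [h2]
    exact (hφ m hm).2.1
  · intro u hu
    obtain ⟨h1, h2, h3, h4⟩ := hbc u hu
    exact ⟨h3, hconv _ _ h1 h2 h4⟩
  · intro m hm
    obtain ⟨h1, h2⟩ := hfc m hm
    beta_reduce
    rw [h2]
    group
  · intro u hu
    obtain ⟨h1, h2, h3, h4⟩ := hbc u hu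
    have hF := hconv _ _ h1 h2 h4
    obtain ⟨hφ1, hφ2, hφ3⟩ := hφ _ ⟨h3, hF⟩
    have hφeq := key4 _ h3 _ _ hφ1 h1 hφ2 h2 hφ3 h4
    beta_reduce
    rw [hφeq]
    group

theorem SM_card_mul (p : ℕ) [Fact p.Prime] [Finite G] (H M M' : Subgroup G) [M.Normal]
    [M'.Normal] (hH : IsPGroup p H) (hMM : M ≤ M') (hcop : (M.relIndex M').Coprime p) :
    Nat.card {g : G // g ∈ SMset p H M} * Nat.card M' =
      Nat.card {g : G // g ∈ SMset p H M'} *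
        Nat.card {u : G // u ∈ M' ∧ ∀ h ∈ H, h * u * h⁻¹ * u⁻¹ ∈ M} := by
  have h1 := card_pairs_const (α := G) (β := G) (fun x => x ∈ SMset p H M')
    (fun x m => m ∈ M' ∧ x * m ∈ SMset p H M) _
    (fun x hx => SM_fiber_card p H M M' hH hMM hcop x hx)
  rw [← h1]
  have h2 : Nat.card {q : G × G // q.1 ∈ SMset p H M' ∧ (q.2 ∈ M' ∧ q.1 * q.2 ∈ SMset p H M)} =
      Nat.card {q : G × G // q.1 ∈ SMset p H M ∧ q.2 ∈ M'} := by
    apply card_subtype_eq_of_inverse _ _ (fun q => (q.1 * q.2, q.2)) (fun q => (q.1 * q.2⁻¹, q.2))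
    · rintro ⟨x, m⟩ ⟨h1, h2, h3⟩
      exact ⟨h3, h2⟩
    · rintro ⟨y, m⟩ ⟨h1, h2⟩
      refine ⟨?_, h2, ?_⟩
      · obtain ⟨R, hR⟩ := SMset_mono p H M M' hMM h1
        refine ⟨R, hR.1, hR.2.1, hR.2.2.1, ?_⟩
        show MulAut.conj (y * m⁻¹) • R = R
        rw [conj_mul_smul, Subgroup.conj_smul_eq_self_of_mem (R.inv_mem (hR.1 h2)), hR.2.2.2]
      · have : y * m⁻¹ * m = y := by group
        show y * m⁻¹ * m ∈ SMset p H M
        rw [this]; exact h1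
    · rintro ⟨x, m⟩ _
      simp
    · rintro ⟨y, m⟩ _
      simp
  rw [h2, Nat.card_congr (Equiv.subtypeProdEquivProd (p := fun y => y ∈ SMset p H M)
    (q := fun m => m ∈ M')), Nat.card_prod]

end

end Cfsg.Agent.Helper22
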