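import Mathlib
import Cfsg.Agent.Helper22.Subnorm2

set_option autoImplicit false
open scoped Pointwise

namespace Cfsg.Agent.Helper22
open Subgroup

section General
variable {α : Type*} [PartialOrder α] [LocallyFiniteOrder α] [DecidableEq α]
open Finset IncidenceAlgebra

theorem mu_inversion (F : α → ℤ) (a b : α) (hab : a ≤ b) :
    ∑ x ∈ Icc a b, ∑ y ∈ Icc x b, mu ℤ x y * F y = F a := by
  have h1 : ∑ x ∈ Icc a b, ∑ y ∈ Icc x b, mu ℤ x y * F y =
      ∑ y ∈ Icc a b, ∑ x ∈ Icc a y, mu ℤ x y * F y := by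
    apply Finset.sum_comm'
    intro x y
    simp only [mem_Icc]
    constructor
    · rintro ⟨⟨h1, h2⟩, h3, h4⟩; exact ⟨⟨h1, h3⟩, h1.trans h3, h4⟩
    · rintro ⟨⟨h1, h2⟩, h3, h4⟩; exact ⟨⟨h1, h2.trans h4⟩, h2, h4⟩
  rw [h1]
  have h2 : ∀ y ∈ Icc a b, ∑ x ∈ Icc a y, mu ℤ x y * F y = if a = y then F y else 0 := by
    intro y _
    rw [← Finset.sum_mul, sum_Icc_mu_left]
    split_ifs <;> simp
  rw [Finset.sum_congr rfl h2, Finset.sum_ite_eq]
  simp [hab]

theorem rota_fiber [Finite α] (a : α) (V : Finset α) (c : α → α)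
    (hVa : ∀ x ∈ V, a ≤ x) (hdown : ∀ x ∈ V, ∀ y, a ≤ y → y ≤ x → y ∈ V)
    (hc : ∀ x ∈ V, c x ∈ V) (hext : ∀ x ∈ V, x ≤ c x)
    (hmono : ∀ x ∈ V, ∀ y ∈ V, x ≤ y → c x ≤ c y) (hidem : ∀ x ∈ V, c (c x) = c x)
    (ha : c a ≠ a) :
    ∀ y ∈ V, ∑ x ∈ V.filter (fun x => c x = y), mu ℤ a x = 0 := by
  classical
  intro y
  induction y using WellFoundedLT.induction with
  | ind y ih =>
    intro hy
    by_cases hcy : c y = y
    · have hya : a ≠ y := fun h => ha (h ▸ hcy)
      have h0 : ∑ x ∈ Icc a y, mu ℤ a x = 0 := by rw [sum_Icc_mu_right, if_neg hya]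
      have hIcc : Icc a y = V.filter (fun x => c x ≤ y) := by
        ext x
        rw [mem_Icc, mem_filter]
        constructor
        · rintro ⟨h1, h2⟩
          have hx : x ∈ V := hdown y hy x h1 h2
          exact ⟨hx, hcy ▸ hmono x hx y hy h2⟩
        · rintro ⟨hx, h2⟩
          exact ⟨hVa x hx, (hext x hx).trans h2⟩
      rw [hIcc] at h0
      have hmaps : ∀ x ∈ V.filter (fun x => c x ≤ y), c x ∈ V.filter (fun z => z ≤ y) := by
        intro x hx
        rw [mem_filter] at hx ⊢
        exact ⟨hc x hx.1, hx.2⟩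
      have hfib : ∑ x ∈ V.filter (fun x => c x ≤ y), mu ℤ a x =
          ∑ z ∈ V.filter (fun z => z ≤ y), ∑ x ∈ V.filter (fun x => c x = z), mu ℤ a x := by
        rw [← Finset.sum_fiberwise_of_maps_to hmaps]
        apply Finset.sum_congr rfl
        intro z hz
        apply Finset.sum_congr _ (fun _ _ => rfl)
        ext x
        simp only [mem_filter]
        constructor
        · rintro ⟨⟨hx, _⟩, h⟩; exact ⟨hx, h⟩
        · rintro ⟨hx, h⟩; exact ⟨⟨hx, h ▸ (mem_filter.mp hz).2⟩, h⟩
      rw [hfib] at h0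
      have hy' : y ∈ V.filter (fun z => z ≤ y) := mem_filter.mpr ⟨hy, le_rfl⟩
      rw [← Finset.add_sum_erase _ _ hy'] at h0
      have hrest : ∑ z ∈ (V.filter (fun z => z ≤ y)).erase y,
          ∑ x ∈ V.filter (fun x => c x = z), mu ℤ a x = 0 := by
        apply Finset.sum_eq_zero
        intro z hz
        rw [mem_erase, mem_filter] at hz
        exact ih z (lt_of_le_of_ne hz.2.2 hz.1) hz.2.1
      rw [hrest, add_zero] at h0
      exact h0
    · apply Finset.sum_eq_zero
      intro x hx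
      rw [mem_filter] at hx
      exact absurd (by rw [← hx.2, hidem x hx.1]) hcy

end General

section Grp
variable {G : Type*} [Group G]

/-- the smallest `T`-invariant subgroup containing `K`. -/
def sclos (T : Set G) (K : Subgroup G) : Subgroup G :=
  sInf {R | K ≤ R ∧ ∀ x ∈ T, MulAut.conj x • R = R}

theorem le_sclos (T : Set G) (K : Subgroup G) : K ≤ sclos T K := le_sInf (fun _ hR => hR.1)

theorem sclos_le (T : Set G) {K R : Subgroup G} (hKR : K ≤ R)
    (hR : ∀ x ∈ T, MulAut.conj x • R = R) : sclos T K ≤ R := sInf_le ⟨hKR, hR⟩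

theorem sclos_inv (T : Set G) (K : Subgroup G) :
    ∀ x ∈ T, MulAut.conj x • sclos T K = sclos T K := by
  intro x hx
  rw [← mem_normalizer_iff_conj_smul, Subgroup.mem_normalizer_iff]
  intro h
  simp only [sclos, Subgroup.mem_sInf]
  constructor
  · intro hh R hR
    exact ((Subgroup.mem_normalizer_iff.mp
      ((mem_normalizer_iff_conj_smul R x).mpr (hR.2 x hx))) h).mp (hh R hR)
  · intro hh R hR
    exact ((Subgroup.mem_normalizer_iff.mp
      ((mem_normalizer_iff_conj_smul R x).mpr (hR.2 x hx))) h).mpr (hh R hR)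

theorem sclos_mono (T : Set G) {K₁ K₂ : Subgroup G} (h : K₁ ≤ K₂) : sclos T K₁ ≤ sclos T K₂ :=
  sInf_le_sInf (fun _ hR => ⟨h.trans hR.1, hR.2⟩)

theorem sclos_idem (T : Set G) (K : Subgroup G) : sclos T (sclos T K) = sclos T K :=
  le_antisymm (sclos_le T le_rfl (sclos_inv T K)) (le_sclos T _)

/-- `g` lies in the subnormaliser of the `p`-subgroup `H`. -/
def Sp (p : ℕ) (H : Subgroup G) (g : G) : Prop :=
  ∃ R : Subgroup G, IsPGroup p R ∧ H ≤ R ∧ MulAut.conj g • R = R

theorem exists_normalizing_not_mem (p : ℕ) [Fact p.Prime] [Finite G] (K' M : Subgroup G)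
    (hK' : IsPGroup p K') (hlt : M < K') :
    ∃ x ∈ K', x ∉ M ∧ MulAut.conj x • M = M := by
  haveI : Group.IsNilpotent K' := hK'.isNilpotent
  have h1 : M.subgroupOf K' < ⊤ := by
    rw [lt_top_iff_ne_top]
    intro h
    rw [Subgroup.subgroupOf_eq_top] at h
    exact (not_le_of_gt hlt) h
  have h2 := Group.normalizerCondition_of_isNilpotent (M.subgroupOf K') h1
  obtain ⟨x, hxN, hxM⟩ := SetLike.exists_of_lt h2
  refine ⟨x, x.2, fun h => hxM (Subgroup.mem_subgroupOf.mpr h), ?_⟩
  rw [← mem_normalizer_iff_conj_smul, Subgroup.mem_normalizer_iff]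
  intro h
  rw [Subgroup.mem_normalizer_iff] at hxN
  constructor
  · intro hh
    have := (hxN ⟨h, hlt.le hh⟩).mp (Subgroup.mem_subgroupOf.mpr hh)
    exact Subgroup.mem_subgroupOf.mp this
  · intro hh
    have hmem : h ∈ K' := by
      have h3 : (x : G)⁻¹ * ((x : G) * h * (x : G)⁻¹) * (x : G) ∈ K' :=
        K'.mul_mem (K'.mul_mem (K'.inv_mem x.2) (hlt.le hh)) x.2
      have e : (x : G)⁻¹ * ((x : G) * h * (x : G)⁻¹) * (x : G) = h := by group
      rwa [e] at h3
    have := (hxN ⟨h, hmem⟩).mpr (Subgroup.mem_subgroupOf.mpr hh)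
    exact Subgroup.mem_subgroupOf.mp this

end Grp

open Classical in
/-- classical `Fintype` structure on a finite group (used as a local instance). -/
@[reducible] noncomputable def gFintype (G : Type*) [Finite G] : Fintype G := Fintype.ofFinite G

open Classical in
/-- classical `Fintype` structure on subgroups (used as a local instance). -/
@[reducible] noncomputable def sgFintype (G : Type*) [Group G] [Finite G] : Fintype (Subgroup G) :=
  Fintype.ofFinite _

open Classical in
/-- classical locally finite order structure on subgroups (used as a local instance). -/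
@[reducible] noncomputable def sgLFO (G : Type*) [Group G] [Finite G] : LocallyFiniteOrder (Subgroup G) :=
  @Fintype.toLocallyFiniteOrder (Subgroup G) _ (sgFintype G)
    (fun _ _ => Classical.propDecidable _) (fun _ _ => Classical.propDecidable _)

attribute [local instance] gFintype sgFintype sgLFO

section Apps
open Classical
variable {G : Type*} [Group G] [Finite G]
open Finset IncidenceAlgebra

theorem mu_eq_zero_of_not_normal (p : ℕ) [Fact p.Prime] (K K' : Subgroup G) (hK' : IsPGroup p K')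
    (hle : K ≤ K') (hn : ¬ (∀ x ∈ K', MulAut.conj x • K = K)) : mu ℤ K K' = 0 := by
  have hK'inv : ∀ x ∈ (K' : Set G), MulAut.conj x • K' = K' :=
    fun x hx => Subgroup.conj_smul_eq_self_of_mem hx
  have key := rota_fiber K (Icc K K') (sclos (K' : Set G))
    (fun x hx => (mem_Icc.mp hx).1)
    (fun x hx y h1 h2 => mem_Icc.mpr ⟨h1, h2.trans (mem_Icc.mp hx).2⟩)
    (fun x hx => mem_Icc.mpr ⟨(mem_Icc.mp hx).1.trans (le_sclos _ x),
      sclos_le _ (mem_Icc.mp hx).2 hK'inv⟩)
    (fun x _ => le_sclos _ x)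
    (fun x _ y _ h => sclos_mono _ h)
    (fun x _ => sclos_idem _ x)
    (fun h => hn (fun x hx => by
      have := sclos_inv (K' : Set G) K x hx
      rwa [h] at this))
    K' (mem_Icc.mpr ⟨hle, le_rfl⟩)
  have hf : (Icc K K').filter (fun x => sclos (K' : Set G) x = K') = {K'} := by
    ext x
    simp only [mem_filter, mem_Icc, mem_singleton]
    constructor
    · rintro ⟨⟨h1, h2⟩, h3⟩
      by_contra hne
      have hlt : x < K' := lt_of_le_of_ne h2 hne
      obtain ⟨M, hxM, hM⟩ := Finite.exists_le_maximal (p := fun M : Subgroup G => M < K') hlt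
      obtain ⟨z, hzK', hzM, hzinv⟩ := exists_normalizing_not_mem p K' M hK' hM.1
      have hMinv : ∀ y ∈ (K' : Set G), MulAut.conj y • M = M := by
        by_contra hcon
        rw [not_forall] at hcon
        obtain ⟨y, hy'⟩ := hcon
        rw [Classical.not_imp] at hy'
        obtain ⟨hy, hyM⟩ := hy'
        have hlt2 : K' ⊓ normalizer (M : Set G) < K' := by
          refine lt_of_le_of_ne inf_le_left (fun h => hyM ?_)
          have : y ∈ K' ⊓ normalizer (M : Set G) := by rw [h]; exact hy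
          exact (mem_normalizer_iff_conj_smul M y).mp this.2
        have hle2 : M ≤ K' ⊓ normalizer (M : Set G) := le_inf hM.1.le le_normalizer
        have := hM.2 hlt2 hle2
        exact hzM (this ⟨hzK', (mem_normalizer_iff_conj_smul M z).mpr hzinv⟩)
      have : sclos (K' : Set G) x ≤ M := sclos_le _ hxM hMinv
      rw [h3] at this
      exact absurd hM.1 (not_lt_of_ge this)
    · rintro rfl
      exact ⟨⟨hle, le_rfl⟩, le_antisymm (sclos_le _ le_rfl hK'inv) (le_sclos _ _)⟩
  rw [hf, Finset.sum_singleton] at key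
  exact key

theorem eps_eq_zero (p : ℕ) (X K : Subgroup G) (g : G) (hg : g ∈ X)
    (hgK : MulAut.conj g • K ≠ K) :
    ∑ K' ∈ Icc K X, mu ℤ K K' * (if Sp p K' g then (1 : ℤ) else 0) = 0 := by
  have hXinv : ∀ x ∈ ({g} : Set G), MulAut.conj x • X = X := by
    intro x hx
    rw [Set.mem_singleton_iff] at hx
    rw [hx]
    exact Subgroup.conj_smul_eq_self_of_mem hg
  by_cases hK : Sp p K g
  · have hmem : ∀ x ∈ (Icc K X).filter (fun K' => Sp p K' g),
        sclos ({g} : Set G) x ∈ (Icc K X).filter (fun K' => Sp p K' g) := by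
      intro x hx
      rw [mem_filter, mem_Icc] at hx ⊢
      refine ⟨⟨hx.1.1.trans (le_sclos _ x), sclos_le _ hx.1.2 hXinv⟩, ?_⟩
      obtain ⟨R, hR, hxR, hRg⟩ := hx.2
      refine ⟨R, hR, sclos_le _ hxR ?_, hRg⟩
      intro y hy
      rw [Set.mem_singleton_iff] at hy
      rw [hy]; exact hRg
    have key := rota_fiber K ((Icc K X).filter (fun K' => Sp p K' g)) (sclos ({g} : Set G))
      (fun x hx => (mem_Icc.mp (mem_filter.mp hx).1).1)
      (fun x hx y h1 h2 => by
        rw [mem_filter, mem_Icc] at hx ⊢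
        obtain ⟨R, hR, hxR, hRg⟩ := hx.2
        exact ⟨⟨h1, h2.trans hx.1.2⟩, R, hR, h2.trans hxR, hRg⟩)
      hmem
      (fun x _ => le_sclos _ x)
      (fun x _ y _ h => sclos_mono _ h)
      (fun x _ => sclos_idem _ x)
      (fun h => hgK (by
        have := sclos_inv ({g} : Set G) K g (Set.mem_singleton g)
        rwa [h] at this))
    have e1 : ∑ K' ∈ Icc K X, mu ℤ K K' * (if Sp p K' g then (1 : ℤ) else 0) =
        ∑ K' ∈ (Icc K X).filter (fun K' => Sp p K' g), mu ℤ K K' := by
      rw [Finset.sum_filter]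
      apply Finset.sum_congr rfl
      intro K' _
      split_ifs <;> simp
    rw [e1, ← Finset.sum_fiberwise_of_maps_to hmem]
    exact Finset.sum_eq_zero key
  · apply Finset.sum_eq_zero
    intro K' hK'
    rw [if_neg, mul_zero]
    rintro ⟨R, hR, hK'R, hRg⟩
    exact hK ⟨R, hR, (mem_Icc.mp hK').1.trans hK'R, hRg⟩

end Apps

end Cfsg.Agent.Helper22
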