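import Mathlib
import Cfsg.Agent.Helper22.Casolo1

set_option autoImplicit false
open scoped Pointwise

namespace Cfsg.Agent.Helper22
open Subgroup

attribute [local instance] gFintype sgFintype sgLFO

section
open Classical
variable {G : Type*} [Group G] [Finite G]
open Finset IncidenceAlgebra

/-- `Q` is a Sylow `p`-subgroup of `X`. -/
def SylIn (p : ℕ) (X Q : Subgroup G) : Prop :=
  IsPGroup p Q ∧ Q ≤ X ∧ (Q.relIndex X).Coprime p

theorem card_mul_relIndex' (A Y : Subgroup G) (h : A ≤ Y) :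
    Nat.card A * A.relIndex Y = Nat.card Y := by
  have := relIndex_mul_relIndex ⊥ A Y bot_le h
  rwa [relIndex_bot_left, relIndex_bot_left] at this

theorem sylIn_conj (p : ℕ) (Y Q : Subgroup G) (y : G) (hy : y ∈ Y) (hQ : SylIn p Y Q) :
    SylIn p Y (MulAut.conj y • Q) := by
  obtain ⟨h1, h2, h3⟩ := hQ
  have hle : MulAut.conj y • Q ≤ Y := Subgroup.conj_smul_le_of_le h2 ⟨y, hy⟩
  refine ⟨h1.of_equiv (Subgroup.equivSMul (MulAut.conj y) Q), hle, ?_⟩
  have hc : Nat.card (MulAut.conj y • Q : Subgroup G) = Nat.card Q :=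
    (Nat.card_congr (Subgroup.equivSMul (MulAut.conj y) Q).toEquiv).symm
  have e1 := card_mul_relIndex' Q Y h2
  have e2 := card_mul_relIndex' (MulAut.conj y • Q) Y hle
  rw [hc, ← e1] at e2
  rw [Nat.eq_of_mul_eq_mul_left Nat.card_pos e2]
  exact h3

theorem sylIn_contains_normal (p : ℕ) [Fact p.Prime] (Y Q K : Subgroup G) (hQ : SylIn p Y Q)
    (hK : IsPGroup p K) (hKY : K ≤ Y) (hinv : ∀ y ∈ Y, MulAut.conj y • K = K) : K ≤ Q := by
  obtain ⟨h1, h2, h3⟩ := hQ
  have hQN : Q ≤ normalizer (K : Set G) :=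
    fun y hy => (mem_normalizer_iff_conj_smul K y).mpr (hinv y (h2 hy))
  have hp : IsPGroup p (K ⊔ Q : Subgroup G) := IsPGroup.to_sup_of_normal_left' hK h1 hQN
  obtain ⟨a, ha⟩ := IsPGroup.iff_card.mp hp
  have d1 : Q.relIndex (K ⊔ Q) ∣ Q.relIndex Y :=
    Dvd.intro _ (relIndex_mul_relIndex Q (K ⊔ Q) Y le_sup_right (sup_le hKY h2))
  have d2 : Q.relIndex (K ⊔ Q) ∣ p ^ a := ha ▸ relIndex_dvd_card (H := Q) (K := K ⊔ Q)
  have := eq_one_of_dvd_pow_of_dvd_coprime d2 d1 h3
  rw [relIndex_eq_one] at this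
  exact le_sup_left.trans this

theorem card_lt_of_lt' {A B : Subgroup G} (h : A < B) : Nat.card A < Nat.card B := by
  by_contra hcon
  exact (ne_of_lt h) (Subgroup.eq_of_le_of_card_ge h.le (not_lt.mp hcon))

theorem sylIn_normalizer_iff (p : ℕ) [Fact p.Prime] (X K : Subgroup G) (hK : IsPGroup p K)
    (hKX : K ≤ X) : SylIn p (X ⊓ normalizer (K : Set G)) K ↔ SylIn p X K := by
  have hKY : K ≤ X ⊓ normalizer (K : Set G) := le_inf hKX le_normalizer
  constructor
  · rintro ⟨-, -, h3⟩
    obtain ⟨S, hS, hKS, hSX, hSc⟩ := exists_sylow_in p X K hK hKX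
    by_cases hKS' : K = S
    · rw [hKS']; exact ⟨hS, hSX, hSc⟩
    · exfalso
      have hlt : K < S := lt_of_le_of_ne hKS hKS'
      obtain ⟨x, hxS, hxK, hxinv⟩ := exists_normalizing_not_mem p S K hS hlt
      have hK2 : S ⊓ normalizer (K : Set G) ≤ X ⊓ normalizer (K : Set G) :=
        inf_le_inf_right _ hSX
      have hK2p : IsPGroup p (S ⊓ normalizer (K : Set G) : Subgroup G) := hS.to_le inf_le_left
      obtain ⟨b, hb⟩ := IsPGroup.iff_card.mp hK2p
      have hKK2 : K ≤ S ⊓ normalizer (K : Set G) := le_inf hKS le_normalizer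
      have d1 : K.relIndex (S ⊓ normalizer (K : Set G)) ∣
          K.relIndex (X ⊓ normalizer (K : Set G)) :=
        Dvd.intro _ (relIndex_mul_relIndex K _ _ hKK2 hK2)
      have d2 : K.relIndex (S ⊓ normalizer (K : Set G)) ∣ p ^ b :=
        hb ▸ relIndex_dvd_card (H := K) (K := S ⊓ normalizer (K : Set G))
      have := eq_one_of_dvd_pow_of_dvd_coprime d2 d1 h3
      rw [relIndex_eq_one] at this
      exact hxK (this ⟨hxS, (mem_normalizer_iff_conj_smul K x).mpr hxinv⟩)
  · rintro ⟨h1, h2, h3⟩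
    refine ⟨h1, hKY, ?_⟩
    have d1 : K.relIndex (X ⊓ normalizer (K : Set G)) ∣ K.relIndex X :=
      Dvd.intro _ (relIndex_mul_relIndex K _ X hKY inf_le_left)
    exact Nat.Coprime.coprime_dvd_left d1 h3

/-- number of elements of `X` in the subnormaliser of `H`. -/
noncomputable def cS (p : ℕ) (X H : Subgroup G) : ℤ :=
  ∑ g ∈ (Finset.univ.filter (fun g : G => g ∈ X)), (if Sp p H g then 1 else 0)

/-- order of the normaliser of `Q` in `X`. -/
noncomputable def nuX (X Q : Subgroup G) : ℤ :=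
  ∑ g ∈ (Finset.univ.filter (fun g : G => g ∈ X)), (if MulAut.conj g • Q = Q then 1 else 0)

/-- sum of the orders of the normalisers of the Sylow subgroups of `X` containing `H`. -/
noncomputable def cR (p : ℕ) (X H : Subgroup G) : ℤ :=
  ∑ Q ∈ Finset.Icc H X, (if SylIn p X Q then nuX X Q else 0)

theorem casolo_base (p : ℕ) [Fact p.Prime] (Y K : Subgroup G) (hKp : IsPGroup p K) (hKY : K ≤ Y)
    (hinv : ∀ y ∈ Y, MulAut.conj y • K = K) : cS p Y K = cR p Y K := by
  have hL : cS p Y K = ((Finset.univ.filter (fun g : G => g ∈ Y)).card : ℤ) := by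
    unfold cS
    have hone : ∀ g ∈ (Finset.univ.filter (fun g : G => g ∈ Y)),
        (if Sp p K g then (1 : ℤ) else 0) = 1 :=
      fun g hg => if_pos ⟨K, hKp, le_rfl, hinv g (mem_filter.mp hg).2⟩
    rw [Finset.sum_congr rfl hone]
    simp
  obtain ⟨Q₀, hQ₀p, hKQ₀, hQ₀Y, hQ₀c⟩ := exists_sylow_in p Y K hKp hKY
  have hS0 : SylIn p Y Q₀ := ⟨hQ₀p, hQ₀Y, hQ₀c⟩
  unfold cR
  rw [← Finset.sum_filter]
  have hnu : ∀ Q ∈ (Icc K Y).filter (fun Q => SylIn p Y Q), nuX Y Q =
      (((Finset.univ.filter (fun g : G => g ∈ Y)).filter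
        (fun y => MulAut.conj y • Q₀ = Q)).card : ℤ) := by
    intro Q hQ
    rw [mem_filter] at hQ
    obtain ⟨t, ht, hte⟩ := conj_of_sylow_in p Y Q₀ Q hQ₀p hQ.2.1 hQ₀Y hQ.2.2.1 hQ₀c hQ.2.2.2
    unfold nuX
    rw [Finset.sum_boole]
    congr 1
    apply Finset.card_nbij' (fun g => g * t) (fun y => y * t⁻¹)
    · intro g hg
      rw [mem_coe, mem_filter, mem_filter] at hg
      rw [mem_coe, mem_filter, mem_filter]
      exact ⟨⟨mem_univ _, Y.mul_mem hg.1.2 ht⟩, by rw [conj_mul_smul, hte, hg.2]⟩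
    · intro y hy
      rw [mem_coe, mem_filter, mem_filter] at hy
      rw [mem_coe, mem_filter, mem_filter]
      exact ⟨⟨mem_univ _, Y.mul_mem hy.1.2 (Y.inv_mem ht)⟩, by
        rw [conj_mul_smul, conj_inv_smul_of t Q₀ Q hte, hy.2]⟩
    · intro g _
      simp
    · intro y _
      simp
  rw [Finset.sum_congr rfl hnu, ← Nat.cast_sum, hL]
  congr 1
  apply Finset.card_eq_sum_card_fiberwise (f := fun y => MulAut.conj y • Q₀)
  intro y hy
  rw [mem_coe, mem_filter, mem_Icc]
  have hS : SylIn p Y (MulAut.conj y • Q₀) := sylIn_conj p Y Q₀ y (mem_filter.mp hy).2 hS0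
  exact ⟨⟨sylIn_contains_normal p Y _ K hS hKp hKY hinv, hS.2.1⟩, hS⟩

theorem casolo_step (p : ℕ) [Fact p.Prime] (X H : Subgroup G) (hHX : H ≤ X)
    (IH : ∀ X' K' : Subgroup G, IsPGroup p K' → K' ≤ X' → Nat.card H < Nat.card K' →
      cS p X' K' = cR p X' K') : cS p X H = cR p X H := by
  have h1 : cS p X H = ∑ g ∈ (Finset.univ.filter (fun g : G => g ∈ X)), ∑ K ∈ Icc H X,
      ∑ K' ∈ Icc K X, mu ℤ K K' * (if Sp p K' g then (1 : ℤ) else 0) := by
    unfold cS
    apply Finset.sum_congr rfl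
    intro g _
    exact (mu_inversion (fun K' => if Sp p K' g then (1 : ℤ) else 0) H X hHX).symm
  have h2 : ∑ g ∈ (Finset.univ.filter (fun g : G => g ∈ X)), ∑ K ∈ Icc H X,
      ∑ K' ∈ Icc K X, mu ℤ K K' * (if Sp p K' g then (1 : ℤ) else 0) =
      ∑ K ∈ Icc H X, ∑ K' ∈ Icc K X, mu ℤ K K' * cS p (X ⊓ normalizer (K : Set G)) K' := by
    rw [Finset.sum_comm]
    apply Finset.sum_congr rfl
    intro K hK
    have e1 : ∑ g ∈ (Finset.univ.filter (fun g : G => g ∈ X)),
        ∑ K' ∈ Icc K X, mu ℤ K K' * (if Sp p K' g then (1 : ℤ) else 0) =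
        ∑ g ∈ (Finset.univ.filter (fun g : G => g ∈ X)).filter
          (fun g => MulAut.conj g • K = K),
        ∑ K' ∈ Icc K X, mu ℤ K K' * (if Sp p K' g then (1 : ℤ) else 0) := by
      symm
      apply Finset.sum_filter_of_ne
      intro g hg hne
      by_contra hgK
      exact hne (eps_eq_zero p X K g (mem_filter.mp hg).2 hgK)
    rw [e1, Finset.sum_comm]
    apply Finset.sum_congr rfl
    intro K' _
    rw [← Finset.mul_sum]
    congr 1
    unfold cS
    apply Finset.sum_congr _ (fun _ _ => rfl)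
    ext g
    simp only [mem_filter, mem_univ, true_and, Subgroup.mem_inf, mem_normalizer_iff_conj_smul]
  have h3 : ∀ K ∈ Icc H X, ∑ K' ∈ Icc K X, mu ℤ K K' * cS p (X ⊓ normalizer (K : Set G)) K' =
      if SylIn p X K then nuX X K else 0 := by
    intro K hK
    rw [mem_Icc] at hK
    by_cases hKp : IsPGroup p K
    · have e4 : SylIn p (X ⊓ normalizer (K : Set G)) K ↔ SylIn p X K :=
        sylIn_normalizer_iff p X K hKp hK.2
      have e5 : nuX (X ⊓ normalizer (K : Set G)) K = nuX X K := by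
        unfold nuX
        rw [Finset.sum_filter, Finset.sum_filter]
        apply Finset.sum_congr rfl
        intro g _
        by_cases hgK : MulAut.conj g • K = K
        · by_cases hgX : g ∈ X
          · rw [if_pos (show g ∈ X ⊓ normalizer (K : Set G) from
              ⟨hgX, (mem_normalizer_iff_conj_smul K g).mpr hgK⟩), if_pos hgX]
          · rw [if_neg (fun h : g ∈ X ⊓ normalizer (K : Set G) => hgX h.1), if_neg hgX]
        · simp [hgK]
      obtain ⟨Y, hY⟩ : ∃ Y : Subgroup G, Y = X ⊓ normalizer (K : Set G) := ⟨_, rfl⟩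
      rw [← hY] at e4 e5 ⊢
      have hKY : K ≤ Y := hY ▸ le_inf hK.2 le_normalizer
      have hYX : Y ≤ X := hY ▸ inf_le_left
      have hYinv : ∀ y ∈ Y, MulAut.conj y • K = K := fun y hy =>
        (mem_normalizer_iff_conj_smul K y).mp ((hY ▸ hy : y ∈ X ⊓ normalizer (K : Set G)).2)
      have e1 : ∀ K' ∈ Icc K X, mu ℤ K K' * cS p Y K' = ∑ Q ∈ Icc K Y,
          (if K' ≤ Q then mu ℤ K K' * (if SylIn p Y Q then nuX Y Q else 0) else 0) := by
        intro K' hK'
        rw [mem_Icc] at hK'
        by_cases hK'p : IsPGroup p K'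
        · by_cases hnorm : ∀ x ∈ K', MulAut.conj x • K = K
          · have hK'Y : K' ≤ Y := fun x hx => by
              rw [hY]
              exact ⟨hK'.2 hx, (mem_normalizer_iff_conj_smul K x).mpr (hnorm x hx)⟩
            have e2 : cS p Y K' = cR p Y K' := by
              by_cases hKK' : K' = K
              · rw [hKK']; exact casolo_base p Y K hKp hKY hYinv
              · apply IH Y K' hK'p hK'Y
                have hlt : K < K' := lt_of_le_of_ne hK'.1 (Ne.symm hKK')
                exact lt_of_le_of_lt (Subgroup.card_le_of_le hK.1) (card_lt_of_lt' hlt)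
            rw [e2]
            unfold cR
            rw [Finset.mul_sum, ← Finset.sum_filter]
            apply Finset.sum_congr _ (fun _ _ => rfl)
            ext Q
            simp only [mem_Icc, mem_filter]
            constructor
            · rintro ⟨h1, h2⟩; exact ⟨⟨hK'.1.trans h1, h2⟩, h1⟩
            · rintro ⟨⟨_, h2⟩, h1⟩; exact ⟨h1, h2⟩
          · rw [mu_eq_zero_of_not_normal p K K' hK'p hK'.1 hnorm, zero_mul]
            symm
            apply Finset.sum_eq_zero
            intro Q _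
            split_ifs <;> simp
        · have hc0 : cS p Y K' = 0 := by
            unfold cS
            apply Finset.sum_eq_zero
            intro g _
            rw [if_neg]
            rintro ⟨R, hR, hK'R, -⟩
            exact hK'p (hR.to_le hK'R)
          rw [hc0, mul_zero]
          symm
          apply Finset.sum_eq_zero
          intro Q _
          split_ifs with h1 h2
          · exact absurd (h2.1.to_le h1) hK'p
          · simp
          · rfl
      rw [Finset.sum_congr rfl e1, Finset.sum_comm]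
      have e3 : ∀ Q ∈ Icc K Y, ∑ K' ∈ Icc K X,
          (if K' ≤ Q then mu ℤ K K' * (if SylIn p Y Q then nuX Y Q else 0) else 0) =
          if K = Q then (if SylIn p Y Q then nuX Y Q else 0) else 0 := by
        intro Q hQ
        rw [mem_Icc] at hQ
        rw [← Finset.sum_filter, ← Finset.sum_mul]
        have : (Icc K X).filter (fun K' => K' ≤ Q) = Icc K Q := by
          ext K'
          simp only [mem_filter, mem_Icc]
          constructor
          · rintro ⟨⟨h1, _⟩, h2⟩; exact ⟨h1, h2⟩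
          · rintro ⟨h1, h2⟩; exact ⟨⟨h1, h2.trans (hQ.2.trans hYX)⟩, h2⟩
        rw [this, sum_Icc_mu_right]
        split_ifs <;> simp
      rw [Finset.sum_congr rfl e3, Finset.sum_ite_eq, if_pos (mem_Icc.mpr ⟨le_rfl, hKY⟩), e5]
      exact if_congr e4 rfl rfl
    · have : ∀ K' ∈ Icc K X, mu ℤ K K' * cS p (X ⊓ normalizer (K : Set G)) K' = 0 := by
        intro K' hK'
        have hc0 : cS p (X ⊓ normalizer (K : Set G)) K' = 0 := by
          unfold cS
          apply Finset.sum_eq_zero
          intro g _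
          rw [if_neg]
          rintro ⟨R, hR, hK'R, -⟩
          exact hKp (hR.to_le ((mem_Icc.mp hK').1.trans hK'R))
        rw [hc0, mul_zero]
      rw [Finset.sum_eq_zero this, if_neg (fun h => hKp h.1)]
  rw [h1, h2, Finset.sum_congr rfl h3]
  rfl

theorem casolo_all (p : ℕ) [Fact p.Prime] : ∀ (n : ℕ) (X H : Subgroup G), IsPGroup p H → H ≤ X →
    Nat.card G - Nat.card H = n → cS p X H = cR p X H := by
  intro n
  induction n using Nat.strong_induction_on with
  | _ n ih =>
    intro X H hH hHX hn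
    apply casolo_step p X H hHX
    intro X' K' hK' hK'X' hlt
    refine ih (Nat.card G - Nat.card K') ?_ X' K' hK' hK'X' rfl
    have := Subgroup.card_le_card_group K'
    omega

end

end Cfsg.Agent.Helper22
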