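import Mathlib
import Cfsg.Agent.Helper22.Casolo2

set_option autoImplicit false
open scoped Pointwise

namespace Cfsg.Agent.Helper22
open Subgroup

attribute [local instance] gFintype sgFintype sgLFO

section
open Classical
variable {G : Type*} [Group G] [Finite G]
open Finset IncidenceAlgebra

theorem card_subtype_int (P : G → Prop) :
    ((Nat.card {g : G // P g} : ℕ) : ℤ) =
      ∑ g ∈ (Finset.univ.filter (fun g : G => g ∈ (⊤ : Subgroup G))),
        (if P g then (1 : ℤ) else 0) := by
  rw [Finset.sum_boole, Nat.card_eq_fintype_card, Fintype.card_subtype]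
  congr 1
  congr 1
  ext g
  simp

theorem sylIn_top_of_sylow (p : ℕ) [Fact p.Prime] (P : Sylow p G) :
    SylIn p ⊤ (P : Subgroup G) := by
  refine ⟨P.2, le_top, ?_⟩
  rw [relIndex_top_right]
  exact ((Nat.Prime.coprime_iff_not_dvd Fact.out).mpr P.not_dvd_index).symm

theorem nuX_top_eq (p : ℕ) [Fact p.Prime] (P : Sylow p G) (Q : Subgroup G) (hQ : SylIn p ⊤ Q) :
    nuX ⊤ Q = nuX ⊤ (P : Subgroup G) := by
  have hP := sylIn_top_of_sylow p P
  obtain ⟨r, -, hr⟩ := conj_of_sylow_in p ⊤ (P : Subgroup G) Q hP.1 hQ.1 le_top le_top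
    hP.2.2 hQ.2.2
  unfold nuX
  rw [Finset.sum_boole, Finset.sum_boole]
  congr 1
  apply Finset.card_nbij' (fun g => r⁻¹ * g * r) (fun y => r * y * r⁻¹)
  · intro g hg
    rw [mem_coe, mem_filter] at hg ⊢
    refine ⟨by simp, ?_⟩
    rw [conj_mul_smul, conj_mul_smul, hr, hg.2, conj_inv_smul_of r _ _ hr]
  · intro y hy
    rw [mem_coe, mem_filter] at hy ⊢
    refine ⟨by simp, ?_⟩
    rw [conj_mul_smul, conj_mul_smul, conj_inv_smul_of r _ _ hr, hy.2, hr]
  · intro g _
    group
  · intro y _
    group

theorem nuX_top_sylow (P : Subgroup G) :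
    nuX ⊤ P = (Nat.card (normalizer (P : Set G)) : ℤ) := by
  unfold nuX
  rw [← card_subtype_int (fun g => MulAut.conj g • P = P)]
  congr 1
  apply Nat.card_congr
  apply Equiv.subtypeEquivRight
  intro g
  exact (mem_normalizer_iff_conj_smul P g).symm

theorem card_sylow_filter (p : ℕ) [Fact p.Prime] (H : Subgroup G) :
    ((Icc H (⊤ : Subgroup G)).filter (fun Q => SylIn p ⊤ Q)).card =
      Nat.card {Q : Sylow p G // H ≤ (Q : Subgroup G)} := by
  rw [← Fintype.card_coe, ← Nat.card_eq_fintype_card]
  symm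
  apply Nat.card_eq_of_bijective (fun Q : {Q : Sylow p G // H ≤ (Q : Subgroup G)} =>
    (⟨(Q.1 : Subgroup G), mem_filter.mpr ⟨mem_Icc.mpr ⟨Q.2, le_top⟩, sylIn_top_of_sylow p Q.1⟩⟩ :
      {K : Subgroup G // K ∈ (Icc H (⊤ : Subgroup G)).filter (fun Q => SylIn p ⊤ Q)}))
  constructor
  · intro Q₁ Q₂ h
    apply Subtype.ext
    apply Sylow.ext
    exact congrArg Subtype.val h
  · rintro ⟨K, hK⟩
    have hK' := hK
    rw [mem_filter, mem_Icc] at hK'
    have hidx : ¬ p ∣ K.index := by
      have := hK'.2.2.2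
      rw [relIndex_top_right] at this
      exact (Nat.Prime.coprime_iff_not_dvd Fact.out).mp this.symm
    exact ⟨⟨hK'.2.1.toSylow hidx, hK'.1.1⟩, Subtype.ext (IsPGroup.toSylow_coe hK'.2.1 hidx)⟩

theorem casolo_first (p : ℕ) [Fact p.Prime] (H : Subgroup G) (hH : IsPGroup p H)
    (P : Sylow p G) :
    Nat.card {g : G // ((H).subgroupOf (H ⊔ Subgroup.zpowers g)).IsSubnormal} =
      Nat.card {Q : Sylow p G // H ≤ (Q : Subgroup G)} *
        Nat.card (Subgroup.normalizer ((P : Subgroup G) : Set G)) := by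
  have h1 : Nat.card {g : G // ((H).subgroupOf (H ⊔ Subgroup.zpowers g)).IsSubnormal} =
      Nat.card {g : G // Sp p H g} := by
    apply Nat.card_congr
    apply Equiv.subtypeEquivRight
    intro g
    rw [subnormal_iff_exists_pgroup p H hH g]
    constructor
    · rintro ⟨R, hR, hHR, hg⟩
      exact ⟨R, hR, hHR, (mem_normalizer_iff_conj_smul R g).mp hg⟩
    · rintro ⟨R, hR, hHR, hg⟩
      exact ⟨R, hR, hHR, (mem_normalizer_iff_conj_smul R g).mpr hg⟩
  rw [h1]
  have h2 : ((Nat.card {g : G // Sp p H g} : ℕ) : ℤ) = cS p ⊤ H := card_subtype_int _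
  have h3 : cS p ⊤ H = cR p ⊤ H := casolo_all p _ ⊤ H hH le_top rfl
  have h4 : cR p ⊤ H = ((Nat.card {Q : Sylow p G // H ≤ (Q : Subgroup G)} *
      Nat.card (Subgroup.normalizer ((P : Subgroup G) : Set G)) : ℕ) : ℤ) := by
    unfold cR
    rw [← Finset.sum_filter]
    rw [Finset.sum_congr rfl (fun Q hQ => (nuX_top_eq p P Q (mem_filter.mp hQ).2).trans
      (nuX_top_sylow (P : Subgroup G)))]
    rw [Finset.sum_const, card_sylow_filter, nsmul_eq_mul, Nat.cast_mul]
  exact_mod_cast h2.trans (h3.trans h4)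

theorem casolo_second (p : ℕ) [Fact p.Prime] (H : Subgroup G) (P : Sylow p G) :
    Nat.card {Q : Sylow p G // H ≤ (Q : Subgroup G)} *
        Nat.card (Subgroup.normalizer ((P : Subgroup G) : Set G)) =
    Nat.card {K : Subgroup G // K ≤ (P : Subgroup G) ∧
        ∃ g : G, K = H.map (MulAut.conj g).toMonoidHom} *
      Nat.card (Subgroup.normalizer (H : Set G)) := by
  have hmap : ∀ g : G, H.map (MulAut.conj g).toMonoidHom = MulAut.conj g • H := fun g => rfl
  have hA : Nat.card {x : G // MulAut.conj x • H ≤ (P : Subgroup G)} =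
      Nat.card {K : Subgroup G // K ≤ (P : Subgroup G) ∧
        ∃ g : G, K = H.map (MulAut.conj g).toMonoidHom} *
      Nat.card (Subgroup.normalizer (H : Set G)) := by
    have hpairs := card_pairs_const (α := Subgroup G) (β := G)
      (fun K => K ≤ (P : Subgroup G) ∧ ∃ g : G, K = H.map (MulAut.conj g).toMonoidHom)
      (fun K x => MulAut.conj x • H = K) (Nat.card (Subgroup.normalizer (H : Set G))) (by
        rintro K ⟨hK, g, rfl⟩
        have : Nat.card {x : G // MulAut.conj x • H = MulAut.conj g • H} =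
            Nat.card {n : G // n ∈ normalizer (H : Set G)} := by
          apply card_subtype_eq_of_inverse _ _ (fun x => g⁻¹ * x) (fun n => g * n)
          · intro x hx
            rw [mem_normalizer_iff_conj_smul, conj_mul_smul, hx, conj_inv_smul_of g H _ rfl]
          · intro n hn
            rw [conj_mul_smul, (mem_normalizer_iff_conj_smul H n).mp hn]
          · intro x _
            group
          · intro n _
            group
        exact this)
    refine Eq.trans ?_ hpairs
    symm
    apply card_subtype_eq_of_inverse _ _ (fun q : Subgroup G × G => q.2)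
      (fun x => (MulAut.conj x • H, x))
    · rintro ⟨K, x⟩ ⟨⟨hK, -⟩, hx⟩
      show MulAut.conj x • H ≤ (P : Subgroup G)
      rw [hx]; exact hK
    · intro x hx
      exact ⟨⟨hx, x, (hmap x).symm⟩, rfl⟩
    · rintro ⟨K, x⟩ ⟨_, hx⟩
      exact Prod.ext hx rfl
    · intro x _
      rfl
  have hB : Nat.card {x : G // MulAut.conj x • H ≤ (P : Subgroup G)} =
      Nat.card {Q : Sylow p G // H ≤ (Q : Subgroup G)} *
        Nat.card (Subgroup.normalizer ((P : Subgroup G) : Set G)) := by
    have hpairs := card_pairs_const (α := Sylow p G) (β := G)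
      (fun Q => H ≤ (Q : Subgroup G))
      (fun Q x => MulAut.conj x⁻¹ • (P : Subgroup G) = (Q : Subgroup G))
      (Nat.card (Subgroup.normalizer ((P : Subgroup G) : Set G))) (by
        intro Q _
        obtain ⟨r, hr⟩ := MulAction.exists_smul_eq G P Q
        have hr' : MulAut.conj r • (P : Subgroup G) = (Q : Subgroup G) := by
          rw [← hr, Sylow.coe_subgroup_smul]
        have : Nat.card {x : G // MulAut.conj x⁻¹ • (P : Subgroup G) = (Q : Subgroup G)} =
            Nat.card {n : G // n ∈ normalizer ((P : Subgroup G) : Set G)} := by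
          apply card_subtype_eq_of_inverse _ _ (fun x => x * r) (fun n => n * r⁻¹)
          · intro x hx
            rw [mem_normalizer_iff_conj_smul, conj_mul_smul, hr', ← hx, ← conj_mul_smul,
              mul_inv_cancel, map_one, one_smul]
          · intro n hn
            have e : (n * r⁻¹)⁻¹ = r * n⁻¹ := by group
            rw [e, conj_mul_smul,
              conj_inv_smul_of n _ _ ((mem_normalizer_iff_conj_smul _ n).mp hn), hr']
          · intro x _
            group
          · intro n _
            group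
        exact this)
    refine Eq.trans ?_ hpairs
    symm
    apply card_subtype_eq_of_inverse _ _ (fun q : Sylow p G × G => q.2)
      (fun x => (MulAut.conj x⁻¹ • P, x))
    · rintro ⟨Q, x⟩ ⟨hQ, hx⟩
      show MulAut.conj x • H ≤ (P : Subgroup G)
      have h5 : H ≤ MulAut.conj x⁻¹ • (P : Subgroup G) := by
        rw [hx]; exact hQ
      rw [Subgroup.subset_pointwise_smul_iff, map_inv, inv_inv] at h5
      exact h5
    · intro x hx
      refine ⟨?_, ?_⟩
      · show H ≤ ((MulAut.conj x⁻¹ • P : Sylow p G) : Subgroup G)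
        rw [Sylow.pointwise_smul_def, Subgroup.subset_pointwise_smul_iff, map_inv, inv_inv]
        exact hx
      · exact (Sylow.pointwise_smul_def).symm
    · rintro ⟨Q, x⟩ ⟨_, hx⟩
      refine Prod.ext (Sylow.ext ?_) rfl
      show ((MulAut.conj x⁻¹ • P : Sylow p G) : Subgroup G) = Q
      rw [Sylow.pointwise_smul_def]; exact hx
    · intro x _
      rfl
  rw [← hB, hA]

end

end Cfsg.Agent.Helper22
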