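import Mathlib

set_option autoImplicit false

namespace Cfsg.Agent.Helper22
open Subgroup

variable {G : Type*} [Group G]

theorem mem_centralizer_single (z x : G) :
    z ∈ centralizer ({x} : Set G) ↔ x * z = z * x := by
  rw [mem_centralizer_iff]
  constructor
  · intro h; exact h x rfl
  · intro h w hw
    rw [Set.mem_singleton_iff] at hw
    rw [hw]; exact h

theorem closure_comm_of_comm (S : Set G) (hcomm : ∀ a ∈ S, ∀ b ∈ S, a * b = b * a) :
    ∀ a ∈ closure S, ∀ b ∈ closure S, a * b = b * a := by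
  have h1 : S ⊆ centralizer S := by
    intro a ha
    rw [SetLike.mem_coe, mem_centralizer_iff]
    intro b hb
    exact hcomm b hb a ha
  have h2 : closure S ≤ centralizer S := (closure_le _).mpr h1
  intro a ha b hb
  have h3 := closure_le_centralizer_centralizer S hb
  rw [mem_centralizer_iff] at h3
  exact h3 a (h2 ha)

/-- pairwise commuting `p`-elements generate a `p`-group -/
theorem isPGroup_closure_of_comm (p : ℕ) (S : Set G) (hcomm : ∀ a ∈ S, ∀ b ∈ S, a * b = b * a)
    (hp : ∀ a ∈ S, ∃ k : ℕ, a ^ (p ^ k) = 1) : IsPGroup p (closure S) := by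
  have hc := closure_comm_of_comm S hcomm
  have key : ∀ a, a ∈ closure S → ∃ k : ℕ, a ^ (p ^ k) = 1 := by
    intro a ha
    induction ha using closure_induction with
    | mem x hx => exact hp x hx
    | one => exact ⟨0, one_pow _⟩
    | mul x y hx hy ihx ihy =>
      obtain ⟨k1, hk1⟩ := ihx
      obtain ⟨k2, hk2⟩ := ihy
      refine ⟨k1 + k2, ?_⟩
      have hxy : Commute x y := hc x hx y hy
      rw [hxy.mul_pow, pow_add, pow_mul, hk1, one_pow, one_mul, mul_comm (p ^ k1), pow_mul, hk2, one_pow]
    | inv x hx ih =>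
      obtain ⟨k, hk⟩ := ih
      exact ⟨k, by rw [inv_pow, hk, inv_one]⟩
  intro g
  obtain ⟨k, hk⟩ := key g.1 g.2
  exact ⟨k, Subtype.ext (by simpa using hk)⟩

end Cfsg.Agent.Helper22
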