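import Mathlib
import Cfsg.Prelude
import Cfsg.Agent.Lead.Coprime
import Cfsg.Agent.Helper22.ConjClass
import Cfsg.Agent.Helper22.CyclicNorm

set_option autoImplicit false

namespace Cfsg.Agent.Helper22

open scoped commutatorElement

section

variable {G A : Type*} [Group G] [Group A] [MulDistribMulAction A G]

/-- `[G, A]` (generated by the `g⁻¹ * a • g`) is `A`-invariant. -/
theorem comm_gen_smul_mem (a : A) (x : G)
    (hx : x ∈ Subgroup.closure {y : G | ∃ (a : A) (g : G), y = g⁻¹ * a • g}) :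
    a • x ∈ Subgroup.closure {y : G | ∃ (a : A) (g : G), y = g⁻¹ * a • g} := by
  induction hx using Subgroup.closure_induction with
  | mem y hy =>
    obtain ⟨b, g, rfl⟩ := hy
    apply Subgroup.subset_closure
    refine ⟨a * b * a⁻¹, a • g, ?_⟩
    simp [smul_mul', smul_inv', mul_smul]
  | one => rw [smul_one]; exact Subgroup.one_mem _
  | mul x y _ _ hx hy => rw [smul_mul']; exact Subgroup.mul_mem _ hx hy
  | inv x _ hx => rw [smul_inv']; exact Subgroup.inv_mem _ hx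

/-- `[G, A]` is normal. -/
theorem comm_gen_normal :
    (Subgroup.closure {y : G | ∃ (a : A) (g : G), y = g⁻¹ * a • g}).Normal := by
  constructor
  intro n hn h
  induction hn using Subgroup.closure_induction with
  | mem y hy =>
    obtain ⟨a, g, rfl⟩ := hy
    have e : h * (g⁻¹ * a • g) * h⁻¹ =
        ((g * h⁻¹)⁻¹ * a • (g * h⁻¹)) * ((h⁻¹)⁻¹ * a • h⁻¹)⁻¹ := by
      rw [smul_mul']; group
    rw [e]
    exact Subgroup.mul_mem _ (Subgroup.subset_closure ⟨a, g * h⁻¹, rfl⟩)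
      (Subgroup.inv_mem _ (Subgroup.subset_closure ⟨a, h⁻¹, rfl⟩))
  | one => simp
  | mul x y _ _ hx hy =>
    have : h * (x * y) * h⁻¹ = (h * x * h⁻¹) * (h * y * h⁻¹) := by group
    rw [this]; exact Subgroup.mul_mem _ hx hy
  | inv x _ hx =>
    have : h * x⁻¹ * h⁻¹ = (h * x * h⁻¹)⁻¹ := by group
    rw [this]; exact Subgroup.inv_mem _ hx

/-- Coprime action, `G` solvable: every coset of `[G, A]` contains a fixed point. -/
theorem exists_fixed_mul_comm [Finite G] [Finite A] (hcop : (Nat.card A).Coprime (Nat.card G))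
    (hsolv : Group.IsSolvable G) (g : G) :
    ∃ k ∈ Subgroup.closure {y : G | ∃ (a : A) (g : G), y = g⁻¹ * a • g},
      ∀ a : A, a • (g * k) = g * k := by
  obtain ⟨φ, hφ⟩ : ∃ φ : A →* MulAut G, ∀ a x, φ a x = a • x :=
    ⟨MulDistribMulAction.toMulAut A G, fun _ _ => rfl⟩
  haveI : Finite (G ⋊[φ] A) := Finite.of_equiv _ SemidirectProduct.equivProd.symm
  obtain ⟨il, hil⟩ : ∃ il : G →* G ⋊[φ] A, il = SemidirectProduct.inl := ⟨_, rfl⟩
  obtain ⟨ir, hir⟩ : ∃ ir : A →* G ⋊[φ] A, ir = SemidirectProduct.inr := ⟨_, rfl⟩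
  have hilinj : Function.Injective il := hil ▸ SemidirectProduct.inl_injective
  have hirinj : Function.Injective ir := hir ▸ SemidirectProduct.inr_injective
  have hconj : ∀ (a : A) (x : G), ir a * il x * (ir a)⁻¹ = il (a • x) := by
    intro a x
    rw [← map_inv, hil, hir, ← hφ]
    exact (SemidirectProduct.inl_aut a x).symm
  obtain ⟨K, hK⟩ : ∃ K : Subgroup G,
      K = Subgroup.closure {y : G | ∃ (a : A) (g : G), y = g⁻¹ * a • g} := ⟨_, rfl⟩
  rw [← hK]
  have hn : (il.range).Normal := by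
    rw [hil, SemidirectProduct.range_inl_eq_ker_rightHom]; infer_instance
  have hAK : ir.range ≤ Subgroup.normalizer ((il.range : Subgroup (G ⋊[φ] A)) : Set (G ⋊[φ] A)) := by
    rw [Subgroup.le_normalizer_iff]
    intro h _ k hk
    exact hn.conj_mem k hk h
  have hAD : ir.range ≤ Subgroup.normalizer ((K.map il : Subgroup (G ⋊[φ] A)) : Set (G ⋊[φ] A)) := by
    rw [Subgroup.le_normalizer_iff]
    rintro _ ⟨a, rfl⟩ _ ⟨x, hx, rfl⟩
    rw [hconj]
    exact Subgroup.mem_map_of_mem _ (by rw [hK]; exact comm_gen_smul_mem a x (hK ▸ hx))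
  have hDK : K.map il ≤ il.range := Subgroup.map_le_range il K
  have hc1 : Nat.card ir.range = Nat.card A := Nat.card_range_of_injective hirinj
  have hc2 : Nat.card il.range = Nat.card G := Nat.card_range_of_injective hilinj
  have hcop' : (Nat.card ir.range).Coprime (Nat.card il.range) := by rw [hc1, hc2]; exact hcop
  have hsolv' : Group.IsSolvable ir.range ∨ Group.IsSolvable (K.map il) := by
    right
    exact Group.isSolvable_of_surjective (f := il.subgroupMap K) (il.subgroupMap_surjective K)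
  have hx : ∀ b ∈ ir.range, (il g)⁻¹ * b * il g * b⁻¹ ∈ K.map il := by
    rintro _ ⟨a, rfl⟩
    have : (il g)⁻¹ * ir a * il g * (ir a)⁻¹ = il (g⁻¹ * a • g) := by
      rw [map_mul, ← hconj, map_inv]; group
    rw [this]
    exact Subgroup.mem_map_of_mem _ (by rw [hK]; exact Subgroup.subset_closure ⟨a, g, rfl⟩)
  obtain ⟨n, hnD, hnc⟩ := Cfsg.Agent.Lead.exists_mul_mem_centralizer ir.range il.range (K.map il)
    hAK hAD hDK hcop' hsolv' (il g) ⟨g, rfl⟩ hx
  obtain ⟨k, hk, rfl⟩ := hnD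
  refine ⟨k, hk, fun a => ?_⟩
  rw [Subgroup.mem_centralizer_iff] at hnc
  have h1 := hnc (ir a) ⟨a, rfl⟩
  apply hilinj
  rw [← hconj, map_mul, h1]
  group

/-- Coprime action, `G` solvable: `[G, A] = [[G, A], A]`. -/
theorem comm_gen_le_comm_comm [Finite G] [Finite A] (hcop : (Nat.card A).Coprime (Nat.card G))
    (hsolv : Group.IsSolvable G) :
    Subgroup.closure {y : G | ∃ (a : A) (g : G), y = g⁻¹ * a • g} ≤
      Subgroup.closure {y : G | ∃ (a : A) (k : G),
        k ∈ Subgroup.closure {y : G | ∃ (a : A) (g : G), y = g⁻¹ * a • g} ∧ y = k⁻¹ * a • k} := by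
  rw [Subgroup.closure_le]
  rintro y ⟨a, g, rfl⟩
  obtain ⟨k, hk, hfix⟩ := exists_fixed_mul_comm hcop hsolv g
  apply Subgroup.subset_closure
  refine ⟨a, k⁻¹, Subgroup.inv_mem _ hk, ?_⟩
  have h1 := hfix a
  rw [smul_mul'] at h1
  have h2 : a • g = g * k * (a • k)⁻¹ := by rw [← h1]; group
  rw [h2, smul_inv']; group

open scoped IsMulCommutative in
/-- Coprime action on an abelian invariant subgroup `H` with `H = [H, A]`: no nontrivial fixed
points. -/
theorem fixed_eq_one_of_abelian_comm [Finite A] (H : Subgroup G) [Finite H]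
    (hcomm : ∀ x ∈ H, ∀ y ∈ H, x * y = y * x) (hinv : ∀ (a : A), ∀ x ∈ H, a • x ∈ H)
    (hgen : H ≤ Subgroup.closure {y : G | ∃ (a : A) (k : G), k ∈ H ∧ y = k⁻¹ * a • k})
    (hcop : (Nat.card A).Coprime (Nat.card H)) (x : G) (hx : x ∈ H)
    (hfix : ∀ a : A, a • x = x) : x = 1 := by
  classical
  haveI := Fintype.ofFinite A
  haveI : IsMulCommutative H := ⟨⟨fun a b => Subtype.ext (hcomm a a.2 b b.2)⟩⟩
  obtain ⟨τ, hτ⟩ : ∃ τ : H → H, ∀ h : H, τ h = ∏ a : A, ⟨a • (h : G), hinv a h h.2⟩ :=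
    ⟨_, fun _ => rfl⟩
  have hτmul : ∀ h₁ h₂ : H, τ (h₁ * h₂) = τ h₁ * τ h₂ := by
    intro h₁ h₂
    rw [hτ, hτ, hτ, ← Finset.prod_mul_distrib]
    refine Finset.prod_congr rfl (fun a _ => ?_)
    apply Subtype.ext
    simp [smul_mul']
  have hτsmul : ∀ (b : A) (h : H), τ ⟨b • (h : G), hinv b h h.2⟩ = τ h := by
    intro b h
    rw [hτ, hτ]
    refine Fintype.prod_equiv (Equiv.mulRight b) _ _ (fun a => ?_)
    apply Subtype.ext
    simp [mul_smul]
  obtain ⟨T, hT⟩ : ∃ T : H →* H, ∀ h, T h = τ h := ⟨MonoidHom.mk' τ hτmul, fun _ => rfl⟩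
  have hle : Subgroup.closure {y : G | ∃ (a : A) (k : G), k ∈ H ∧ y = k⁻¹ * a • k} ≤
      T.ker.map H.subtype := by
    rw [Subgroup.closure_le]
    rintro y ⟨a, k, hk, rfl⟩
    refine ⟨(⟨k, hk⟩ : H)⁻¹ * ⟨a • k, hinv a k hk⟩, ?_, rfl⟩
    rw [SetLike.mem_coe, MonoidHom.mem_ker, map_mul, map_inv, hT, hT]
    rw [hτsmul a ⟨k, hk⟩, inv_mul_cancel]
  obtain ⟨z, hz, hzx⟩ := hle (hgen hx)
  have hz' : z = ⟨x, hx⟩ := Subtype.ext hzx
  rw [SetLike.mem_coe, MonoidHom.mem_ker, hz', hT, hτ] at hz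
  have h1 : (⟨x, hx⟩ : H) ^ Nat.card A = 1 := by
    rw [← hz, Nat.card_eq_fintype_card, ← Finset.card_univ, ← Finset.prod_const]
    refine Finset.prod_congr rfl (fun a _ => ?_)
    apply Subtype.ext
    simp [hfix a]
  have h2 : (⟨x, hx⟩ : H) ^ Nat.card H = 1 := pow_card_eq_one'
  have h3 : (⟨x, hx⟩ : H) ∈ (⊥ : Subgroup H) :=
    coprime_pow_mem ⊥ _ hcop (by rw [h1]; exact Subgroup.one_mem _)
      (by rw [h2]; exact Subgroup.one_mem _)
  rw [Subgroup.mem_bot] at h3
  exact congrArg Subtype.val h3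

/-- If `K = [K, A]` is invariant and `[K, K]` is cyclic generated by `w`, then `K` centralizes
`w`. -/
theorem comm_central (K : Subgroup G) (hKinv : ∀ (a : A), ∀ x ∈ K, a • x ∈ K)
    (hgen : K ≤ Subgroup.closure {y : G | ∃ (a : A) (k : G), k ∈ K ∧ y = k⁻¹ * a • k})
    (w : G) (hw : ∀ x ∈ ⁅K, K⁆, x ∈ Subgroup.zpowers w) (hwK : w ∈ ⁅K, K⁆) :
    ∀ k ∈ K, k * w = w * k := by
  have hKK : ⁅K, K⁆ ≤ K := by
    rw [Subgroup.commutator_le]
    intro g₁ h₁ g₂ h₂
    rw [commutatorElement_def]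
    exact K.mul_mem (K.mul_mem (K.mul_mem h₁ h₂) (K.inv_mem h₁)) (K.inv_mem h₂)
  have hinv' : ∀ (a : A), ∀ x ∈ ⁅K, K⁆, a • x ∈ ⁅K, K⁆ := by
    intro a x hx
    rw [Subgroup.commutator_def] at hx ⊢
    induction hx using Subgroup.closure_induction with
    | mem y hy =>
      obtain ⟨g₁, h₁, g₂, h₂, rfl⟩ := hy
      apply Subgroup.subset_closure
      refine ⟨a • g₁, hKinv a g₁ h₁, a • g₂, hKinv a g₂ h₂, ?_⟩
      simp [commutatorElement_def, smul_mul', smul_inv']
    | one => rw [smul_one]; exact Subgroup.one_mem _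
    | mul x y _ _ hx hy => rw [smul_mul']; exact Subgroup.mul_mem _ hx hy
    | inv x _ hx => rw [smul_inv']; exact Subgroup.inv_mem _ hx
  have hconj' : ∀ k ∈ K, ∀ x ∈ ⁅K, K⁆, k * x * k⁻¹ ∈ ⁅K, K⁆ := by
    intro k hk x hx
    have h1 : ⁅k, x⁆ ∈ ⁅K, K⁆ := Subgroup.commutator_mem_commutator hk (hKK hx)
    have h2 : k * x * k⁻¹ = ⁅k, x⁆ * x := by rw [commutatorElement_def]; group
    rw [h2]
    exact Subgroup.mul_mem _ h1 hx
  have hle : Subgroup.closure {y : G | ∃ (a : A) (k : G), k ∈ K ∧ y = k⁻¹ * a • k} ≤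
      Subgroup.centralizer ({w} : Set G) := by
    rw [Subgroup.closure_le]
    rintro y ⟨a, k, hk, rfl⟩
    rw [SetLike.mem_coe, Subgroup.mem_centralizer_singleton_iff]
    obtain ⟨j, hj⟩ := Subgroup.mem_zpowers_iff.mp (hw _ (hinv' a⁻¹ w hwK))
    obtain ⟨i, hi⟩ := Subgroup.mem_zpowers_iff.mp (hw _ (hconj' k hk w hwK))
    have hw' : a • (a⁻¹ • w) = w := smul_inv_smul a w
    have key : (a • k) * w * (a • k)⁻¹ = k * w * k⁻¹ := by
      calc (a • k) * w * (a • k)⁻¹ = (a • k) * (a • (a⁻¹ • w)) * (a • k)⁻¹ := by rw [hw']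
        _ = a • (k * (a⁻¹ • w) * k⁻¹) := by rw [smul_mul', smul_mul', smul_inv']
        _ = a • (k * w ^ j * k⁻¹) := by rw [hj]
        _ = a • ((k * w * k⁻¹) ^ j) := by rw [conj_zpow]
        _ = a • ((w ^ i) ^ j) := by rw [hi]
        _ = a • ((w ^ j) ^ i) := by rw [← zpow_mul, ← zpow_mul, mul_comm]
        _ = (a • (a⁻¹ • w)) ^ i := by rw [hj, smul_zpow']
        _ = w ^ i := by rw [hw']
        _ = k * w * k⁻¹ := hi
    calc k⁻¹ * a • k * w = k⁻¹ * ((a • k) * w * (a • k)⁻¹) * (a • k) := by group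
      _ = k⁻¹ * (k * w * k⁻¹) * (a • k) := by rw [key]
      _ = w * (k⁻¹ * a • k) := by group
  intro k hk
  exact Subgroup.mem_centralizer_singleton_iff.mp (hle (hgen hk))

end

/-- In a finite cyclic group, an element killed by `p` is a power of any element of order
`p`. -/
theorem mem_zpowers_of_orderOf_eq_prime {P : Type*} [Group P] [Finite P] [IsCyclic P] (p : ℕ)
    [Fact p.Prime] (u v : P) (hu : orderOf u = p) (hv : v ^ p = 1) :
    v ∈ Subgroup.zpowers u := by
  classical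
  haveI := Fintype.ofFinite P
  have hp : p.Prime := Fact.out
  have h1 : (Finset.univ.filter fun a : P => a ^ p = 1).card ≤ p :=
    IsCyclic.card_pow_eq_one_le hp.pos
  have hup : u ^ p = 1 := by rw [← hu]; exact pow_orderOf_eq_one u
  have h2 : (Finset.image (fun i : Fin p => u ^ (i : ℕ)) Finset.univ) ⊆
      (Finset.univ.filter fun a : P => a ^ p = 1) := by
    intro x hx
    obtain ⟨i, -, rfl⟩ := Finset.mem_image.mp hx
    rw [Finset.mem_filter]
    refine ⟨Finset.mem_univ _, ?_⟩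
    rw [← pow_mul, mul_comm, pow_mul, hup, one_pow]
  have h3 : (Finset.image (fun i : Fin p => u ^ (i : ℕ)) Finset.univ).card = p := by
    rw [Finset.card_image_of_injective, Finset.card_univ, Fintype.card_fin]
    intro i j hij
    apply Fin.ext
    exact pow_injOn_Iio_orderOf (by rw [hu]; exact i.2) (by rw [hu]; exact j.2) hij
  have h4 := Finset.eq_of_subset_of_card_le h2 (h1.trans h3.ge)
  have h5 : v ∈ (Finset.univ.filter fun a : P => a ^ p = 1) := by simp [hv]
  rw [← h4] at h5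
  obtain ⟨i, -, rfl⟩ := Finset.mem_image.mp h5
  exact Subgroup.pow_mem _ (Subgroup.mem_zpowers u) _

/-- In a group with cyclic Sylow subgroups, a normal subgroup and a subgroup meeting it trivially
have coprime orders. -/
theorem coprime_card_of_cyclic_sylow {G : Type*} [Group G] [Finite G]
    (hcyc : ∀ (p : ℕ) [Fact p.Prime] (P : Sylow p G), IsCyclic (P : Subgroup G))
    (K C : Subgroup G) [K.Normal] (hKC : K ⊓ C = ⊥) : (Nat.card C).Coprime (Nat.card K) := by
  apply Nat.coprime_of_dvd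
  intro p hp hpC hpK
  haveI : Fact p.Prime := ⟨hp⟩
  obtain ⟨c, hc⟩ := exists_prime_orderOf_dvd_card' (G := C) p hpC
  obtain ⟨x, hx⟩ := exists_prime_orderOf_dvd_card' (G := K) p hpK
  have hc' : orderOf (c : G) = p := by rw [Subgroup.orderOf_coe]; exact hc
  have hx' : orderOf (x : G) = p := by rw [Subgroup.orderOf_coe]; exact hx
  have hcP : IsPGroup p (Subgroup.zpowers (c : G)) := by
    apply IsPGroup.of_card (n := 1)
    rw [Nat.card_zpowers, hc', pow_one]
  have hxP : IsPGroup p (Subgroup.zpowers (x : G)) := by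
    apply IsPGroup.of_card (n := 1)
    rw [Nat.card_zpowers, hx', pow_one]
  obtain ⟨P, hP⟩ := hcP.exists_le_sylow
  obtain ⟨g, hg⟩ := exists_conj_le_of_not_dvd_index p (Subgroup.zpowers (x : G)) hxP
    (P : Subgroup G) P.not_dvd_index
  have hxg : g⁻¹ * (x : G) * g ∈ (P : Subgroup G) := hg _ (Subgroup.mem_zpowers _)
  have hcPm : (c : G) ∈ (P : Subgroup G) := hP (Subgroup.mem_zpowers _)
  haveI := hcyc p P
  have ho : orderOf (⟨g⁻¹ * (x : G) * g, hxg⟩ : (P : Subgroup G)) = p := by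
    rw [← Subgroup.orderOf_coe]
    have := (MulAut.conj g⁻¹).orderOf_eq (x : G)
    simp only [MulAut.conj_apply, inv_inv] at this
    rw [this, hx']
  have hcp : (⟨(c : G), hcPm⟩ : (P : Subgroup G)) ^ p = 1 := by
    apply Subtype.ext
    simp only [Subgroup.coe_pow, Subgroup.coe_one]
    rw [← hc', pow_orderOf_eq_one]
  have hmem := mem_zpowers_of_orderOf_eq_prime p _ _ ho hcp
  obtain ⟨i, hi⟩ := Subgroup.mem_zpowers_iff.mp hmem
  have hi' : (g⁻¹ * (x : G) * g) ^ i = (c : G) := by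
    have := congrArg Subtype.val hi
    simpa using this
  have hcK : (c : G) ∈ K := by
    rw [← hi']
    apply Subgroup.zpow_mem
    have := ‹K.Normal›.conj_mem (x : G) x.2 g⁻¹
    simpa using this
  have : (c : G) ∈ K ⊓ C := ⟨hcK, c.2⟩
  rw [hKC, Subgroup.mem_bot] at this
  rw [this, orderOf_one] at hc'
  exact hp.one_lt.ne hc'

end Cfsg.Agent.Helper22
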