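import Mathlib
import Cfsg.Agent.Helper22.ConjSmul

set_option autoImplicit false
open scoped Pointwise

namespace Cfsg.Agent.Helper22

section

variable {G : Type*} [Group G]

theorem mul_mem_iff_of_relIndex_two {H M : Subgroup G} (hM : M.relIndex H = 2) {a b : G}
    (ha : a ∈ H) (hb : b ∈ H) : a * b ∈ M ↔ (a ∈ M ↔ b ∈ M) := by
  have := Subgroup.mul_mem_iff_of_index_two (H := M.subgroupOf H) hM (a := ⟨a, ha⟩) (b := ⟨b, hb⟩)
  simpa [Subgroup.mem_subgroupOf] using this

theorem relIndex_two_of_card [Finite G] {H M : Subgroup G} (hMH : M ≤ H)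
    (hc : 2 * Nat.card M = Nat.card H) : M.relIndex H = 2 := by
  have h1 := Subgroup.relIndex_mul_relIndex ⊥ M H bot_le hMH
  rw [Subgroup.relIndex_bot_left, Subgroup.relIndex_bot_left, ← hc] at h1
  have hpos : 0 < Nat.card M := Nat.card_pos
  have : Nat.card M * M.relIndex H = Nat.card M * 2 := by rw [h1, mul_comm]
  exact Nat.eq_of_mul_eq_mul_left hpos this

theorem eq_of_relIndex_two_of_gens {H M₁ M₂ : Subgroup G} {c t : G}
    (hH : H = Subgroup.closure {c, t})
    (h₁ : M₁ ≤ H) (h₂ : M₂ ≤ H) (i₁ : M₁.relIndex H = 2) (i₂ : M₂.relIndex H = 2)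
    (hc : c ∈ M₁ ↔ c ∈ M₂) (ht : t ∈ M₁ ↔ t ∈ M₂) : M₁ = M₂ := by
  have hcH : c ∈ H := by rw [hH]; exact Subgroup.subset_closure (by simp)
  have htH : t ∈ H := by rw [hH]; exact Subgroup.subset_closure (by simp)
  let S : Subgroup G :=
    { carrier := {h | h ∈ H ∧ (h ∈ M₁ ↔ h ∈ M₂)}
      one_mem' := ⟨H.one_mem, by simp [M₁.one_mem, M₂.one_mem]⟩
      mul_mem' := by
        rintro a b ⟨ha, ha'⟩ ⟨hb, hb'⟩
        refine ⟨H.mul_mem ha hb, ?_⟩
        rw [mul_mem_iff_of_relIndex_two i₁ ha hb, mul_mem_iff_of_relIndex_two i₂ ha hb, ha', hb']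
      inv_mem' := by
        rintro a ⟨ha, ha'⟩
        exact ⟨H.inv_mem ha, by rw [inv_mem_iff, inv_mem_iff]; exact ha'⟩ }
  have hle : H ≤ S := by
    have hcl : Subgroup.closure {c, t} ≤ S := by
      rw [Subgroup.closure_le]
      intro x hx
      rcases hx with hx | hx
      · rw [hx]; exact ⟨hcH, hc⟩
      · rw [Set.mem_singleton_iff.mp hx]; exact ⟨htH, ht⟩
    rw [hH]; exact hcl
  ext x
  constructor
  · intro hx; exact (hle (h₁ hx)).2.mp hx
  · intro hx; exact (hle (h₂ hx)).2.mpr hx

theorem exists_gen_pair [Finite G] (H : Subgroup G) (c : G) (hcH : c ∈ H)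
    (hc : Nat.card H ≤ 2 * orderOf c) : ∃ t, H = Subgroup.closure {c, t} := by
  by_cases hz : Subgroup.zpowers c = H
  · refine ⟨c, ?_⟩
    rw [← hz]; simp [Subgroup.zpowers_eq_closure]
  · have hzle : Subgroup.zpowers c ≤ H := by rw [Subgroup.zpowers_le]; exact hcH
    obtain ⟨t, htH, htz⟩ : ∃ t ∈ H, t ∉ Subgroup.zpowers c := by
      by_contra hcon
      push Not at hcon
      exact hz (le_antisymm hzle hcon)
    refine ⟨t, ?_⟩
    obtain ⟨D, hD⟩ : ∃ D : Subgroup G, D = Subgroup.closure ({c, t} : Set G) := ⟨_, rfl⟩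
    rw [← hD]
    have hDH : D ≤ H := by
      rw [hD, Subgroup.closure_le]
      intro x hx
      rcases hx with hx | hx
      · rw [hx]; exact hcH
      · rw [Set.mem_singleton_iff.mp hx]; exact htH
    have hcD : c ∈ D := by rw [hD]; exact Subgroup.subset_closure (by simp)
    have htD : t ∈ D := by rw [hD]; exact Subgroup.subset_closure (by simp)
    have hzD : Subgroup.zpowers c ≤ D := by rw [Subgroup.zpowers_le]; exact hcD
    have hlt : Nat.card (Subgroup.zpowers c) < Nat.card D := by
      apply lt_of_le_of_ne (Subgroup.card_le_of_le hzD)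
      intro heq
      have := Subgroup.eq_of_le_of_card_ge hzD (le_of_eq heq.symm)
      exact htz (this ▸ htD)
    rw [Nat.card_zpowers] at hlt
    obtain ⟨r, hr⟩ := Subgroup.card_dvd_of_le hDH
    have hHpos : 0 < Nat.card H := Nat.card_pos
    have hr1 : r = 1 := by
      rcases Nat.lt_or_ge r 2 with h | h
      · interval_cases r
        · omega
        · rfl
      · exfalso
        have : Nat.card D * 2 ≤ Nat.card D * r := Nat.mul_le_mul_left _ h
        omega
    rw [hr1, mul_one] at hr
    exact (Subgroup.eq_of_le_of_card_ge hDH (le_of_eq hr)).symm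

theorem conj_smul_eq_of_mem_normalizer {H : Subgroup G} {g : G}
    (hg : g ∈ Subgroup.normalizer (H : Set G)) : MulAut.conj g • H = H := by
  ext x
  rw [mem_conj_smul_iff]
  have := (Subgroup.mem_normalizer_iff.mp hg) (g⁻¹ * x * g)
  rw [this]
  have e : g * (g⁻¹ * x * g) * g⁻¹ = x := by group
  rw [e]

/-- The conjugation action of `N_G(H)` on the subgroups of index two of `H`. -/
@[reducible] def idx2Action [Finite G] (H : Subgroup G) :
    MulAction (Subgroup.normalizer (H : Set G))
      {M : Subgroup G // M ≤ H ∧ 2 * Nat.card M = Nat.card H} where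
  smul g M := ⟨MulAut.conj (g : G) • M.1,
    le_of_le_of_eq (Subgroup.pointwise_smul_le_pointwise_smul_iff.mpr M.2.1)
      (conj_smul_eq_of_mem_normalizer g.2),
    (congrArg (fun k => 2 * k)
      (Nat.card_congr (Subgroup.equivSMul (MulAut.conj (g : G)) M.1).toEquiv).symm).trans M.2.2⟩
  one_smul M := by
    apply Subtype.ext
    show MulAut.conj ((1 : Subgroup.normalizer (H : Set G)) : G) • M.1 = M.1
    simp
  mul_smul a b M := by
    apply Subtype.ext
    show MulAut.conj ((a * b : Subgroup.normalizer (H : Set G)) : G) • M.1 =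
      MulAut.conj (a : G) • (MulAut.conj (b : G) • M.1)
    rw [Subgroup.coe_mul, map_mul, mul_smul]

/-- A `2`-subgroup with a cyclic subgroup of index at most two is centralized by every
element of its normalizer of order prime to `6`. -/
theorem centralizes_of_cyclic_index_two [Finite G] : ∀ (n : ℕ) (H : Subgroup G),
    Nat.card H = n → IsPGroup 2 H → (∃ c ∈ H, Nat.card H ≤ 2 * orderOf c) →
    ∀ g ∈ Subgroup.normalizer (H : Set G), (orderOf g).Coprime 6 →
    ∀ h ∈ H, g * h = h * g := by
  intro n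
  induction n using Nat.strong_induction_on with
  | _ n ih =>
    intro H hn hH ⟨c, hcH, hc⟩ g hg hcop h hh
    haveI : Fact (Nat.Prime 2) := ⟨Nat.prime_two⟩
    by_cases hbot : H = ⊥
    · rw [hbot, Subgroup.mem_bot] at hh
      rw [hh, mul_one, one_mul]
    obtain ⟨k, hk⟩ := IsPGroup.iff_card.mp hH
    have hk1 : 1 ≤ k := by
      rcases Nat.eq_zero_or_pos k with rfl | h
      · exfalso
        apply hbot
        rw [pow_zero] at hk
        exact Subgroup.card_eq_one.mp hk
      · exact h
    obtain ⟨K, hK⟩ := Sylow.exists_subgroup_card_pow_prime (G := H) 2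
      (show 2 ^ (k - 1) ∣ Nat.card H from hk ▸ pow_dvd_pow 2 (by omega))
    obtain ⟨M₀, hM₀⟩ : ∃ M₀ : Subgroup G, M₀ = K.map H.subtype := ⟨_, rfl⟩
    have hM₀H : M₀ ≤ H := by rw [hM₀]; exact Subgroup.map_subtype_le K
    have hM₀card : Nat.card M₀ = 2 ^ (k - 1) := by
      rw [hM₀, Subgroup.card_map_of_injective (Subgroup.subtype_injective H)]; exact hK
    have hM₀2 : 2 * Nat.card M₀ = Nat.card H := by
      rw [hM₀card, hk, ← pow_succ']; congr 1; omega
    letI := idx2Action H
    obtain ⟨t, ht⟩ := exists_gen_pair H c hcH hc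
    have hXcard : Nat.card {M : Subgroup G // M ≤ H ∧ 2 * Nat.card M = Nat.card H} ≤ 4 := by
      let f : {M : Subgroup G // M ≤ H ∧ 2 * Nat.card M = Nat.card H} → Prop × Prop :=
        fun M => (c ∈ M.1, t ∈ M.1)
      have hf : Function.Injective f := by
        intro M₁ M₂ h12
        apply Subtype.ext
        have h1 : (c ∈ M₁.1) = (c ∈ M₂.1) := congrArg Prod.fst h12
        have h2 : (t ∈ M₁.1) = (t ∈ M₂.1) := congrArg Prod.snd h12
        exact eq_of_relIndex_two_of_gens ht M₁.2.1 M₂.2.1 (relIndex_two_of_card M₁.2.1 M₁.2.2)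
          (relIndex_two_of_card M₂.2.1 M₂.2.2) (by rw [h1]) (by rw [h2])
      have := Nat.card_le_card_of_injective f hf
      have h4 : Nat.card (Prop × Prop) = 4 := by simp [Nat.card_prod]
      omega
    have hfix : ∀ M : {M : Subgroup G // M ≤ H ∧ 2 * Nat.card M = Nat.card H},
        (⟨g, hg⟩ : Subgroup.normalizer (H : Set G)) • M = M := by
      obtain ⟨g', hg'⟩ : ∃ g' : Subgroup.normalizer (H : Set G), g' = ⟨g, hg⟩ := ⟨_, rfl⟩
      rw [← hg']
      have ho : orderOf g' = orderOf g := by rw [hg']; exact Subgroup.orderOf_mk g hg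
      obtain ⟨σ, hσ⟩ : ∃ σ, σ = MulAction.toPermHom (Subgroup.normalizer (H : Set G))
        {M : Subgroup G // M ≤ H ∧ 2 * Nat.card M = Nat.card H} g' := ⟨_, rfl⟩
      have h1 : orderOf σ ∣ orderOf g := by
        rw [← ho, hσ]; exact orderOf_map_dvd _ g'
      have h2 : orderOf σ ∣ 24 := by
        have := orderOf_dvd_natCard σ
        rw [Nat.card_perm] at this
        exact this.trans (Nat.factorial_dvd_factorial hXcard)
      have h3 : orderOf σ = 1 := by
        have : orderOf σ ∣ Nat.gcd (orderOf g) 24 := Nat.dvd_gcd h1 h2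
        have hc24 : Nat.gcd (orderOf g) 24 = 1 :=
          Nat.Coprime.coprime_dvd_right (show 24 ∣ 6 ^ 3 by norm_num)
            (Nat.Coprime.pow_right 3 hcop)
        rw [hc24] at this
        exact Nat.dvd_one.mp this
      intro M
      have h5 : σ = 1 := orderOf_eq_one_iff.mp h3
      have h4 : σ M = M := by rw [h5]; rfl
      rw [hσ] at h4
      exact h4
    have hgM₀ : MulAut.conj g • M₀ = M₀ := by
      have := hfix ⟨M₀, hM₀H, hM₀2⟩
      exact congrArg Subtype.val this
    have hnorm : ∀ x, x ∈ M₀ ↔ g⁻¹ * x * g ∈ M₀ := by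
      intro x
      rw [← mem_conj_smul_iff, hgM₀]
    have hgN : g ∈ Subgroup.normalizer (M₀ : Set G) := by
      rw [Subgroup.mem_normalizer_iff]
      intro x
      rw [hnorm (g * x * g⁻¹)]
      have e : g⁻¹ * (g * x * g⁻¹) * g = x := by group
      rw [e]
    have hi2 : M₀.relIndex H = 2 := relIndex_two_of_card hM₀H hM₀2
    have hc' : ∃ c' ∈ M₀, Nat.card M₀ ≤ 2 * orderOf c' := by
      by_cases hcM : c ∈ M₀
      · exact ⟨c, hcM, by omega⟩
      · refine ⟨c ^ 2, ?_, ?_⟩
        · rw [pow_two, mul_mem_iff_of_relIndex_two hi2 hcH hcH]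
        · have h1 : orderOf c ∣ 2 * orderOf (c ^ 2) := by
            apply orderOf_dvd_of_pow_eq_one
            rw [pow_mul, pow_orderOf_eq_one]
          have h2 : 0 < orderOf (c ^ 2) := orderOf_pos _
          have h3 := Nat.le_of_dvd (by omega) h1
          omega
    have hM₀lt : Nat.card M₀ < n := by
      have : 0 < Nat.card M₀ := Nat.card_pos
      omega
    have hcentM := ih (Nat.card M₀) hM₀lt M₀ rfl (hH.to_le hM₀H) hc' g hgN hcop
    by_cases hhM : h ∈ M₀
    · exact hcentM h hhM
    · obtain ⟨y, hy⟩ : ∃ y, y = g * h * g⁻¹ := ⟨_, rfl⟩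
      have hyH : y ∈ H := by rw [hy]; exact (Subgroup.mem_normalizer_iff.mp hg h).mp hh
      have hyM : y ∉ M₀ := by
        intro hyM
        apply hhM
        have e := hcentM y hyM
        have e1 : h = g⁻¹ * (g * y) := by rw [e, hy]; group
        rw [e1, inv_mul_cancel_left]
        exact hyM
      obtain ⟨z, hz⟩ : ∃ z, z = h⁻¹ * y := ⟨_, rfl⟩
      have hzM : z ∈ M₀ := by
        rw [hz, mul_mem_iff_of_relIndex_two hi2 (H.inv_mem hh) hyH, inv_mem_iff]
        exact ⟨fun h' => absurd h' hhM, fun h' => absurd h' hyM⟩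
      have hgz : g * z = z * g := hcentM z hzM
      have hpow : ∀ i : ℕ, g ^ i * h * (g ^ i)⁻¹ = h * z ^ i := by
        intro i
        induction i with
        | zero => simp
        | succ i ihi =>
          have e1 : g ^ (i + 1) * h * (g ^ (i + 1))⁻¹ = g * (g ^ i * h * (g ^ i)⁻¹) * g⁻¹ := by
            rw [pow_succ']; group
          rw [e1, ihi]
          have e2 : g * (h * z ^ i) * g⁻¹ = (g * h * g⁻¹) * (g * z ^ i * g⁻¹) := by group
          have e3 : g * z ^ i * g⁻¹ = z ^ i := by
            have : Commute g (z ^ i) := (show Commute g z from hgz).pow_right i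
            rw [this.eq, mul_inv_cancel_right]
          have e4 : g * h * g⁻¹ = h * z := by rw [hz, hy]; group
          rw [e2, e3, e4, mul_assoc, ← pow_succ']
      have hzm : z ^ orderOf g = 1 := by
        have := hpow (orderOf g)
        rw [pow_orderOf_eq_one, one_mul, inv_one, mul_one] at this
        exact left_eq_mul.mp this
      have hz1 : z = 1 := by
        have h1 : orderOf z ∣ orderOf g := orderOf_dvd_of_pow_eq_one hzm
        obtain ⟨j, hj⟩ := (hH.to_le hM₀H) ⟨z, hzM⟩
        have h2 : orderOf z ∣ 2 ^ j := by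
          apply orderOf_dvd_of_pow_eq_one
          have := congrArg Subtype.val hj
          simpa using this
        have h3 : (orderOf g).Coprime (2 ^ j) :=
          Nat.Coprime.pow_right j (Nat.Coprime.coprime_dvd_right (by norm_num : 2 ∣ 6) hcop)
        have h4 : orderOf z ∣ Nat.gcd (orderOf g) (2 ^ j) := Nat.dvd_gcd h1 h2
        rw [h3.gcd_eq_one, Nat.dvd_one] at h4
        exact orderOf_eq_one_iff.mp h4
      have e5 : g * h * g⁻¹ = h := by
        have e : h * z = y := by rw [hz]; group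
        rw [← hy, ← e, hz1, mul_one]
      calc g * h = (g * h * g⁻¹) * g := by group
        _ = h * g := by rw [e5]

end

end Cfsg.Agent.Helper22
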