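import Mathlib
import Cfsg.Agent.Helper22.FrobCount2

set_option autoImplicit false

namespace Cfsg.Agent.Helper22

universe u

theorem sub_one_dvd_card_p_elts {G : Type*} [Group G] [Finite G] (p : ℕ) (hp : p.Prime) (a : ℕ) :
    (p - 1) ∣ Nat.card {g : G // g ^ (p ^ a) = 1 ∧ g ≠ 1} := by
  apply dvd_card_of_fibers (fun x : {g : G // g ^ (p ^ a) = 1 ∧ g ≠ 1} => orderOf x.1)
  intro d
  by_cases hne : Nonempty {x : {g : G // g ^ (p ^ a) = 1 ∧ g ≠ 1} // orderOf x.1 = d}
  · obtain ⟨⟨⟨x0, h1, h2⟩, hd⟩⟩ := hne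
    have hd' : orderOf x0 = d := hd
    have hd1 : d ∣ p ^ a := by rw [← hd']; exact orderOf_dvd_of_pow_eq_one h1
    obtain ⟨j, hj, hdj⟩ := (Nat.dvd_prime_pow hp).mp hd1
    have hj0 : j ≠ 0 := by
      rintro rfl
      rw [pow_zero] at hdj
      rw [hdj, orderOf_eq_one_iff] at hd'
      exact h2 hd'
    obtain ⟨j', rfl⟩ := Nat.exists_eq_succ_of_ne_zero hj0
    have h6 : Nat.card {x : {g : G // g ^ (p ^ a) = 1 ∧ g ≠ 1} // orderOf x.1 = d} =
        Nat.card {x : G // orderOf x = d} := by
      apply Nat.card_congr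
      exact
        { toFun := fun x => ⟨x.1.1, x.2⟩
          invFun := fun x => ⟨⟨x.1, by
            refine ⟨?_, ?_⟩
            · apply orderOf_dvd_iff_pow_eq_one.mp
              rw [x.2]; exact hd1
            · intro h
              have := x.2
              rw [h, orderOf_one, hdj] at this
              have h3 : 1 < p ^ (j' + 1) := Nat.one_lt_pow (by omega) hp.one_lt
              exact (ne_of_lt h3) this⟩, x.2⟩
          left_inv := fun x => rfl
          right_inv := fun x => rfl }
    rw [h6]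
    refine Dvd.dvd.trans ?_ (totient_dvd_card_orderOf_eq d)
    rw [hdj, Nat.totient_prime_pow_succ hp]
    exact Dvd.intro_left _ rfl
  · rw [not_nonempty_iff] at hne
    rw [Nat.card_of_isEmpty]
    exact dvd_zero _

theorem card_pow_eq_one_eq_succ {G : Type*} [Group G] [Finite G] (q : ℕ) :
    Nat.card {g : G // g ^ q = 1} = Nat.card {g : G // g ^ q = 1 ∧ g ≠ 1} + 1 := by
  classical
  have := Fintype.ofFinite G
  simp only [Nat.card_eq_fintype_card, Fintype.card_subtype]
  rw [← Finset.card_filter_add_card_filter_not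
    (s := Finset.univ.filter (fun g : G => g ^ q = 1)) (p := fun g : G => g ≠ 1),
    Finset.filter_filter, Finset.filter_filter]
  congr 1
  rw [Finset.card_eq_one]
  refine ⟨1, ?_⟩
  ext g
  simp only [Finset.mem_filter, Finset.mem_univ, true_and, Finset.mem_singleton, not_not]
  constructor
  · rintro ⟨_, h⟩; exact h
  · intro h; exact ⟨by rw [h, one_pow], h⟩

/-- p-elements are the solutions of `g ^ |P| = 1`. -/
theorem card_p_elts_eq {G : Type*} [Group G] [Finite G] (p : ℕ) [Fact p.Prime] (P : Sylow p G) :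
    Nat.card {g : G // ∃ k : ℕ, orderOf g = p ^ k} =
      Nat.card {g : G // g ^ (Nat.card (P : Subgroup G)) = 1} := by
  have hp : p.Prime := Fact.out
  apply Nat.card_congr
  apply Equiv.subtypeEquivRight
  intro g
  rw [Sylow.card_eq_multiplicity]
  constructor
  · rintro ⟨k, hk⟩
    apply orderOf_dvd_iff_pow_eq_one.mp
    rw [hk]
    apply pow_dvd_pow
    have h1 : p ^ k ∣ Nat.card G := by rw [← hk]; exact orderOf_dvd_natCard g
    exact (hp.pow_dvd_iff_le_factorization Nat.card_pos.ne').mp h1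
  · intro h
    obtain ⟨k, _, hk⟩ := (Nat.dvd_prime_pow hp).mp (orderOf_dvd_of_pow_eq_one h)
    exact ⟨k, hk⟩

/-- A non-normal Sylow `p`-subgroup: at least `p * |P|` elements of `p`-power order. -/
theorem mul_card_sylow_le_card_p_elts {G : Type u} [Group G] [Finite G] (p : ℕ) [Fact p.Prime]
    (P : Sylow p G) (hP : ¬ (P : Subgroup G).Normal) :
    p * Nat.card (P : Subgroup G) ≤ Nat.card {g : G // ∃ k : ℕ, orderOf g = p ^ k} := by
  have hp : p.Prime := Fact.out
  rw [card_p_elts_eq p P]
  obtain ⟨q, hq⟩ : ∃ q, q = Nat.card (P : Subgroup G) := ⟨_, rfl⟩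
  have hqa : q = p ^ (Nat.card G).factorization p := by rw [hq, Sylow.card_eq_multiplicity]
  rw [← hq]
  have hqpos : 0 < q := by rw [hq]; exact Nat.card_pos
  -- q divides the count
  have hdiv : q ∣ Nat.card {g : G // g ^ q = 1} :=
    frobenius_dvd_card_pow_eq_one q (by rw [hq]; exact Subgroup.card_subgroup_dvd_card _)
  obtain ⟨k, hk⟩ := hdiv
  -- the count exceeds q
  have hgt : q < Nat.card {g : G // g ^ q = 1} := by
    have hsub : ((P : Subgroup G) : Set G) ⊂ {g : G | g ^ q = 1} := by
      rw [Set.ssubset_iff_subset_ne]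
      constructor
      · intro x hx
        have := pow_card_eq_one' (G := (P : Subgroup G)) (x := ⟨x, hx⟩)
        rw [hq]
        exact congrArg Subtype.val this
      · intro heq
        apply hP
        constructor
        intro n hn g
        have h1 : (g * n * g⁻¹) ^ q = 1 := by
          have h2 : (g * n * g⁻¹) ^ q = g * n ^ q * g⁻¹ := conj_pow
          have h3 : n ^ q = 1 := by
            have : n ∈ {g : G | g ^ q = 1} := by rw [← heq]; exact hn
            exact this
          rw [h2, h3]; group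
        have : g * n * g⁻¹ ∈ ((P : Subgroup G) : Set G) := by rw [heq]; exact h1
        exact this
    have h1 := Set.ncard_lt_ncard hsub (Set.toFinite _)
    have h2 : ((P : Subgroup G) : Set G).ncard = q := by
      rw [hq]; rfl
    have h3 : {g : G | g ^ q = 1}.ncard = Nat.card {g : G // g ^ q = 1} := rfl
    rw [h2, h3] at h1
    exact h1
  have h4 := card_pow_eq_one_eq_succ (G := G) q
  have h5 := sub_one_dvd_card_p_elts (G := G) p hp ((Nat.card G).factorization p)
  rw [← hqa] at h5
  have h6 : p - 1 ∣ q - 1 := by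
    rw [hqa]
    have := Nat.sub_dvd_pow_sub_pow (x := p) (y := 1) (n := (Nat.card G).factorization p)
    rwa [one_pow] at this
  rw [hk] at hgt h4 ⊢
  have hk2 : 2 ≤ k := by
    by_contra hlt
    have : k ≤ 1 := by omega
    have : q * k ≤ q * 1 := Nat.mul_le_mul_left q this
    omega
  -- q * k - 1 = (q - 1) * k + (k - 1)
  have h7 : Nat.card {g : G // g ^ q = 1 ∧ g ≠ 1} = (q - 1) * k + (k - 1) := by
    obtain ⟨q', rfl⟩ : ∃ q', q = q' + 1 := ⟨q - 1, by omega⟩
    obtain ⟨k', rfl⟩ : ∃ k', k = k' + 1 := ⟨k - 1, by omega⟩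
    have : (q' + 1) * (k' + 1) = q' * (k' + 1) + k' + 1 := by ring
    simp only [Nat.add_sub_cancel]
    omega
  rw [h7] at h5
  have h8 : p - 1 ∣ k - 1 := (Nat.dvd_add_right (Dvd.dvd.mul_right h6 k)).mp h5
  have h9 : p - 1 ≤ k - 1 := Nat.le_of_dvd (by omega) h8
  have h10 : p ≤ k := by have := hp.two_le; omega
  rw [mul_comm p q]
  exact Nat.mul_le_mul_left q h10

end Cfsg.Agent.Helper22
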