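import Mathlib
import Cfsg.Prelude
import Cfsg.Agent.S0034
import Cfsg.Agent.Helper22.CyclicNorm
import Cfsg.Agent.Helper22.ConjClass
import Cfsg.Agent.Helper22.ConjSmul

set_option autoImplicit false

namespace Cfsg.Agent.Helper22

open scoped Pointwise

variable {G : Type*} [Group G]

/-- TI in element form: two conjugates of a TI subgroup sharing a nonidentity element coincide. -/
theorem ti_conj_iff (H : Subgroup G) (hTI : Cfsg.IsTISubset (H : Set G)) (a b x : G) (hx : x ≠ 1)
    (ha : a⁻¹ * x * a ∈ H) (hb : b⁻¹ * x * b ∈ H) (y : G) :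
    a⁻¹ * y * a ∈ H ↔ b⁻¹ * y * b ∈ H := by
  have hn : b⁻¹ * a ∈ Subgroup.normalizer (H : Set G) := by
    by_contra hn
    have h1 := hTI (b⁻¹ * a) hn (a⁻¹ * x * a) ha (by
      have : b⁻¹ * a * (a⁻¹ * x * a) * (b⁻¹ * a)⁻¹ = b⁻¹ * x * b := by group
      rw [this]; exact hb)
    apply hx
    have h2 : x = a * (a⁻¹ * x * a) * a⁻¹ := by group
    rw [h2, h1]; group
  rw [Subgroup.mem_normalizer_iff] at hn
  rw [hn (a⁻¹ * y * a)]
  have : b⁻¹ * a * (a⁻¹ * y * a) * (b⁻¹ * a)⁻¹ = b⁻¹ * y * b := by group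
  rw [this]

/-- An element of the normalizer of a Hall subgroup `H` whose order involves only primes dividing
`|H|` lies in `H`. -/
theorem mem_of_mem_normalizer_of_hall [Finite G] (H : Subgroup G)
    (hHall : (Nat.card H).Coprime H.index) (k : G) (hk : k ∈ Subgroup.normalizer (H : Set G))
    (hord : ∀ q : ℕ, q.Prime → q ∣ orderOf k → q ∣ Nat.card H) : k ∈ H := by
  haveI hnorm : (H.subgroupOf (Subgroup.normalizer (H : Set G))).Normal :=
    Subgroup.normal_in_normalizer
  have h1 : k ^ (H.relIndex (Subgroup.normalizer (H : Set G))) ∈ H := by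
    have := Subgroup.pow_index_mem (H.subgroupOf (Subgroup.normalizer (H : Set G)))
      (⟨k, hk⟩ : Subgroup.normalizer (H : Set G))
    rw [Subgroup.mem_subgroupOf] at this
    simp only [Subgroup.coe_pow] at this
    exact this
  have h2 : k ^ orderOf k ∈ H := by rw [pow_orderOf_eq_one]; exact H.one_mem
  apply coprime_pow_mem H k ?_ h2 h1
  apply Nat.coprime_of_dvd
  intro q hq hqk hqr
  have hqH := hord q hq hqk
  have hqi : q ∣ H.index := hqr.trans (Subgroup.relIndex_dvd_index_of_le Subgroup.le_normalizer)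
  have := Nat.dvd_gcd hqH hqi
  rw [hHall] at this
  exact hq.one_lt.ne' (Nat.dvd_one.mp this)

/-- Every element whose order involves only primes dividing `|H|`, `H` a TI Hall subgroup,
lies in a conjugate of `H`. -/
theorem exists_conj_mem_of_hall_ti [Finite G] (H : Subgroup G)
    (hHall : (Nat.card H).Coprime H.index) (hTI : Cfsg.IsTISubset (H : Set G)) (x : G)
    (hord : ∀ q : ℕ, q.Prime → q ∣ orderOf x → q ∣ Nat.card H) : ∃ a : G, a⁻¹ * x * a ∈ H := by
  by_cases hx1 : x = 1
  · exact ⟨1, by rw [hx1]; simp⟩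
  have ho : orderOf x ≠ 1 := fun h => hx1 (orderOf_eq_one_iff.mp h)
  obtain ⟨p, hp, hpd⟩ := Nat.exists_prime_and_dvd ho
  haveI : Fact p.Prime := ⟨hp⟩
  obtain ⟨y, hy⟩ : ∃ y, y = x ^ (orderOf x / p) := ⟨_, rfl⟩
  have hyo : orderOf y = p := by
    rw [hy]; exact orderOf_pow_orderOf_div (orderOf_pos x).ne' hpd
  have hyP : IsPGroup p (Subgroup.zpowers y) := by
    apply IsPGroup.of_card (n := 1)
    rw [Nat.card_zpowers, hyo, pow_one]
  have hpi : ¬ p ∣ H.index := by
    intro h
    have := Nat.dvd_gcd (hord p hp hpd) h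
    rw [hHall] at this
    exact hp.one_lt.ne' (Nat.dvd_one.mp this)
  obtain ⟨a, ha⟩ := exists_conj_le_of_not_dvd_index p (Subgroup.zpowers y) hyP H hpi
  have hya : a⁻¹ * y * a ∈ H := ha y (Subgroup.mem_zpowers y)
  have hy1 : y ≠ 1 := by
    intro h; rw [h, orderOf_one] at hyo; exact hp.one_lt.ne hyo
  refine ⟨a, ?_⟩
  have hxy : x * y = y * x := by
    rw [hy]; exact (Commute.pow_right (Commute.refl x) _).eq
  have hn : a⁻¹ * x * a ∈ Subgroup.normalizer (H : Set G) := by
    by_contra hn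
    have h1 := hTI (a⁻¹ * x * a) hn (a⁻¹ * y * a) hya (by
      have : a⁻¹ * x * a * (a⁻¹ * y * a) * (a⁻¹ * x * a)⁻¹ = a⁻¹ * (x * y * x⁻¹) * a := by group
      rw [this, hxy, mul_inv_cancel_right]; exact hya)
    apply hy1
    have h2 : y = a * (a⁻¹ * y * a) * a⁻¹ := by group
    rw [h2, h1]; group
  apply mem_of_mem_normalizer_of_hall H hHall _ hn
  intro q hq hqd
  apply hord q hq
  have : orderOf (a⁻¹ * x * a) = orderOf x := by
    have := (MulAut.conj a⁻¹).orderOf_eq x
    simpa using this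
  rwa [this] at hqd

/-- A subgroup whose order involves only primes dividing `|H|`, `H` a TI Hall subgroup, lies
in a conjugate of `H`. -/
theorem hall_ti_le_conj [Finite G] (H : Subgroup G)
    (hHall : (Nat.card H).Coprime H.index) (hTI : Cfsg.IsTISubset (H : Set G))
    (K : Subgroup G) (hK : ∀ q : ℕ, q.Prime → q ∣ Nat.card K → q ∣ Nat.card H) :
    ∃ a : G, ∀ k ∈ K, a⁻¹ * k * a ∈ H := by
  by_contra hcon
  push Not at hcon
  have hKord : ∀ k ∈ K, ∀ q : ℕ, q.Prime → q ∣ orderOf k → q ∣ Nat.card H := by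
    intro k hk q hq hqd
    apply hK q hq
    have : orderOf (⟨k, hk⟩ : K) = orderOf k := Subgroup.orderOf_mk k hk
    exact hqd.trans (this ▸ orderOf_dvd_natCard (⟨k, hk⟩ : K))
  have hmem : ∀ (a : G) (k : K), k ∈ (MulAut.conj a • H).subgroupOf K ↔
      a⁻¹ * (k : G) * a ∈ H := by
    intro a k
    rw [Subgroup.mem_subgroupOf, mem_conj_smul_iff]
  have hF : ∀ (a : G) (x : K), x ≠ 1 → a⁻¹ * (x : G) * a ∈ H →
      Cfsg.IsFrobeniusComplement ((MulAut.conj a • H).subgroupOf K) := by
    intro a x hx1 hxa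
    refine ⟨?_, ?_, ?_⟩
    · intro h
      have : x ∈ (MulAut.conj a • H).subgroupOf K := (hmem a x).mpr hxa
      rw [h, Subgroup.mem_bot] at this
      exact hx1 this
    · intro h
      obtain ⟨k, hk, hka⟩ := hcon a
      have : (⟨k, hk⟩ : K) ∈ (MulAut.conj a • H).subgroupOf K := by rw [h]; trivial
      exact hka ((hmem a _).mp this)
    · intro k hk
      rw [eq_bot_iff]
      intro z hz
      rw [Subgroup.mem_bot]
      obtain ⟨hz1, hz2⟩ := Subgroup.mem_inf.mp hz
      rw [mem_conj_smul_iff] at hz2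
      rw [hmem] at hz1 hz2
      by_contra hzne
      apply hk
      rw [hmem]
      have hzG : (z : G) ≠ 1 := fun e => hzne (Subtype.ext e)
      have hz2' : ((k : G) * a)⁻¹ * (z : G) * ((k : G) * a) ∈ H := by
        convert hz2 using 1
        simp only [Subgroup.coe_mul, Subgroup.coe_inv]
        group
      have hiff := ti_conj_iff H hTI a ((k : G) * a) (z : G) hzG hz1 hz2'
      have hn : a⁻¹ * (k : G) * a ∈ Subgroup.normalizer (H : Set G) := by
        rw [Subgroup.mem_normalizer_iff'']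
        intro h
        have := hiff (a * h * a⁻¹)
        have e1 : a⁻¹ * (a * h * a⁻¹) * a = h := by group
        have e2 : ((k : G) * a)⁻¹ * (a * h * a⁻¹) * ((k : G) * a) =
            (a⁻¹ * (k : G) * a)⁻¹ * h * (a⁻¹ * (k : G) * a) := by group
        rw [e1, e2] at this
        exact this
      apply mem_of_mem_normalizer_of_hall H hHall _ hn
      intro q hq hqd
      apply hKord k k.2 q hq
      have : orderOf (a⁻¹ * (k : G) * a) = orderOf (k : G) := by
        have := (MulAut.conj a⁻¹).orderOf_eq (k : G)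
        simpa using this
      rwa [this] at hqd
  have hKbot : K ≠ ⊥ := by
    rintro rfl
    obtain ⟨k, hk, hk1⟩ := hcon 1
    rw [Subgroup.mem_bot] at hk
    apply hk1; rw [hk]; simp
  obtain ⟨x₁, hx₁⟩ := Subgroup.ne_bot_iff_exists_ne_one.mp hKbot
  obtain ⟨a, ha⟩ := exists_conj_mem_of_hall_ti H hHall hTI (x₁ : G) (hKord _ x₁.2)
  have hFa := hF a x₁ hx₁ ha
  have hca := Cfsg.Agent.S0034.card_kernel _ hFa
  have key : ∀ (a : G), Cfsg.IsFrobeniusComplement ((MulAut.conj a • H).subgroupOf K) →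
      2 * ((MulAut.conj a • H).subgroupOf K).index ≤ Nat.card K ∧
      2 ≤ ((MulAut.conj a • H).subgroupOf K).index := by
    intro a hFa
    constructor
    · have h1 := Subgroup.card_mul_index ((MulAut.conj a • H).subgroupOf K)
      have hpos : 0 < Nat.card ((MulAut.conj a • H).subgroupOf K) := Nat.card_pos
      have hne1 : Nat.card ((MulAut.conj a • H).subgroupOf K) ≠ 1 :=
        fun e => hFa.1 (Subgroup.card_eq_one.mp e)
      have h2 : 2 ≤ Nat.card ((MulAut.conj a • H).subgroupOf K) := by omega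
      nlinarith
    · have h1 : ((MulAut.conj a • H).subgroupOf K).index ≠ 1 :=
        fun e => hFa.2.1 (Subgroup.index_eq_one.mp e)
      have h0 : ((MulAut.conj a • H).subgroupOf K).index ≠ 0 := Subgroup.index_ne_zero_of_finite
      omega
  obtain ⟨hi₁, hi₁'⟩ := key a hFa
  obtain ⟨x₂, hx₂Z, hx₂1⟩ :
      ∃ k ∈ Cfsg.frobeniusKernel ((MulAut.conj a • H).subgroupOf K), k ≠ 1 := by
    by_contra hno
    push Not at hno
    have hsub : Cfsg.frobeniusKernel ((MulAut.conj a • H).subgroupOf K) = {1} :=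
      Set.eq_singleton_iff_unique_mem.mpr ⟨Or.inl rfl, hno⟩
    rw [hsub] at hca
    simp at hca
    omega
  obtain ⟨b, hb⟩ := exists_conj_mem_of_hall_ti H hHall hTI (x₂ : G) (hKord _ x₂.2)
  have hFb := hF b x₂ hx₂1 hb
  have hcb := Cfsg.Agent.S0034.card_kernel _ hFb
  obtain ⟨hi₂, -⟩ := key b hFb
  have hcover : Cfsg.frobeniusKernel ((MulAut.conj a • H).subgroupOf K) ∪
      Cfsg.frobeniusKernel ((MulAut.conj b • H).subgroupOf K) = Set.univ := by
    rw [Set.eq_univ_iff_forall]
    intro y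
    by_contra hy
    rw [Set.mem_union, not_or] at hy
    obtain ⟨hy1, hy2⟩ := hy
    have hy1' : y ≠ 1 ∧ ∃ c : K, y ∈ MulAut.conj c • (MulAut.conj a • H).subgroupOf K := by
      constructor
      · intro h; exact hy1 (Or.inl h)
      · by_contra hc
        push Not at hc
        exact hy1 (Or.inr hc)
    have hy2' : ∃ c : K, y ∈ MulAut.conj c • (MulAut.conj b • H).subgroupOf K := by
      by_contra hc
      push Not at hc
      exact hy2 (Or.inr hc)
    obtain ⟨hyne, c, hc⟩ := hy1'
    obtain ⟨d, hd⟩ := hy2'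
    rw [mem_conj_smul_iff, hmem] at hc hd
    have hc' : ((c : G) * a)⁻¹ * (y : G) * ((c : G) * a) ∈ H := by
      convert hc using 1
      simp only [Subgroup.coe_mul, Subgroup.coe_inv]
      group
    have hd' : ((d : G) * b)⁻¹ * (y : G) * ((d : G) * b) ∈ H := by
      convert hd using 1
      simp only [Subgroup.coe_mul, Subgroup.coe_inv]
      group
    have hiff := ti_conj_iff H hTI ((c : G) * a) ((d : G) * b) (y : G)
      (fun e => hyne (Subtype.ext e)) hc' hd'
    rcases hx₂Z with h | h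
    · exact hx₂1 h
    · apply h (d⁻¹ * c)
      rw [mem_conj_smul_iff, hmem]
      have h3 := (hiff ((d : G) * x₂ * (d : G)⁻¹)).mpr (by
        have : ((d : G) * b)⁻¹ * ((d : G) * x₂ * (d : G)⁻¹) * ((d : G) * b) =
            b⁻¹ * (x₂ : G) * b := by group
        rw [this]; exact hb)
      convert h3 using 1
      simp only [Subgroup.coe_mul, Subgroup.coe_inv]
      group
  have hu := Set.ncard_union_add_ncard_inter
    (Cfsg.frobeniusKernel ((MulAut.conj a • H).subgroupOf K))
    (Cfsg.frobeniusKernel ((MulAut.conj b • H).subgroupOf K))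
  rw [hcover, Set.ncard_univ] at hu
  have hint : 1 ≤ (Cfsg.frobeniusKernel ((MulAut.conj a • H).subgroupOf K) ∩
      Cfsg.frobeniusKernel ((MulAut.conj b • H).subgroupOf K)).ncard := by
    rw [Nat.succ_le_iff, Set.ncard_pos]
    exact ⟨1, Or.inl rfl, Or.inl rfl⟩
  rw [Nat.card_coe_set_eq] at hca hcb
  omega

end Cfsg.Agent.Helper22
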