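import Mathlib
import Cfsg.Agent.Helper22.PGroupNorm
import Cfsg.Agent.Helper22.ConjClass

set_option autoImplicit false

namespace Cfsg.Agent.Helper22
open Subgroup

variable {G : Type*} [Group G]

/-- An involution normalizing a finite subgroup `Q` and centralizing no non-identity element of
`Q` inverts `Q`. -/
theorem inverts_of_fixed_point_free [Finite G] (Q : Subgroup G) (y : G) (hy2 : y * y = 1)
    (hyQ : y ∈ normalizer (Q : Set G)) (hfpf : ∀ q ∈ Q, y * q = q * y → q = 1) :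
    ∀ q ∈ Q, y * q * y⁻¹ = q⁻¹ := by
  have hyinv : y⁻¹ = y := inv_eq_of_mul_eq_one_left hy2
  let ψ : Q → Q := fun q => ⟨(q : G)⁻¹ * (y * q * y⁻¹),
    Q.mul_mem (Q.inv_mem q.2) (conj_mem_of_mem_normalizer hyQ q.2)⟩
  have hinj : Function.Injective ψ := by
    intro q r h
    have h1 : (q : G)⁻¹ * (y * q * y⁻¹) = (r : G)⁻¹ * (y * r * y⁻¹) := congrArg Subtype.val h
    have h2 : y * ((r : G) * (q : G)⁻¹) = (r : G) * (q : G)⁻¹ * y := by
      have h3 : y * (q : G) * y⁻¹ = (q : G) * ((r : G)⁻¹ * (y * r * y⁻¹)) := by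
        rw [← h1]; group
      calc y * ((r : G) * (q : G)⁻¹) = (y * r * y⁻¹) * (y * q * y⁻¹)⁻¹ * y := by group
        _ = (y * r * y⁻¹) * ((q : G) * ((r : G)⁻¹ * (y * r * y⁻¹)))⁻¹ * y := by rw [h3]
        _ = (r : G) * (q : G)⁻¹ * y := by group
    have h4 := hfpf _ (Q.mul_mem r.2 (Q.inv_mem q.2)) h2
    apply Subtype.ext
    exact (mul_inv_eq_one.mp h4).symm
  have hsurj : Function.Surjective ψ := Finite.injective_iff_surjective.mp hinj
  intro q hq
  obtain ⟨s, hs⟩ := hsurj ⟨q, hq⟩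
  have hs' : (s : G)⁻¹ * (y * s * y⁻¹) = q := congrArg Subtype.val hs
  rw [← hs', hyinv]
  have h1 : y * ((s : G)⁻¹ * (y * (s : G) * y)) * y = y * (s : G)⁻¹ * y * (s : G) * (y * y) := by
    group
  rw [h1, hy2, mul_one]
  have h2 : ((s : G)⁻¹ * (y * (s : G) * y))⁻¹ = y⁻¹ * (s : G)⁻¹ * y⁻¹ * s := by group
  rw [h2, hyinv]

theorem comm_of_inverts (Q : Subgroup G) (y : G) (hinv : ∀ q ∈ Q, y * q * y⁻¹ = q⁻¹) :
    ∀ a ∈ Q, ∀ b ∈ Q, a * b = b * a := by
  intro a ha b hb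
  have h1 := hinv (a * b) (Q.mul_mem ha hb)
  have h2 : y * (a * b) * y⁻¹ = (y * a * y⁻¹) * (y * b * y⁻¹) := by group
  rw [h2, hinv a ha, hinv b hb] at h1
  have h3 : (a⁻¹ * b⁻¹)⁻¹ = ((a * b)⁻¹)⁻¹ := by rw [h1]
  rw [inv_inv, mul_inv_rev, inv_inv, inv_inv] at h3
  exact h3.symm

/-- two involutions whose product has odd order are conjugate by a power of the product -/
theorem dihedral_conj [Finite G] (y y' : G) (hy : y * y = 1) (hy' : y' * y' = 1)
    (hodd : Odd (orderOf (y * y'))) :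
    ∃ k : ℕ, (y * y') ^ k * y * ((y * y') ^ k)⁻¹ = y' := by
  have hyinv : y⁻¹ = y := inv_eq_of_mul_eq_one_left hy
  have hyinv' : y'⁻¹ = y' := inv_eq_of_mul_eq_one_left hy'
  obtain ⟨k, hk⟩ := hodd
  refine ⟨k, ?_⟩
  have h1 : y * (y * y') * y⁻¹ = (y * y')⁻¹ := by
    rw [mul_inv_rev, hyinv, hyinv', ← mul_assoc, hy, one_mul]
  have h2 : y * ((y * y') ^ k)⁻¹ * y⁻¹ = (y * y') ^ k := by
    rw [← inv_pow, ← conj_pow, ← h1]
    congr 1
    rw [hyinv]
    have : y * (y * (y * y') * y) * y = (y * y) * (y * y') * (y * y) := by group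
    rw [this, hy, one_mul, mul_one]
  have h3 : (y * y') ^ (2 * k) = (y * y')⁻¹ := by
    have : (y * y') ^ (2 * k) * (y * y') = 1 := by
      rw [← pow_succ, ← hk, pow_orderOf_eq_one]
    exact eq_inv_of_mul_eq_one_left this
  calc (y * y') ^ k * y * ((y * y') ^ k)⁻¹
      = (y * y') ^ k * (y * ((y * y') ^ k)⁻¹ * y⁻¹) * y := by group
    _ = (y * y') ^ k * (y * y') ^ k * y := by rw [h2]
    _ = (y * y') ^ (2 * k) * y := by rw [← pow_add, two_mul]
    _ = y' := by rw [h3, mul_inv_rev, hyinv, hyinv', mul_assoc, hy, mul_one]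

/-- Sylow `p`-subgroup of a subgroup `C`, realised inside `G`, containing a given `p`-subgroup. -/
theorem exists_sylow_of_subgroup [Finite G] (p : ℕ) [Fact p.Prime] (C Q2 : Subgroup G)
    (hQ2 : IsPGroup p Q2) (hle : Q2 ≤ C) :
    ∃ T : Subgroup G, IsPGroup p T ∧ Q2 ≤ T ∧ T ≤ C ∧ ¬ p ∣ T.relIndex C := by
  have h1 : IsPGroup p (Q2.subgroupOf C) := hQ2.of_equiv (subgroupOfEquivOfLe hle).symm
  obtain ⟨P0, hP0⟩ := h1.exists_le_sylow
  refine ⟨(P0 : Subgroup C).map C.subtype, P0.isPGroup'.map _, ?_, map_subtype_le _, ?_⟩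
  · intro q hq
    exact ⟨⟨q, hle hq⟩, hP0 (mem_subgroupOf.mpr hq), rfl⟩
  · have : ((P0 : Subgroup C).map C.subtype).subgroupOf C = (P0 : Subgroup C) := by
      ext x
      rw [mem_subgroupOf]
      constructor
      · rintro ⟨z, hz, hzx⟩
        have : z = x := Subtype.ext hzx
        rwa [← this]
      · intro hx
        exact ⟨x, hx, rfl⟩
    show ¬ p ∣ (((P0 : Subgroup C).map C.subtype).subgroupOf C).index
    rw [this]
    exact P0.not_dvd_index

/-- Frattini argument, elementwise. -/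
theorem frattini_aux [Finite G] (p : ℕ) [Fact p.Prime] (C T : Subgroup G) (hT : IsPGroup p T)
    (hTC : T ≤ C) (hrel : ¬ p ∣ T.relIndex C) (n : G) (hn : n ∈ normalizer (C : Set G)) :
    ∃ c ∈ C, c⁻¹ * n ∈ normalizer (T : Set G) := by
  have h1 : T.map (MulAut.conj n).toMonoidHom ≤ C := by
    rintro _ ⟨r, hr, rfl⟩
    exact conj_mem_of_mem_normalizer hn (hTC hr)
  obtain ⟨c, hc, hc'⟩ := exists_conj_le_of_not_dvd_relIndex p _ C T (hT.map _) h1 hrel
  refine ⟨c, hc, ?_⟩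
  apply mem_normalizer_of_forall_conj_mem
  intro r hr
  have := hc' (n * r * n⁻¹) ⟨r, hr, rfl⟩
  have e : c⁻¹ * n * r * (c⁻¹ * n)⁻¹ = c⁻¹ * (n * r * n⁻¹) * c := by group
  rw [e]; exact this

end Cfsg.Agent.Helper22
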