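import Mathlib

set_option autoImplicit false

namespace Cfsg.Agent.Helper22

open Polynomial

section vs
variable {K : Type*} [Field K]

/-- the general linear group is transitive on nonzero vectors -/
theorem exists_linEquiv_apply_eq {V : Type*} [AddCommGroup V] [Module K V] (v w : V)
    (hv : v ≠ 0) (hw : w ≠ 0) : ∃ σ : V ≃ₗ[K] V, σ v = w := by
  by_cases hc : ∃ c : K, w = c • v
  · obtain ⟨c, rfl⟩ := hc
    have hc0 : c ≠ 0 := by rintro rfl; simp at hw
    exact ⟨LinearEquiv.smulOfNeZero K V c hc0, rfl⟩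
  · have hnot : v ∉ Submodule.span K {w - v} := by
      intro hmem
      obtain ⟨c, hc'⟩ := Submodule.mem_span_singleton.mp hmem
      have hc0 : c ≠ 0 := by
        rintro rfl
        rw [zero_smul] at hc'
        exact hv hc'.symm
      apply hc
      refine ⟨c⁻¹ * (1 + c), ?_⟩
      have h1 : c • w = (1 + c) • v := by
        rw [smul_sub, sub_eq_iff_eq_add] at hc'
        rw [add_smul, one_smul]
        exact hc'
      rw [mul_smul, ← h1, smul_smul, inv_mul_cancel₀ hc0, one_smul]
    obtain ⟨f, hf1, hf2⟩ := Submodule.exists_dual_map_eq_bot_of_notMem hnot inferInstance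
    have hfz : f (w - v) = 0 := by
      have h1 : f (w - v) ∈ (Submodule.span K {w - v}).map f :=
        Submodule.mem_map_of_mem (Submodule.mem_span_singleton_self _)
      rw [hf2] at h1
      simpa using h1
    let f' : Module.Dual K V := (f v)⁻¹ • f
    have hf'z : f' (w - v) = 0 := by simp [f', hfz]
    refine ⟨LinearEquiv.transvection hf'z, ?_⟩
    rw [LinearEquiv.transvection.apply]
    have h1 : f' v = 1 := by simp [f', hf1]
    rw [h1, one_smul]; abel

end vs

section cyclo
variable (p q : ℕ) [hp : Fact p.Prime] [hq : Fact q.Prime]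

theorem cyclo_irreducible (hpq : p ≠ q) (hord : orderOf (p : ZMod q) = q - 1) :
    Irreducible (cyclotomic q (ZMod p)) := by
  have hpn : ¬ p ∣ q := fun h => hpq ((Nat.prime_dvd_prime_iff_eq hp.out hq.out).mp h)
  apply ZMod.irreducible_of_dvd_cyclotomic_of_natDegree hpn dvd_rfl
  rw [natDegree_cyclotomic, Nat.totient_prime hq.out, ← hord, ← orderOf_units]
  simp

end cyclo

section modstruct
variable {p q : ℕ} [hp : Fact p.Prime] [hq : Fact q.Prime]
variable {V : Type*} [AddCommGroup V] [Module (ZMod p) V]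

/-- the ring hom from `AdjoinRoot Φ` to `End V` -/
noncomputable def cycloHom (T : Module.End (ZMod p) V)
    (hT : aeval T (cyclotomic q (ZMod p)) = 0) :
    AdjoinRoot (cyclotomic q (ZMod p)) →+* Module.End (ZMod p) V :=
  Ideal.Quotient.lift (Ideal.span {cyclotomic q (ZMod p)}) (aeval T).toRingHom (by
    intro a ha
    obtain ⟨c, rfl⟩ := Ideal.mem_span_singleton.mp ha
    simp [hT])

theorem cycloHom_root (T : Module.End (ZMod p) V)
    (hT : aeval T (cyclotomic q (ZMod p)) = 0) :
    cycloHom T hT (AdjoinRoot.root _) = T := by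
  show Ideal.Quotient.lift _ _ _ (Ideal.Quotient.mk _ X) = T
  rw [Ideal.Quotient.lift_mk]
  simp

omit hq in
theorem finite_adjoinRoot_cyclo : Finite (AdjoinRoot (cyclotomic q (ZMod p))) := by
  haveI : Module.Finite (ZMod p) (AdjoinRoot (cyclotomic q (ZMod p))) :=
    (AdjoinRoot.powerBasis (cyclotomic_ne_zero q (ZMod p))).finite
  exact Module.finite_of_finite (ZMod p)

theorem cyclo_model (hirr : Irreducible (cyclotomic q (ZMod p))) [Finite V]
    (T : Module.End (ZMod p) V) (hT : aeval T (cyclotomic q (ZMod p)) = 0) :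
    ∃ (n : ℕ) (e : V ≃+ (Fin n → AdjoinRoot (cyclotomic q (ZMod p)))),
      ∀ v, e (T v) = AdjoinRoot.root (cyclotomic q (ZMod p)) • e v := by
  haveI : Fact (Irreducible (cyclotomic q (ZMod p))) := ⟨hirr⟩
  haveI : Finite (AdjoinRoot (cyclotomic q (ZMod p))) := finite_adjoinRoot_cyclo
  letI m : Module (AdjoinRoot (cyclotomic q (ZMod p))) V := Module.compHom V (cycloHom T hT)
  haveI : Module.Finite (AdjoinRoot (cyclotomic q (ZMod p))) V := Module.Finite.of_finite
  let b := Module.finBasis (AdjoinRoot (cyclotomic q (ZMod p))) V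
  refine ⟨_, b.equivFun.toAddEquiv, fun v => ?_⟩
  have h := b.equivFun.map_smul (AdjoinRoot.root (cyclotomic q (ZMod p))) v
  have e1 : (AdjoinRoot.root (cyclotomic q (ZMod p))) • v = T v := by
    show (cycloHom T hT (AdjoinRoot.root _)) v = T v
    rw [cycloHom_root]
  rw [e1] at h
  exact h

theorem conj_of_cyclo (hirr : Irreducible (cyclotomic q (ZMod p))) [Finite V]
    (T₁ T₂ : Module.End (ZMod p) V) (h₁ : aeval T₁ (cyclotomic q (ZMod p)) = 0)
    (h₂ : aeval T₂ (cyclotomic q (ZMod p)) = 0) :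
    ∃ σ : V ≃+ V, ∀ v, σ (T₁ v) = T₂ (σ v) := by
  haveI : Fact (Irreducible (cyclotomic q (ZMod p))) := ⟨hirr⟩
  haveI : Finite (AdjoinRoot (cyclotomic q (ZMod p))) := finite_adjoinRoot_cyclo
  obtain ⟨n₁, e₁, he₁⟩ := cyclo_model hirr T₁ h₁
  obtain ⟨n₂, e₂, he₂⟩ := cyclo_model hirr T₂ h₂
  have hc1 : Nat.card V = Nat.card (AdjoinRoot (cyclotomic q (ZMod p))) ^ n₁ := by
    rw [Nat.card_congr e₁.toEquiv, Nat.card_fun, Nat.card_fin]
  have hc2 : Nat.card V = Nat.card (AdjoinRoot (cyclotomic q (ZMod p))) ^ n₂ := by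
    rw [Nat.card_congr e₂.toEquiv, Nat.card_fun, Nat.card_fin]
  have hn : n₁ = n₂ := by
    have h1 : 1 < Nat.card (AdjoinRoot (cyclotomic q (ZMod p))) := Finite.one_lt_card
    exact Nat.pow_right_injective h1 (hc1.symm.trans hc2)
  subst hn
  refine ⟨e₁.trans e₂.symm, fun v => ?_⟩
  show e₂.symm (e₁ (T₁ v)) = T₂ (e₂.symm (e₁ v))
  apply e₂.injective
  rw [AddEquiv.apply_symm_apply, he₂, AddEquiv.apply_symm_apply, he₁]

theorem trans_of_cyclo (hirr : Irreducible (cyclotomic q (ZMod p)))
    (T : Module.End (ZMod p) V) (hT : aeval T (cyclotomic q (ZMod p)) = 0)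
    (v w : V) (hv : v ≠ 0) (hw : w ≠ 0) :
    ∃ σ : V ≃+ V, σ v = w ∧ ∀ u, σ (T u) = T (σ u) := by
  haveI : Fact (Irreducible (cyclotomic q (ZMod p))) := ⟨hirr⟩
  letI m : Module (AdjoinRoot (cyclotomic q (ZMod p))) V := Module.compHom V (cycloHom T hT)
  obtain ⟨e, he⟩ := exists_linEquiv_apply_eq (K := AdjoinRoot (cyclotomic q (ZMod p))) v w hv hw
  refine ⟨e.toAddEquiv, he, fun u => ?_⟩
  have h := e.map_smul (AdjoinRoot.root _) u
  have e1 : ∀ x : V, (AdjoinRoot.root (cyclotomic q (ZMod p))) • x = T x := by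
    intro x
    show (cycloHom T hT (AdjoinRoot.root _)) x = T x
    rw [cycloHom_root]
  rw [e1, e1] at h
  exact h

end modstruct

section prim
variable {p q : ℕ} [hp : Fact p.Prime] [hq : Fact q.Prime]
variable {V : Type*} [AddCommGroup V] [Module (ZMod p) V]

theorem intertwine_aeval (S T T' : Module.End (ZMod p) V) (h : S * T = T' * S)
    (g : (ZMod p)[X]) : S * aeval T g = aeval T' g * S := by
  induction g using Polynomial.induction_on' with
  | add f g hf hg => simp [mul_add, add_mul, hf, hg]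
  | monomial n a =>
    have hn : S * T ^ n = T' ^ n * S := by
      induction n with
      | zero => simp
      | succ n ih => rw [pow_succ, ← mul_assoc, ih, mul_assoc, h, ← mul_assoc, ← pow_succ]
    calc S * aeval T (monomial n a)
        = S * (algebraMap _ _ a * T ^ n) := by rw [aeval_monomial]
      _ = algebraMap _ _ a * (S * T ^ n) := by
          rw [← mul_assoc, ← Algebra.commutes, mul_assoc]
      _ = algebraMap _ _ a * (T' ^ n * S) := by rw [hn]
      _ = aeval T' (monomial n a) * S := by rw [aeval_monomial, mul_assoc]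

theorem prim_of_trans [Finite V] [Nontrivial V] (hpq : p ≠ q) (T : Module.End (ZMod p) V)
    (hT : aeval T (cyclotomic q (ZMod p)) = 0)
    (htrans : ∀ v w : V, v ≠ 0 → w ≠ 0 → ∃ (S : Module.End (ZMod p) V) (i : ℕ),
        Function.Injective S ∧ S v = w ∧ S * T = T ^ i * S)
    (hpow : ∀ i : ℕ, ¬ q ∣ i → ∃ S : Module.End (ZMod p) V,
        Function.Injective S ∧ S * T = T ^ i * S) :
    orderOf (p : ZMod q) = q - 1 := by
  classical
  set N : V → Set V := fun v => Set.range (fun g : (ZMod p)[X] => aeval T g v) with hN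
  have hNle : ∀ v w : V, v ≠ 0 → w ≠ 0 → (N v).ncard ≤ (N w).ncard := by
    intro v w hv hw
    obtain ⟨S, i, hSinj, hSv, hST⟩ := htrans v w hv hw
    have hsub : S '' (N v) ⊆ N w := by
      rintro _ ⟨_, ⟨g, rfl⟩, rfl⟩
      refine ⟨g.comp (X ^ i), ?_⟩
      show aeval T (g.comp (X ^ i)) w = S (aeval T g v)
      have h1 := intertwine_aeval S T (T ^ i) hST g
      have h2 : S (aeval T g v) = aeval (T ^ i) g (S v) := by
        have h3 := congrArg (fun F : Module.End (ZMod p) V => F v) h1
        simpa using h3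
      rw [h2, hSv, aeval_comp]
      simp
    calc (N v).ncard = (S '' N v).ncard := (Set.ncard_image_of_injective (N v) hSinj).symm
      _ ≤ (N w).ncard := Set.ncard_le_ncard hsub (Set.toFinite _)
  have hNeq : ∀ v w : V, v ≠ 0 → w ≠ 0 → (N v).ncard = (N w).ncard :=
    fun v w hv hw => le_antisymm (hNle v w hv hw) (hNle w v hw hv)
  have hstar : ∀ v : V, v ≠ 0 → ∀ g : (ZMod p)[X], aeval T g v ≠ 0 →
      ∃ h : (ZMod p)[X], aeval T (h * g) v = v := by
    intro v hv g hg
    have hsub : N (aeval T g v) ⊆ N v := by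
      rintro _ ⟨h, rfl⟩
      exact ⟨h * g, by simp [aeval_mul]⟩
    have heq : N (aeval T g v) = N v :=
      Set.eq_of_subset_of_ncard_le hsub (hNeq _ _ hv hg).le (Set.toFinite _)
    have hv' : v ∈ N (aeval T g v) := by
      rw [heq]; exact ⟨1, by simp⟩
    obtain ⟨h, hh⟩ := hv'
    exact ⟨h, by simpa [aeval_mul] using hh⟩
  let I : V → Ideal (ZMod p)[X] := fun v =>
    { carrier := {g | aeval T g v = 0}
      add_mem' := by
        intro a b ha hb
        simp only [Set.mem_ofPred_eq] at *
        simp [ha, hb]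
      zero_mem' := by simp
      smul_mem' := by
        intro c g hg
        simp only [Set.mem_ofPred_eq] at *
        simp [hg] }
  have hImem : ∀ v g, g ∈ I v ↔ aeval T g v = 0 := fun v g => Iff.rfl
  have hImax : ∀ v : V, v ≠ 0 → (I v).IsMaximal := by
    intro v hv
    rw [Ideal.isMaximal_iff]
    refine ⟨?_, ?_⟩
    · rw [hImem]; simpa using hv
    · intro J x hIJ hx hxJ
      obtain ⟨h, hh⟩ := hstar v hv x ((hImem v x).not.mp hx)
      have h1 : h * x - 1 ∈ I v := by
        rw [hImem, map_sub, LinearMap.sub_apply, hh, map_one, Module.End.one_apply, sub_self]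
      have h2 : h * x - 1 ∈ J := hIJ h1
      have h3 : h * x ∈ J := J.mul_mem_left h hxJ
      have h4 : (1 : (ZMod p)[X]) = h * x - (h * x - 1) := by ring
      rw [h4]; exact J.sub_mem h3 h2
  have hIeq : ∀ v w : V, v ≠ 0 → w ≠ 0 → I v = I w := by
    intro v w hv hw
    by_contra hne
    have hsup := (hImax v hv).coprime_of_ne (hImax w hw) hne
    have h1 : (1 : (ZMod p)[X]) ∈ I v ⊔ I w := by rw [hsup]; trivial
    obtain ⟨a, ha, b, hb, hab⟩ := Submodule.mem_sup.mp h1
    rw [hImem] at ha hb
    by_cases hu : v + w = 0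
    · apply hne
      have hw' : w = -v := (neg_eq_of_add_eq_zero_right hu).symm
      ext g; rw [hImem, hImem, hw']; simp
    · have hpm : I v * I w ≤ I (v + w) := by
        rw [Ideal.mul_le]
        intro g hg h hh
        rw [hImem] at hg hh ⊢
        rw [map_add]
        have e1 : aeval T (g * h) v = 0 := by
          rw [mul_comm, aeval_mul, Module.End.mul_apply, hg, map_zero]
        have e2 : aeval T (g * h) w = 0 := by
          rw [aeval_mul, Module.End.mul_apply, hh, map_zero]
        rw [e1, e2, add_zero]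
      have hprime := (hImax _ hu).isPrime
      rcases (Ideal.IsPrime.mul_le hprime).mp hpm with hle | hle
      · have hau : a ∈ I (v + w) := hle ((hImem v a).mpr ha)
        rw [hImem, map_add, ha, zero_add] at hau
        have h2 : (1 : (ZMod p)[X]) ∈ I w := by
          rw [← hab]; exact (I w).add_mem ((hImem w a).mpr hau) ((hImem w b).mpr hb)
        exact (hImax w hw).ne_top ((Ideal.eq_top_iff_one _).mpr h2)
      · have hbu : b ∈ I (v + w) := hle ((hImem w b).mpr hb)
        rw [hImem, map_add, hb, add_zero] at hbu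
        have h2 : (1 : (ZMod p)[X]) ∈ I v := by
          rw [← hab]; exact (I v).add_mem ((hImem v a).mpr ha) ((hImem v b).mpr hbu)
        exact (hImax v hv).ne_top ((Ideal.eq_top_iff_one _).mpr h2)
  obtain ⟨v₀, hv₀⟩ := exists_ne (0 : V)
  have hann : ∀ g : (ZMod p)[X], g ∈ I v₀ ↔ aeval T g = 0 := by
    intro g
    constructor
    · intro hg
      apply LinearMap.ext
      intro w
      by_cases hw : w = 0
      · simp [hw]
      · have h1 : g ∈ I w := by rw [← hIeq v₀ w hv₀ hw]; exact hg
        simpa using (hImem w g).mp h1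
    · intro hg; rw [hImem, hg]; simp
  set f := Submodule.IsPrincipal.generator (I v₀) with hf
  have hfdvd : ∀ g, g ∈ I v₀ ↔ f ∣ g :=
    fun g => Submodule.IsPrincipal.mem_iff_generator_dvd (I v₀)
  have hΦmem : cyclotomic q (ZMod p) ∈ I v₀ := (hann _).mpr hT
  have hf0 : f ≠ 0 := by
    intro h0
    have h1 := (hfdvd _).mp hΦmem
    rw [h0, zero_dvd_iff] at h1
    exact cyclotomic_ne_zero q (ZMod p) h1
  have hfirr : Irreducible f := by
    have hprime : (Ideal.span {f}).IsPrime := by
      rw [hf, Ideal.span_singleton_generator]; exact (hImax v₀ hv₀).isPrime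
    exact ((Ideal.span_singleton_prime hf0).mp hprime).irreducible
  have hfΦ : f ∣ cyclotomic q (ZMod p) := (hfdvd _).mp hΦmem
  have hfcomp : ∀ i : ℕ, ¬ q ∣ i → f ∣ f.comp (X ^ i) := by
    intro i hi
    obtain ⟨S, hSinj, hST⟩ := hpow i hi
    have hSsurj : Function.Surjective S := Finite.injective_iff_surjective.mp hSinj
    rw [← hfdvd, hann]
    have h1 := intertwine_aeval S T (T ^ i) hST f
    have hfT : aeval T f = 0 := (hann f).mp ((hfdvd f).mpr dvd_rfl)
    rw [hfT, mul_zero] at h1
    have h2 : aeval (T ^ i) f = 0 := by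
      apply LinearMap.ext
      intro w
      obtain ⟨u, rfl⟩ := hSsurj w
      have h3 := congrArg (fun F : Module.End (ZMod p) V => F u) h1
      simpa using h3.symm
    rw [aeval_comp]; simpa using h2
  -- the field L
  haveI : Fact (Irreducible f) := ⟨hfirr⟩
  set ζ : AdjoinRoot f := AdjoinRoot.root f with hζdef
  have hζf : aeval ζ f = 0 := by
    rw [aeval_def, AdjoinRoot.algebraMap_eq]; exact AdjoinRoot.eval₂_root f
  have hdvd0 : ∀ g : (ZMod p)[X], f ∣ g → aeval ζ g = 0 := by
    rintro g ⟨c, rfl⟩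
    rw [aeval_mul, hζf, zero_mul]
  haveI : CharP (AdjoinRoot f) p :=
    charP_of_injective_algebraMap (algebraMap (ZMod p) (AdjoinRoot f)).injective p
  haveI : NeZero ((q : ℕ) : AdjoinRoot f) := by
    constructor
    intro h0
    rw [CharP.cast_eq_zero_iff (AdjoinRoot f) p q] at h0
    exact hpq ((Nat.prime_dvd_prime_iff_eq hp.out hq.out).mp h0)
  have hζprim : IsPrimitiveRoot ζ q := by
    rw [← isRoot_cyclotomic_iff, IsRoot.def, ← map_cyclotomic q (algebraMap (ZMod p) (AdjoinRoot f)),
      eval_map, ← aeval_def]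
    exact hdvd0 _ hfΦ
  have hroots : ∀ i : ℕ, ¬ q ∣ i → aeval (ζ ^ i) f = 0 := by
    intro i hi
    have h1 := hdvd0 _ (hfcomp i hi)
    rw [aeval_comp] at h1
    simpa using h1
  have hfmap0 : f.map (algebraMap (ZMod p) (AdjoinRoot f)) ≠ 0 :=
    (Polynomial.map_ne_zero_iff (algebraMap (ZMod p) (AdjoinRoot f)).injective).mpr hf0
  have hq2 := hq.out.two_le
  have hcard : q - 1 ≤ f.natDegree := by
    have hinj : Set.InjOn (fun i : ℕ => ζ ^ i) (Finset.Icc 1 (q - 1) : Finset ℕ) := by
      intro i hi j hj hij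
      rw [Finset.coe_Icc, Set.mem_Icc] at hi hj
      exact hζprim.pow_inj (by omega) (by omega) hij
    have hsub : ((Finset.Icc 1 (q - 1)).image (fun i : ℕ => ζ ^ i)).val ⊆
        (f.map (algebraMap (ZMod p) (AdjoinRoot f))).roots := by
      intro x hx
      rw [Finset.mem_val, Finset.mem_image] at hx
      obtain ⟨i, hi, rfl⟩ := hx
      rw [Finset.mem_Icc] at hi
      rw [mem_roots hfmap0, IsRoot.def, eval_map, ← aeval_def]
      apply hroots
      intro hqi
      have := Nat.le_of_dvd (by omega) hqi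
      omega
    have h1 := card_le_degree_of_subset_roots hsub
    rw [Finset.card_image_of_injOn hinj, Nat.card_Icc, natDegree_map] at h1
    omega
  have hdeg : f.natDegree = orderOf (p : ZMod q) := by
    have hcop : p.Coprime q := (Nat.coprime_primes hp.out hq.out).mpr hpq
    have h1 := natDegree_of_dvd_cyclotomic_of_irreducible (K := ZMod p) (p := p) (f := 1) (n := q)
      (by simp [ZMod.card]) hcop hfΦ hfirr
    rw [h1, ← orderOf_units]
    simp
  have hle : f.natDegree ≤ q - 1 := by
    have h1 := natDegree_le_of_dvd hfΦ (cyclotomic_ne_zero q (ZMod p))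
    rw [natDegree_cyclotomic, Nat.totient_prime hq.out] at h1
    exact h1
  omega

end prim

end Cfsg.Agent.Helper22
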