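import Mathlib
import Cfsg.Agent.Helper22.Orb3Lin

set_option autoImplicit false

namespace Cfsg.Agent.Helper22

open Polynomial

section bridge
variable {p q : ℕ} [hp : Fact p.Prime] [hq : Fact q.Prime]
variable {A : Type*} [CommGroup A] [hexp : Fact (∀ a : A, a ^ p = 1)]

/-- the `ZMod p`-module structure on `Additive A` for `A` of exponent `p` -/
@[reducible] def addModuleOfExp : Module (ZMod p) (Additive A) :=
  AddCommGroup.zmodModule (n := p) (fun x => congrArg Additive.ofMul (hexp.out (Additive.toMul x)))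

attribute [local instance] addModuleOfExp

/-- an endomorphism of `A` as a linear map -/
noncomputable def grpT (φ : A →* A) : Module.End (ZMod p) (Additive A) :=
  (MonoidHom.toAdditive φ).toZModLinearMap p

theorem grpT_apply (φ : A →* A) (x : Additive A) :
    grpT (p := p) φ x = Additive.ofMul (φ (Additive.toMul x)) := rfl

theorem grpT_pow' (φ : MulAut A) (k : ℕ) (x : Additive A) :
    ((grpT (p := p) φ.toMonoidHom) ^ k) x = Additive.ofMul ((φ ^ k) (Additive.toMul x)) := by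
  induction k generalizing x with
  | zero => rfl
  | succ k ih =>
    rw [pow_succ, Module.End.mul_apply, ih, pow_succ]
    rfl

theorem grpT_cyclo (φ : MulAut A) (hφ : ∀ a, ∏ k ∈ Finset.range q, (φ ^ k) a = 1) :
    aeval (grpT (p := p) φ.toMonoidHom) (cyclotomic q (ZMod p)) = 0 := by
  rw [cyclotomic_prime, map_sum]
  apply LinearMap.ext
  intro x
  rw [LinearMap.sum_apply]
  simp only [map_pow, aeval_X, grpT_pow']
  rw [← ofMul_prod, hφ]
  rfl

end bridge

section grp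
variable {p q : ℕ} [hp : Fact p.Prime] [hq : Fact q.Prime]
variable {A : Type*} [CommGroup A]

attribute [local instance] addModuleOfExp

theorem grp_conj (hirr : Irreducible (cyclotomic q (ZMod p))) [Finite A]
    (hexp' : ∀ a : A, a ^ p = 1) (φ ψ : MulAut A)
    (hφ : ∀ a, ∏ k ∈ Finset.range q, (φ ^ k) a = 1)
    (hψ : ∀ a, ∏ k ∈ Finset.range q, (ψ ^ k) a = 1) :
    ∃ σ : MulAut A, ∀ a, σ (φ a) = ψ (σ a) := by
  haveI : Fact (∀ a : A, a ^ p = 1) := ⟨hexp'⟩
  obtain ⟨σ, hσ⟩ := conj_of_cyclo hirr (grpT (p := p) φ.toMonoidHom) (grpT ψ.toMonoidHom)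
    (grpT_cyclo φ hφ) (grpT_cyclo ψ hψ)
  refine ⟨MulEquiv.toAdditive.symm σ, fun a => ?_⟩
  exact congrArg Additive.toMul (hσ (Additive.ofMul a))

theorem grp_trans (hirr : Irreducible (cyclotomic q (ZMod p)))
    (hexp' : ∀ a : A, a ^ p = 1) (φ : MulAut A)
    (hφ : ∀ a, ∏ k ∈ Finset.range q, (φ ^ k) a = 1) (v w : A) (hv : v ≠ 1) (hw : w ≠ 1) :
    ∃ σ : MulAut A, σ v = w ∧ ∀ a, σ (φ a) = φ (σ a) := by
  haveI : Fact (∀ a : A, a ^ p = 1) := ⟨hexp'⟩
  obtain ⟨σ, hσv, hσ⟩ := trans_of_cyclo hirr (grpT (p := p) φ.toMonoidHom)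
    (grpT_cyclo φ hφ) (Additive.ofMul v) (Additive.ofMul w) (by simpa using hv) (by simpa using hw)
  refine ⟨MulEquiv.toAdditive.symm σ, ?_, fun a => ?_⟩
  · exact congrArg Additive.toMul hσv
  · exact congrArg Additive.toMul (hσ (Additive.ofMul a))

theorem grp_prim [Finite A] [Nontrivial A] (hpq : p ≠ q) (hexp' : ∀ a : A, a ^ p = 1)
    (φ : MulAut A) (hφ : ∀ a, ∏ k ∈ Finset.range q, (φ ^ k) a = 1)
    (htrans : ∀ v w : A, v ≠ 1 → w ≠ 1 → ∃ (σ : A →* A) (i : ℕ),
      Function.Injective σ ∧ σ v = w ∧ ∀ a, σ (φ a) = (φ ^ i) (σ a))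
    (hpow : ∀ i : ℕ, ¬ q ∣ i → ∃ σ : A →* A,
      Function.Injective σ ∧ ∀ a, σ (φ a) = (φ ^ i) (σ a)) :
    orderOf (p : ZMod q) = q - 1 := by
  haveI : Fact (∀ a : A, a ^ p = 1) := ⟨hexp'⟩
  haveI : Nontrivial (Additive A) := inferInstanceAs (Nontrivial A)
  haveI : Finite (Additive A) := inferInstanceAs (Finite A)
  apply prim_of_trans hpq (grpT (p := p) φ.toMonoidHom) (grpT_cyclo φ hφ)
  · intro v w hv hw
    obtain ⟨σ, i, hinj, hvw, hσ⟩ := htrans (Additive.toMul v) (Additive.toMul w)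
      (by simpa using hv) (by simpa using hw)
    refine ⟨grpT σ, i, hinj, congrArg Additive.ofMul hvw, ?_⟩
    apply LinearMap.ext
    intro x
    rw [Module.End.mul_apply, Module.End.mul_apply, grpT_pow']
    exact congrArg Additive.ofMul (hσ (Additive.toMul x))
  · intro i hi
    obtain ⟨σ, hinj, hσ⟩ := hpow i hi
    refine ⟨grpT σ, hinj, ?_⟩
    apply LinearMap.ext
    intro x
    rw [Module.End.mul_apply, Module.End.mul_apply, grpT_pow']
    exact congrArg Additive.ofMul (hσ (Additive.toMul x))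

end grp

/-- two commuting automorphisms of order dividing `q` generating a group all of whose
non-identity elements have trivial norm: then the group has exponent dividing `q` -/
theorem fpf_klein {A : Type*} [CommGroup A] {q : ℕ} (hq : 2 ≤ q) (φ ψ : MulAut A)
    (hcomm : Commute φ ψ)
    (hN : ∀ i j : ℕ, (¬ q ∣ i ∨ ¬ q ∣ j) →
      ∀ a, ∏ k ∈ Finset.range q, ((φ ^ i * ψ ^ j) ^ k) a = 1) (a : A) : a ^ q = 1 := by
  have h1 : ∏ m ∈ Finset.range q, ∏ k ∈ Finset.range q, ((φ ^ 1 * ψ ^ m) ^ k) a = 1 := by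
    apply Finset.prod_eq_one
    intro m _
    exact hN 1 m (Or.inl (by intro h; have := Nat.le_of_dvd one_pos h; omega)) a
  rw [Finset.prod_comm] at h1
  have h2 : ∀ k ∈ Finset.range q, ∏ m ∈ Finset.range q, ((φ ^ 1 * ψ ^ m) ^ k) a =
      if k = 0 then a ^ q else 1 := by
    intro k hk
    have h3 : ∀ m, ((φ ^ 1 * ψ ^ m) ^ k) a = (φ ^ k) (((φ ^ 0 * ψ ^ k) ^ m) a) := by
      intro m
      rw [pow_one, pow_zero, one_mul, (hcomm.pow_right m).mul_pow, ← pow_mul, ← pow_mul,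
        mul_comm m k]
      rfl
    simp_rw [h3]
    rw [← map_prod]
    split_ifs with hk0
    · subst hk0
      simp
    · rw [hN 0 k (Or.inr ?_) a, map_one]
      intro hdvd
      rw [Finset.mem_range] at hk
      exact hk0 (Nat.eq_zero_of_dvd_of_lt hdvd hk)
  rw [Finset.prod_congr rfl h2, Finset.prod_ite_eq' (Finset.range q) 0 (fun _ => a ^ q)] at h1
  rw [if_pos (Finset.mem_range.mpr (by omega))] at h1
  exact h1

/-- extending a homomorphism from a normal subgroup with a cyclic complement -/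
theorem extend_hom {G : Type*} [Group G] [Finite G] (P : Subgroup G) [P.Normal] (y : G)
    (hgen : ∀ g : G, ∃ u ∈ P, ∃ k : ℕ, g = u * y ^ k)
    (hint : ∀ h ∈ Subgroup.zpowers y, h ∈ P → h = 1)
    {H : Type*} [Group H] (σ : P →* H) (z : H) (hz : z ^ orderOf y = 1)
    (hσ : ∀ u : P, σ (MulAut.conjNormal y u) = z * σ u * z⁻¹) :
    ∃ α : G →* H, (∀ u : P, α u = σ u) ∧ α y = z ∧
      ∀ (u : P) (k : ℕ), α (u * y ^ k) = σ u * z ^ k := by
  classical
  have huniq : ∀ (u u' : G) (k l : ℕ), u ∈ P → u' ∈ P → u * y ^ k = u' * y ^ l →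
      u = u' ∧ z ^ k = z ^ l := by
    intro u u' k l hu hu' h
    have h1 : y ^ k * (y ^ l)⁻¹ = u⁻¹ * u' := by
      have h0 : y ^ k = u⁻¹ * u' * y ^ l := by rw [mul_assoc, ← h, inv_mul_cancel_left]
      rw [h0, mul_inv_cancel_right]
    have h2 : y ^ k * (y ^ l)⁻¹ = 1 := by
      apply hint
      · exact Subgroup.mul_mem _ (Subgroup.pow_mem _ (Subgroup.mem_zpowers y) k)
          (Subgroup.inv_mem _ (Subgroup.pow_mem _ (Subgroup.mem_zpowers y) l))
      · rw [h1]; exact P.mul_mem (P.inv_mem hu) hu'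
    have h3 : y ^ k = y ^ l := mul_inv_eq_one.mp h2
    refine ⟨?_, ?_⟩
    · rw [h3] at h; exact mul_right_cancel h
    · have h4 : k ≡ l [MOD orderOf y] := pow_eq_pow_iff_modEq.mp h3
      have h5 : orderOf z ∣ orderOf y := orderOf_dvd_of_pow_eq_one hz
      exact pow_eq_pow_iff_modEq.mpr (h4.of_dvd h5)
  have hconj : ∀ (k : ℕ) (u : P),
      σ ((MulAut.conjNormal y ^ k) u) = z ^ k * σ u * (z ^ k)⁻¹ := by
    intro k
    induction k with
    | zero => intro u; simp
    | succ k ih =>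
      intro u
      rw [pow_succ', MulAut.mul_apply, hσ, ih, pow_succ']
      group
  choose U hU K hK using hgen
  let f : G → H := fun g => σ ⟨U g, hU g⟩ * z ^ K g
  have hf : ∀ (u : G) (hu : u ∈ P) (k : ℕ), f (u * y ^ k) = σ ⟨u, hu⟩ * z ^ k := by
    intro u hu k
    obtain ⟨e1, e2⟩ := huniq (U (u * y ^ k)) u (K (u * y ^ k)) k (hU _) hu (hK (u * y ^ k)).symm
    show σ ⟨U (u * y ^ k), hU _⟩ * z ^ K (u * y ^ k) = σ ⟨u, hu⟩ * z ^ k
    rw [e2]
    have e3 : (⟨U (u * y ^ k), hU _⟩ : P) = ⟨u, hu⟩ := Subtype.ext e1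
    rw [e3]
  have hmul : ∀ a b : G, f (a * b) = f a * f b := by
    intro a b
    have ea := hK a
    have eb := hK b
    set u := U a with hu_def
    set k := K a with hk_def
    set u' := U b with hu'_def
    set l := K b with hl_def
    have hu : u ∈ P := hU a
    have hu' : u' ∈ P := hU b
    have e : a * b = (u * ((MulAut.conjNormal y ^ k) ⟨u', hu'⟩ : P)) * y ^ (k + l) := by
      rw [ea, eb, ← map_pow, MulAut.conjNormal_apply, pow_add]
      group
    have hmem : u * ((MulAut.conjNormal y ^ k) ⟨u', hu'⟩ : P) ∈ P :=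
      P.mul_mem hu (SetLike.coe_mem _)
    have e4 : (⟨u * ((MulAut.conjNormal y ^ k) ⟨u', hu'⟩ : P), hmem⟩ : P) =
        ⟨u, hu⟩ * (MulAut.conjNormal y ^ k) ⟨u', hu'⟩ := rfl
    have hfa : f a = σ ⟨u, hu⟩ * z ^ k := rfl
    have hfb : f b = σ ⟨u', hu'⟩ * z ^ l := rfl
    rw [hfa, hfb, e, hf _ hmem (k + l), e4, map_mul, hconj, pow_add]
    group
  refine ⟨MonoidHom.mk' f hmul, ?_, ?_, ?_⟩
  · intro u
    have h1 := hf u u.2 0
    rw [pow_zero, mul_one, pow_zero, mul_one] at h1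
    exact h1
  · have h1 := hf 1 P.one_mem 1
    have h2 : (⟨1, P.one_mem⟩ : P) = 1 := rfl
    rw [h2, map_one, one_mul, one_mul, pow_one, pow_one] at h1
    exact h1
  · intro u k
    exact hf u u.2 k

end Cfsg.Agent.Helper22
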