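import Mathlib
import Cfsg.Prelude.Def_Transfer
import Cfsg.Agent.Helper22.Orb3Grp
import Cfsg.Agent.S0144

set_option autoImplicit false

namespace Cfsg.Agent.Helper22

open Polynomial

/-- the commutative group structure on an abelian subgroup -/
@[reducible] def commGroupOfAbelian {G : Type*} [Group G] (A : Subgroup G)
    (h : ∀ x ∈ A, ∀ y ∈ A, x * y = y * x) : CommGroup A :=
  { (inferInstance : Group A) with mul_comm := fun x y => Subtype.ext (h x x.2 y y.2) }

theorem orb_eq_iff {G : Type*} [Group G] (g h : G) :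
    (Quotient.mk'' g : MulAction.orbitRel.Quotient (MulAut G) G) = Quotient.mk'' h ↔
      ∃ α : MulAut G, α h = g := by
  rw [Quotient.eq'']
  exact MulAction.orbitRel_apply.trans MulAction.mem_orbit_iff

theorem orb_orderOf_eq {G : Type*} [Group G] (g h : G)
    (hgh : (Quotient.mk'' g : MulAction.orbitRel.Quotient (MulAut G) G) = Quotient.mk'' h) :
    orderOf g = orderOf h := by
  obtain ⟨α, hα⟩ := (orb_eq_iff g h).mp hgh
  rw [← hα]
  exact MulEquiv.orderOf_eq α h

theorem conj_norm_eq_one {G : Type*} [Group G] (p q : ℕ) [hp : Fact p.Prime]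
    (A : Subgroup G) [A.Normal] (hAcomm : ∀ x ∈ A, ∀ y ∈ A, x * y = y * x)
    (hexp : ∀ a ∈ A, a ^ p = 1)
    (hfpf : ∀ x y : G, orderOf x = q → orderOf y = p → x * y * x⁻¹ ≠ y)
    (g : G) (hg : orderOf g = q) :
    letI := commGroupOfAbelian A hAcomm
    ∀ u : A, ∏ k ∈ Finset.range q, ((MulAut.conjNormal g : MulAut A) ^ k) u = 1 := by
  letI := commGroupOfAbelian A hAcomm
  intro u
  set f : ℕ → A := fun k => ((MulAut.conjNormal g : MulAut A) ^ k) u with hf
  set w : A := ∏ k ∈ Finset.range q, f k with hw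
  have h1 : (MulAut.conjNormal g : MulAut A) w = w := by
    rw [hw, map_prod]
    have h2 : ∀ k, (MulAut.conjNormal g : MulAut A) (f k) = f (k + 1) := by
      intro k
      simp only [hf]
      rw [pow_succ', MulAut.mul_apply]
    simp_rw [h2]
    have h3 := Finset.prod_range_succ' f q
    have h4 := Finset.prod_range_succ f q
    have h5 : f q = f 0 := by
      simp only [hf]
      rw [← map_pow, ← hg, pow_orderOf_eq_one, map_one, pow_zero]
    rw [h4, h5] at h3
    exact (mul_right_cancel h3).symm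
  have h6 : g * (w : G) * g⁻¹ = w := by
    have h := congrArg Subtype.val h1
    rwa [MulAut.conjNormal_apply] at h
  by_contra hne
  have h7 : orderOf (w : G) = p := by
    apply orderOf_eq_prime (hexp _ w.2)
    intro h
    exact hne (Subtype.ext h)
  exact hfpf g w hg h7 h6

theorem orb3_forward_core {G : Type*} [Group G] [Finite G] (p q : ℕ) [hp : Fact p.Prime]
    [hq : Fact q.Prime] (hpq : p ≠ q)
    (O1 : ∀ g : G, orderOf g = 1 ∨ orderOf g = p ∨ orderOf g = q)
    (O2 : ∀ g h : G, orderOf g = p → orderOf h = p → ∃ α : MulAut G, α g = h)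
    (O3 : ∀ g h : G, orderOf g = q → orderOf h = q → ∃ α : MulAut G, α g = h)
    (a b : G) (ha : orderOf a = p) (hb : orderOf b = q)
    (A : Subgroup G) [hAchar : A.Characteristic]
    (hAcomm : ∀ x ∈ A, ∀ y ∈ A, x * y = y * x)
    (c : G) (hc : c ∈ A) (hcp : orderOf c = p) :
    ∃ n : ℕ, 1 ≤ n ∧ Nat.card G = p ^ n * q ∧
      (∀ P : Sylow p G, (P : Subgroup G).Normal ∧ Cfsg.IsElementaryAbelian p (P : Subgroup G)) ∧
      orderOf (p : ZMod q) = q - 1 ∧
      ∀ x y : G, orderOf x = q → orderOf y = p → x * y * x⁻¹ ≠ y := by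
  classical
  have hp1 := hp.out.one_lt
  have hq1 := hq.out.one_lt
  have hcop : Nat.Coprime p q := (Nat.coprime_primes hp.out hq.out).mpr hpq
  have hchar : ∀ (α : MulAut G) (x : G), x ∈ A → α x ∈ A := by
    intro α x hx
    exact (Subgroup.characteristic_iff_map_le.mp hAchar α) (Subgroup.mem_map_of_mem _ hx)
  haveI hAn : A.Normal := Subgroup.normal_of_characteristic A
  have hpA : ∀ g : G, orderOf g = p → g ∈ A := by
    intro g hg
    obtain ⟨α, hα⟩ := O2 c g hcp hg
    rw [← hα]; exact hchar α c hc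
  have hmulord : ∀ x y : G, orderOf x = q → orderOf y = p → Commute x y → False := by
    intro x y hx hy hxy
    have h1 : orderOf (x * y) = q * p := by
      rw [hxy.orderOf_mul_eq_mul_orderOf_of_coprime (by rw [hx, hy]; exact hcop.symm), hx, hy]
    rcases O1 (x * y) with h | h | h
    · rw [h1] at h; nlinarith
    · rw [h1] at h; nlinarith
    · rw [h1] at h; nlinarith
  have hqA : ∀ g : G, orderOf g = q → g ∉ A := by
    intro g hg hgA
    have hbA : b ∈ A := by
      obtain ⟨α, hα⟩ := O3 g b hg hb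
      rw [← hα]; exact hchar α g hgA
    have haA : a ∈ A := hpA a ha
    exact hmulord b a hb ha (hAcomm b hbA a haA)
  have hA_iff : ∀ g : G, g ∈ A ↔ g ^ p = 1 := by
    intro g
    constructor
    · intro hg
      rcases O1 g with h | h | h
      · rw [orderOf_eq_one_iff] at h; rw [h, one_pow]
      · rw [← h]; exact pow_orderOf_eq_one g
      · exact absurd hg (hqA g h)
    · intro hg
      have h1 : orderOf g ∣ p := orderOf_dvd_of_pow_eq_one hg
      rcases (Nat.dvd_prime hp.out).mp h1 with h | h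
      · rw [orderOf_eq_one_iff] at h; rw [h]; exact A.one_mem
      · exact hpA g h
  have hfpf : ∀ x y : G, orderOf x = q → orderOf y = p → x * y * x⁻¹ ≠ y := by
    intro x y hx hy hxy
    apply hmulord x y hx hy
    show x * y = y * x
    calc x * y = x * y * x⁻¹ * x := by group
      _ = y * x := by rw [hxy]
  have hAp : IsPGroup p A := by
    intro g
    refine ⟨1, ?_⟩
    rw [pow_one]
    apply Subtype.ext
    rw [Subgroup.coe_pow, Subgroup.coe_one]
    exact (hA_iff g).mp g.2
  have hSyl : ∀ P : Sylow p G, (P : Subgroup G) = A := by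
    intro P
    have hPA : (P : Subgroup G) ≤ A := by
      intro g hg
      obtain ⟨k, hk⟩ := P.isPGroup' ⟨g, hg⟩
      have hk' : g ^ p ^ k = 1 := by
        have h := congrArg Subtype.val hk
        simpa using h
      have h1 : orderOf g ∣ p ^ k := orderOf_dvd_of_pow_eq_one hk'
      rcases O1 g with h | h | h
      · rw [orderOf_eq_one_iff] at h; rw [h]; exact A.one_mem
      · exact hpA g h
      · rw [h] at h1
        have h2 := (Nat.prime_dvd_prime_iff_eq hq.out hp.out).mp (hq.out.dvd_of_dvd_pow h1)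
        exact absurd h2.symm hpq
    exact (P.is_maximal' hAp hPA).symm
  have hquot : ∀ x : G ⧸ A, x ^ q = 1 := by
    intro x
    obtain ⟨g, rfl⟩ := QuotientGroup.mk_surjective x
    rcases O1 g with h | h | h
    · rw [orderOf_eq_one_iff] at h; rw [h]; simp
    · have h1 : g ∈ A := hpA g h
      rw [(QuotientGroup.eq_one_iff g).mpr h1, one_pow]
    · rw [← QuotientGroup.mk_pow, ← h, pow_orderOf_eq_one]; rfl
  have hbq : (QuotientGroup.mk b : G ⧸ A) ≠ 1 := by
    intro h; exact hqA b hb ((QuotientGroup.eq_one_iff b).mp h)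
  haveI : Nontrivial (G ⧸ A) := ⟨⟨_, _, hbq⟩⟩
  have hQp : IsPGroup q (G ⧸ A) := fun x => ⟨1, by rw [pow_one]; exact hquot x⟩
  letI := commGroupOfAbelian A hAcomm
  have hcA : ∀ g : G, g ∈ A → (MulAut.conjNormal g : MulAut A) = 1 := by
    intro g hg
    ext u
    rw [MulAut.conjNormal_apply, MulAut.one_apply, hAcomm g hg u u.2, mul_inv_cancel_right]
  have hcq : ∀ g h : G, (QuotientGroup.mk g : G ⧸ A) = QuotientGroup.mk h →
      (MulAut.conjNormal g : MulAut A) = MulAut.conjNormal h := by
    intro g h hgh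
    have h1 : h⁻¹ * g ∈ A := QuotientGroup.eq.mp hgh.symm
    have h2 : g = h * (h⁻¹ * g) := by group
    rw [h2, map_mul, hcA _ h1, mul_one]
  have hexpA : ∀ u : A, u ^ p = 1 := fun u =>
    Subtype.ext (by rw [Subgroup.coe_pow, Subgroup.coe_one]; exact (hA_iff u).mp u.2)
  have hnorm := fun g hg =>
    conj_norm_eq_one p q A hAcomm (fun a ha => (hA_iff a).mp ha) hfpf g hg
  have hordq : ∀ g : G, g ∉ A → orderOf g = q := by
    intro g hg
    rcases O1 g with h | h | h
    · rw [orderOf_eq_one_iff] at h; exact absurd (h ▸ A.one_mem) hg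
    · exact absurd (hpA g h) hg
    · exact h
  have hcardq : Nat.card (G ⧸ A) = q := by
    obtain ⟨zb, hzb, hzb1⟩ : ∃ zb : G ⧸ A, zb ∈ Subgroup.center (G ⧸ A) ∧ zb ≠ 1 := by
      haveI := hQp.center_nontrivial
      obtain ⟨x, hx⟩ := exists_ne (1 : Subgroup.center (G ⧸ A))
      exact ⟨x, x.2, fun h => hx (Subtype.ext h)⟩
    have hzbo : orderOf zb = q := orderOf_eq_prime (hquot zb) hzb1
    have htop : Subgroup.zpowers zb = ⊤ := by
      by_contra hne
      obtain ⟨yb, hyb⟩ : ∃ yb : G ⧸ A, yb ∉ Subgroup.zpowers zb := by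
        by_contra hall
        push_neg at hall
        exact hne (eq_top_iff.mpr fun x _ => hall x)
      obtain ⟨z, rfl⟩ := QuotientGroup.mk_surjective zb
      obtain ⟨y, rfl⟩ := QuotientGroup.mk_surjective yb
      have hcomm : Commute (MulAut.conjNormal z : MulAut A) (MulAut.conjNormal y) := by
        show (MulAut.conjNormal z : MulAut A) * MulAut.conjNormal y =
          MulAut.conjNormal y * MulAut.conjNormal z
        rw [← map_mul, ← map_mul]
        apply hcq
        rw [QuotientGroup.mk_mul, QuotientGroup.mk_mul]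
        exact (Subgroup.mem_center_iff.mp hzb _).symm
      have key : ∀ u : A, u ^ q = 1 := by
        intro u
        apply fpf_klein hq.out.two_le (MulAut.conjNormal z : MulAut A) (MulAut.conjNormal y) hcomm
        intro i j hij u'
        rw [← map_pow, ← map_pow, ← map_mul]
        apply hnorm
        apply hordq
        intro hmem
        have h1 : (QuotientGroup.mk z : G ⧸ A) ^ i * (QuotientGroup.mk y) ^ j = 1 := by
          rw [← QuotientGroup.mk_pow, ← QuotientGroup.mk_pow, ← QuotientGroup.mk_mul]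
          exact (QuotientGroup.eq_one_iff _).mpr hmem
        by_cases hj : q ∣ j
        · have hi : ¬ q ∣ i := by tauto
          obtain ⟨t, rfl⟩ := hj
          rw [pow_mul, hquot, one_pow, mul_one] at h1
          exact hi (hzbo ▸ orderOf_dvd_of_pow_eq_one h1)
        · apply hyb
          have hcopj : Nat.Coprime j q := ((hq.out.coprime_iff_not_dvd).mpr hj).symm
          obtain ⟨m, -, hm⟩ := Nat.exists_mul_mod_eq_one_of_coprime hcopj hq1
          have h2 : (QuotientGroup.mk y : G ⧸ A) ^ j ∈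
              Subgroup.zpowers (QuotientGroup.mk z : G ⧸ A) := by
            have h3 : (QuotientGroup.mk y : G ⧸ A) ^ j = ((QuotientGroup.mk z : G ⧸ A) ^ i)⁻¹ :=
              eq_inv_of_mul_eq_one_right h1
            rw [h3]
            exact Subgroup.inv_mem _ (Subgroup.pow_mem _ (Subgroup.mem_zpowers _) i)
          have h3 : (QuotientGroup.mk y : G ⧸ A) = ((QuotientGroup.mk y : G ⧸ A) ^ j) ^ m := by
            rw [← pow_mul, pow_eq_pow_mod (j * m) (hquot _), hm, pow_one]
          rw [h3]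
          exact Subgroup.pow_mem _ h2 m
      have h1 := key ⟨c, hc⟩
      have h2 : c ^ q = 1 := by simpa using congrArg Subtype.val h1
      have h3 := orderOf_dvd_of_pow_eq_one h2
      rw [hcp] at h3
      exact hpq ((Nat.prime_dvd_prime_iff_eq hp.out hq.out).mp h3)
    rw [← Subgroup.card_top (G := G ⧸ A), ← htop, Nat.card_zpowers, hzbo]
  obtain ⟨n, hn⟩ := IsPGroup.iff_card.mp hAp
  have hc1 : c ≠ 1 := by
    intro h
    rw [h, orderOf_one] at hcp
    omega
  have hn1 : 1 ≤ n := by
    by_contra h0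
    have hn0 : n = 0 := by omega
    rw [hn0, pow_zero] at hn
    have hsub : Subsingleton A := (Nat.card_eq_one_iff_unique.mp hn).1
    have h1 : (⟨c, hc⟩ : A) = 1 := Subsingleton.elim _ _
    exact hc1 (congrArg Subtype.val h1)
  have hcardG : Nat.card G = p ^ n * q := by
    rw [Subgroup.card_eq_card_quotient_mul_card_subgroup A, hcardq, hn, mul_comm]
  refine ⟨n, hn1, hcardG, ?_, ?_, hfpf⟩
  · intro P
    rw [hSyl P]
    exact ⟨hAn, ⟨⟨⟨fun x y => Subtype.ext (hAcomm x x.2 y y.2)⟩⟩, fun a ha => (hA_iff a).mp ha⟩⟩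
  · haveI : Nontrivial A := ⟨⟨⟨c, hc⟩, 1, fun h => hc1 (congrArg Subtype.val h)⟩⟩
    have hbgen : ∀ g : G, ∃ i : ℕ, (QuotientGroup.mk g : G ⧸ A) = (QuotientGroup.mk b) ^ i := by
      intro g
      have htop := zpowers_eq_top_of_prime_card hcardq hbq
      have hmem : (QuotientGroup.mk g : G ⧸ A) ∈
          Subgroup.zpowers (QuotientGroup.mk b : G ⧸ A) := by rw [htop]; trivial
      rw [← mem_powers_iff_mem_zpowers] at hmem
      obtain ⟨i, hi⟩ := (Submonoid.mem_powers_iff _ _).mp hmem
      exact ⟨i, hi.symm⟩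
    apply grp_prim hpq hexpA (MulAut.conjNormal b : MulAut A) (hnorm b hb)
    · intro v w hv hw
      have hvo : orderOf (v : G) = p :=
        orderOf_eq_prime ((hA_iff v).mp v.2) (fun h => hv (Subtype.ext h))
      have hwo : orderOf (w : G) = p :=
        orderOf_eq_prime ((hA_iff w).mp w.2) (fun h => hw (Subtype.ext h))
      obtain ⟨α, hα⟩ := O2 v w hvo hwo
      obtain ⟨i, hi⟩ := hbgen (α b)
      refine ⟨(α.toMonoidHom.comp A.subtype).codRestrict A (fun u => hchar α u u.2), i, ?_, ?_, ?_⟩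
      · intro u u' huu'
        have h := congrArg Subtype.val huu'
        exact Subtype.ext (α.injective h)
      · exact Subtype.ext hα
      · intro u
        rw [← map_pow, ← hcq (α b) (b ^ i) (by rw [hi, QuotientGroup.mk_pow])]
        apply Subtype.ext
        rw [MulAut.conjNormal_apply]
        show α (MulAut.conjNormal b u : A) = α b * α u * (α b)⁻¹
        rw [MulAut.conjNormal_apply, map_mul, map_mul, map_inv]
    · intro i hi
      have hbi : orderOf (b ^ i) = q := by
        rw [Nat.Coprime.orderOf_pow, hb]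
        rw [hb]; exact (hq.out.coprime_iff_not_dvd).mpr hi
      obtain ⟨α, hα⟩ := O3 b (b ^ i) hb hbi
      refine ⟨(α.toMonoidHom.comp A.subtype).codRestrict A (fun u => hchar α u u.2), ?_, ?_⟩
      · intro u u' huu'
        have h := congrArg Subtype.val huu'
        exact Subtype.ext (α.injective h)
      · intro u
        rw [← map_pow]
        apply Subtype.ext
        rw [MulAut.conjNormal_apply]
        show α (MulAut.conjNormal b u : A) = b ^ i * α u * (b ^ i)⁻¹
        rw [MulAut.conjNormal_apply, map_mul, map_mul, map_inv, hα]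

theorem orb3_forward {G : Type*} [Group G] [Finite G] (hnpp : ¬ IsPrimePow (Nat.card G))
    (hnt : Nat.card G ≠ 1)
    (h3 : Nat.card (MulAction.orbitRel.Quotient (MulAut G) G) = 3) :
    ∃ (p q n : ℕ) (_ : Fact p.Prime) (_ : Fact q.Prime), p ≠ q ∧ 1 ≤ n ∧
      Nat.card G = p ^ n * q ∧
      (∀ P : Sylow p G, (P : Subgroup G).Normal ∧ Cfsg.IsElementaryAbelian p (P : Subgroup G)) ∧
      orderOf (p : ZMod q) = q - 1 ∧
      ∀ x y : G, orderOf x = q → orderOf y = p → x * y * x⁻¹ ≠ y := by
  classical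
  have hcard0 : Nat.card G ≠ 0 := Nat.card_pos.ne'
  set p := (Nat.card G).minFac with hpdef
  have hpp : p.Prime := Nat.minFac_prime hnt
  have hpd : p ∣ Nat.card G := Nat.minFac_dvd _
  obtain ⟨e, m, hpm, hem⟩ := Nat.exists_eq_pow_mul_and_not_dvd hcard0 p hpp.ne_one
  have he0 : e ≠ 0 := by
    rintro rfl
    rw [pow_zero, one_mul] at hem
    exact hpm (hem ▸ hpd)
  have hm1 : m ≠ 1 := by
    rintro rfl
    rw [mul_one] at hem
    apply hnpp
    rw [hem]
    exact hpp.isPrimePow.pow he0
  have hm0 : m ≠ 0 := by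
    rintro rfl
    rw [mul_zero] at hem
    exact hcard0 hem
  set q := m.minFac with hqdef
  have hqp : q.Prime := Nat.minFac_prime hm1
  have hqm : q ∣ m := Nat.minFac_dvd _
  have hqd : q ∣ Nat.card G := by rw [hem]; exact Dvd.dvd.mul_left hqm _
  have hpq : p ≠ q := by
    intro h
    rw [← h] at hqm
    exact hpm hqm
  haveI hpF : Fact p.Prime := ⟨hpp⟩
  haveI hqF : Fact q.Prime := ⟨hqp⟩
  obtain ⟨a, ha⟩ := exists_prime_orderOf_dvd_card' p hpd
  obtain ⟨b, hb⟩ := exists_prime_orderOf_dvd_card' q hqd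
  haveI : Fintype (MulAction.orbitRel.Quotient (MulAut G) G) := Fintype.ofFinite _
  have h1a : (Quotient.mk'' (1 : G) : MulAction.orbitRel.Quotient (MulAut G) G) ≠
      Quotient.mk'' a := by
    intro h
    have h' := orb_orderOf_eq _ _ h
    rw [orderOf_one, ha] at h'
    exact hpp.ne_one h'.symm
  have h1b : (Quotient.mk'' (1 : G) : MulAction.orbitRel.Quotient (MulAut G) G) ≠
      Quotient.mk'' b := by
    intro h
    have h' := orb_orderOf_eq _ _ h
    rw [orderOf_one, hb] at h'
    exact hqp.ne_one h'.symm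
  have hab : (Quotient.mk'' a : MulAction.orbitRel.Quotient (MulAut G) G) ≠
      Quotient.mk'' b := by
    intro h
    have h' := orb_orderOf_eq _ _ h
    rw [ha, hb] at h'
    exact hpq h'
  have hall : ∀ g : G,
      (Quotient.mk'' g : MulAction.orbitRel.Quotient (MulAut G) G) = Quotient.mk'' (1 : G) ∨
      (Quotient.mk'' g : MulAction.orbitRel.Quotient (MulAut G) G) = Quotient.mk'' a ∨
      (Quotient.mk'' g : MulAction.orbitRel.Quotient (MulAut G) G) = Quotient.mk'' b := by
    intro g
    by_contra hcon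
    push_neg at hcon
    obtain ⟨hg1, hga, hgb⟩ := hcon
    have hle : ({Quotient.mk'' g, Quotient.mk'' (1 : G), Quotient.mk'' a, Quotient.mk'' b} :
        Finset (MulAction.orbitRel.Quotient (MulAut G) G)).card ≤ 3 := by
      rw [← h3, Nat.card_eq_fintype_card]
      exact Finset.card_le_univ _
    rw [Finset.card_insert_of_notMem (by simp [hg1, hga, hgb]),
      Finset.card_insert_of_notMem (by simp [h1a, h1b]), Finset.card_pair hab] at hle
    omega
  have O1 : ∀ g : G, orderOf g = 1 ∨ orderOf g = p ∨ orderOf g = q := by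
    intro g
    rcases hall g with h | h | h
    · left; rw [orb_orderOf_eq _ _ h, orderOf_one]
    · right; left; rw [orb_orderOf_eq _ _ h, ha]
    · right; right; rw [orb_orderOf_eq _ _ h, hb]
  have hclsp : ∀ g : G, orderOf g = p →
      (Quotient.mk'' g : MulAction.orbitRel.Quotient (MulAut G) G) = Quotient.mk'' a := by
    intro g hg
    rcases hall g with h' | h' | h'
    · have h'' := orb_orderOf_eq _ _ h'
      rw [hg, orderOf_one] at h''
      exact absurd h'' hpp.ne_one
    · exact h'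
    · have h'' := orb_orderOf_eq _ _ h'
      rw [hg, hb] at h''
      exact absurd h'' hpq
  have hclsq : ∀ g : G, orderOf g = q →
      (Quotient.mk'' g : MulAction.orbitRel.Quotient (MulAut G) G) = Quotient.mk'' b := by
    intro g hg
    rcases hall g with h' | h' | h'
    · have h'' := orb_orderOf_eq _ _ h'
      rw [hg, orderOf_one] at h''
      exact absurd h'' hqp.ne_one
    · have h'' := orb_orderOf_eq _ _ h'
      rw [hg, ha] at h''
      exact absurd h''.symm hpq
    · exact h'
  have O2 : ∀ g h : G, orderOf g = p → orderOf h = p → ∃ α : MulAut G, α g = h := by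
    intro g h hg hh
    exact (orb_eq_iff h g).mp ((hclsp h hh).trans (hclsp g hg).symm)
  have O3 : ∀ g h : G, orderOf g = q → orderOf h = q → ∃ α : MulAut G, α g = h := by
    intro g h hg hh
    exact (orb_eq_iff h g).mp ((hclsq h hh).trans (hclsq g hg).symm)
  obtain ⟨b', m', hqm', hm'⟩ := Nat.exists_eq_pow_mul_and_not_dvd hm0 q hqp.ne_one
  have hm'1 : m' = 1 := by
    by_contra hne
    have hrp : (m'.minFac).Prime := Nat.minFac_prime hne
    have hrm' : m'.minFac ∣ m' := Nat.minFac_dvd _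
    have hrm : m'.minFac ∣ m := by rw [hm']; exact Dvd.dvd.mul_left hrm' _
    have hrd : m'.minFac ∣ Nat.card G := by rw [hem]; exact Dvd.dvd.mul_left hrm _
    haveI : Fact (m'.minFac).Prime := ⟨hrp⟩
    obtain ⟨x, hx⟩ := exists_prime_orderOf_dvd_card' m'.minFac hrd
    rcases O1 x with h | h | h
    · rw [hx] at h; exact hrp.ne_one h
    · rw [hx] at h; rw [h] at hrm; exact hpm hrm
    · rw [hx] at h; rw [h] at hrm'; exact hqm' hrm'
  have hcardpq : Nat.card G = p ^ e * q ^ b' := by rw [hem, hm', hm'1, mul_one]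
  have hsolv : Group.IsSolvable G := Cfsg.Agent.S0144.result p q e b' hpp hqp hcardpq
  have hex : ∃ n, derivedSeries G n = ⊥ := hsolv.solvable
  have hk_spec : derivedSeries G (Nat.find hex) = ⊥ := Nat.find_spec hex
  have hk0 : Nat.find hex ≠ 0 := by
    intro h0
    rw [h0, derivedSeries_zero] at hk_spec
    have h1 : a ∈ (⊤ : Subgroup G) := Subgroup.mem_top a
    rw [hk_spec, Subgroup.mem_bot] at h1
    rw [h1, orderOf_one] at ha
    exact hpp.ne_one ha.symm
  obtain ⟨j, hj⟩ : ∃ j, Nat.find hex = j + 1 := Nat.exists_eq_succ_of_ne_zero hk0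
  have hAne : derivedSeries G j ≠ ⊥ := by
    intro h
    exact Nat.find_min hex (by omega : j < Nat.find hex) h
  have hAcomm : ∀ x ∈ derivedSeries G j, ∀ y ∈ derivedSeries G j, x * y = y * x := by
    intro x hx y hy
    have h1 : ⁅derivedSeries G j, derivedSeries G j⁆ = ⊥ := by
      rw [← derivedSeries_succ, ← hj]; exact hk_spec
    have h2 := Subgroup.commutator_eq_bot_iff_le_centralizer.mp h1
    exact (Subgroup.mem_centralizer_iff.mp (h2 hx) y hy).symm
  obtain ⟨⟨c, hc⟩, hc1⟩ := (Subgroup.ne_bot_iff_exists_ne_one).mp hAne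
  have hc1' : c ≠ 1 := fun h => hc1 (Subtype.ext h)
  rcases O1 c with h | h | h
  · rw [orderOf_eq_one_iff] at h; exact absurd h hc1'
  · obtain ⟨n, hn1, hcardG, hS, hprim, hfpf⟩ :=
      orb3_forward_core p q hpq O1 O2 O3 a b ha hb (derivedSeries G j) hAcomm c hc h
    exact ⟨p, q, n, hpF, hqF, hpq, hn1, hcardG, hS, hprim, hfpf⟩
  · have O1' : ∀ g : G, orderOf g = 1 ∨ orderOf g = q ∨ orderOf g = p := by
      intro g
      rcases O1 g with h | h | h
      · exact Or.inl h
      · exact Or.inr (Or.inr h)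
      · exact Or.inr (Or.inl h)
    obtain ⟨n, hn1, hcardG, hS, hprim, hfpf⟩ :=
      orb3_forward_core q p hpq.symm O1' O3 O2 b a hb ha (derivedSeries G j) hAcomm c hc h
    exact ⟨q, p, n, hqF, hpF, hpq.symm, hn1, hcardG, hS, hprim, hfpf⟩

theorem orb3_backward {G : Type*} [Group G] [Finite G] (p q n : ℕ) [hp : Fact p.Prime]
    [hq : Fact q.Prime] (hpq : p ≠ q) (hn : 1 ≤ n) (hcard : Nat.card G = p ^ n * q)
    (hSyl : ∀ P : Sylow p G, (P : Subgroup G).Normal ∧
      Cfsg.IsElementaryAbelian p (P : Subgroup G))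
    (hord : orderOf (p : ZMod q) = q - 1)
    (hfpf : ∀ x y : G, orderOf x = q → orderOf y = p → x * y * x⁻¹ ≠ y) :
    Nat.card (MulAction.orbitRel.Quotient (MulAut G) G) = 3 := by
  classical
  have hcop : Nat.Coprime p q := (Nat.coprime_primes hp.out hq.out).mpr hpq
  have hirr := cyclo_irreducible p q hpq hord
  obtain ⟨P⟩ : Nonempty (Sylow p G) := inferInstance
  obtain ⟨hPn, hPel⟩ := hSyl P
  obtain ⟨A, hA⟩ : ∃ A : Subgroup G, A = (P : Subgroup G) := ⟨_, rfl⟩
  rw [← hA] at hPn hPel
  haveI : A.Normal := hPn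
  have hAcomm : ∀ x ∈ A, ∀ y ∈ A, x * y = y * x := by
    intro x hx y hy
    have h := hPel.1.is_comm.comm ⟨x, hx⟩ ⟨y, hy⟩
    exact congrArg Subtype.val h
  have hexp : ∀ a ∈ A, a ^ p = 1 := hPel.2
  have hcardA : Nat.card A = p ^ n := by
    rw [hA, Sylow.card_eq_multiplicity, hcard,
      Nat.factorization_mul (pow_ne_zero _ hp.out.ne_zero) hq.out.ne_zero, Finsupp.add_apply,
      Nat.factorization_pow, Finsupp.smul_apply, hp.out.factorization_self,
      Nat.factorization_eq_zero_of_not_dvd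
        (fun h => hpq ((Nat.prime_dvd_prime_iff_eq hp.out hq.out).mp h))]
    simp
  have hA_of_pow : ∀ g : G, g ^ p ^ n = 1 → g ∈ A := by
    intro g hg
    have hpg : IsPGroup p (Subgroup.zpowers g) := by
      have h1 : orderOf g ∣ p ^ n := orderOf_dvd_of_pow_eq_one hg
      obtain ⟨k, _, hk⟩ := (Nat.dvd_prime_pow hp.out).mp h1
      exact IsPGroup.of_card (n := k) (by rw [Nat.card_zpowers, hk])
    obtain ⟨Q, hQ⟩ := hpg.exists_le_sylow
    haveI := Sylow.unique_of_normal P (hA ▸ hPn)
    have hQP : Q = P := Subsingleton.elim Q P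
    rw [hQP] at hQ
    rw [hA]
    exact hQ (Subgroup.mem_zpowers g)
  have hordq : ∀ g : G, g ∉ A → orderOf g = q := by
    intro g hg
    have ho : orderOf g ∣ p ^ n * q := hcard ▸ orderOf_dvd_natCard g
    have ho0 : orderOf g ≠ 0 := (orderOf_pos g).ne'
    have hqo : q ∣ orderOf g := by
      by_contra hqo
      have h1 : Nat.Coprime (orderOf g) q := ((hq.out.coprime_iff_not_dvd).mpr hqo).symm
      have h2 : orderOf g ∣ p ^ n := h1.dvd_of_dvd_mul_right ho
      exact hg (hA_of_pow g (orderOf_dvd_iff_pow_eq_one.mp h2))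
    have hpo : ¬ p ∣ orderOf g := by
      intro hpo
      have hx := orderOf_pow_orderOf_div ho0 hqo
      have hy := orderOf_pow_orderOf_div ho0 hpo
      apply hfpf _ _ hx hy
      have hc : Commute (g ^ (orderOf g / q)) (g ^ (orderOf g / p)) :=
        (Commute.refl g).pow_pow _ _
      rw [hc.eq, mul_inv_cancel_right]
    have h3 : Nat.Coprime (orderOf g) (p ^ n) :=
      Nat.Coprime.pow_right n (((hp.out.coprime_iff_not_dvd).mpr hpo).symm)
    have h4 : orderOf g ∣ q := h3.dvd_of_dvd_mul_left ho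
    exact Nat.dvd_antisymm h4 hqo
  letI := commGroupOfAbelian A hAcomm
  have hexpA : ∀ u : A, u ^ p = 1 := fun u =>
    Subtype.ext (by rw [Subgroup.coe_pow, Subgroup.coe_one]; exact hexp u u.2)
  have hnorm := fun g hg => conj_norm_eq_one p q A hAcomm hexp hfpf g hg
  have hint : ∀ y : G, orderOf y = q → ∀ h ∈ Subgroup.zpowers y, h ∈ A → h = 1 := by
    intro y hy h hh hhA
    have h1 : orderOf h ∣ q := hy ▸ orderOf_dvd_of_mem_zpowers hh
    have h2 : orderOf h ∣ p := orderOf_dvd_of_pow_eq_one (hexp h hhA)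
    have h3 : orderOf h ∣ 1 := by
      have h4 := Nat.dvd_gcd h2 h1
      rwa [hcop.gcd_eq_one] at h4
    exact orderOf_eq_one_iff.mp (Nat.dvd_one.mp h3)
  have hgen : ∀ y : G, orderOf y = q → ∀ g : G, ∃ u ∈ A, ∃ k : ℕ, g = u * y ^ k := by
    intro y hy g
    have htop : A ⊔ Subgroup.zpowers y = ⊤ := by
      apply Subgroup.eq_top_of_card_eq
      have h1 : p ^ n ∣ Nat.card (A ⊔ Subgroup.zpowers y : Subgroup G) :=
        hcardA ▸ Subgroup.card_dvd_of_le le_sup_left
      have h2 : q ∣ Nat.card (A ⊔ Subgroup.zpowers y : Subgroup G) := by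
        have h := Subgroup.card_dvd_of_le
          (le_sup_right : Subgroup.zpowers y ≤ A ⊔ Subgroup.zpowers y)
        rwa [Nat.card_zpowers, hy] at h
      have h3 : p ^ n * q ∣ Nat.card (A ⊔ Subgroup.zpowers y : Subgroup G) :=
        (Nat.Coprime.pow_left n hcop).mul_dvd_of_dvd_of_dvd h1 h2
      have h4 : Nat.card (A ⊔ Subgroup.zpowers y : Subgroup G) ∣ Nat.card G :=
        Subgroup.card_subgroup_dvd_card _
      rw [hcard] at h4 ⊢
      exact Nat.dvd_antisymm h4 h3
    have hg : g ∈ (↑(A ⊔ Subgroup.zpowers y) : Set G) := by rw [htop]; trivial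
    rw [Subgroup.normal_mul] at hg
    obtain ⟨u, hu, h, hh, rfl⟩ := Set.mem_mul.mp hg
    rw [SetLike.mem_coe, ← mem_powers_iff_mem_zpowers] at hh
    obtain ⟨k, rfl⟩ := (Submonoid.mem_powers_iff _ _).mp hh
    exact ⟨u, hu, k, rfl⟩
  have haut : ∀ (y z : G), orderOf y = q → orderOf z = q → ∀ σ : MulAut A,
      (∀ u : A, σ (MulAut.conjNormal y u) = MulAut.conjNormal z (σ u)) →
      ∃ α : MulAut G, α y = z ∧ ∀ u : A, α u = σ u := by
    intro y z hy hz σ hσ
    obtain ⟨α₀, hα₀u, hα₀y, hα₀⟩ := extend_hom A y (hgen y hy) (hint y hy)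
      ((A.subtype).comp σ.toMonoidHom) z (by rw [hy, ← hz]; exact pow_orderOf_eq_one z) (by
        intro u
        show ((σ (MulAut.conjNormal y u) : A) : G) = z * ((σ u : A) : G) * z⁻¹
        rw [hσ, MulAut.conjNormal_apply])
    have hinj : Function.Injective α₀ := by
      rw [injective_iff_map_eq_one]
      intro g hg
      obtain ⟨u, hu, k, rfl⟩ := hgen y hy g
      have h1 : α₀ (u * y ^ k) = ((σ ⟨u, hu⟩ : A) : G) * z ^ k := hα₀ ⟨u, hu⟩ k
      rw [hg] at h1
      have h2 : z ^ k = 1 := by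
        apply hint z hz
        · exact Subgroup.pow_mem _ (Subgroup.mem_zpowers z) k
        · have h3 : z ^ k = ((σ ⟨u, hu⟩ : A) : G)⁻¹ := eq_inv_of_mul_eq_one_right h1.symm
          rw [h3]
          exact A.inv_mem (SetLike.coe_mem _)
      rw [h2, mul_one] at h1
      have h3 : σ ⟨u, hu⟩ = 1 := Subtype.ext h1.symm
      have h4 : (⟨u, hu⟩ : A) = 1 := σ.injective (h3.trans (map_one σ).symm)
      have h5 : u = 1 := congrArg Subtype.val h4
      have h6 : q ∣ k := hz ▸ orderOf_dvd_of_pow_eq_one h2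
      have h7 : y ^ k = 1 := by
        rw [← hy] at h6
        exact orderOf_dvd_iff_pow_eq_one.mp h6
      rw [h5, h7, one_mul]
    have hbij : Function.Bijective α₀ := ⟨hinj, Finite.injective_iff_surjective.mp hinj⟩
    exact ⟨MulEquiv.ofBijective α₀ hbij, hα₀y, fun u => hα₀u u⟩
  obtain ⟨x, hx⟩ := exists_prime_orderOf_dvd_card' (G := G) q (hcard ▸ Dvd.intro_left _ rfl)
  have hxA : x ∉ A := by
    intro h
    have h2 := orderOf_dvd_of_pow_eq_one (hexp x h)
    rw [hx] at h2
    exact hpq ((Nat.prime_dvd_prime_iff_eq hq.out hp.out).mp h2).symm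
  obtain ⟨v₀, hv₀⟩ := exists_prime_orderOf_dvd_card' (G := G) p
    (hcard ▸ Dvd.dvd.mul_right (dvd_pow_self p (by omega)) q)
  have hv₀A : v₀ ∈ A := by
    apply hA_of_pow
    rw [← orderOf_dvd_iff_pow_eq_one, hv₀]
    exact dvd_pow_self p (by omega)
  have hv₀1 : v₀ ≠ 1 := by
    intro h
    rw [h, orderOf_one] at hv₀
    exact hp.out.ne_one hv₀.symm
  have T1 : ∀ v w : G, v ∈ A → w ∈ A → v ≠ 1 → w ≠ 1 → ∃ α : MulAut G, α v = w := by
    intro v w hv hw hv1 hw1
    obtain ⟨σ, hσv, hσ⟩ := grp_trans hirr hexpA (MulAut.conjNormal x : MulAut A) (hnorm x hx)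
      ⟨v, hv⟩ ⟨w, hw⟩ (fun h => hv1 (congrArg Subtype.val h)) (fun h => hw1 (congrArg Subtype.val h))
    obtain ⟨α, _, hα⟩ := haut x x hx hx σ hσ
    refine ⟨α, ?_⟩
    have h := hα ⟨v, hv⟩
    rw [hσv] at h
    exact h
  have T2 : ∀ y z : G, y ∉ A → z ∉ A → ∃ α : MulAut G, α y = z := by
    intro y z hy hz
    obtain ⟨σ, hσ⟩ := grp_conj hirr hexpA (MulAut.conjNormal y : MulAut A) (MulAut.conjNormal z)
      (hnorm y (hordq y hy)) (hnorm z (hordq z hz))
    obtain ⟨α, hα, _⟩ := haut y z (hordq y hy) (hordq z hz) σ hσ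
    exact ⟨α, hα⟩
  haveI : Fintype (MulAction.orbitRel.Quotient (MulAut G) G) := Fintype.ofFinite _
  have h1v : (Quotient.mk'' (1 : G) : MulAction.orbitRel.Quotient (MulAut G) G) ≠
      Quotient.mk'' v₀ := by
    intro h
    have h' := orb_orderOf_eq _ _ h
    rw [orderOf_one, hv₀] at h'
    exact hp.out.ne_one h'.symm
  have h1x : (Quotient.mk'' (1 : G) : MulAction.orbitRel.Quotient (MulAut G) G) ≠
      Quotient.mk'' x := by
    intro h
    have h' := orb_orderOf_eq _ _ h
    rw [orderOf_one, hx] at h'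
    exact hq.out.ne_one h'.symm
  have hvx : (Quotient.mk'' v₀ : MulAction.orbitRel.Quotient (MulAut G) G) ≠
      Quotient.mk'' x := by
    intro h
    have h' := orb_orderOf_eq _ _ h
    rw [hv₀, hx] at h'
    exact hpq h'
  have huniv : (Finset.univ : Finset (MulAction.orbitRel.Quotient (MulAut G) G)) =
      {Quotient.mk'' (1 : G), Quotient.mk'' v₀, Quotient.mk'' x} := by
    ext c
    simp only [Finset.mem_univ, true_iff, Finset.mem_insert, Finset.mem_singleton]
    induction c using Quotient.inductionOn' with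
    | h g =>
      by_cases hg1 : g = 1
      · left; rw [hg1]
      · by_cases hgA : g ∈ A
        · right; left
          obtain ⟨α, hα⟩ := T1 v₀ g hv₀A hgA hv₀1 hg1
          exact (orb_eq_iff g v₀).mpr ⟨α, hα⟩
        · right; right
          obtain ⟨α, hα⟩ := T2 x g hxA hgA
          exact (orb_eq_iff g x).mpr ⟨α, hα⟩
  rw [Nat.card_eq_fintype_card, ← Finset.card_univ, huniv,
    Finset.card_insert_of_notMem (by simp [h1v, h1x]), Finset.card_pair hvx]

end Cfsg.Agent.Helper22
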