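import Mathlib
import Cfsg.Agent.Helper9.Recog

set_option autoImplicit false

namespace Cfsg.Agent.Helper22

open Subgroup

/-- Produce the hypotheses "normal Sylow with cyclic quotient" for `H = T⟨y⟩`. -/
theorem sylow_hyp_of {G : Type*} [Group G] [Finite G] {p : ℕ} [Fact p.Prime] (H T : Subgroup G)
    (hTH : T ≤ H) (hT : IsPGroup p T) (hnorm : ∀ h ∈ H, ∀ t ∈ T, h * t * h⁻¹ ∈ T) (y : G)
    (hy : y ∈ H) (hgen : H ≤ T ⊔ zpowers y) (m : ℕ) (hm : ¬ p ∣ m) (hym : y ^ m ∈ T) :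
    (∀ S : Sylow p ↥H, (S : Subgroup ↥H).Normal) ∧
    (∀ (S : Sylow p ↥H) [(S : Subgroup ↥H).Normal], IsCyclic (↥H ⧸ (S : Subgroup ↥H))) ∧
    (∀ S : Sylow p ↥H, (S : Subgroup ↥H) = T.subgroupOf H) := by
  haveI hT'n : (T.subgroupOf H).Normal :=
    ⟨fun t ht h => by
      rw [mem_subgroupOf] at ht ⊢
      exact hnorm h.1 h.2 t.1 ht⟩
  have hzp : (zpowers y).subgroupOf H = zpowers (⟨y, hy⟩ : ↥H) := by
    ext x
    rw [mem_subgroupOf, mem_zpowers_iff, mem_zpowers_iff]
    constructor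
    · rintro ⟨k, hk⟩; exact ⟨k, Subtype.ext (by rw [← hk]; simp)⟩
    · rintro ⟨k, hk⟩; exact ⟨k, by rw [← hk]; simp⟩
  have htop : T.subgroupOf H ⊔ zpowers (⟨y, hy⟩ : ↥H) = ⊤ := by
    rw [← hzp, ← subgroupOf_sup hTH (by rw [zpowers_le]; exact hy), subgroupOf_eq_top]
    exact hgen
  have hgenq : zpowers (QuotientGroup.mk (⟨y, hy⟩ : ↥H) : ↥H ⧸ T.subgroupOf H) = ⊤ := by
    have h1 : (zpowers (⟨y, hy⟩ : ↥H)).map (QuotientGroup.mk' (T.subgroupOf H)) =
        zpowers (QuotientGroup.mk (⟨y, hy⟩ : ↥H) : ↥H ⧸ T.subgroupOf H) :=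
      MonoidHom.map_zpowers _ _
    rw [← h1]
    have h2 : (T.subgroupOf H ⊔ zpowers (⟨y, hy⟩ : ↥H)).map (QuotientGroup.mk' (T.subgroupOf H))
        = ⊤ := by
      rw [htop]
      exact map_top_of_surjective _ (QuotientGroup.mk'_surjective _)
    rw [Subgroup.map_sup, QuotientGroup.map_mk'_self, bot_sup_eq] at h2
    exact h2
  have hcyc : IsCyclic (↥H ⧸ T.subgroupOf H) :=
    isCyclic_iff_exists_zpowers_eq_top.mpr ⟨_, hgenq⟩
  have hidx : ¬ p ∣ (T.subgroupOf H).index := by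
    intro hdvd
    have h1 : (T.subgroupOf H).index =
        orderOf (QuotientGroup.mk (⟨y, hy⟩ : ↥H) : ↥H ⧸ T.subgroupOf H) := by
      rw [← Nat.card_zpowers, hgenq, card_top]; rfl
    have h2 : orderOf (QuotientGroup.mk (⟨y, hy⟩ : ↥H) : ↥H ⧸ T.subgroupOf H) ∣ m := by
      apply orderOf_dvd_of_pow_eq_one
      rw [← QuotientGroup.mk_pow, QuotientGroup.eq_one_iff, mem_subgroupOf]
      simpa using hym
    rw [h1] at hdvd
    exact hm (hdvd.trans h2)
  have hT' : IsPGroup p ↥(T.subgroupOf H) := hT.comap_subtype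
  let S₀ : Sylow p ↥H := hT'.toSylow hidx
  have hS₀ : (S₀ : Subgroup ↥H) = T.subgroupOf H := rfl
  haveI : Unique (Sylow p ↥H) := Sylow.unique_of_normal S₀ (by rw [hS₀]; exact hT'n)
  have huniq : ∀ S : Sylow p ↥H, (S : Subgroup ↥H) = T.subgroupOf H := by
    intro S
    rw [Subsingleton.elim S S₀]
    exact hS₀
  refine ⟨fun S => by rw [huniq S]; exact hT'n, ?_, huniq⟩
  intro S hSn
  obtain rfl : S = S₀ := Subsingleton.elim _ _
  exact hcyc

/-- In a dihedral group of odd degree `m`, elements outside a subgroup of order `m` are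
involutions inverting it. -/
theorem dihedral_out {K : Type*} [Group K] {m : ℕ} (hm : Odd m) (e : K ≃* DihedralGroup m)
    (T : Subgroup K) (hT : Nat.card T = m) (y : K) (hy : y ∉ T) :
    y * y = 1 ∧ ∀ t ∈ T, y * t * y⁻¹ = t⁻¹ := by
  classical
  haveI : NeZero m := ⟨by rintro rfl; simp at hm⟩
  haveI : Finite T := Nat.finite_of_card_ne_zero (by rw [hT]; exact NeZero.ne m)
  have hrot : ∀ t ∈ T, ∃ i, e t = DihedralGroup.r i := by
    intro t ht
    rcases h : e t with i | i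
    · exact ⟨i, rfl⟩
    · exfalso
      have h1 : e (t * t) = 1 := by rw [map_mul, h, DihedralGroup.sr_mul_self]
      have h2 : t * t = 1 := by
        apply e.injective; rw [h1, map_one]
      have h3 : orderOf t ∣ 2 := orderOf_dvd_of_pow_eq_one (by rw [pow_two]; exact h2)
      have h4 : orderOf t ∣ m := hT ▸ Subgroup.orderOf_dvd_natCard _ ht
      have h5 : orderOf t = 1 := by
        have h6 : orderOf t ∣ Nat.gcd 2 m := Nat.dvd_gcd h3 h4
        have h7 : Nat.gcd 2 m = 1 := Nat.coprime_two_left.mpr hm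
        rw [h7] at h6; exact Nat.dvd_one.mp h6
      rw [orderOf_eq_one_iff] at h5
      rw [h5, map_one, DihedralGroup.one_def] at h
      cases h
  -- the map T → ZMod m
  let f : ↥T → ZMod m := fun t => (hrot t.1 t.2).choose
  have hf : ∀ t : ↥T, e t.1 = DihedralGroup.r (f t) := fun t => (hrot t.1 t.2).choose_spec
  have hfinj : Function.Injective f := by
    intro a b hab
    apply Subtype.ext
    apply e.injective
    rw [hf a, hf b, hab]
  have hfsurj : Function.Surjective f := by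
    have hbij : Function.Bijective f := by
      apply Function.Injective.bijective_of_nat_card_le hfinj
      rw [hT, Nat.card_eq_fintype_card, ZMod.card]
    exact hbij.2
  obtain ⟨j, hj⟩ : ∃ j, e y = DihedralGroup.sr j := by
    rcases h : e y with i | i
    · exfalso
      obtain ⟨t, ht⟩ := hfsurj i
      have : e y = e t.1 := by rw [h, hf t, ht]
      exact hy (e.injective this ▸ t.2)
    · exact ⟨i, rfl⟩
  constructor
  · apply e.injective
    rw [map_mul, hj, DihedralGroup.sr_mul_self, map_one]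
  · intro t ht
    obtain ⟨i, hi⟩ := hrot t ht
    apply e.injective
    rw [map_mul, map_mul, map_inv, map_inv, hj, hi, DihedralGroup.inv_sr, DihedralGroup.inv_r,
      DihedralGroup.sr_mul_r, DihedralGroup.sr_mul_sr]
    congr 1; ring

theorem pow_eq_of_two_mul {p : ℕ} (hp : p.Prime) (hp2 : p ≠ 2) {n k r : ℕ}
    (h : 2 * p ^ n = p ^ k * r) (hr : ¬ p ∣ r) : p ^ k = p ^ n := by
  have hcop2 : Nat.Coprime (p ^ k) 2 :=
    Nat.Coprime.pow_left k ((Nat.coprime_primes hp Nat.prime_two).mpr hp2)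
  have h1 : p ^ k ∣ p ^ n := by
    have : p ^ k ∣ 2 * p ^ n := h ▸ Dvd.intro _ rfl
    exact hcop2.dvd_of_dvd_mul_left this
  have hcopr : Nat.Coprime (p ^ n) r :=
    Nat.Coprime.pow_left n ((Nat.Prime.coprime_iff_not_dvd hp).mpr hr)
  have h2 : p ^ n ∣ p ^ k := by
    have : p ^ n ∣ p ^ k * r := h ▸ Dvd.intro_left _ rfl
    exact hcopr.dvd_of_dvd_mul_right this
  exact Nat.dvd_antisymm h1 h2

/-- A `p`-element normalizing a subgroup of order `p` centralizes it. -/
theorem centralizes_of_p_elt {G : Type*} [Group G] {p : ℕ} [hpf : Fact p.Prime] (Q : Subgroup G)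
    (hQ : Nat.card Q = p) (u : G) (a : ℕ) (hu : u ^ (p ^ a) = 1)
    (hnorm : ∀ q ∈ Q, u * q * u⁻¹ ∈ Q) : ∀ q ∈ Q, u * q = q * u := by
  have hp := hpf.out
  haveI : Finite Q := Nat.finite_of_card_ne_zero (by rw [hQ]; exact hp.ne_zero)
  obtain ⟨q₀, hq₀Q, hq₀1⟩ : ∃ q₀ ∈ Q, q₀ ≠ 1 := by
    haveI : Nontrivial Q := by
      rw [← Finite.one_lt_card_iff_nontrivial, hQ]; exact hp.one_lt
    obtain ⟨x, hx⟩ := exists_ne (1 : ↥Q)
    exact ⟨x.1, x.2, fun h => hx (Subtype.ext h)⟩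
  have hord : orderOf q₀ = p := by
    have h1 : orderOf q₀ ∣ p := hQ ▸ Subgroup.orderOf_dvd_natCard _ hq₀Q
    rcases (Nat.dvd_prime hp).mp h1 with h | h
    · exact absurd (orderOf_eq_one_iff.mp h) hq₀1
    · exact h
  have hzQ : zpowers q₀ = Q := by
    apply Subgroup.eq_of_le_of_card_ge (by rw [zpowers_le]; exact hq₀Q)
    rw [Nat.card_zpowers, hord, hQ]
  have hfin : IsOfFinOrder q₀ := orderOf_pos_iff.mp (by rw [hord]; exact hp.pos)
  have h1 : u * q₀ * u⁻¹ ∈ Submonoid.powers q₀ := by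
    rw [hfin.mem_powers_iff_mem_zpowers, hzQ]; exact hnorm q₀ hq₀Q
  obtain ⟨k, hk⟩ := (Submonoid.mem_powers_iff _ _).mp h1
  have hpow : ∀ j : ℕ, u ^ j * q₀ * (u ^ j)⁻¹ = q₀ ^ (k ^ j) := by
    intro j
    induction j with
    | zero => simp
    | succ j ih =>
      have : u ^ (j + 1) * q₀ * (u ^ (j + 1))⁻¹ = u * (u ^ j * q₀ * (u ^ j)⁻¹) * u⁻¹ := by
        rw [pow_succ']; group
      rw [this, ih, ← conj_pow, ← hk, ← pow_mul, ← pow_succ']
  have h2 := hpow (p ^ a)
  rw [hu, one_mul, inv_one, mul_one] at h2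
  have h3 : q₀ ^ 1 = q₀ ^ (k ^ p ^ a) := by rw [pow_one]; exact h2
  rw [pow_eq_pow_iff_modEq, hord] at h3
  have h4 : ((k ^ p ^ a : ℕ) : ZMod p) = 1 := by
    have := (ZMod.natCast_eq_natCast_iff _ _ _).mpr h3
    rw [← this]; simp
  rw [Nat.cast_pow, ZMod.pow_card_pow] at h4
  have h5 : k ≡ 1 [MOD p] := by
    rw [← ZMod.natCast_eq_natCast_iff, h4]; simp
  have h6 : q₀ ^ k = q₀ ^ 1 := by rw [pow_eq_pow_iff_modEq, hord]; exact h5
  rw [pow_one] at h6
  have h7 : u * q₀ = q₀ * u := by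
    have : u * q₀ * u⁻¹ = q₀ := by rw [← hk, h6]
    calc u * q₀ = u * q₀ * u⁻¹ * u := by group
      _ = q₀ * u := by rw [this]
  intro q hq
  rw [← hzQ] at hq
  obtain ⟨i, rfl⟩ := mem_zpowers_iff.mp hq
  exact ((show Commute u q₀ from h7).zpow_right i).eq

/-- `Q⟨u⟩` is a `p`-group if `u` is a `p`-element centralizing the `p`-group `Q`. -/
theorem isPGroup_sup_zpowers {G : Type*} [Group G] {p : ℕ} [Fact p.Prime] (Q : Subgroup G)
    (hQ : IsPGroup p Q) (u : G) (a : ℕ) (hu : u ^ (p ^ a) = 1) (hc : ∀ q ∈ Q, u * q = q * u) :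
    IsPGroup p ↥(Q ⊔ zpowers u) := by
  have hcomm : ∀ (q : ↥Q) (v : ↥(zpowers u)), Commute (Q.subtype q) ((zpowers u).subtype v) := by
    intro q v
    obtain ⟨i, hi⟩ := mem_zpowers_iff.mp v.2
    show Commute (q : G) (v : G)
    rw [← hi]
    exact ((show Commute u (q : G) from hc q.1 q.2).zpow_left i).symm
  have hrange : (Q.subtype.noncommCoprod (zpowers u).subtype hcomm).range = Q ⊔ zpowers u := by
    rw [MonoidHom.noncommCoprod_range, range_subtype, range_subtype]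
  intro x
  have hx : (x : G) ∈ (Q.subtype.noncommCoprod (zpowers u).subtype hcomm).range := by
    rw [hrange]; exact x.2
  obtain ⟨⟨q, v⟩, hqv⟩ := hx
  obtain ⟨i, hi⟩ := hQ q
  refine ⟨i + a, Subtype.ext ?_⟩
  have hqv' : (q : G) * (v : G) = x := hqv
  have hv : (v : G) ^ (p ^ a) = 1 := by
    obtain ⟨j, hj⟩ := mem_zpowers_iff.mp v.2
    rw [← hj, ← zpow_natCast, ← zpow_mul, mul_comm, zpow_mul, zpow_natCast, hu, one_zpow]
  have hq : (q : G) ^ (p ^ i) = 1 := by
    have := congrArg Subtype.val hi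
    simpa using this
  have hcqv : Commute (q : G) (v : G) := hcomm q v
  show (x : G) ^ (p ^ (i + a)) = 1
  rw [← hqv', hcqv.mul_pow, pow_add, pow_mul, hq, one_pow, one_mul, mul_comm (p ^ i),
    pow_mul, hv, one_pow]

/-- A group with a cyclic normal Sylow `p`-subgroup, cyclic quotient and commuting
`p`-part/`p'`-part is cyclic. -/
theorem cyclic_of_commute {G : Type*} [Group G] [Finite G] {p : ℕ} [hpf : Fact p.Prime]
    (S : Sylow p G) [hSn : (S : Subgroup G).Normal] (hScyc : IsCyclic ↥(S : Subgroup G))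
    (hQcyc : IsCyclic (G ⧸ (S : Subgroup G)))
    (hcomm : ∀ s ∈ (S : Subgroup G), ∀ y : G, ¬ p ∣ orderOf y → s * y = y * s) : IsCyclic G := by
  have hp := hpf.out
  obtain ⟨s₀, hs₀⟩ := IsCyclic.exists_generator (α := ↥(S : Subgroup G))
  have hs₀ord : orderOf (s₀ : G) = Nat.card (S : Subgroup G) := by
    rw [Subgroup.orderOf_coe]; exact orderOf_eq_card_of_forall_mem_zpowers hs₀
  obtain ⟨q₀, hq₀⟩ := IsCyclic.exists_generator (α := G ⧸ (S : Subgroup G))
  obtain ⟨y, rfl⟩ := QuotientGroup.mk_surjective q₀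
  have hyord : orderOf (QuotientGroup.mk y : G ⧸ (S : Subgroup G)) = (S : Subgroup G).index :=
    orderOf_eq_card_of_forall_mem_zpowers hq₀
  set m := (S : Subgroup G).index with hm
  set N := Nat.card (S : Subgroup G) with hN
  have hpm : ¬ p ∣ m := S.not_dvd_index
  obtain ⟨a, ha⟩ := IsPGroup.iff_card.mp S.2
  have hym : y ^ m ∈ (S : Subgroup G) := by
    rw [← QuotientGroup.eq_one_iff, QuotientGroup.mk_pow, ← hyord, pow_orderOf_eq_one]
  have hy'm : (y ^ N) ^ m = 1 := by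
    rw [← pow_mul, mul_comm, pow_mul]
    have := pow_card_eq_one' (G := ↥(S : Subgroup G)) (x := ⟨y ^ m, hym⟩)
    exact congrArg Subtype.val this
  have hy'ord1 : orderOf (y ^ N) ∣ m := orderOf_dvd_of_pow_eq_one hy'm
  have hcop : Nat.Coprime m N := by
    rw [hN, ha]
    exact Nat.Coprime.pow_right a ((Nat.Prime.coprime_iff_not_dvd hp).mpr hpm).symm
  have hy'ord2 : m ∣ orderOf (y ^ N) := by
    have h1 : orderOf ((QuotientGroup.mk y : G ⧸ (S : Subgroup G)) ^ N) = m := by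
      rw [Nat.Coprime.orderOf_pow (by rw [hyord]; exact hcop), hyord]
    rw [← h1, ← QuotientGroup.mk_pow]
    exact orderOf_map_dvd (QuotientGroup.mk' (S : Subgroup G)) (y ^ N)
  have hy'ord : orderOf (y ^ N) = m := Nat.dvd_antisymm hy'ord1 hy'ord2
  have hc : Commute (s₀ : G) (y ^ N) :=
    hcomm s₀ s₀.2 (y ^ N) (by rw [hy'ord]; exact hpm)
  apply isCyclic_of_orderOf_eq_card ((s₀ : G) * y ^ N)
  rw [hc.orderOf_mul_eq_mul_orderOf_of_coprime (by rw [hs₀ord, hy'ord]; exact hcop.symm),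
    hs₀ord, hy'ord, Subgroup.card_mul_index]

/-- Burnside: if `N(P) ≤ C(P)` then `p`-elements commute with `p'`-elements whose commutator
is a `p`-element. -/
theorem commute_of_burnside {G : Type*} [Group G] [Finite G] {p : ℕ} [hpf : Fact p.Prime]
    (P : Sylow p G) (hP : normalizer (P : Set G) ≤ centralizer (P : Set G)) (s y : G)
    (hy : ¬ p ∣ orderOf y) (j : ℕ) (hsy : (s⁻¹ * y⁻¹ * s * y) ^ (p ^ j) = 1) :
    s * y = y * s := by
  have hp := hpf.out
  have hcompl := MonoidHom.ker_transferSylow_isComplement' P hP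
  set K := (MonoidHom.transferSylow P hP).ker with hK
  have hyK : y ∈ K := by
    rw [hK, MonoidHom.mem_ker]
    obtain ⟨i, hi⟩ := (IsPGroup.iff_orderOf.mp P.2) (MonoidHom.transferSylow P hP y)
    have h1 : orderOf (MonoidHom.transferSylow P hP y) ∣ orderOf y := orderOf_map_dvd _ y
    rw [hi] at h1
    have hi0 : i = 0 := by
      by_contra h0
      exact hy ((dvd_pow_self p h0).trans h1)
    rw [hi0, pow_zero, orderOf_eq_one_iff] at hi
    exact hi
  have hcK : s⁻¹ * y⁻¹ * s * y ∈ K := by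
    have h1 : s⁻¹ * y⁻¹ * s⁻¹⁻¹ ∈ K := (inferInstance : K.Normal).conj_mem _ (inv_mem hyK) s⁻¹
    rw [inv_inv] at h1
    exact mul_mem h1 hyK
  have hKcard : ¬ p ∣ Nat.card K := by
    have h1 := hcompl.card_mul_card
    have h2 := Subgroup.card_mul_index (P : Subgroup G)
    have h3 : Nat.card K = (P : Subgroup G).index := by
      have hpos : 0 < Nat.card (P : Subgroup G) := Nat.card_pos
      have : Nat.card K * Nat.card (P : Subgroup G) =
          (P : Subgroup G).index * Nat.card (P : Subgroup G) := by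
        rw [h1, mul_comm, h2]
      exact Nat.eq_of_mul_eq_mul_right hpos this
    rw [h3]; exact P.not_dvd_index
  have hc1 : s⁻¹ * y⁻¹ * s * y = 1 := by
    have h1 : orderOf (s⁻¹ * y⁻¹ * s * y) ∣ p ^ j := orderOf_dvd_of_pow_eq_one hsy
    obtain ⟨i, -, hi⟩ := (Nat.dvd_prime_pow hp).mp h1
    have h2 : orderOf (s⁻¹ * y⁻¹ * s * y) ∣ Nat.card K := Subgroup.orderOf_dvd_natCard _ hcK
    have hi0 : i = 0 := by
      by_contra h0
      exact hKcard ((dvd_pow_self p h0).trans (hi ▸ h2))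
    rw [hi0, pow_zero, orderOf_eq_one_iff] at hi
    exact hi
  calc s * y = y * s * (s⁻¹ * y⁻¹ * s * y) := by group
    _ = y * s := by rw [hc1, mul_one]

end Cfsg.Agent.Helper22
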