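import Mathlib
import Cfsg.Agent.Helper22.PByCyclic
import Cfsg.Agent.Helper22.TI

set_option autoImplicit false

namespace Cfsg.Agent.Helper22

open Subgroup

/-- restricted `p`-by-cyclic subgroups -/
def RPC (p : ℕ) [Fact p.Prime] (G : Type*) [Group G] : Prop :=
  ∀ H : Subgroup G, (∀ S : Sylow p ↥H, (S : Subgroup ↥H).Normal) →
        (∀ (S : Sylow p ↥H) [(S : Subgroup ↥H).Normal], IsCyclic (↥H ⧸ (S : Subgroup ↥H))) →
        IsCyclic H ∨ (∃ n : ℕ, Nonempty (H ≃* DihedralGroup (p ^ n)))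

theorem mem_normalizer_of_conj' {G : Type*} [Group G] [Finite G] (K : Subgroup G) (g : G)
    (h : ∀ x ∈ K, g * x * g⁻¹ ∈ K) : g ∈ normalizer (K : Set G) := by
  have hle : K.map (MulAut.conj g).toMonoidHom ≤ K := by
    rintro _ ⟨x, hx, rfl⟩
    exact h x hx
  have hcard : Nat.card K ≤ Nat.card (K.map (MulAut.conj g).toMonoidHom) := by
    rw [Subgroup.card_map_of_injective (MulAut.conj g).injective]
  have heq := Subgroup.eq_of_le_of_card_ge hle hcard
  rw [mem_normalizer_iff_map_conj_eq]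
  exact heq

theorem centralizer_le_normalizer' {G : Type*} [Group G] [Finite G] (Q : Subgroup G) :
    centralizer (Q : Set G) ≤ normalizer (Q : Set G) := by
  intro c hc
  apply mem_normalizer_of_conj'
  intro q hq
  have := mem_centralizer_iff.mp hc q hq
  rw [← this, mul_inv_cancel_right]
  exact hq

theorem comm_of_isCyclic {K : Type*} [Group K] (h : IsCyclic K) (a b : K) : a * b = b * a := by
  obtain ⟨g, hg⟩ := IsCyclic.exists_generator (α := K)
  obtain ⟨i, hi⟩ := mem_zpowers_iff.mp (hg a)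
  obtain ⟨j, hj⟩ := mem_zpowers_iff.mp (hg b)
  rw [← hi, ← hj, ← zpow_add, ← zpow_add, add_comm]

theorem conj_mem_sup_zpowers {G : Type*} [Group G] (Q : Subgroup G) (y u : G)
    (hQ : ∀ q ∈ Q, y * q * y⁻¹ ∈ Q) (hu : y * u = u * y) :
    ∀ t ∈ Q ⊔ zpowers u, y * t * y⁻¹ ∈ Q ⊔ zpowers u := by
  intro t ht
  have h0 : (MulAut.conj y).toMonoidHom t ∈ (Q ⊔ zpowers u).map (MulAut.conj y).toMonoidHom :=
    mem_map_of_mem _ ht
  rw [Subgroup.map_sup, MonoidHom.map_zpowers] at h0
  have h1 : Q.map (MulAut.conj y).toMonoidHom ≤ Q := by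
    rintro _ ⟨q, hq, rfl⟩; exact hQ q hq
  have h2 : zpowers ((MulAut.conj y).toMonoidHom u) ≤ zpowers u := by
    rw [zpowers_le]
    show y * u * y⁻¹ ∈ zpowers u
    rw [hu, mul_inv_cancel_right]; exact mem_zpowers u
  exact (sup_le_sup h1 h2) h0

theorem rpc_key {G : Type*} [Group G] [Finite G] {p : ℕ} [hpf : Fact p.Prime] (hp2 : p ≠ 2)
    (hR : RPC p G) (H T : Subgroup G) (hTH : T ≤ H) (hT : IsPGroup p T)
    (hnorm : ∀ h ∈ H, ∀ t ∈ T, h * t * h⁻¹ ∈ T) (y : G) (hy : y ∈ H)
    (hgen : H ≤ T ⊔ zpowers y) (m : ℕ) (hm : ¬ p ∣ m) (hym : y ^ m ∈ T) (hyT : y ∉ T) :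
    (∀ a ∈ H, ∀ b ∈ H, a * b = b * a) ∨ (y * y = 1 ∧ ∀ t ∈ T, y * t * y⁻¹ = t⁻¹) := by
  have hp := hpf.out
  obtain ⟨h1, h2, h3⟩ := sylow_hyp_of H T hTH hT hnorm y hy hgen m hm hym
  rcases hR H h1 h2 with hc | ⟨n, ⟨e⟩⟩
  · left
    intro a ha b hb
    exact congrArg Subtype.val (comm_of_isCyclic hc ⟨a, ha⟩ ⟨b, hb⟩)
  · right
    let S : Sylow p ↥H := default
    have hS : (S : Subgroup ↥H) = T.subgroupOf H := h3 S
    obtain ⟨k, hk⟩ := IsPGroup.iff_card.mp S.2
    have hcardH : Nat.card ↥H = 2 * p ^ n := by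
      rw [Nat.card_congr e.toEquiv, DihedralGroup.nat_card]
    have hcardT : Nat.card (T.subgroupOf H) = p ^ n := by
      rw [← hS, hk]
      apply pow_eq_of_two_mul hp hp2 (r := (S : Subgroup ↥H).index) _ S.not_dvd_index
      rw [← hcardH, ← hk, Subgroup.card_mul_index]
    have hodd : Odd (p ^ n) := (hp.odd_of_ne_two hp2).pow
    have hy' : (⟨y, hy⟩ : ↥H) ∉ T.subgroupOf H := by rw [mem_subgroupOf]; exact hyT
    obtain ⟨h4, h5⟩ := dihedral_out hodd e (T.subgroupOf H) hcardT ⟨y, hy⟩ hy'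
    refine ⟨congrArg Subtype.val h4, fun t ht => ?_⟩
    have := h5 ⟨t, hTH ht⟩ (by rw [mem_subgroupOf]; exact ht)
    exact congrArg Subtype.val this

theorem rpc_forward {G : Type*} [Group G] [Finite G] {p : ℕ} [hpf : Fact p.Prime] (hp2 : p ≠ 2)
    (P : Sylow p G) (hR : RPC p G) :
    IsCyclic P ∧
      (normalizer ((P : Subgroup G) : Set G) = centralizer ((P : Subgroup G) : Set G) ∨
       ((centralizer ((P : Subgroup G) : Set G)).relIndex
          (normalizer ((P : Subgroup G) : Set G)) = 2 ∧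
        ∀ Q : Subgroup G, Q ≤ P → Nat.card Q = p →
          IsMulCommutative ↥(centralizer (Q : Set G)) ∧
          ∀ x : G, x ∈ normalizer (Q : Set G) → x ∉ centralizer (Q : Set G) →
            orderOf x = 2 ∧ ∀ c : G, c ∈ centralizer (Q : Set G) → x * c * x⁻¹ = c⁻¹)) := by
  have hp := hpf.out
  have hPcyc : IsCyclic ↥(P : Subgroup G) := by
    obtain ⟨h1, h2, -⟩ := sylow_hyp_of (P : Subgroup G) (P : Subgroup G) le_rfl P.2
      (fun h hh t ht => mul_mem (mul_mem hh ht) (inv_mem hh)) 1 (one_mem _) le_sup_left 1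
      (by rw [Nat.dvd_one]; exact hp.one_lt.ne') (by rw [pow_one]; exact one_mem _)
    rcases hR (P : Subgroup G) h1 h2 with hc | ⟨n, ⟨e⟩⟩
    · exact hc
    · exfalso
      obtain ⟨k, hk⟩ := IsPGroup.iff_card.mp P.2
      have h3 : Nat.card ↥(P : Subgroup G) = 2 * p ^ n := by
        rw [Nat.card_congr e.toEquiv, DihedralGroup.nat_card]
      rw [hk] at h3
      have h4 : 2 ∣ p ^ k := h3 ▸ Dvd.intro _ rfl
      exact hp2 ((Nat.prime_dvd_prime_iff_eq Nat.prime_two hp).mp
        (Nat.Prime.dvd_of_dvd_pow Nat.prime_two h4)).symm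
  have hPcomm : ∀ a ∈ (P : Subgroup G), ∀ b ∈ (P : Subgroup G), a * b = b * a := by
    intro a ha b hb
    exact congrArg Subtype.val (comm_of_isCyclic hPcyc ⟨a, ha⟩ ⟨b, hb⟩)
  have hstar : ∀ x ∈ normalizer ((P : Subgroup G) : Set G),
      x ∈ centralizer ((P : Subgroup G) : Set G) ∨
      (x * x = 1 ∧ ∀ t ∈ (P : Subgroup G), x * t * x⁻¹ = t⁻¹) := by
    intro x hx
    by_cases hxP : x ∈ (P : Subgroup G)
    · left
      rw [mem_centralizer_iff]
      intro t ht
      exact hPcomm t ht x hxP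
    · obtain ⟨m, hm, hxm⟩ : ∃ m, ¬ p ∣ m ∧ x ^ m ∈ (P : Subgroup G) := by
        haveI : ((P : Subgroup G).subgroupOf (normalizer ((P : Subgroup G) : Set G))).Normal :=
          Subgroup.normal_in_normalizer
        refine ⟨((P : Subgroup G).subgroupOf (normalizer ((P : Subgroup G) : Set G))).index,
          ?_, ?_⟩
        · intro h
          have h1 : (P : Subgroup G).relIndex (normalizer ((P : Subgroup G) : Set G)) ∣
              (P : Subgroup G).index := relIndex_dvd_index_of_le le_normalizer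
          exact P.not_dvd_index (h.trans h1)
        · have h1 : ((QuotientGroup.mk (⟨x, hx⟩ : ↥(normalizer ((P : Subgroup G) : Set G)))) :
              _ ⧸ ((P : Subgroup G).subgroupOf (normalizer ((P : Subgroup G) : Set G)))) ^
              ((P : Subgroup G).subgroupOf (normalizer ((P : Subgroup G) : Set G))).index = 1 :=
            pow_card_eq_one'
          rw [← QuotientGroup.mk_pow, QuotientGroup.eq_one_iff, mem_subgroupOf] at h1
          simpa using h1
      have hle : (P : Subgroup G) ⊔ zpowers x ≤ normalizer ((P : Subgroup G) : Set G) :=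
        sup_le le_normalizer (by rw [zpowers_le]; exact hx)
      rcases rpc_key hp2 hR ((P : Subgroup G) ⊔ zpowers x) (P : Subgroup G) le_sup_left P.2
        (le_normalizer_iff.mp hle) x (le_sup_right (a := (P : Subgroup G)) (mem_zpowers x))
        le_rfl m hm hxm hxP with h | h
      · left
        rw [mem_centralizer_iff]
        intro t ht
        exact h t (le_sup_left (a := (P : Subgroup G)) ht) x
          (le_sup_right (a := (P : Subgroup G)) (mem_zpowers x))
      · right; exact h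
  refine ⟨hPcyc, ?_⟩
  by_cases hNC : normalizer ((P : Subgroup G) : Set G) = centralizer ((P : Subgroup G) : Set G)
  · left; exact hNC
  · right
    have hCN := centralizer_le_normalizer' (P : Subgroup G)
    obtain ⟨x₀, hx₀N, hx₀C⟩ : ∃ x₀ ∈ normalizer ((P : Subgroup G) : Set G),
        x₀ ∉ centralizer ((P : Subgroup G) : Set G) := by
      by_contra hcon
      push_neg at hcon
      exact hNC (le_antisymm hcon hCN)
    have hinv : ∀ x ∈ normalizer ((P : Subgroup G) : Set G),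
        x ∉ centralizer ((P : Subgroup G) : Set G) →
        ∀ t ∈ (P : Subgroup G), x * t * x⁻¹ = t⁻¹ :=
      fun x hx hxc => ((hstar x hx).resolve_left hxc).2
    have hrel : (centralizer ((P : Subgroup G) : Set G)).relIndex
        (normalizer ((P : Subgroup G) : Set G)) = 2 := by
      show ((centralizer ((P : Subgroup G) : Set G)).subgroupOf
        (normalizer ((P : Subgroup G) : Set G))).index = 2
      rw [index_eq_two_iff]
      refine ⟨⟨x₀, hx₀N⟩, fun b => ?_⟩
      simp only [mem_subgroupOf, Subgroup.coe_mul]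
      by_cases hb : (b : G) ∈ centralizer ((P : Subgroup G) : Set G)
      · right; refine ⟨hb, ?_⟩
        intro h
        have : x₀ = (b : G)⁻¹ * ((b : G) * x₀) := by group
        exact hx₀C (this ▸ mul_mem (inv_mem hb) h)
      · left; refine ⟨?_, hb⟩
        rw [mem_centralizer_iff]
        intro t ht
        have h1 := hinv x₀ hx₀N hx₀C t ht
        have h2 := hinv b b.2 hb t⁻¹ (inv_mem ht)
        rw [inv_inv] at h2
        symm
        calc (b : G) * x₀ * t = ↑b * (x₀ * t * x₀⁻¹) * x₀ := by group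
          _ = ↑b * t⁻¹ * x₀ := by rw [h1]
          _ = (↑b * t⁻¹ * (↑b)⁻¹) * (↑b * x₀) := by group
          _ = t * (↑b * x₀) := by rw [h2]
    refine ⟨hrel, ?_⟩
    intro Q hQP hQcard
    have hQcomm : ∀ a ∈ Q, ∀ b ∈ Q, a * b = b * a :=
      fun a ha b hb => hPcomm a (hQP ha) b (hQP hb)
    have hQC : Q ≤ centralizer (Q : Set G) :=
      fun a ha => mem_centralizer_iff.mpr (fun b hb => hQcomm b hb a ha)
    have hCNQ := centralizer_le_normalizer' Q
    have h41 : ∀ y ∈ normalizer (Q : Set G), y ∉ centralizer (Q : Set G) → y * y = 1 := by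
      intro y hyN hyC
      have hynorm : ∀ q ∈ Q, y * q * y⁻¹ ∈ Q :=
        le_normalizer_iff.mp (zpowers_le.mpr hyN) y (mem_zpowers y)
      have ho : orderOf y ≠ 0 := (orderOf_pos y).ne'
      obtain ⟨a, m, hm, ham⟩ := Nat.exists_eq_pow_mul_and_not_dvd ho p hp.ne_one
      have hu : (y ^ m) ^ (p ^ a) = 1 := by
        rw [← pow_mul, mul_comm, ← ham, pow_orderOf_eq_one]
      have hunorm : ∀ q ∈ Q, y ^ m * q * (y ^ m)⁻¹ ∈ Q :=
        le_normalizer_iff.mp (zpowers_le.mpr hyN) (y ^ m) (npow_mem_zpowers y m)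
      have huc := centralizes_of_p_elt Q hQcard (y ^ m) a hu hunorm
      have hT : IsPGroup p ↥(Q ⊔ zpowers (y ^ m)) :=
        isPGroup_sup_zpowers Q (P.2.to_le hQP) (y ^ m) a hu huc
      have hTC : Q ⊔ zpowers (y ^ m) ≤ centralizer (Q : Set G) :=
        sup_le hQC (by
          rw [zpowers_le, mem_centralizer_iff]; intro q hq; exact (huc q hq).symm)
      have hyT : y ∉ Q ⊔ zpowers (y ^ m) := fun h => hyC (hTC h)
      have hyN' : y ∈ normalizer ((Q ⊔ zpowers (y ^ m) : Subgroup G) : Set G) :=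
        mem_normalizer_of_conj' _ y
          (conj_mem_sup_zpowers Q y (y ^ m) hynorm ((Commute.refl y).pow_right m).eq)
      have hHle : (Q ⊔ zpowers (y ^ m)) ⊔ zpowers y ≤
          normalizer ((Q ⊔ zpowers (y ^ m) : Subgroup G) : Set G) :=
        sup_le le_normalizer (zpowers_le.mpr hyN')
      rcases rpc_key hp2 hR ((Q ⊔ zpowers (y ^ m)) ⊔ zpowers y) (Q ⊔ zpowers (y ^ m))
        le_sup_left hT (le_normalizer_iff.mp hHle) y
        (le_sup_right (a := Q ⊔ zpowers (y ^ m)) (mem_zpowers y)) le_rfl m hm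
        (le_sup_right (a := Q) (mem_zpowers (y ^ m))) hyT with h | h
      · exfalso; apply hyC
        rw [mem_centralizer_iff]
        intro q hq
        exact h q (le_sup_left (a := Q ⊔ zpowers (y ^ m)) (le_sup_left (a := Q) hq)) y
          (le_sup_right (a := Q ⊔ zpowers (y ^ m)) (mem_zpowers y))
      · exact h.1
    have h42 : ∀ x ∈ normalizer (Q : Set G), x ∉ centralizer (Q : Set G) →
        ∀ c ∈ centralizer (Q : Set G), x * c * x⁻¹ = c⁻¹ := by
      intro x hxN hxC c hc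
      have hxx := h41 x hxN hxC
      have hxcN : x * c ∈ normalizer (Q : Set G) := mul_mem hxN (hCNQ hc)
      have hxcC : x * c ∉ centralizer (Q : Set G) := fun h => hxC (by
        have : x = (x * c) * c⁻¹ := by group
        rw [this]; exact mul_mem h (inv_mem hc))
      have h2 := h41 (x * c) hxcN hxcC
      have hxinv : x⁻¹ = x := inv_eq_of_mul_eq_one_left hxx
      rw [hxinv]
      apply eq_inv_of_mul_eq_one_left
      calc x * c * x * c = x * c * (x * c) := by group
        _ = 1 := h2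
    have hx₀NQ : x₀ ∈ normalizer (Q : Set G) :=
      mem_normalizer_of_conj' Q x₀ (fun q hq => by
        rw [hinv x₀ hx₀N hx₀C q (hQP hq)]; exact inv_mem hq)
    have hx₀CQ : x₀ ∉ centralizer (Q : Set G) := by
      intro hc
      obtain ⟨q₁, hq₁Q, hq₁1⟩ : ∃ q₁ ∈ Q, q₁ ≠ 1 := by
        haveI : Nontrivial Q := by
          rw [← Finite.one_lt_card_iff_nontrivial, hQcard]; exact hp.one_lt
        obtain ⟨x, hx⟩ := exists_ne (1 : ↥Q)
        exact ⟨x.1, x.2, fun h => hx (Subtype.ext h)⟩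
      have h1 := hinv x₀ hx₀N hx₀C q₁ (hQP hq₁Q)
      have h2 : x₀ * q₁ * x₀⁻¹ = q₁ := by
        have := mem_centralizer_iff.mp hc q₁ hq₁Q
        rw [← this, mul_inv_cancel_right]
      have h3 : q₁ * q₁ = 1 := by
        rw [h1] at h2
        calc q₁ * q₁ = q₁⁻¹ * q₁ := by rw [h2]
          _ = 1 := inv_mul_cancel q₁
      have h4 : orderOf q₁ ∣ 2 := orderOf_dvd_of_pow_eq_one (by rw [pow_two]; exact h3)
      have h5 : orderOf q₁ ∣ p := hQcard ▸ Subgroup.orderOf_dvd_natCard _ hq₁Q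
      have h6 : orderOf q₁ ∣ Nat.gcd 2 p := Nat.dvd_gcd h4 h5
      have h7 : Nat.gcd 2 p = 1 := (Nat.coprime_primes Nat.prime_two hp).mpr (Ne.symm hp2)
      rw [h7] at h6
      exact hq₁1 (orderOf_eq_one_iff.mp (Nat.dvd_one.mp h6))
    refine ⟨⟨⟨fun c d => Subtype.ext ?_⟩⟩, fun x hxN hxC => ⟨?_, h42 x hxN hxC⟩⟩
    · have h1 := h42 x₀ hx₀NQ hx₀CQ (c * d) (mul_mem c.2 d.2)
      have h2 := h42 x₀ hx₀NQ hx₀CQ c c.2
      have h3 := h42 x₀ hx₀NQ hx₀CQ d d.2
      have h4 : (c : G)⁻¹ * (d : G)⁻¹ = ((c : G) * d)⁻¹ := by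
        rw [← h1, ← h2, ← h3]; group
      show (c : G) * d = d * c
      have h5 : ((d : G) * c)⁻¹ = ((c : G) * d)⁻¹ := by rw [mul_inv_rev]; exact h4
      exact (inv_injective h5).symm
    · exact orderOf_eq_prime (by rw [pow_two]; exact h41 x hxN hxC)
        (fun h => hxC (h ▸ one_mem _))

end Cfsg.Agent.Helper22
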