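import Mathlib
import Cfsg.Agent.Helper22.PByCyclic2

set_option autoImplicit false

namespace Cfsg.Agent.Helper22

open Subgroup

theorem zpow_two_cases' {K : Type*} [Group K] (a : K) (ha : a * a = 1) (i : ℤ) :
    a ^ i = 1 ∨ a ^ i = a := by
  rcases Int.even_or_odd' i with ⟨k, rfl | rfl⟩
  · left; rw [zpow_mul, zpow_two, ha, one_zpow]
  · right; rw [zpow_add, zpow_mul, zpow_two, ha, one_zpow, one_mul, zpow_one]

theorem mem_zpowers_of_pow_eq_one {K : Type*} [Group K] [Finite K] (hK : IsCyclic K) (q x : K)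
    (n : ℕ) (hn : 0 < n) (hq : orderOf q = n) (hx : x ^ n = 1) : x ∈ zpowers q := by
  classical
  haveI := Fintype.ofFinite K
  have hA := IsCyclic.card_pow_eq_one_le (α := K) hn
  have hBA : (Finset.univ.filter (fun a : K => a ∈ zpowers q)) ⊆
      Finset.univ.filter (fun a : K => a ^ n = 1) := by
    intro a ha
    simp only [Finset.mem_filter, Finset.mem_univ, true_and] at ha ⊢
    obtain ⟨i, rfl⟩ := mem_zpowers_iff.mp ha
    rw [← zpow_natCast, ← zpow_mul, mul_comm, zpow_mul, zpow_natCast, ← hq, pow_orderOf_eq_one,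
      one_zpow]
  have hBcard : (Finset.univ.filter (fun a : K => a ∈ zpowers q)).card = n := by
    rw [← Fintype.card_subtype, ← Nat.card_eq_fintype_card]
    exact (Nat.card_zpowers q).trans hq
  have heq := Finset.eq_of_subset_of_card_le hBA (by rw [hBcard]; exact hA)
  have : x ∈ Finset.univ.filter (fun a : K => a ^ n = 1) := by simp [hx]
  rw [← heq] at this
  simpa using this

theorem conj_centralizer_iff {G : Type*} [Group G] (Q₁ : Subgroup G) (g c : G) :
    g⁻¹ * c * g ∈ centralizer ((Q₁.map (MulAut.conj g⁻¹).toMonoidHom : Subgroup G) : Set G) ↔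
      c ∈ centralizer (Q₁ : Set G) := by
  rw [mem_centralizer_iff, mem_centralizer_iff]
  constructor
  · intro h q hq
    have := h (g⁻¹ * q * g) ⟨q, hq, by simp [MulAut.conj_apply]⟩
    have e1 : g⁻¹ * q * g * (g⁻¹ * c * g) = g⁻¹ * (q * c) * g := by group
    have e2 : g⁻¹ * c * g * (g⁻¹ * q * g) = g⁻¹ * (c * q) * g := by group
    rw [e1, e2] at this
    exact mul_left_cancel (mul_right_cancel this)
  · rintro h _ ⟨q, hq, rfl⟩
    show g⁻¹ * q * g⁻¹⁻¹ * (g⁻¹ * c * g) = g⁻¹ * c * g * (g⁻¹ * q * g⁻¹⁻¹)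
    rw [inv_inv]
    have e1 : g⁻¹ * q * g * (g⁻¹ * c * g) = g⁻¹ * (q * c) * g := by group
    have e2 : g⁻¹ * c * g * (g⁻¹ * q * g) = g⁻¹ * (c * q) * g := by group
    rw [e1, e2, h q hq]

theorem conj_normalizer {G : Type*} [Group G] [Finite G] (Q₁ : Subgroup G) (g x : G)
    (hx : x ∈ normalizer (Q₁ : Set G)) :
    g⁻¹ * x * g ∈ normalizer ((Q₁.map (MulAut.conj g⁻¹).toMonoidHom : Subgroup G) : Set G) := by
  apply mem_normalizer_of_conj'
  rintro _ ⟨q, hq, rfl⟩
  refine ⟨x * q * x⁻¹, le_normalizer_iff.mp (zpowers_le.mpr hx) x (mem_zpowers x) q hq, ?_⟩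
  show g⁻¹ * (x * q * x⁻¹) * g⁻¹⁻¹ = g⁻¹ * x * g * (g⁻¹ * q * g⁻¹⁻¹) * (g⁻¹ * x * g)⁻¹
  group

theorem rpc_backward {G : Type*} [Group G] [Finite G] {p : ℕ} [hpf : Fact p.Prime] (hp2 : p ≠ 2)
    (P : Sylow p G) (hPcyc : IsCyclic P)
    (hcase : normalizer ((P : Subgroup G) : Set G) = centralizer ((P : Subgroup G) : Set G) ∨
       ((centralizer ((P : Subgroup G) : Set G)).relIndex
          (normalizer ((P : Subgroup G) : Set G)) = 2 ∧
        ∀ Q : Subgroup G, Q ≤ P → Nat.card Q = p →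
          IsMulCommutative ↥(centralizer (Q : Set G)) ∧
          ∀ x : G, x ∈ normalizer (Q : Set G) → x ∉ centralizer (Q : Set G) →
            orderOf x = 2 ∧ ∀ c : G, c ∈ centralizer (Q : Set G) → x * c * x⁻¹ = c⁻¹)) :
    RPC p G := by
  have hp := hpf.out
  intro H hN hQ
  let S : Sylow p ↥H := default
  haveI hSn : (S : Subgroup ↥H).Normal := hN S
  have hQS : IsCyclic (↥H ⧸ (S : Subgroup ↥H)) := hQ S
  set S₁ : Subgroup G := (S : Subgroup ↥H).map H.subtype with hS₁
  have hS₁p : IsPGroup p ↥S₁ := S.2.map H.subtype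
  obtain ⟨P', hP'⟩ := hS₁p.exists_le_sylow
  obtain ⟨g, rfl⟩ : ∃ g : G, g • P = P' := MulAction.exists_smul_eq G P P'
  have hS₁P : ∀ s ∈ S₁, g⁻¹ * s * g ∈ (P : Subgroup G) :=
    fun s hs => (sylow_smul_mem_iff P g s).mp (hP' hs)
  have hmemS₁ : ∀ s : ↥H, s ∈ (S : Subgroup ↥H) ↔ (s : G) ∈ S₁ :=
    fun s => (mem_map_iff_mem (Subgroup.subtype_injective H)).symm
  haveI := hPcyc
  have hScyc : IsCyclic ↥(S : Subgroup ↥H) := by
    let f : ↥(S : Subgroup ↥H) →* ↥(P : Subgroup G) :=
      { toFun := fun s => ⟨g⁻¹ * ((s : ↥H) : G) * g, hS₁P _ ((hmemS₁ s.1).mp s.2)⟩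
        map_one' := by apply Subtype.ext; simp
        map_mul' := by intro a b; apply Subtype.ext; simp; group }
    apply isCyclic_of_injective f
    intro a b hab
    have h3 : g⁻¹ * ((a : ↥H) : G) * g = g⁻¹ * ((b : ↥H) : G) * g := congrArg Subtype.val hab
    apply Subtype.ext; apply Subtype.ext
    exact mul_left_cancel (mul_right_cancel h3)
  have hScomm : ∀ a ∈ S₁, ∀ b ∈ S₁, a * b = b * a := by
    rintro _ ⟨a, ha, rfl⟩ _ ⟨b, hb, rfl⟩
    have := comm_of_isCyclic hScyc ⟨a, ha⟩ ⟨b, hb⟩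
    exact congrArg (fun z : ↥(S : Subgroup ↥H) => ((z : ↥H) : G)) this
  by_cases hSbot : (S : Subgroup ↥H) = ⊥
  · left
    haveI := hQS
    exact isCyclic_of_injective (QuotientGroup.mk' (S : Subgroup ↥H))
      (by rw [← MonoidHom.ker_eq_bot_iff, QuotientGroup.ker_mk', hSbot])
  · rcases hcase with h1 | ⟨-, h2⟩
    · left
      apply cyclic_of_commute S hScyc hQS
      intro s hs y hy
      have hc : s⁻¹ * y⁻¹ * s * y ∈ (S : Subgroup ↥H) := by
        have h3 : y⁻¹ * s * y⁻¹⁻¹ ∈ (S : Subgroup ↥H) := hSn.conj_mem s hs y⁻¹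
        rw [inv_inv] at h3
        have : s⁻¹ * y⁻¹ * s * y = s⁻¹ * (y⁻¹ * s * y) := by group
        rw [this]; exact mul_mem (inv_mem hs) h3
      obtain ⟨j, hj⟩ := S.2 ⟨s⁻¹ * y⁻¹ * s * y, hc⟩
      have hj' : ((s : G)⁻¹ * (y : G)⁻¹ * (s : G) * (y : G)) ^ (p ^ j) = 1 := by
        have := congrArg (fun z : ↥(S : Subgroup ↥H) => ((z : ↥H) : G)) hj
        simpa using this
      have := commute_of_burnside P h1.le (s : G) (y : G) (by rwa [Subgroup.orderOf_coe]) j hj'
      exact Subtype.ext this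
    · obtain ⟨k, hk⟩ := IsPGroup.iff_card.mp S.2
      have hk0 : k ≠ 0 := by
        rintro rfl
        rw [pow_zero, Subgroup.card_eq_one] at hk
        exact hSbot hk
      obtain ⟨s₁, hs₁⟩ := exists_prime_orderOf_dvd_card' (G := ↥(S : Subgroup ↥H)) p
        (by rw [hk]; exact dvd_pow_self p hk0)
      set q₁ : G := ((s₁ : ↥H) : G) with hq₁
      have hq₁ord : orderOf q₁ = p := by
        rw [hq₁, Subgroup.orderOf_coe, Subgroup.orderOf_coe, hs₁]
      have hq₁S : q₁ ∈ S₁ := (hmemS₁ s₁.1).mp s₁.2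
      set Q₁ := zpowers q₁ with hQ₁
      have hQ₁S : Q₁ ≤ S₁ := by rw [hQ₁, zpowers_le]; exact hq₁S
      have hQ₁card : Nat.card Q₁ = p := by rw [hQ₁, Nat.card_zpowers, hq₁ord]
      have hS₁cyc : IsCyclic ↥S₁ := by
        haveI := hScyc
        exact isCyclic_of_surjective (H.subtype.subgroupMap (S : Subgroup ↥H))
          (H.subtype.subgroupMap_surjective _)
      have hS₁Q₁ : ∀ x ∈ S₁, x ^ p = 1 → x ∈ Q₁ := by
        intro x hx hxp
        have := mem_zpowers_of_pow_eq_one hS₁cyc (⟨q₁, hq₁S⟩ : ↥S₁) ⟨x, hx⟩ p hp.pos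
          (by rw [← Subgroup.orderOf_coe]; exact hq₁ord) (Subtype.ext (by simpa using hxp))
        obtain ⟨i, hi⟩ := mem_zpowers_iff.mp this
        rw [hQ₁, mem_zpowers_iff]
        exact ⟨i, by have := congrArg Subtype.val hi; simpa using this⟩
      have hHS₁ : ∀ h ∈ H, ∀ s ∈ S₁, h * s * h⁻¹ ∈ S₁ := by
        intro h hh s hs
        obtain ⟨s', hs', rfl⟩ := hs
        have := hSn.conj_mem s' hs' ⟨h, hh⟩
        exact (hmemS₁ _).mp this
      have hHN : ∀ h ∈ H, h ∈ normalizer (Q₁ : Set G) := by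
        intro h hh
        apply mem_normalizer_of_conj'
        intro x hx
        apply hS₁Q₁
        · exact hHS₁ h hh x (hQ₁S hx)
        · rw [conj_pow]
          have : x ^ p = 1 := by
            obtain ⟨i, rfl⟩ := mem_zpowers_iff.mp hx
            rw [← zpow_natCast, ← zpow_mul, mul_comm, zpow_mul, zpow_natCast, ← hq₁ord,
              pow_orderOf_eq_one, one_zpow]
          rw [this]; group
      have hS₁C : S₁ ≤ centralizer (Q₁ : Set G) :=
        fun s hs => mem_centralizer_iff.mpr (fun q hq => hScomm q (hQ₁S hq) s hs)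
      set Q := Q₁.map (MulAut.conj g⁻¹).toMonoidHom with hQdef
      have hQP : Q ≤ (P : Subgroup G) := by
        rintro _ ⟨q, hq, rfl⟩
        show g⁻¹ * q * g⁻¹⁻¹ ∈ (P : Subgroup G)
        rw [inv_inv]; exact hS₁P q (hQ₁S hq)
      have hQcard : Nat.card Q = p := by
        rw [hQdef, Subgroup.card_map_of_injective (MulAut.conj g⁻¹).injective, hQ₁card]
      obtain ⟨hCcomm, hNinv⟩ := h2 Q hQP hQcard
      have hC₁comm : ∀ c ∈ centralizer (Q₁ : Set G), ∀ d ∈ centralizer (Q₁ : Set G),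
          c * d = d * c := by
        intro c hc d hd
        have hc' := (conj_centralizer_iff Q₁ g c).mpr hc
        have hd' := (conj_centralizer_iff Q₁ g d).mpr hd
        have := hCcomm.is_comm.comm ⟨_, hc'⟩ ⟨_, hd'⟩
        have h3 : g⁻¹ * c * g * (g⁻¹ * d * g) = g⁻¹ * d * g * (g⁻¹ * c * g) :=
          congrArg Subtype.val this
        have e1 : g⁻¹ * c * g * (g⁻¹ * d * g) = g⁻¹ * (c * d) * g := by group
        have e2 : g⁻¹ * d * g * (g⁻¹ * c * g) = g⁻¹ * (d * c) * g := by group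
        rw [e1, e2] at h3
        exact mul_left_cancel (mul_right_cancel h3)
      have hN₁ : ∀ x ∈ normalizer (Q₁ : Set G), x ∉ centralizer (Q₁ : Set G) →
          x * x = 1 ∧ ∀ c ∈ centralizer (Q₁ : Set G), x * c * x⁻¹ = c⁻¹ := by
        intro x hxN hxC
        have hxN' := conj_normalizer Q₁ g x hxN
        have hxC' : g⁻¹ * x * g ∉ centralizer (Q : Set G) :=
          fun h => hxC ((conj_centralizer_iff Q₁ g x).mp h)
        obtain ⟨ho, hinv⟩ := hNinv _ hxN' hxC'
        constructor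
        · have h3 : (g⁻¹ * x * g) ^ 2 = 1 := by rw [← ho]; exact pow_orderOf_eq_one _
          have e1 : (g⁻¹ * x * g) ^ 2 = g⁻¹ * (x * x) * g := by rw [pow_two]; group
          rw [e1] at h3
          have : x * x = g * (g⁻¹ * (x * x) * g) * g⁻¹ := by group
          rw [this, h3]; group
        · intro c hc
          have h3 := hinv _ ((conj_centralizer_iff Q₁ g c).mpr hc)
          have e1 : g⁻¹ * x * g * (g⁻¹ * c * g) * (g⁻¹ * x * g)⁻¹ = g⁻¹ * (x * c * x⁻¹) * g := by
            group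
          have e2 : (g⁻¹ * c * g)⁻¹ = g⁻¹ * c⁻¹ * g := by group
          rw [e1, e2] at h3
          exact mul_left_cancel (mul_right_cancel h3)
      by_cases hHC : H ≤ centralizer (Q₁ : Set G)
      · left
        apply cyclic_of_commute S hScyc hQS
        intro s hs y hy
        exact Subtype.ext (hC₁comm s (hHC s.2) y (hHC y.2))
      · right
        obtain ⟨t, htH, htC⟩ : ∃ t ∈ H, t ∉ centralizer (Q₁ : Set G) := by
          by_contra hcon
          push_neg at hcon
          exact hHC hcon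
        obtain ⟨htt, htinv⟩ := hN₁ t (hHN t htH) htC
        have hF2 : ∀ b ∈ H, b ∉ centralizer (Q₁ : Set G) →
            b * t ∈ centralizer (Q₁ : Set G) := by
          intro b hb hbC
          obtain ⟨-, hbinv⟩ := hN₁ b (hHN b hb) hbC
          rw [mem_centralizer_iff]
          intro q hq
          have hqC : q ∈ centralizer (Q₁ : Set G) := hS₁C (hQ₁S hq)
          have h3 := htinv q hqC
          have h4 := hbinv q⁻¹ (inv_mem hqC)
          rw [inv_inv] at h4
          symm
          calc b * t * q = b * (t * q * t⁻¹) * t := by group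
            _ = b * q⁻¹ * t := by rw [h3]
            _ = (b * q⁻¹ * b⁻¹) * (b * t) := by group
            _ = q * (b * t) := by rw [h4]
        have hF1 : ∀ c ∈ H, c ∈ centralizer (Q₁ : Set G) → c ∈ S₁ := by
          intro c hcH hcC
          let π := QuotientGroup.mk' (S : Subgroup ↥H)
          let t' : ↥H := ⟨t, htH⟩
          let c' : ↥H := ⟨c, hcH⟩
          have hqcomm : ∀ a b : ↥H ⧸ (S : Subgroup ↥H), a * b = b * a := comm_of_isCyclic hQS
          have ht'S : t' ∉ (S : Subgroup ↥H) := fun h => htC (hS₁C ((hmemS₁ t').mp h))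
          have hπt1 : π t' ≠ 1 := fun h => ht'S ((QuotientGroup.eq_one_iff t').mp h)
          have hπtt : π t' * π t' = 1 := by
            rw [← map_mul]
            have : t' * t' = 1 := Subtype.ext htt
            rw [this, map_one]
          have hπord : orderOf (π t') = 2 :=
            orderOf_eq_prime (by rw [pow_two]; exact hπtt) hπt1
          have hπc : π c' ^ 2 = 1 := by
            have h3 : t' * c' * t'⁻¹ = c'⁻¹ := Subtype.ext (htinv c hcC)
            have h4 : π t' * π c' * (π t')⁻¹ = (π c')⁻¹ := by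
              rw [← map_mul, ← map_inv, ← map_mul, h3, map_inv]
            rw [hqcomm (π t') (π c'), mul_inv_cancel_right] at h4
            rw [pow_two]
            nth_rewrite 1 [h4]
            exact inv_mul_cancel _
          have hmem := mem_zpowers_of_pow_eq_one hQS (π t') (π c') 2 (by norm_num) hπord hπc
          obtain ⟨i, hi⟩ := mem_zpowers_iff.mp hmem
          rcases zpow_two_cases' (π t') hπtt i with h5 | h5
          · rw [h5] at hi
            have : c' ∈ (S : Subgroup ↥H) := (QuotientGroup.eq_one_iff c').mp hi.symm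
            exact (hmemS₁ c').mp this
          · exfalso
            rw [h5] at hi
            have h6 : t'⁻¹ * c' ∈ (S : Subgroup ↥H) := QuotientGroup.eq.mp hi
            have h7 : t⁻¹ * c ∈ centralizer (Q₁ : Set G) := hS₁C ((hmemS₁ _).mp h6)
            apply htC
            have : t = c * (t⁻¹ * c)⁻¹ := by group
            rw [this]; exact mul_mem hcC (inv_mem h7)
        have hidx : (S : Subgroup ↥H).index = 2 := by
          rw [index_eq_two_iff]
          refine ⟨⟨t, htH⟩, fun b => ?_⟩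
          by_cases hb : b ∈ (S : Subgroup ↥H)
          · right; refine ⟨hb, fun h => ?_⟩
            have : (⟨t, htH⟩ : ↥H) = b⁻¹ * (b * ⟨t, htH⟩) := by group
            have h3 : (⟨t, htH⟩ : ↥H) ∈ (S : Subgroup ↥H) := this ▸ mul_mem (inv_mem hb) h
            exact htC (hS₁C ((hmemS₁ _).mp h3))
          · left; refine ⟨?_, hb⟩
            have hbC : (b : G) ∉ centralizer (Q₁ : Set G) :=
              fun h => hb ((hmemS₁ b).mpr (hF1 b b.2 h))
            have h3 := hF2 b b.2 hbC
            exact (hmemS₁ _).mpr (hF1 _ (mul_mem b.2 htH) h3)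
        obtain ⟨s₀, hs₀⟩ := IsCyclic.exists_generator (α := ↥(S : Subgroup ↥H))
        have hs₀ord : orderOf (s₀ : ↥H) = p ^ k := by
          rw [Subgroup.orderOf_coe, ← hk]; exact orderOf_eq_card_of_forall_mem_zpowers hs₀
        haveI : NeZero (p ^ k) := ⟨pow_ne_zero k hp.ne_zero⟩
        refine ⟨k, Cfsg.Agent.Helper9.dihedral_equiv_of (p ^ k) (s₀ : ↥H) ⟨t, htH⟩ hs₀ord
          (Subtype.ext htt) ?_ ?_ ?_⟩
        · apply Subtype.ext
          exact htinv _ (hS₁C ((hmemS₁ _).mp s₀.2))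
        · intro hmem
          have h3 : zpowers (s₀ : ↥H) ≤ (S : Subgroup ↥H) := by rw [zpowers_le]; exact s₀.2
          exact htC (hS₁C ((hmemS₁ _).mp (h3 hmem)))
        · rw [← Subgroup.card_mul_index (S : Subgroup ↥H), hidx, hk, mul_comm]

end Cfsg.Agent.Helper22
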