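import Mathlib
import Cfsg.Prelude

set_option autoImplicit false

namespace Cfsg.Agent.Helper22

/-- In a commutative-transitive group, centralizers of elements are TI-subsets. -/
theorem isTISubset_centralizer_of_ct {G : Type*} [Group G]
    (hct : ∀ a b c : G, b ≠ 1 → a * b = b * a → b * c = c * b → a * c = c * a) (x : G) :
    Cfsg.IsTISubset (Subgroup.centralizer ({x} : Set G) : Set G) := by
  intro g hg y hy hgy
  by_contra hy1
  apply hg
  rw [Subgroup.mem_set_normalizer_iff]
  intro h
  simp only [SetLike.mem_coe, Subgroup.mem_centralizer_singleton_iff] at hy hgy ⊢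
  by_cases hx : x = 1
  · subst hx; simp
  have hgy1 : g * y * g⁻¹ ≠ 1 := by
    intro e
    apply hy1
    have : y = g⁻¹ * (g * y * g⁻¹) * g := by group
    rw [this, e]; group
  constructor
  · intro hh
    -- h commutes with x, x commutes with y, so h commutes with y
    have h1 : h * y = y * h := hct h x y hx hh hy.symm
    have h2 : g * h * g⁻¹ * (g * y * g⁻¹) = g * y * g⁻¹ * (g * h * g⁻¹) := by
      calc g * h * g⁻¹ * (g * y * g⁻¹) = g * (h * y) * g⁻¹ := by group
        _ = g * (y * h) * g⁻¹ := by rw [h1]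
        _ = g * y * g⁻¹ * (g * h * g⁻¹) := by group
    exact hct (g * h * g⁻¹) (g * y * g⁻¹) x hgy1 h2 hgy
  · intro hh
    have h1 : g * h * g⁻¹ * (g * y * g⁻¹) = g * y * g⁻¹ * (g * h * g⁻¹) :=
      hct (g * h * g⁻¹) x (g * y * g⁻¹) hx hh hgy.symm
    have h2 : h * y = y * h := by
      calc h * y = g⁻¹ * (g * h * g⁻¹ * (g * y * g⁻¹)) * g := by group
        _ = g⁻¹ * (g * y * g⁻¹ * (g * h * g⁻¹)) * g := by rw [h1]
        _ = y * h := by group
    exact hct h y x hy1 h2 hy

section Mat

variable {F : Type*} [Field F]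

/-- A matrix commuting with a non-scalar `2 × 2` matrix `B` is of the form `α + β B`. -/
theorem exists_eq_smul_one_add_smul (A B : Matrix (Fin 2) (Fin 2) F)
    (hB : B 0 1 ≠ 0 ∨ B 1 0 ≠ 0 ∨ B 0 0 ≠ B 1 1) (h : A * B = B * A) :
    ∃ α β : F, A = α • (1 : Matrix (Fin 2) (Fin 2) F) + β • B := by
  have e00 := congrFun (congrFun h 0) 0
  have e01 := congrFun (congrFun h 0) 1
  have e10 := congrFun (congrFun h 1) 0
  simp only [Matrix.mul_apply, Fin.sum_univ_two] at e00 e01 e10
  by_cases hb : B 0 1 = 0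
  swap
  · refine ⟨A 0 0 - A 0 1 / B 0 1 * B 0 0, A 0 1 / B 0 1, ?_⟩
    ext i j
    fin_cases i <;> fin_cases j <;> simp <;> field_simp <;>
      first
      | linear_combination e00 | linear_combination -e00
      | linear_combination e01 | linear_combination -e01
      | linear_combination e10 | linear_combination -e10
  by_cases hb2 : B 1 0 = 0
  swap
  · refine ⟨A 0 0 - A 1 0 / B 1 0 * B 0 0, A 1 0 / B 1 0, ?_⟩
    ext i j
    fin_cases i <;> fin_cases j <;> simp <;> field_simp <;>
      first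
      | linear_combination e00 | linear_combination -e00
      | linear_combination e01 | linear_combination -e01
      | linear_combination e10 | linear_combination -e10
  have hb3 : B 0 0 ≠ B 1 1 := by
    rcases hB with h | h | h
    · exact absurd hb h
    · exact absurd hb2 h
    · exact h
  have hb' : B 0 0 - B 1 1 ≠ 0 := sub_ne_zero.mpr hb3
  refine ⟨A 0 0 - (A 0 0 - A 1 1) / (B 0 0 - B 1 1) * B 0 0,
    (A 0 0 - A 1 1) / (B 0 0 - B 1 1), ?_⟩
  have ha01 : A 0 1 = 0 := by
    have : A 0 1 * (B 0 0 - B 1 1) = 0 := by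
      rw [hb] at e01; linear_combination -e01
    exact (mul_eq_zero.mp this).resolve_right hb'
  have ha10 : A 1 0 = 0 := by
    have : A 1 0 * (B 0 0 - B 1 1) = 0 := by
      rw [hb2] at e10; linear_combination e10
    exact (mul_eq_zero.mp this).resolve_right hb'
  ext i j
  fin_cases i <;> fin_cases j <;> simp [hb, hb2, ha01, ha10] <;> field_simp <;> ring

/-- Matrices commuting with a common non-scalar `2 × 2` matrix commute. -/
theorem commute_of_commute_nonscalar (A B C : Matrix (Fin 2) (Fin 2) F)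
    (hB : B 0 1 ≠ 0 ∨ B 1 0 ≠ 0 ∨ B 0 0 ≠ B 1 1) (hA : A * B = B * A) (hC : C * B = B * C) :
    A * C = C * A := by
  obtain ⟨α, β, rfl⟩ := exists_eq_smul_one_add_smul A B hB hA
  obtain ⟨γ, δ, rfl⟩ := exists_eq_smul_one_add_smul C B hB hC
  ext i j
  fin_cases i <;> fin_cases j <;> simp [Matrix.mul_apply, Fin.sum_univ_two] <;> ring

/-- In characteristic 2 the centre of `SL₂(F)` is trivial. -/
theorem center_sl2_eq_bot [CharP F 2] :
    Subgroup.center (Matrix.SpecialLinearGroup (Fin 2) F) = ⊥ := by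
  rw [eq_bot_iff]
  intro A hA
  rw [Matrix.SpecialLinearGroup.mem_center_iff] at hA
  obtain ⟨r, hr, hrA⟩ := hA
  rw [Subgroup.mem_bot]
  have hr1 : r = 1 := by
    have h2 : (r - 1) ^ 2 = 0 := by
      simp only [Fintype.card_fin] at hr
      have h2' : (2 : F) = 0 := CharTwo.two_eq_zero
      linear_combination hr + (1 - r) * h2'
    have := pow_eq_zero_iff (two_ne_zero) |>.mp h2
    exact sub_eq_zero.mp this
  rw [hr1] at hrA
  apply Matrix.SpecialLinearGroup.ext
  intro i j
  rw [← hrA]
  simp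

/-- `PSL₂(F)` is commutative-transitive in characteristic 2. -/
theorem psl2_ct [CharP F 2] (a b c : Matrix.ProjectiveSpecialLinearGroup (Fin 2) F) (hb : b ≠ 1)
    (hab : a * b = b * a) (hbc : b * c = c * b) : a * c = c * a := by
  obtain ⟨A, rfl⟩ := QuotientGroup.mk_surjective a
  obtain ⟨B, rfl⟩ := QuotientGroup.mk_surjective b
  obtain ⟨C, rfl⟩ := QuotientGroup.mk_surjective c
  have hinj : ∀ X Y : Matrix.SpecialLinearGroup (Fin 2) F,
      (QuotientGroup.mk X : Matrix.ProjectiveSpecialLinearGroup (Fin 2) F) = QuotientGroup.mk Y →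
      X = Y := by
    intro X Y h
    rw [QuotientGroup.eq, center_sl2_eq_bot, Subgroup.mem_bot] at h
    exact inv_mul_eq_one.mp h
  have hAB : A * B = B * A := hinj _ _ (by simpa using hab)
  have hBC : B * C = C * B := hinj _ _ (by simpa using hbc)
  have hB1 : B ≠ 1 := by
    rintro rfl
    exact hb rfl
  have hABm : (A : Matrix (Fin 2) (Fin 2) F) * (B : Matrix (Fin 2) (Fin 2) F) =
      (B : Matrix (Fin 2) (Fin 2) F) * (A : Matrix (Fin 2) (Fin 2) F) := by
    have := congrArg (fun X : Matrix.SpecialLinearGroup (Fin 2) F =>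
      (X : Matrix (Fin 2) (Fin 2) F)) hAB
    simpa using this
  have hCBm : (C : Matrix (Fin 2) (Fin 2) F) * (B : Matrix (Fin 2) (Fin 2) F) =
      (B : Matrix (Fin 2) (Fin 2) F) * (C : Matrix (Fin 2) (Fin 2) F) := by
    have := congrArg (fun X : Matrix.SpecialLinearGroup (Fin 2) F =>
      (X : Matrix (Fin 2) (Fin 2) F)) hBC
    simpa using this.symm
  have hns : (B : Matrix (Fin 2) (Fin 2) F) 0 1 ≠ 0 ∨ (B : Matrix (Fin 2) (Fin 2) F) 1 0 ≠ 0 ∨
      (B : Matrix (Fin 2) (Fin 2) F) 0 0 ≠ (B : Matrix (Fin 2) (Fin 2) F) 1 1 := by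
    by_contra hcon
    push Not at hcon
    obtain ⟨h01, h10, h00⟩ := hcon
    apply hB1
    have hdet : (B : Matrix (Fin 2) (Fin 2) F).det = 1 := B.2
    rw [Matrix.det_fin_two, h01, h10, ← h00] at hdet
    have hr1 : (B : Matrix (Fin 2) (Fin 2) F) 0 0 = 1 := by
      have h2' : (2 : F) = 0 := CharTwo.two_eq_zero
      have h2 : ((B : Matrix (Fin 2) (Fin 2) F) 0 0 - 1) ^ 2 = 0 := by
        linear_combination hdet + (1 - (B : Matrix (Fin 2) (Fin 2) F) 0 0) * h2'
      have := pow_eq_zero_iff (two_ne_zero) |>.mp h2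
      exact sub_eq_zero.mp this
    apply Matrix.SpecialLinearGroup.ext
    intro i j
    fin_cases i <;> fin_cases j <;> simp [h01, h10, hr1, ← h00]
  have hACm := commute_of_commute_nonscalar _ _ _ hns hABm hCBm
  have hAC : A * C = C * A := by
    apply Matrix.SpecialLinearGroup.ext
    intro i j
    have := congrFun (congrFun hACm i) j
    simpa using this
  show (QuotientGroup.mk (A * C) : Matrix.ProjectiveSpecialLinearGroup (Fin 2) F) =
    QuotientGroup.mk (C * A)
  rw [hAC]

end Mat

end Cfsg.Agent.Helper22
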