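import Mathlib
import Cfsg.Prelude
import Cfsg.Agent.Helper22.FrobCount
import Cfsg.Agent.Helper22.FrobCount2
import Cfsg.Agent.Helper22.TI

set_option autoImplicit false

namespace Cfsg.Agent.Helper22

/-- Every element is conjugate to a product `u * v` of commuting elements with `u` in a given
Sylow `p`-subgroup and `v` a `p'`-element whose order divides that of `x`. -/
theorem exists_sylow_decomp {G : Type*} [Group G] [Finite G] (p : ℕ) [Fact p.Prime]
    (P : Sylow p G) (x : G) :
    ∃ u v : G, u ∈ P ∧ Commute u v ∧ IsConj x (u * v) ∧ orderOf v ∣ orderOf x ∧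
      ¬ p ∣ orderOf v := by
  have hp : p.Prime := Fact.out
  have ho : orderOf x ≠ 0 := (orderOf_pos x).ne'
  obtain ⟨k, hk⟩ : ∃ k, k = (orderOf x).factorization p := ⟨_, rfl⟩
  obtain ⟨l, hl⟩ : ∃ l, l = orderOf x / p ^ k := ⟨_, rfl⟩
  have hkl : p ^ k * l = orderOf x := by
    rw [hl, hk]; exact Nat.ordProj_mul_ordCompl_eq_self _ _
  have hpl : Nat.Coprime p l := by
    rw [hl, hk]; exact Nat.coprime_ordCompl hp ho
  have hcop : Nat.Coprime (p ^ k) l := Nat.Coprime.pow_left _ hpl
  obtain ⟨s, t, hst⟩ : ∃ s t : ℤ, ((p ^ k : ℕ) : ℤ) * s + (l : ℤ) * t = 1 := by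
    refine ⟨Nat.gcdA (p ^ k) l, Nat.gcdB (p ^ k) l, ?_⟩
    have := Nat.gcd_eq_gcd_ab (p ^ k) l
    rw [hcop.gcd_eq_one] at this
    exact_mod_cast this.symm
  obtain ⟨hy, hz, hyz, hcomm⟩ := split_facts hst x (by rw [hkl]; exact pow_orderOf_eq_one x)
  obtain ⟨y, hy_def⟩ : ∃ y, y = x ^ ((l : ℤ) * t) := ⟨_, rfl⟩
  obtain ⟨z, hz_def⟩ : ∃ z, z = x ^ (((p ^ k : ℕ) : ℤ) * s) := ⟨_, rfl⟩
  rw [← hy_def, ← hz_def] at hyz hcomm
  rw [← hy_def] at hy
  rw [← hz_def] at hz
  have hyP : IsPGroup p (Subgroup.zpowers y) := by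
    obtain ⟨j, _, hj⟩ := (Nat.dvd_prime_pow hp).mp (orderOf_dvd_of_pow_eq_one hy)
    apply IsPGroup.of_card (n := j)
    rw [Nat.card_zpowers, hj]
  obtain ⟨Q, hQ⟩ := hyP.exists_le_sylow
  obtain ⟨g, hg⟩ := MulAction.exists_smul_eq G P Q
  have hu : g⁻¹ * y * g ∈ (P : Subgroup G) := by
    rw [← sylow_smul_mem_iff, hg]
    exact hQ (Subgroup.mem_zpowers y)
  refine ⟨g⁻¹ * y * g, g⁻¹ * z * g, hu, ?_, ?_, ?_, ?_⟩
  · have := hcomm.eq
    show g⁻¹ * y * g * (g⁻¹ * z * g) = g⁻¹ * z * g * (g⁻¹ * y * g)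
    calc g⁻¹ * y * g * (g⁻¹ * z * g) = g⁻¹ * (y * z) * g := by group
      _ = g⁻¹ * (z * y) * g := by rw [this]
      _ = g⁻¹ * z * g * (g⁻¹ * y * g) := by group
  · rw [isConj_iff]
    refine ⟨g⁻¹, ?_⟩
    rw [← hyz]
    group
  · have h1 : orderOf (g⁻¹ * z * g) = orderOf z := by
      have := (MulAut.conj g⁻¹).orderOf_eq z
      simpa using this
    rw [h1]
    exact (orderOf_dvd_of_pow_eq_one hz).trans (Dvd.intro_left _ hkl)
  · have h1 : orderOf (g⁻¹ * z * g) = orderOf z := by
      have := (MulAut.conj g⁻¹).orderOf_eq z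
      simpa using this
    rw [h1]
    intro hpz
    exact (Nat.Prime.coprime_iff_not_dvd hp).mp hpl (hpz.trans (orderOf_dvd_of_pow_eq_one hz))

universe u

/-- The number of conjugacy classes of `π`-elements is at most the `π`-part of the group order. -/
theorem card_pi_classes_le : ∀ (m : ℕ) (G : Type u) [Group G] [Finite G] (π : Set ℕ),
    m ∣ Nat.card G → (∀ q : ℕ, q.Prime → q ∣ m → q ∈ π) →
    (∀ q ∈ π, q.Prime → ¬ q ∣ Nat.card G / m) →
    Nat.card {C : ConjClasses G // ∀ q : ℕ, q.Prime →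
      (∃ g : G, ConjClasses.mk g = C ∧ q ∣ orderOf g) → q ∈ π} ≤ m := by
  intro m
  induction m using Nat.strong_induction_on with
  | _ m ih =>
    intro G _ _ π hm hmπ hm'
    have hGpos : 0 < Nat.card G := Nat.card_pos
    have hmpos : 0 < m := Nat.pos_of_dvd_of_pos hm hGpos
    by_cases h1 : m = 1
    · subst h1
      have key : ∀ C : ConjClasses G, (∀ q : ℕ, q.Prime →
          (∃ g : G, ConjClasses.mk g = C ∧ q ∣ orderOf g) → q ∈ π) → C = ConjClasses.mk 1 := by
        intro C hC
        obtain ⟨g, rfl⟩ := ConjClasses.mk_surjective C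
        have ho : orderOf g = 1 := by
          by_contra hne
          obtain ⟨q, hq, hqd⟩ := Nat.exists_prime_and_dvd hne
          have hqπ := hC q hq ⟨g, rfl, hqd⟩
          apply hm' q hqπ hq
          rw [Nat.div_one]
          exact hqd.trans (orderOf_dvd_natCard g)
        rw [orderOf_eq_one_iff] at ho
        rw [ho]
      have hsub : Subsingleton {C : ConjClasses G // ∀ q : ℕ, q.Prime →
          (∃ g : G, ConjClasses.mk g = C ∧ q ∣ orderOf g) → q ∈ π} := by
        constructor
        rintro ⟨C, hC⟩ ⟨C', hC'⟩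
        apply Subtype.ext
        show C = C'
        rw [key C hC, key C' hC']
      exact Finite.card_le_one_iff_subsingleton.mpr hsub
    · obtain ⟨p, hp, hpm⟩ := Nat.exists_prime_and_dvd h1
      haveI : Fact p.Prime := ⟨hp⟩
      have hpπ : p ∈ π := hmπ p hp hpm
      obtain ⟨P⟩ : Nonempty (Sylow p G) := inferInstance
      obtain ⟨a, ha⟩ : ∃ a, a = (Nat.card G).factorization p := ⟨_, rfl⟩
      have hPcard : Nat.card (P : Subgroup G) = p ^ a := ha ▸ P.card_eq_multiplicity
      have hGm : m * (Nat.card G / m) = Nat.card G := Nat.mul_div_cancel' hm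
      have hpnd : ¬ p ∣ Nat.card G / m := hm' p hpπ hp
      have hpam : p ^ a ∣ m := by
        have h1 : p ^ a ∣ m * (Nat.card G / m) := by
          rw [hGm, ha]; exact Nat.ordProj_dvd _ _
        exact (Nat.Coprime.pow_left a
          ((Nat.Prime.coprime_iff_not_dvd hp).mpr hpnd)).dvd_of_dvd_mul_right h1
      obtain ⟨M, hM⟩ := hpam
      have hapos : 0 < a := ha ▸ hp.factorization_pos_of_dvd hGpos.ne' (hpm.trans hm)
      have hpM : ¬ p ∣ M := by
        intro h
        have : p ^ (a + 1) ∣ Nat.card G := by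
          refine Dvd.dvd.trans ?_ hm
          rw [hM, pow_succ]
          exact mul_dvd_mul_left _ h
        rw [ha] at this
        exact Nat.pow_succ_factorization_not_dvd hGpos.ne' hp this
      have hMpos : 0 < M := by
        rcases Nat.eq_zero_or_pos M with h | h
        · rw [h, mul_zero] at hM; omega
        · exact h
      have hpa2 : 2 ≤ p ^ a := by
        calc 2 ≤ p := hp.two_le
          _ = p ^ 1 := (pow_one p).symm
          _ ≤ p ^ a := Nat.pow_le_pow_right hp.pos hapos
      have hMlt : M < m := by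
        rw [hM]
        nlinarith
      have hbound : ∀ u : G, Nat.card {D : ConjClasses (Subgroup.centralizer ({u} : Set G)) //
          ∀ q : ℕ, q.Prime → (∃ g, ConjClasses.mk g = D ∧ q ∣ orderOf g) → q ∈ π \ {p}} ≤ M := by
        intro u
        obtain ⟨N, hN⟩ : ∃ N, N = Nat.card (Subgroup.centralizer ({u} : Set G)) := ⟨_, rfl⟩
        have hNpos : 0 < N := hN ▸ Nat.card_pos
        have hNG : N ∣ Nat.card G := hN ▸ Subgroup.card_subgroup_dvd_card _
        obtain ⟨mu, hmu⟩ : ∃ mu, mu = Nat.gcd N (M ^ N) := ⟨_, rfl⟩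
        have h_i : mu ∣ N := hmu ▸ Nat.gcd_dvd_left _ _
        have h_ii : ∀ q : ℕ, q.Prime → q ∣ mu → q ∈ π \ {p} := by
          intro q hq hqd
          have hqM : q ∣ M := hq.dvd_of_dvd_pow (hqd.trans (hmu ▸ Nat.gcd_dvd_right _ _))
          refine ⟨hmπ q hq (hqM.trans (hM ▸ Dvd.intro_left _ rfl)), ?_⟩
          intro hqp
          rw [Set.mem_singleton_iff] at hqp
          exact hpM (hqp ▸ hqM)
        have h_cop : Nat.Coprime M (N / mu) := hmu ▸ coprime_div_gcd_pow (n := M) hNpos
        have h_iii : ∀ q ∈ π \ {p}, q.Prime → ¬ q ∣ N / mu := by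
          rintro q ⟨hqπ, hqp⟩ hq hqd
          have hqG : q ∣ m * (Nat.card G / m) := by
            rw [hGm]; exact (hqd.trans (Nat.div_dvd_of_dvd h_i)).trans hNG
          rcases (Nat.Prime.dvd_mul hq).mp hqG with h | h
          · rw [hM] at h
            rcases (Nat.Prime.dvd_mul hq).mp h with h | h
            · exact hqp ((Nat.prime_dvd_prime_iff_eq hq hp).mp (hq.dvd_of_dvd_pow h))
            · have := Nat.dvd_gcd h hqd
              rw [h_cop] at this
              exact hq.one_lt.ne' (Nat.dvd_one.mp this)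
          · exact hm' q hqπ hq h
        have h_iv : mu ∣ M := by
          have h1 : mu ∣ M * (p ^ a * (Nat.card G / m)) := by
            have : M * (p ^ a * (Nat.card G / m)) = Nat.card G := by
              calc M * (p ^ a * (Nat.card G / m)) = (p ^ a * M) * (Nat.card G / m) := by ring
                _ = m * (Nat.card G / m) := by rw [← hM]
                _ = Nat.card G := hGm
            rw [this]; exact h_i.trans hNG
          refine Nat.Coprime.dvd_of_dvd_mul_right ?_ h1
          apply Nat.coprime_of_dvd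
          intro q hq hqmu hqd
          obtain ⟨hqπ, hqp⟩ := h_ii q hq hqmu
          rcases (Nat.Prime.dvd_mul hq).mp hqd with h | h
          · exact hqp ((Nat.prime_dvd_prime_iff_eq hq hp).mp (hq.dvd_of_dvd_pow h))
          · exact hm' q hqπ hq h
        have hle : mu ≤ M := Nat.le_of_dvd hMpos h_iv
        have := ih mu (lt_of_le_of_lt hle hMlt) (Subgroup.centralizer ({u} : Set G)) (π \ {p})
          (hN ▸ h_i) h_ii (by rw [← hN]; exact h_iii)
        exact this.trans hle
      haveI := Fintype.ofFinite (P : Subgroup G)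
      have hYcard : Nat.card (Σ u : (P : Subgroup G),
          {D : ConjClasses (Subgroup.centralizer ({(u : G)} : Set G)) //
            ∀ q : ℕ, q.Prime → (∃ g, ConjClasses.mk g = D ∧ q ∣ orderOf g) → q ∈ π \ {p}}) ≤ m := by
        rw [Nat.card_sigma]
        calc _ ≤ ∑ u : (P : Subgroup G), M := Finset.sum_le_sum (fun u _ => hbound u)
          _ = m := by
            rw [Finset.sum_const, Finset.card_univ, ← Nat.card_eq_fintype_card, hPcard,
              smul_eq_mul, hM]
      have hex : ∀ C : {C : ConjClasses G // ∀ q : ℕ, q.Prime →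
          (∃ g : G, ConjClasses.mk g = C ∧ q ∣ orderOf g) → q ∈ π},
          ∃ y : (Σ u : (P : Subgroup G),
            {D : ConjClasses (Subgroup.centralizer ({(u : G)} : Set G)) //
              ∀ q : ℕ, q.Prime → (∃ g, ConjClasses.mk g = D ∧ q ∣ orderOf g) → q ∈ π \ {p}}),
            ∃ v : Subgroup.centralizer ({(y.1 : G)} : Set G),
              ConjClasses.mk v = y.2.1 ∧ ConjClasses.mk ((y.1 : G) * (v : G)) = C.1 := by
        rintro ⟨C, hC⟩
        obtain ⟨x, rfl⟩ := ConjClasses.mk_surjective C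
        obtain ⟨u, v, huP, huv, hconj, hvo, hpv⟩ := exists_sylow_decomp p P x
        have hv : v ∈ Subgroup.centralizer ({u} : Set G) := by
          rw [Subgroup.mem_centralizer_singleton_iff]; exact huv.eq.symm
        refine ⟨⟨⟨u, huP⟩, ⟨ConjClasses.mk ⟨v, hv⟩, ?_⟩⟩, ⟨v, hv⟩, rfl, ?_⟩
        · rintro q hq ⟨g, hg, hqg⟩
          have hgo : orderOf g = orderOf v := by
            obtain ⟨c, hc⟩ := isConj_iff.mp (ConjClasses.mk_eq_mk_iff_isConj.mp hg)
            have h1 := (MulAut.conj c).orderOf_eq g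
            rw [MulAut.conj_apply, hc] at h1
            rw [← h1, Subgroup.orderOf_mk]
          rw [hgo] at hqg
          refine ⟨hC q hq ⟨x, rfl, hqg.trans hvo⟩, ?_⟩
          intro hqp
          rw [Set.mem_singleton_iff] at hqp
          exact hpv (hqp ▸ hqg)
        · exact (ConjClasses.mk_eq_mk_iff_isConj.mpr hconj).symm
      have huniq : ∀ (y : (Σ u : (P : Subgroup G),
            {D : ConjClasses (Subgroup.centralizer ({(u : G)} : Set G)) //
              ∀ q : ℕ, q.Prime → (∃ g, ConjClasses.mk g = D ∧ q ∣ orderOf g) → q ∈ π \ {p}}))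
          (C C' : {C : ConjClasses G // ∀ q : ℕ, q.Prime →
            (∃ g : G, ConjClasses.mk g = C ∧ q ∣ orderOf g) → q ∈ π}),
          (∃ v : Subgroup.centralizer ({(y.1 : G)} : Set G),
              ConjClasses.mk v = y.2.1 ∧ ConjClasses.mk ((y.1 : G) * (v : G)) = C.1) →
          (∃ v : Subgroup.centralizer ({(y.1 : G)} : Set G),
              ConjClasses.mk v = y.2.1 ∧ ConjClasses.mk ((y.1 : G) * (v : G)) = C'.1) →
          C = C' := by
        rintro ⟨⟨u, huP⟩, ⟨D, hD⟩⟩ ⟨C, hC⟩ ⟨C', hC'⟩ ⟨v, hv1, hv2⟩ ⟨v', hv1', hv2'⟩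
        apply Subtype.ext
        simp only at hv1 hv2 hv1' hv2' ⊢
        rw [← hv2, ← hv2', ConjClasses.mk_eq_mk_iff_isConj]
        have hvv : IsConj v v' := ConjClasses.mk_eq_mk_iff_isConj.mp (hv1.trans hv1'.symm)
        obtain ⟨c, hc⟩ := isConj_iff.mp hvv
        rw [isConj_iff]
        refine ⟨(c : G), ?_⟩
        have hcu : u * (c : G) = (c : G) * u :=
          (Subgroup.mem_centralizer_singleton_iff.mp c.2).symm
        have hc' : (c : G) * v * (c : G)⁻¹ = v' := by
          have := congrArg Subtype.val hc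
          simpa using this
        rw [← hc']
        calc (c : G) * (u * v) * (c : G)⁻¹ = ((c : G) * u) * v * (c : G)⁻¹ := by group
          _ = u * ((c : G) * v * (c : G)⁻¹) := by rw [← hcu]; group
      choose f hf using hex
      have hinj : Function.Injective f := by
        intro C C' hCC
        have h2 : ∃ v : Subgroup.centralizer ({((f C).1 : G)} : Set G),
            ConjClasses.mk v = (f C).2.1 ∧ ConjClasses.mk (((f C).1 : G) * (v : G)) = C'.1 := by
          rw [hCC]; exact hf C'
        exact huniq (f C) C C' (hf C) h2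
      exact (Nat.card_le_card_of_injective f hinj).trans hYcard

end Cfsg.Agent.Helper22
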