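import Mathlib
import Cfsg.Prelude
import Cfsg.Agent.Helper22.CyclicNorm
import Cfsg.Agent.Helper22.ConjClass
import Cfsg.Agent.Helper22.SylowSup
import Cfsg.Agent.Helper22.PGroupNorm

set_option autoImplicit false

namespace Cfsg.Agent.Helper22

/-- `x` is a `π`-element: every prime dividing its order lies in `π`. -/
def IsPiElt {G : Type*} [Monoid G] (π : Set ℕ) (x : G) : Prop :=
  ∀ p : ℕ, p.Prime → p ∣ orderOf x → p ∈ π

section Basic

variable {G : Type*} [Group G] {π : Set ℕ}

theorem isPiElt_one : IsPiElt π (1 : G) := by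
  intro p hp hpd
  rw [orderOf_one] at hpd
  exact absurd (Nat.dvd_one.mp hpd) hp.one_lt.ne'

theorem isPiElt_of_pow_eq_one {x : G} {m : ℕ} (hm : ∀ p : ℕ, p.Prime → p ∣ m → p ∈ π)
    (hx : x ^ m = 1) : IsPiElt π x :=
  fun p hp hpd => hm p hp (hpd.trans (orderOf_dvd_of_pow_eq_one hx))

theorem IsPiElt.map {H : Type*} [Group H] {x : G} (hx : IsPiElt π x) (f : G →* H) :
    IsPiElt π (f x) :=
  fun p hp hpd => hx p hp (hpd.trans (orderOf_map_dvd f x))

theorem IsPiElt.pow {x : G} (hx : IsPiElt π x) (n : ℕ) : IsPiElt π (x ^ n) :=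
  fun p hp hpd => hx p hp (hpd.trans (orderOf_pow_dvd n))

theorem IsPiElt.conj {x : G} (hx : IsPiElt π x) (g : G) : IsPiElt π (g * x * g⁻¹) := by
  have := hx.map (MulAut.conj g).toMonoidHom
  simpa using this

theorem isPiElt_coe_iff {H : Subgroup G} (x : H) : IsPiElt π (x : G) ↔ IsPiElt π x := by
  unfold IsPiElt
  rw [Subgroup.orderOf_coe]

theorem isPiElt_of_pow [Finite G] {x : G} {m : ℕ} (hm : ∀ p : ℕ, p.Prime → p ∣ m → p ∈ π)
    (hx : IsPiElt π (x ^ m)) : IsPiElt π x := by
  intro p hp hpd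
  have h1 : x ^ (m * orderOf (x ^ m)) = 1 := by rw [pow_mul, pow_orderOf_eq_one]
  have h2 := hpd.trans (orderOf_dvd_of_pow_eq_one h1)
  rcases (Nat.Prime.dvd_mul hp).mp h2 with h | h
  · exact hm p hp h
  · exact hx p hp h

theorem IsPiElt.coprime [Finite G] {x : G} (hx : IsPiElt π x) {n : ℕ}
    (hn : ∀ p : ℕ, p.Prime → p ∣ n → p ∉ π) : Nat.Coprime (orderOf x) n :=
  Nat.coprime_of_dvd (fun p hp h1 h2 => hn p hp h2 (hx p hp h1))

theorem IsPiElt.mem_of_pow_mem [Finite G] {x : G} (hx : IsPiElt π x) (S : Subgroup G) {n : ℕ}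
    (hn : ∀ p : ℕ, p.Prime → p ∣ n → p ∉ π) (h : x ^ n ∈ S) : x ∈ S :=
  coprime_pow_mem S x (hx.coprime hn) (by rw [pow_orderOf_eq_one]; exact S.one_mem) h

/-- To show all `π`-elements lie in a subgroup, it suffices to treat elements of prime power
order. -/
theorem mem_of_isPiElt_of_primary [Finite G] (D : Subgroup G)
    (h : ∀ p ∈ π, p.Prime → ∀ (x : G) (v : ℕ), x ^ (p ^ v) = 1 → x ∈ D) :
    ∀ x : G, IsPiElt π x → x ∈ D := by
  have key : ∀ (n : ℕ) (x : G), x ^ n = 1 → 0 < n → (∀ p : ℕ, p.Prime → p ∣ n → p ∈ π) →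
      x ∈ D := by
    intro n
    induction n using Nat.strong_induction_on with
    | _ n ih =>
      intro x hx hn hπ
      by_cases h1 : n = 1
      · rw [h1, pow_one] at hx
        rw [hx]; exact D.one_mem
      obtain ⟨p, hp, hpn⟩ := Nat.exists_prime_and_dvd h1
      obtain ⟨v, hv⟩ : ∃ v, v = n.factorization p := ⟨_, rfl⟩
      obtain ⟨n', hn'⟩ : ∃ n', n' = n / p ^ v := ⟨_, rfl⟩
      have hnn : p ^ v * n' = n := by
        rw [hn', hv]; exact Nat.ordProj_mul_ordCompl_eq_self n p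
      have hvpos : 0 < v := hv ▸ hp.factorization_pos_of_dvd hn.ne' hpn
      have hn'pos : 0 < n' := by
        rcases Nat.eq_zero_or_pos n' with h0 | h0
        · rw [h0, mul_zero] at hnn; omega
        · exact h0
      have hlt : n' < n := by
        have : 2 ≤ p ^ v := by
          calc 2 ≤ p := hp.two_le
            _ = p ^ 1 := (pow_one p).symm
            _ ≤ p ^ v := Nat.pow_le_pow_right hp.pos hvpos
        nlinarith
      have hcop : Nat.Coprime n' (p ^ v) := by
        rw [hn', hv]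
        exact (Nat.Coprime.pow_left _ (Nat.coprime_ordCompl hp hn.ne')).symm
      have h2 : x ^ n' ∈ D := by
        apply h p (hπ p hp hpn) hp (x ^ n') v
        rw [← pow_mul, mul_comm, hnn, hx]
      have h3 : x ^ (p ^ v) ∈ D := by
        apply ih n' hlt (x ^ (p ^ v)) _ hn'pos
        · intro q hq hqn
          exact hπ q hq (hqn.trans (Dvd.intro_left _ hnn))
        · rw [← pow_mul, hnn, hx]
      exact coprime_pow_mem D x hcop h2 h3
  intro x hx
  exact key (orderOf x) x (pow_orderOf_eq_one x) (orderOf_pos x) hx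

end Basic

section Index

variable {G : Type*} [Group G]

open Subgroup in
/-- For `N` normal, `|X N : X| = |N : X ∩ N|`. -/
theorem relIndex_sup_eq_relIndex [Finite G] (X N : Subgroup G) [N.Normal] :
    X.relIndex (X ⊔ N) = X.relIndex N := by
  have h1 : Nat.card X * X.relIndex (X ⊔ N) = Nat.card (X ⊔ N : Subgroup G) := by
    have := relIndex_mul_relIndex ⊥ X (X ⊔ N) bot_le le_sup_left
    rwa [relIndex_bot_left, relIndex_bot_left] at this
  have h2 : Nat.card N * N.relIndex (X ⊔ N) = Nat.card (X ⊔ N : Subgroup G) := by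
    have := relIndex_mul_relIndex ⊥ N (X ⊔ N) bot_le le_sup_right
    rwa [relIndex_bot_left, relIndex_bot_left] at this
  rw [relIndex_sup_right] at h2
  have h3 : Nat.card (X ⊓ N : Subgroup G) * N.relIndex X = Nat.card X := by
    have := relIndex_mul_relIndex ⊥ (X ⊓ N) X bot_le inf_le_left
    rwa [relIndex_bot_left, relIndex_bot_left, inf_relIndex_left] at this
  have h4 : Nat.card (X ⊓ N : Subgroup G) * X.relIndex N = Nat.card N := by
    have := relIndex_mul_relIndex ⊥ (X ⊓ N) N bot_le inf_le_right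
    rwa [relIndex_bot_left, relIndex_bot_left, inf_relIndex_right] at this
  have hpos1 : 0 < Nat.card (X ⊓ N : Subgroup G) := Nat.card_pos
  have hpos2 : 0 < N.relIndex X := by
    rcases Nat.eq_zero_or_pos (N.relIndex X) with h0 | h0
    · rw [h0, mul_zero] at h3
      exact absurd h3.symm Nat.card_pos.ne'
    · exact h0
  have h5 : Nat.card (X ⊓ N : Subgroup G) * N.relIndex X * X.relIndex (X ⊔ N) =
      Nat.card (X ⊓ N : Subgroup G) * N.relIndex X * X.relIndex N := by
    calc _ = Nat.card X * X.relIndex (X ⊔ N) := by rw [h3]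
      _ = Nat.card N * N.relIndex X := by rw [h1, h2]
      _ = Nat.card (X ⊓ N : Subgroup G) * X.relIndex N * N.relIndex X := by rw [h4]
      _ = _ := by ring
  exact Nat.eq_of_mul_eq_mul_left (Nat.mul_pos hpos1 hpos2) h5

end Index

section Central

variable {Γ : Type*} [Group Γ] [Finite Γ] {π : Set ℕ}

/-- In a finite group generated by `π`-elements, a central `π'`-subgroup `N` with `Γ / N` a
`π`-group is trivial. -/
theorem central_pi'_eq_bot (hgen : Subgroup.closure {x : Γ | IsPiElt π x} = ⊤) (N : Subgroup Γ)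
    (hNc : N ≤ Subgroup.center Γ)
    (hNπ : ∀ n ∈ N, ∀ p : ℕ, p.Prime → p ∣ orderOf n → p ∉ π)
    (hquot : ∀ x : Γ, ∃ m : ℕ, (∀ p : ℕ, p.Prime → p ∣ m → p ∈ π) ∧ x ^ m ∈ N) : N = ⊥ := by
  by_contra hne
  obtain ⟨n, hnN, hn1⟩ : ∃ n : Γ, n ∈ N ∧ n ≠ 1 := by
    obtain ⟨n', hn'⟩ := (Subgroup.ne_bot_iff_exists_ne_one (H := N)).mp hne
    exact ⟨(n' : Γ), n'.2, fun e => hn' (Subtype.ext e)⟩
  have ho : orderOf n ≠ 1 := fun h => hn1 (orderOf_eq_one_iff.mp h)
  obtain ⟨q, hq, hqn⟩ := Nat.exists_prime_and_dvd ho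
  have hqπ : q ∉ π := hNπ n hnN q hq hqn
  haveI : Fact q.Prime := ⟨hq⟩
  have hqΓ : q ∣ Nat.card Γ := hqn.trans (orderOf_dvd_natCard n)
  obtain ⟨Q⟩ : Nonempty (Sylow q Γ) := inferInstance
  have hQN : (Q : Subgroup Γ) ≤ N := by
    intro u hu
    obtain ⟨m, hm, hum⟩ := hquot u
    obtain ⟨k, hk⟩ := (IsPGroup.iff_orderOf.mp Q.isPGroup') ⟨u, hu⟩
    have hk' : orderOf u = q ^ k := by rw [← Subgroup.orderOf_coe] at hk; exact hk
    have hcop : Nat.Coprime m (q ^ k) := by
      apply Nat.Coprime.pow_right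
      apply Nat.coprime_of_dvd
      intro p hp hpm hpq
      rw [(Nat.prime_dvd_prime_iff_eq hp hq).mp hpq] at hpm
      exact hqπ (hm q hq hpm)
    exact coprime_pow_mem N u hcop hum (by rw [← hk', pow_orderOf_eq_one]; exact N.one_mem)
  have hNC : Subgroup.normalizer ((Q : Subgroup Γ) : Set Γ) ≤
      Subgroup.centralizer ((Q : Subgroup Γ) : Set Γ) := by
    intro g _
    rw [Subgroup.mem_centralizer_iff]
    intro h hh
    exact (Subgroup.mem_center_iff.mp (hNc (hQN hh)) g).symm
  have hW := MonoidHom.ker_transferSylow_isComplement' Q hNC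
  obtain ⟨W, hWdef⟩ : ∃ W : Subgroup Γ, W = (MonoidHom.transferSylow Q hNC).ker := ⟨_, rfl⟩
  rw [← hWdef] at hW
  haveI hWn : W.Normal := by rw [hWdef]; infer_instance
  have hidx : W.index = Nat.card (Q : Subgroup Γ) := hW.symm.index_eq_card
  have hQcard : Nat.card (Q : Subgroup Γ) = q ^ (Nat.card Γ).factorization q :=
    Q.card_eq_multiplicity
  have hle : Subgroup.closure {x : Γ | IsPiElt π x} ≤ W := by
    rw [Subgroup.closure_le]
    intro t ht
    apply IsPiElt.mem_of_pow_mem ht W (n := W.index)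
    · intro p hp hpd
      rw [hidx, hQcard] at hpd
      rw [(Nat.prime_dvd_prime_iff_eq hp hq).mp (hp.dvd_of_dvd_pow hpd)]
      exact hqπ
    · exact Subgroup.pow_index_mem W t
  rw [hgen, top_le_iff] at hle
  have hcard := hW.card_mul_card
  rw [hle, Subgroup.card_top, hQcard] at hcard
  have hpos : 0 < Nat.card Γ := Nat.card_pos
  have h1 : q ^ (Nat.card Γ).factorization q = 1 := by
    have : Nat.card Γ * q ^ (Nat.card Γ).factorization q = Nat.card Γ * 1 := by
      rw [hcard, mul_one]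
    exact Nat.eq_of_mul_eq_mul_left hpos this
  have h2 : 0 < (Nat.card Γ).factorization q := hq.factorization_pos_of_dvd hpos.ne' hqΓ
  have h3 : 1 < q ^ (Nat.card Γ).factorization q := Nat.one_lt_pow h2.ne' hq.one_lt
  omega

/-- Relative form: in the subgroup generated by a set `S` of `π`-elements, a `π'`-subgroup `N`
centralized by `S`, with the quotient of `closure S` by `N` a `π`-group, meets `closure S`
trivially. -/
theorem closure_inf_eq_bot_of_central (S : Set Γ) (hS : ∀ s ∈ S, IsPiElt π s) (N : Subgroup Γ)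
    (hc : ∀ s ∈ S, ∀ n ∈ N, s * n = n * s)
    (hNπ : ∀ n ∈ N, ∀ p : ℕ, p.Prime → p ∣ orderOf n → p ∉ π)
    (hquot : ∀ x ∈ Subgroup.closure S,
      ∃ m : ℕ, (∀ p : ℕ, p.Prime → p ∣ m → p ∈ π) ∧ x ^ m ∈ N) :
    ∀ x ∈ Subgroup.closure S, x ∈ N → x = 1 := by
  have hcen : Subgroup.closure S ≤ Subgroup.centralizer (N : Set Γ) := by
    rw [Subgroup.closure_le]
    intro s hs
    rw [SetLike.mem_coe, Subgroup.mem_centralizer_iff]
    intro n hn
    exact (hc s hs n hn).symm
  have key : N.subgroupOf (Subgroup.closure S) = ⊥ := by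
    apply central_pi'_eq_bot (π := π)
    · rw [← top_le_iff, ← Subgroup.closure_closure_coe_preimage (k := S)]
      apply Subgroup.closure_mono
      intro γ hγ
      exact (isPiElt_coe_iff γ).mp (hS _ hγ)
    · intro n hn
      rw [Subgroup.mem_subgroupOf] at hn
      rw [Subgroup.mem_center_iff]
      intro γ
      apply Subtype.ext
      have := (Subgroup.mem_centralizer_iff.mp (hcen γ.2)) _ hn
      simpa using this.symm
    · intro n hn p hp hpd
      rw [Subgroup.mem_subgroupOf] at hn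
      rw [← Subgroup.orderOf_coe] at hpd
      exact hNπ _ hn p hp hpd
    · intro x
      obtain ⟨m, hm, hxm⟩ := hquot x x.2
      refine ⟨m, hm, ?_⟩
      rw [Subgroup.mem_subgroupOf]
      simpa using hxm
  intro x hx hxN
  have : (⟨x, hx⟩ : Subgroup.closure S) ∈ N.subgroupOf (Subgroup.closure S) :=
    Subgroup.mem_subgroupOf.mpr hxN
  rw [key, Subgroup.mem_bot] at this
  exact congrArg Subtype.val this

end Central

end Cfsg.Agent.Helper22
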