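import Mathlib
import Cfsg.Prelude
import Cfsg.Agent.Helper22.PiSub

set_option autoImplicit false

namespace Cfsg.Agent.Helper22

variable {G : Type*} [Group G] [Finite G] {π : Set ℕ}

/-- If `L` is the set of `π`-elements of `K`, then `|K : L|` is a `π'`-number. -/
theorem not_dvd_relIndex_of_pi (K L : Subgroup G) (hL : ∀ x, x ∈ L ↔ x ∈ K ∧ IsPiElt π x)
    (p : ℕ) (hp : p.Prime) (hpπ : p ∈ π) : ¬ p ∣ L.relIndex K := by
  haveI : Fact p.Prime := ⟨hp⟩
  obtain ⟨P⟩ : Nonempty (Sylow p K) := inferInstance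
  have hPL : (P : Subgroup K).map K.subtype ≤ L := by
    rintro _ ⟨w, hw, rfl⟩
    rw [hL]
    refine ⟨w.2, ?_⟩
    obtain ⟨k, hk⟩ := (IsPGroup.iff_orderOf.mp P.isPGroup') ⟨w, hw⟩
    have hk' : orderOf (w : G) = p ^ k :=
      ((Subgroup.orderOf_coe w).trans (Subgroup.orderOf_mk w hw).symm).trans hk
    intro r hr hrd
    change r ∣ orderOf (w : G) at hrd
    rw [hk'] at hrd
    rw [(Nat.prime_dvd_prime_iff_eq hr hp).mp (hr.dvd_of_dvd_pow hrd)]
    exact hpπ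
  intro hdvd
  have h1 : L.relIndex K ∣ ((P : Subgroup K).map K.subtype).relIndex K :=
    Subgroup.relIndex_dvd_of_le_left K hPL
  have h2 : ((P : Subgroup K).map K.subtype).relIndex K = (P : Subgroup K).index := by
    unfold Subgroup.relIndex Subgroup.subgroupOf
    rw [Subgroup.comap_map_eq_self_of_injective K.subtype_injective]
  exact P.not_dvd_index (h2 ▸ hdvd.trans h1)

/-- Elementwise form of "`N_G(H)/C_G(H)` is a `π'`-group". -/
theorem automizer_elementwise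
    (hhom : ∀ H : Subgroup G, H ≠ ⊥ → (∀ p : ℕ, p.Prime → p ∣ Nat.card ↥H → p ∉ π) →
      ∀ p : ℕ, p.Prime → p ∣ (Subgroup.centralizer (H : Set G)).relIndex
        (Subgroup.normalizer (H : Set G)) → p ∉ π) :
    ∀ H : Subgroup G, H ≠ ⊥ → (∀ p : ℕ, p.Prime → p ∣ Nat.card H → p ∉ π) →
      ∀ z ∈ Subgroup.normalizer (H : Set G), IsPiElt π z →
        z ∈ Subgroup.centralizer (H : Set G) := by
  intro H hbot hπ' z hz hzπ
  haveI hn : ((Subgroup.centralizer (H : Set G)).subgroupOf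
      (Subgroup.normalizer (H : Set G))).Normal := by
    rw [← Subgroup.normalizerMonoidHom_ker]; infer_instance
  have h1 : z ^ ((Subgroup.centralizer (H : Set G)).relIndex (Subgroup.normalizer (H : Set G))) ∈
      Subgroup.centralizer (H : Set G) := by
    have := Subgroup.pow_index_mem ((Subgroup.centralizer (H : Set G)).subgroupOf
      (Subgroup.normalizer (H : Set G))) (⟨z, hz⟩ : Subgroup.normalizer (H : Set G))
    rw [Subgroup.mem_subgroupOf] at this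
    simp only [Subgroup.coe_pow] at this
    exact this
  exact hzπ.mem_of_pow_mem _ (hhom H hbot hπ') h1

/-- Key Sylow step: a `p`-element (`p ∈ π`) centralizes, modulo `L`, some Sylow `q`-subgroup of
`K` (`q ∉ π`). -/
theorem exists_sylow_centralized_mod
    (hH : ∀ H : Subgroup G, H ≠ ⊥ → (∀ p : ℕ, p.Prime → p ∣ Nat.card H → p ∉ π) →
      ∀ z ∈ Subgroup.normalizer (H : Set G), IsPiElt π z →
        z ∈ Subgroup.centralizer (H : Set G))
    (K L : Subgroup G) [K.Normal] [L.Normal] (hL : ∀ x, x ∈ L ↔ x ∈ K ∧ IsPiElt π x)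
    (p : ℕ) (hp : p.Prime) (hpπ : p ∈ π) (x : G) (v : ℕ) (hx : x ^ (p ^ v) = 1)
    (q : ℕ) [Fact q.Prime] (hqπ : q ∉ π) :
    ∃ Q' : Subgroup G, Q' ≤ K ∧ Nat.card Q' = q ^ (Nat.card K).factorization q ∧
      ∀ u ∈ Q', x * u * x⁻¹ * u⁻¹ ∈ L := by
  have hq : q.Prime := Fact.out
  haveI : Fact p.Prime := ⟨hp⟩
  have hLK : L ≤ K := fun l hl => ((hL l).mp hl).1
  obtain ⟨Q₀⟩ : Nonempty (Sylow q K) := inferInstance
  obtain ⟨Q, hQdef⟩ : ∃ Q : Subgroup G, Q = (Q₀ : Subgroup K).map K.subtype := ⟨_, rfl⟩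
  have hQK : Q ≤ K := by rw [hQdef]; exact Subgroup.map_subtype_le _
  have hQcard : Nat.card Q = q ^ (Nat.card K).factorization q := by
    rw [hQdef, Subgroup.card_map_of_injective K.subtype_injective]
    exact Q₀.card_eq_multiplicity
  have hQp : IsPGroup q Q := IsPGroup.of_card hQcard
  by_cases hQbot : Q = ⊥
  · refine ⟨Q, hQK, hQcard, ?_⟩
    intro u hu
    rw [hQbot, Subgroup.mem_bot] at hu
    rw [hu]
    simp
  have hfrat : Subgroup.normalizer ((Q : Subgroup G) : Set G) ⊔ K = ⊤ := by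
    rw [hQdef]; exact Sylow.normalizer_sup_eq_top Q₀
  obtain ⟨N, hNdef⟩ : ∃ N : Subgroup G,
      N = Subgroup.normalizer ((Q ⊔ L : Subgroup G) : Set G) := ⟨_, rfl⟩
  have hNQ : Subgroup.normalizer ((Q : Subgroup G) : Set G) ≤ N := by
    intro n hn
    rw [hNdef]
    apply mem_normalizer_of_forall_conj_mem (Q ⊔ L) n
    intro r hr
    obtain ⟨u, hu, l, hl, rfl⟩ := Subgroup.mem_sup_of_normal_right.mp hr
    have : n * (u * l) * n⁻¹ = (n * u * n⁻¹) * (n * l * n⁻¹) := by group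
    rw [this]
    exact Subgroup.mul_mem_sup ((Subgroup.mem_normalizer_iff.mp hn u).mp hu)
      (‹L.Normal›.conj_mem l hl n)
  have hNK : N ⊔ K = ⊤ := by
    rw [← top_le_iff, ← hfrat]; exact sup_le_sup_right hNQ K
  have hLN : L ≤ N := by
    intro l hl
    rw [hNdef]
    exact Subgroup.le_normalizer (Subgroup.mem_sup_right hl)
  have hpN : ¬ p ∣ N.index := by
    have h1 : N.index = N.relIndex K := by
      rw [← Subgroup.relIndex_top_right, ← hNK, relIndex_sup_eq_relIndex]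
    rw [h1, ← Subgroup.inf_relIndex_right]
    intro hdvd
    exact not_dvd_relIndex_of_pi K L hL p hp hpπ
      (hdvd.trans (Subgroup.relIndex_dvd_of_le_left K (le_inf hLN hLK)))
  have hxP : IsPGroup p (Subgroup.zpowers x) := by
    obtain ⟨j, _, hj⟩ := (Nat.dvd_prime_pow hp).mp (orderOf_dvd_of_pow_eq_one hx)
    apply IsPGroup.of_card (n := j)
    rw [Nat.card_zpowers, hj]
  obtain ⟨g, hg⟩ := exists_conj_le_of_not_dvd_index p (Subgroup.zpowers x) hxP N hpN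
  obtain ⟨y, hy⟩ : ∃ y, y = g⁻¹ * x * g := ⟨_, rfl⟩
  have hyN : y ∈ N := hy ▸ hg x (Subgroup.mem_zpowers x)
  have hyp : y ^ (p ^ v) = 1 := by
    have : y = g⁻¹ * x * (g⁻¹)⁻¹ := by rw [hy, inv_inv]
    rw [this, conj_pow, hx]; group
  have hqL : ¬ q ∣ Nat.card L := by
    intro h
    obtain ⟨l, hl⟩ := exists_prime_orderOf_dvd_card' (G := L) q h
    have := ((hL (l : G)).mp l.2).2 q hq (by rw [Subgroup.orderOf_coe, hl])
    exact hqπ this
  have hQy : IsPGroup q (Q.map (MulAut.conj y).toMonoidHom) := hQp.map _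
  have hQyle : Q.map (MulAut.conj y).toMonoidHom ≤ Q ⊔ L := by
    rintro _ ⟨u, hu, rfl⟩
    have hyn : y ∈ Subgroup.normalizer ((Q ⊔ L : Subgroup G) : Set G) := hNdef ▸ hyN
    have := (Subgroup.mem_normalizer_iff.mp hyn u).mp (Subgroup.mem_sup_left hu)
    simpa using this
  obtain ⟨l, hlL, hl⟩ := exists_conj_mem_of_pgroup_sup q Q
    (Q.map (MulAut.conj y).toMonoidHom) L hqL hQp hQy hQyle
  obtain ⟨z, hz⟩ : ∃ z, z = l⁻¹ * y := ⟨_, rfl⟩
  have hzN : z ∈ Subgroup.normalizer ((Q : Subgroup G) : Set G) := by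
    apply mem_normalizer_of_forall_conj_mem Q z
    intro u hu
    have := hl (y * u * y⁻¹) ⟨u, hu, by simp⟩
    rw [hz]
    convert this using 1
    group
  have hzπ : IsPiElt π z := by
    apply isPiElt_of_pow (m := p ^ v)
    · intro r hr hrd
      rw [(Nat.prime_dvd_prime_iff_eq hr hp).mp (hr.dvd_of_dvd_pow hrd)]; exact hpπ
    · have hzL : z ^ (p ^ v) ∈ L := by
        rw [← QuotientGroup.eq_one_iff, QuotientGroup.mk_pow]
        have : (z : G ⧸ L) = (y : G ⧸ L) := by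
          rw [hz, QuotientGroup.mk_mul, QuotientGroup.mk_inv,
            (QuotientGroup.eq_one_iff l).mpr hlL]
          simp
        rw [this, ← QuotientGroup.mk_pow, hyp]; rfl
      exact ((hL _).mp hzL).2
  have hQπ : ∀ r : ℕ, r.Prime → r ∣ Nat.card Q → r ∉ π := by
    intro r hr hrd
    rw [hQcard] at hrd
    rw [(Nat.prime_dvd_prime_iff_eq hr hq).mp (hr.dvd_of_dvd_pow hrd)]; exact hqπ
  have hzC := hH Q hQbot hQπ z hzN hzπ
  refine ⟨Q.map (MulAut.conj g).toMonoidHom, ?_, ?_, ?_⟩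
  · rintro _ ⟨u, hu, rfl⟩
    have := ‹K.Normal›.conj_mem u (hQK hu) g
    simpa using this
  · rw [Subgroup.card_map_of_injective (MulAut.conj g).injective, hQcard]
  · rintro _ ⟨u, hu, rfl⟩
    have hzu : z * u = u * z := (Subgroup.mem_centralizer_iff.mp hzC u hu).symm
    have h1 : y * u * y⁻¹ * u⁻¹ ∈ L := by
      have hyz : y = l * z := by rw [hz]; group
      have : y * u * y⁻¹ * u⁻¹ = l * (u * l⁻¹ * u⁻¹) := by
        rw [hyz]
        calc l * z * u * (l * z)⁻¹ * u⁻¹ = l * (z * u) * z⁻¹ * l⁻¹ * u⁻¹ := by group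
          _ = l * (u * z) * z⁻¹ * l⁻¹ * u⁻¹ := by rw [hzu]
          _ = l * (u * l⁻¹ * u⁻¹) := by group
      rw [this]
      exact L.mul_mem hlL (‹L.Normal›.conj_mem _ (L.inv_mem hlL) u)
    have h2 : x * (g * u * g⁻¹) * x⁻¹ * (g * u * g⁻¹)⁻¹ = g * (y * u * y⁻¹ * u⁻¹) * g⁻¹ := by
      rw [hy]; group
    simp only [MulEquiv.coe_toMonoidHom, MulAut.conj_apply]
    rw [h2]
    exact ‹L.Normal›.conj_mem _ h1 g

/-- All `π`-elements centralize `K` modulo `L`. -/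
theorem pi_centralizes_mod
    (hH : ∀ H : Subgroup G, H ≠ ⊥ → (∀ p : ℕ, p.Prime → p ∣ Nat.card H → p ∉ π) →
      ∀ z ∈ Subgroup.normalizer (H : Set G), IsPiElt π z →
        z ∈ Subgroup.centralizer (H : Set G))
    (K L : Subgroup G) [K.Normal] [L.Normal] (hL : ∀ x, x ∈ L ↔ x ∈ K ∧ IsPiElt π x) :
    ∀ x : G, IsPiElt π x → ∀ k ∈ K, x * k * x⁻¹ * k⁻¹ ∈ L := by
  have hLK : L ≤ K := fun l hl => ((hL l).mp hl).1
  obtain ⟨D, hD⟩ : ∃ D : Subgroup G, ∀ x, x ∈ D ↔ ∀ k ∈ K, x * k * x⁻¹ * k⁻¹ ∈ L := by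
    refine ⟨{ carrier := {x | ∀ k ∈ K, x * k * x⁻¹ * k⁻¹ ∈ L}
              mul_mem' := ?_
              one_mem' := ?_
              inv_mem' := ?_ }, fun x => Iff.rfl⟩
    · intro a b ha hb k hk
      have : a * b * k * (a * b)⁻¹ * k⁻¹ = a * (b * k * b⁻¹ * k⁻¹) * a⁻¹ * (a * k * a⁻¹ * k⁻¹) := by
        group
      rw [this]
      exact L.mul_mem (‹L.Normal›.conj_mem _ (hb k hk) a) (ha k hk)
    · intro k _
      simp
    · intro a ha k hk
      have : a⁻¹ * k * a⁻¹⁻¹ * k⁻¹ = a⁻¹ * (a * k * a⁻¹ * k⁻¹)⁻¹ * a⁻¹⁻¹ := by group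
      rw [this]
      exact ‹L.Normal›.conj_mem _ (L.inv_mem (ha k hk)) a⁻¹
  intro x hx
  rw [← hD]
  revert x
  apply mem_of_isPiElt_of_primary D
  intro p hpπ hp x v hxv
  rw [hD]
  obtain ⟨C, hC⟩ : ∃ C : Subgroup G, ∀ k, k ∈ C ↔ k ∈ K ∧ x * k * x⁻¹ * k⁻¹ ∈ L := by
    refine ⟨{ carrier := {k | k ∈ K ∧ x * k * x⁻¹ * k⁻¹ ∈ L}
              mul_mem' := ?_
              one_mem' := ?_
              inv_mem' := ?_ }, fun x => Iff.rfl⟩
    · rintro a b ⟨haK, ha⟩ ⟨hbK, hb⟩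
      refine ⟨K.mul_mem haK hbK, ?_⟩
      have : x * (a * b) * x⁻¹ * (a * b)⁻¹ = (x * a * x⁻¹ * a⁻¹) * (a * (x * b * x⁻¹ * b⁻¹) * a⁻¹) := by
        group
      rw [this]
      exact L.mul_mem ha (‹L.Normal›.conj_mem _ hb a)
    · refine ⟨K.one_mem, ?_⟩
      simp
    · rintro a ⟨haK, ha⟩
      refine ⟨K.inv_mem haK, ?_⟩
      have : x * a⁻¹ * x⁻¹ * a⁻¹⁻¹ = a⁻¹ * (x * a * x⁻¹ * a⁻¹)⁻¹ * a⁻¹⁻¹ := by group
      rw [this]
      exact ‹L.Normal›.conj_mem _ (L.inv_mem ha) a⁻¹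
  have hKC : K ≤ C := by
    rw [← Subgroup.relIndex_eq_one]
    by_contra hne
    obtain ⟨q, hq, hqd⟩ := Nat.exists_prime_and_dvd hne
    by_cases hqπ : q ∈ π
    · have hLC : L ≤ C := by
        intro l hl
        rw [hC]
        refine ⟨hLK hl, ?_⟩
        have : x * l * x⁻¹ * l⁻¹ = (x * l * x⁻¹) * l⁻¹ := by group
        rw [this]
        exact L.mul_mem (‹L.Normal›.conj_mem l hl x) (L.inv_mem hl)
      exact not_dvd_relIndex_of_pi K L hL q hq hqπ
        (hqd.trans (Subgroup.relIndex_dvd_of_le_left K hLC))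
    · haveI : Fact q.Prime := ⟨hq⟩
      obtain ⟨Q', hQ'K, hQ'card, hQ'c⟩ :=
        exists_sylow_centralized_mod hH K L hL p hp hpπ x v hxv q hqπ
      have hQ'C : Q' ≤ C := fun u hu => (hC u).mpr ⟨hQ'K hu, hQ'c u hu⟩
      have h1 : Nat.card Q' * Q'.relIndex K = Nat.card K := by
        have := Subgroup.relIndex_mul_relIndex ⊥ Q' K bot_le hQ'K
        rwa [Subgroup.relIndex_bot_left, Subgroup.relIndex_bot_left] at this
      have h2 : q ∣ Q'.relIndex K := hqd.trans (Subgroup.relIndex_dvd_of_le_left K hQ'C)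
      obtain ⟨f, hf⟩ : ∃ f, f = (Nat.card K).factorization q := ⟨_, rfl⟩
      rw [← hf] at hQ'card
      have h3 : q ^ (f + 1) ∣ Nat.card K := by
        rw [← h1, hQ'card, pow_succ]
        exact mul_dvd_mul_left _ h2
      rw [hf] at h3
      exact Nat.pow_succ_factorization_not_dvd Nat.card_pos.ne' hq h3
  intro k hk
  exact ((hC k).mp (hKC hk)).2

/-- Core step: if `K ⊴ G`, the `π`-elements of `K` form the subgroup `L`, and `M / K` is a
`π`-group, then the `π`-elements of `M` form a subgroup. -/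
theorem exists_pi_subgroup_of_normal
    (hH : ∀ H : Subgroup G, H ≠ ⊥ → (∀ p : ℕ, p.Prime → p ∣ Nat.card H → p ∉ π) →
      ∀ z ∈ Subgroup.normalizer (H : Set G), IsPiElt π z →
        z ∈ Subgroup.centralizer (H : Set G))
    (K L M : Subgroup G) [K.Normal]
    (hL : ∀ x, x ∈ L ↔ x ∈ K ∧ IsPiElt π x)
    (hM : ∀ x ∈ M, ∃ m : ℕ, (∀ p : ℕ, p.Prime → p ∣ m → p ∈ π) ∧ x ^ m ∈ K) :
    ∃ T : Subgroup G, ∀ x, x ∈ T ↔ x ∈ M ∧ IsPiElt π x := by
  haveI hLn : L.Normal := by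
    constructor
    intro l hl g
    rw [hL] at hl ⊢
    exact ⟨‹K.Normal›.conj_mem l hl.1 g, hl.2.conj g⟩
  have hcen := pi_centralizes_mod hH K L hL
  obtain ⟨S, hS⟩ : ∃ S : Set G, S = {x | x ∈ M ∧ IsPiElt π x} := ⟨_, rfl⟩
  have hTM : Subgroup.closure S ≤ M := by
    rw [Subgroup.closure_le, hS]; exact fun x hx => hx.1
  have key := closure_inf_eq_bot_of_central (Γ := G ⧸ L) (π := π)
    ((QuotientGroup.mk' L) '' S) ?_ (K.map (QuotientGroup.mk' L)) ?_ ?_ ?_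
  · refine ⟨Subgroup.closure S, fun x => ⟨fun hx => ?_, fun hx =>
      Subgroup.subset_closure (by rw [hS]; exact hx)⟩⟩
    have hxM := hTM hx
    refine ⟨hxM, ?_⟩
    obtain ⟨m, hm, hxm⟩ := hM x hxM
    apply isPiElt_of_pow hm
    have h1 : (QuotientGroup.mk' L) (x ^ m) = 1 := by
      apply key
      · rw [← MonoidHom.map_closure]
        exact Subgroup.mem_map_of_mem _ (Subgroup.pow_mem _ hx m)
      · exact Subgroup.mem_map_of_mem _ hxm
    have h2 : x ^ m ∈ L := (QuotientGroup.eq_one_iff _).mp h1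
    exact ((hL _).mp h2).2
  · rintro _ ⟨x, hx, rfl⟩
    rw [hS] at hx
    exact hx.2.map _
  · rintro _ ⟨x, hx, rfl⟩ _ ⟨k, hk, rfl⟩
    rw [hS] at hx
    have h1 : (QuotientGroup.mk' L) (x * k * x⁻¹ * k⁻¹) = 1 :=
      (QuotientGroup.eq_one_iff _).mpr (hcen x hx.2 k hk)
    rw [map_mul, map_mul, map_mul, map_inv, map_inv] at h1
    calc (QuotientGroup.mk' L) x * (QuotientGroup.mk' L) k
        = ((QuotientGroup.mk' L) x * (QuotientGroup.mk' L) k * ((QuotientGroup.mk' L) x)⁻¹ *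
            ((QuotientGroup.mk' L) k)⁻¹) * ((QuotientGroup.mk' L) k * (QuotientGroup.mk' L) x) := by
          group
      _ = (QuotientGroup.mk' L) k * (QuotientGroup.mk' L) x := by rw [h1, one_mul]
  · rintro _ ⟨k, hk, rfl⟩ p hp hpd hpπ
    have ho : orderOf k ≠ 0 := (orderOf_pos k).ne'
    obtain ⟨c, hc⟩ : ∃ c, c = orderOf k / p ^ (orderOf k).factorization p := ⟨_, rfl⟩
    have hcc : p ^ (orderOf k).factorization p * c = orderOf k := by
      rw [hc]; exact Nat.ordProj_mul_ordCompl_eq_self _ _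
    have hkc : IsPiElt π (k ^ c) := by
      apply isPiElt_of_pow_eq_one (m := p ^ (orderOf k).factorization p)
      · intro r hr hrd
        rw [(Nat.prime_dvd_prime_iff_eq hr hp).mp (hr.dvd_of_dvd_pow hrd)]; exact hpπ
      · rw [← pow_mul, mul_comm, hcc, pow_orderOf_eq_one]
    have hkL : k ^ c ∈ L := (hL _).mpr ⟨K.pow_mem hk c, hkc⟩
    have h1 : ((QuotientGroup.mk' L) k) ^ c = 1 := by
      rw [← map_pow]; exact (QuotientGroup.eq_one_iff _).mpr hkL
    have h2 : p ∣ c := hpd.trans (orderOf_dvd_of_pow_eq_one h1)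
    have h3 : Nat.Coprime p c := by rw [hc]; exact Nat.coprime_ordCompl hp ho
    exact (Nat.Prime.coprime_iff_not_dvd hp).mp h3 h2
  · intro xb hxb
    rw [← MonoidHom.map_closure] at hxb
    obtain ⟨t, ht, rfl⟩ := hxb
    obtain ⟨m, hm, htm⟩ := hM t (hTM ht)
    exact ⟨m, hm, by rw [← map_pow]; exact Subgroup.mem_map_of_mem _ htm⟩

end Cfsg.Agent.Helper22
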