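import Mathlib
import Cfsg.Prelude
import Cfsg.Agent.Helper22.PiSub2

set_option autoImplicit false

namespace Cfsg.Agent.Helper22

variable {G : Type*} [Group G] [Finite G] {π : Set ℕ}

/-- If the `π`-elements form the subgroup `M`, every nontrivial `π'`-subgroup has a `π'`
automizer. -/
theorem automizer_of_pi_subgroup (M : Subgroup G) (hM : ∀ x, x ∈ M ↔ IsPiElt π x)
    (H : Subgroup G) (hH : ∀ p : ℕ, p.Prime → p ∣ Nat.card H → p ∉ π)
    (p : ℕ) (hp : p.Prime)
    (hpd : p ∣ (Subgroup.centralizer (H : Set G)).relIndex (Subgroup.normalizer (H : Set G))) :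
    p ∉ π := by
  intro hpπ
  haveI hMn : M.Normal := by
    constructor
    intro m hm g
    rw [hM] at hm ⊢
    exact hm.conj g
  have hL : ∀ x, x ∈ Subgroup.normalizer (H : Set G) ⊓ M ↔
      x ∈ Subgroup.normalizer (H : Set G) ∧ IsPiElt π x := by
    intro x
    rw [Subgroup.mem_inf, hM]
  have hle : Subgroup.normalizer (H : Set G) ⊓ M ≤ Subgroup.centralizer (H : Set G) := by
    rintro x ⟨hxN, hxM⟩
    rw [Subgroup.mem_centralizer_iff]
    intro h hh
    have hc1 : x * h * x⁻¹ * h⁻¹ ∈ H :=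
      H.mul_mem ((Subgroup.mem_normalizer_iff.mp hxN h).mp hh) (H.inv_mem hh)
    have hc2 : x * h * x⁻¹ * h⁻¹ ∈ M := by
      have : x * h * x⁻¹ * h⁻¹ = x * (h * x⁻¹ * h⁻¹) := by group
      rw [this]
      exact M.mul_mem hxM (hMn.conj_mem _ (M.inv_mem hxM) h)
    have hc3 : x * h * x⁻¹ * h⁻¹ = 1 := by
      rw [← orderOf_eq_one_iff]
      by_contra hne
      obtain ⟨r, hr, hrd⟩ := Nat.exists_prime_and_dvd hne
      have h1 : r ∈ π := ((hM _).mp hc2) r hr hrd
      have h2 : orderOf (⟨x * h * x⁻¹ * h⁻¹, hc1⟩ : H) = orderOf (x * h * x⁻¹ * h⁻¹) :=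
        Subgroup.orderOf_mk _ hc1
      exact hH r hr (hrd.trans (h2 ▸ orderOf_dvd_natCard _)) h1
    calc h * x = (x * h * x⁻¹ * h⁻¹)⁻¹ * (x * h) := by group
      _ = x * h := by rw [hc3, inv_one, one_mul]
  exact not_dvd_relIndex_of_pi _ _ hL p hp hpπ
    (hpd.trans (Subgroup.relIndex_dvd_of_le_left _ hle))

/-- Forward direction of the characterization: the `π`-separable series. -/
theorem series_of_pi_subgroup (M : Subgroup G) (hM : ∀ x, x ∈ M ↔ IsPiElt π x) :
    ∃ (n : ℕ) (H : Fin (n + 1) → Subgroup G), H 0 = ⊥ ∧ H (Fin.last n) = ⊤ ∧ Monotone H ∧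
      (∀ i, (H i).Normal) ∧
      ∀ i : Fin n, (∀ q : ℕ, q.Prime → q ∣ (H i.castSucc).relIndex (H i.succ) → q ∈ π) ∨
        (∀ q : ℕ, q.Prime → q ∣ (H i.castSucc).relIndex (H i.succ) → q ∉ π) := by
  haveI hMn : M.Normal := by
    constructor
    intro m hm g
    rw [hM] at hm ⊢
    exact hm.conj g
  refine ⟨2, ![⊥, M, ⊤], rfl, rfl, ?_, ?_, ?_⟩
  · rw [Fin.monotone_iff_le_succ]
    intro i
    fin_cases i
    · exact bot_le
    · exact le_top
  · intro i
    fin_cases i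
    · exact Subgroup.normal_bot
    · exact hMn
    · exact Subgroup.normal_top
  · intro i
    fin_cases i
    · left
      intro q hq hqd
      have hqd' : q ∣ Nat.card M := by
        have : (⊥ : Subgroup G).relIndex M = Nat.card M := Subgroup.relIndex_bot_left M
        rw [← this]; exact hqd
      haveI : Fact q.Prime := ⟨hq⟩
      obtain ⟨m, hm⟩ := exists_prime_orderOf_dvd_card' (G := M) q hqd'
      exact ((hM (m : G)).mp m.2) q hq (by rw [Subgroup.orderOf_coe, hm])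
    · right
      intro q hq hqd hqπ
      have hqd' : q ∣ M.relIndex ⊤ := hqd
      have hL : ∀ x, x ∈ M ↔ x ∈ (⊤ : Subgroup G) ∧ IsPiElt π x := fun x => by
        rw [hM]; simp
      exact not_dvd_relIndex_of_pi ⊤ M hL q hq hqπ hqd'

/-- Backward direction: a `π`-separable series together with the automizer condition forces
the `π`-elements to form a subgroup. -/
theorem pi_subgroup_of_series
    (hhom : ∀ H : Subgroup G, H ≠ ⊥ → (∀ p : ℕ, p.Prime → p ∣ Nat.card ↥H → p ∉ π) →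
      ∀ p : ℕ, p.Prime → p ∣ (Subgroup.centralizer (H : Set G)).relIndex
        (Subgroup.normalizer (H : Set G)) → p ∉ π)
    (n : ℕ) (H : Fin (n + 1) → Subgroup G) (h0 : H 0 = ⊥) (hlast : H (Fin.last n) = ⊤)
    (hmono : Monotone H) (hnorm : ∀ i, (H i).Normal)
    (hidx : ∀ i : Fin n, (∀ q : ℕ, q.Prime → q ∣ (H i.castSucc).relIndex (H i.succ) → q ∈ π) ∨
        (∀ q : ℕ, q.Prime → q ∣ (H i.castSucc).relIndex (H i.succ) → q ∉ π)) :
    ∃ T : Subgroup G, ∀ x, x ∈ T ↔ IsPiElt π x := by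
  have hH' := automizer_elementwise hhom
  have key : ∀ (i : ℕ) (hi : i < n + 1),
      ∃ T : Subgroup G, ∀ x, x ∈ T ↔ x ∈ H ⟨i, hi⟩ ∧ IsPiElt π x := by
    intro i
    induction i with
    | zero =>
      intro hi
      refine ⟨⊥, fun x => ?_⟩
      have : H ⟨0, hi⟩ = ⊥ := h0
      rw [this, Subgroup.mem_bot]
      constructor
      · intro h; rw [h]; exact ⟨rfl, isPiElt_one⟩
      · intro h; exact h.1
    | succ i ih =>
      intro hi
      have hi' : i < n + 1 := by omega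
      have hi'' : i < n := by omega
      obtain ⟨T, hT⟩ := ih hi'
      have hKM : H ⟨i, hi'⟩ ≤ H ⟨i + 1, hi⟩ :=
        hmono (Fin.mk_le_mk.mpr (Nat.le_succ i))
      haveI := hnorm ⟨i, hi'⟩
      have hpow : ∀ x ∈ H ⟨i + 1, hi⟩,
          x ^ ((H ⟨i, hi'⟩).relIndex (H ⟨i + 1, hi⟩)) ∈ H ⟨i, hi'⟩ := by
        intro x hx
        have := Subgroup.pow_index_mem ((H ⟨i, hi'⟩).subgroupOf (H ⟨i + 1, hi⟩))
          (⟨x, hx⟩ : H ⟨i + 1, hi⟩)
        rw [Subgroup.mem_subgroupOf] at this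
        simp only [Subgroup.coe_pow] at this
        exact this
      rcases hidx ⟨i, hi''⟩ with h | h
      · exact exists_pi_subgroup_of_normal hH' (H ⟨i, hi'⟩) T (H ⟨i + 1, hi⟩) hT
          (fun x hx => ⟨_, h, hpow x hx⟩)
      · refine ⟨T, fun x => ⟨fun hx => ⟨hKM ((hT x).mp hx).1, ((hT x).mp hx).2⟩, ?_⟩⟩
        rintro ⟨hxM, hxπ⟩
        exact (hT x).mpr ⟨hxπ.mem_of_pow_mem _ h (hpow x hxM), hxπ⟩
  obtain ⟨T, hT⟩ := key n (by omega)
  refine ⟨T, fun x => ?_⟩
  rw [hT]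
  have : H ⟨n, by omega⟩ = ⊤ := hlast
  rw [this]
  simp

end Cfsg.Agent.Helper22
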