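import Mathlib
import Cfsg.Agent.Helper22.Subnorm2

set_option autoImplicit false
open scoped Pointwise BigOperators

namespace Cfsg.Agent.Helper22
open Subgroup

theorem telescope_prod (n : ℕ) (f : Fin (n + 1) → ℕ) (a t : Fin n → ℕ)
    (h : ∀ i : Fin n, f i.castSucc * a i = f i.succ * t i) :
    f 0 * ∏ i, a i = f (Fin.last n) * ∏ i, t i := by
  induction n with
  | zero => simp
  | succ n ih =>
    rw [Fin.prod_univ_castSucc, Fin.prod_univ_castSucc]
    have h1 := ih (fun i => f i.castSucc) (fun i => a i.castSucc) (fun i => t i.castSucc)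
      (fun i => by have := h i.castSucc; rwa [Fin.succ_castSucc] at this)
    have h2 := h (Fin.last n)
    rw [Fin.succ_last] at h2
    have h1' : f 0 * ∏ i : Fin n, a i.castSucc =
        f (Fin.last n).castSucc * ∏ i : Fin n, t i.castSucc := h1
    calc f 0 * ((∏ i : Fin n, a i.castSucc) * a (Fin.last n))
        = (f 0 * ∏ i : Fin n, a i.castSucc) * a (Fin.last n) := by ring
      _ = (f (Fin.last n).castSucc * ∏ i : Fin n, t i.castSucc) * a (Fin.last n) := by rw [h1']
      _ = (f (Fin.last n).castSucc * a (Fin.last n)) * ∏ i : Fin n, t i.castSucc := by ring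
      _ = f (Fin.last (n + 1)) * ((∏ i : Fin n, t i.castSucc) * t (Fin.last n)) := by
        rw [h2]; ring

theorem subnormalizer_card {G : Type*} [Group G] [Finite G] (p : ℕ) [Fact p.Prime]
    (H : Subgroup G) (hH : IsPGroup p H) (P : Sylow p G)
    (n : ℕ) (M : Fin (n + 1) → Subgroup G) (h0 : M 0 = ⊥) (hn : M (Fin.last n) = ⊤)
    (hmono : Monotone M) (hnormal : ∀ i, (M i).Normal)
    (hfac : ∀ i : Fin n, (∃ m : ℕ, (M i.castSucc).relIndex (M i.succ) = p ^ m) ∨
      ((M i.castSucc).relIndex (M i.succ)).Coprime p) :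
    Nat.card {g : G // ((H).subgroupOf (H ⊔ Subgroup.zpowers g)).IsSubnormal} =
      Nat.card (P : Subgroup G) *
        ∏ i : Fin n, (if ((M i.castSucc).relIndex (M i.succ)).Coprime p then
          Nat.card {u : G // u ∈ M i.succ ∧ ∀ h ∈ H, h * u * h⁻¹ * u⁻¹ ∈ M i.castSucc} /
            Nat.card (M i.castSucc)
          else 1) := by
  have main : ∀ (t : Fin n → ℕ), (∀ i, t i = if ((M i.castSucc).relIndex (M i.succ)).Coprime p then
          Nat.card {u : G // u ∈ M i.succ ∧ ∀ h ∈ H, h * u * h⁻¹ * u⁻¹ ∈ M i.castSucc} /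
            Nat.card (M i.castSucc)
          else 1) →
      Nat.card {g : G // ((H).subgroupOf (H ⊔ Subgroup.zpowers g)).IsSubnormal} =
        Nat.card (P : Subgroup G) * ∏ i : Fin n, t i := by
    intro t ht
    obtain ⟨f, hf⟩ : ∃ f : Fin (n + 1) → ℕ, ∀ i, f i = Nat.card {g : G // g ∈ SMset p H (M i)} :=
      ⟨_, fun _ => rfl⟩
    obtain ⟨r, hr⟩ : ∃ r : Fin n → ℕ, ∀ i, r i = (M i.castSucc).relIndex (M i.succ) :=
      ⟨_, fun _ => rfl⟩
    obtain ⟨a, ha⟩ : ∃ a : Fin n → ℕ, ∀ i, a i = if (r i).Coprime p then r i else 1 :=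
      ⟨_, fun _ => rfl⟩
    obtain ⟨b, hb⟩ : ∃ b : Fin n → ℕ, ∀ i, b i = if (r i).Coprime p then 1 else r i :=
      ⟨_, fun _ => rfl⟩
    have hle : ∀ i : Fin n, M i.castSucc ≤ M i.succ := fun i => hmono (Fin.castSucc_lt_succ).le
    have hf0 : Nat.card {g : G // ((H).subgroupOf (H ⊔ Subgroup.zpowers g)).IsSubnormal} = f 0 := by
      rw [hf 0]
      apply Nat.card_congr
      apply Equiv.subtypeEquivRight
      intro g
      rw [h0, mem_SMset_bot, subnormal_iff_exists_pgroup p H hH g]
    have hfn : f (Fin.last n) = Nat.card G := by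
      rw [hf, hn, SMset_top]
      exact Nat.card_congr (Equiv.subtypeUnivEquiv (fun _ => Set.mem_univ _))
    have hcard : ∀ i : Fin n, Nat.card (M i.castSucc) * r i = Nat.card (M i.succ) := by
      intro i
      have := relIndex_mul_relIndex ⊥ (M i.castSucc) (M i.succ) bot_le (hle i)
      rwa [relIndex_bot_left, relIndex_bot_left, ← hr] at this
    have hstep : ∀ i : Fin n, f i.castSucc * a i = f i.succ * t i := by
      intro i
      haveI := hnormal i.castSucc
      haveI := hnormal i.succ
      by_cases hc : (r i).Coprime p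
      · have hc' : ((M i.castSucc).relIndex (M i.succ)).Coprime p := by rw [← hr]; exact hc
        rw [ha, ht, if_pos hc, if_pos hc']
        have key := SM_card_mul p H (M i.castSucc) (M i.succ) hH (hle i) hc'
        rw [← hf, ← hf] at key
        obtain ⟨c', hc''⟩ := D_card_dvd H (M i.castSucc) (M i.succ) (hle i)
        have hpos : 0 < Nat.card (M i.castSucc) := Nat.card_pos
        rw [hc'', Nat.mul_div_cancel_left c' hpos]
        rw [← hcard i, hc''] at key
        apply Nat.eq_of_mul_eq_mul_left hpos
        calc Nat.card (M i.castSucc) * (f i.castSucc * r i)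
            = f i.castSucc * (Nat.card (M i.castSucc) * r i) := by ring
          _ = f i.succ * (Nat.card (M i.castSucc) * c') := key
          _ = Nat.card (M i.castSucc) * (f i.succ * c') := by ring
      · have hc' : ¬ ((M i.castSucc).relIndex (M i.succ)).Coprime p := by rw [← hr]; exact hc
        rw [ha, ht, if_neg hc, if_neg hc', mul_one, mul_one]
        rcases hfac i with ⟨m, hm⟩ | h
        · rw [hf, hf, SMset_eq_of_pow p H (M i.castSucc) (M i.succ) (hle i) m hm]
        · exact absurd h hc'
    have htel := telescope_prod n f a t hstep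
    have hr_prod := telescope_prod n (fun i => Nat.card (M i)) r (fun _ => 1)
      (fun i => by rw [mul_one]; exact hcard i)
    have hG : ∏ i, r i = Nat.card G := by
      simp only [h0, hn, Finset.prod_const_one, mul_one, Subgroup.card_bot, one_mul,
        Subgroup.card_top] at hr_prod
      exact hr_prod
    have hab : ∀ i, a i * b i = r i := by
      intro i
      by_cases hc : (r i).Coprime p
      · rw [ha, hb, if_pos hc, if_pos hc, mul_one]
      · rw [ha, hb, if_neg hc, if_neg hc, one_mul]
    have hprod_ab : (∏ i, a i) * (∏ i, b i) = Nat.card G := by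
      rw [← Finset.prod_mul_distrib, ← hG]
      exact Finset.prod_congr rfl (fun i _ => hab i)
    have hA_cop : (∏ i, a i).Coprime p := by
      apply Nat.Coprime.prod_left
      intro i _
      by_cases hc : (r i).Coprime p
      · rw [ha, if_pos hc]; exact hc
      · rw [ha, if_neg hc]; exact Nat.coprime_one_left p
    have hB_pow : ∃ k, ∏ i, b i = p ^ k := by
      have : ∀ i, ∃ k, b i = p ^ k := by
        intro i
        by_cases hc : (r i).Coprime p
        · exact ⟨0, by rw [hb, if_pos hc, pow_zero]⟩
        · rcases hfac i with ⟨m, hm⟩ | h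
          · exact ⟨m, by rw [hb, if_neg hc, hr, hm]⟩
          · rw [← hr] at h
            exact absurd h hc
      choose k hk using this
      exact ⟨∑ i, k i, by
        rw [← Finset.prod_pow_eq_pow_sum]; exact Finset.prod_congr rfl (fun i _ => hk i)⟩
    obtain ⟨k, hk⟩ := hB_pow
    have hP : Nat.card (P : Subgroup G) = ∏ i, b i := by
      obtain ⟨e, he⟩ := IsPGroup.iff_card.mp P.2
      have hidx : Nat.card (P : Subgroup G) * (P : Subgroup G).index = Nat.card G :=
        Subgroup.card_mul_index _
      have hPc : ((P : Subgroup G).index).Coprime p :=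
        ((Nat.Prime.coprime_iff_not_dvd Fact.out).mpr P.not_dvd_index).symm
      rw [he, hk]
      have e1 : p ^ e * (P : Subgroup G).index = (∏ i, a i) * p ^ k := by
        rw [← he, hidx, ← hprod_ab, hk]
      apply Nat.dvd_antisymm
      · have : p ^ e ∣ (∏ i, a i) * p ^ k := Dvd.intro _ e1
        exact (Nat.Coprime.dvd_mul_left (Nat.Coprime.pow_left e hA_cop.symm)).mp this
      · have : p ^ k ∣ p ^ e * (P : Subgroup G).index := Dvd.intro_left _ e1.symm
        exact (Nat.Coprime.dvd_mul_right (Nat.Coprime.pow_left k hPc.symm)).mp this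
    rw [hf0, hP]
    rw [hfn, ← hprod_ab] at htel
    have hApos : 0 < ∏ i, a i := by
      apply Nat.pos_of_ne_zero
      intro h0'
      rw [h0'] at hA_cop
      have := (Nat.coprime_zero_left p).mp hA_cop
      exact (Nat.Prime.one_lt Fact.out).ne' this
    apply Nat.eq_of_mul_eq_mul_left hApos
    calc (∏ i, a i) * f 0 = f 0 * ∏ i, a i := mul_comm _ _
      _ = (∏ i, a i) * (∏ i, b i) * ∏ i, t i := htel
      _ = (∏ i, a i) * ((∏ i, b i) * ∏ i, t i) := mul_assoc _ _ _
  exact main _ (fun i => rfl)

end Cfsg.Agent.Helper22
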