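import Mathlib
import Cfsg.Agent.Helper22.CyclicNorm

set_option autoImplicit false

namespace Cfsg.Agent.Helper22

universe u

/-- A normal subgroup of index prime to `q` contains every Sylow `q`-subgroup. -/
theorem sylow_le_of_normal_of_not_dvd_index {G : Type*} [Group G] [Finite G] (q : ℕ)
    [Fact q.Prime] (Q : Sylow q G) (N : Subgroup G) [N.Normal] (h : ¬ q ∣ N.index) :
    (Q : Subgroup G) ≤ N := by
  have hq : q.Prime := Fact.out
  intro x hx
  obtain ⟨k, hk⟩ := (IsPGroup.iff_orderOf.mp Q.isPGroup') ⟨x, hx⟩
  have hk' : orderOf x = q ^ k := by rw [← Subgroup.orderOf_mk x hx, hk]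
  have h1 : x ^ N.index ∈ N := Subgroup.pow_index_mem N x
  have h2 : x ^ (q ^ k) ∈ N := by rw [← hk', pow_orderOf_eq_one]; exact N.one_mem
  have hcop : Nat.Coprime N.index (q ^ k) :=
    Nat.Coprime.pow_right k ((Nat.Prime.coprime_iff_not_dvd hq).mpr h).symm
  exact coprime_pow_mem N x hcop h1 h2

/-- Every normal subgroup `N` has a supplement `H` all of whose prime divisors divide `|G : N|`. -/
theorem exists_supplement_primes_aux (n : ℕ) : ∀ (G : Type u) [Group G] [Finite G]
    (N : Subgroup G) [N.Normal], Nat.card G = n →
    ∃ H : Subgroup G, H ⊔ N = ⊤ ∧ ∀ q : ℕ, q.Prime → q ∣ Nat.card H → q ∣ N.index := by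
  induction n using Nat.strong_induction_on with
  | _ n IH =>
    intro G _ _ N _ hn
    by_cases hall : ∀ q : ℕ, q.Prime → q ∣ Nat.card G → q ∣ N.index
    · exact ⟨⊤, top_sup_eq _, fun q hq hd => hall q hq (by rwa [Subgroup.card_top] at hd)⟩
    · push Not at hall
      obtain ⟨q, hq, hqG, hqN⟩ := hall
      haveI : Fact q.Prime := ⟨hq⟩
      have hL : ∃ L : Subgroup G, L ≠ ⊤ ∧ L ⊔ N = ⊤ := by
        obtain ⟨Q⟩ : Nonempty (Sylow q G) := inferInstance
        have hQN : (Q : Subgroup G) ≤ N := sylow_le_of_normal_of_not_dvd_index q Q N hqN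
        by_cases hQn : (Q : Subgroup G).Normal
        · have hcop : Nat.Coprime (Nat.card (Q : Subgroup G)) (Q : Subgroup G).index := by
            rw [Sylow.card_eq_multiplicity]
            exact Nat.Coprime.pow_left _ ((Nat.Prime.coprime_iff_not_dvd hq).mpr Q.not_dvd_index)
          obtain ⟨K, hK⟩ := Subgroup.exists_right_complement'_of_coprime hcop
          refine ⟨K, ?_, ?_⟩
          · intro hKtop
            have h1 := hK.card_mul_card
            rw [hKtop, Subgroup.card_top] at h1
            have h2 : Nat.card (Q : Subgroup G) = 1 := by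
              have hpos : 0 < Nat.card G := Nat.card_pos
              have : Nat.card (Q : Subgroup G) * Nat.card G = 1 * Nat.card G := by rw [h1, one_mul]
              exact Nat.eq_of_mul_eq_mul_right hpos this
            have h3 : q ∣ Nat.card (Q : Subgroup G) := by
              rw [Sylow.card_eq_multiplicity]
              apply dvd_pow_self
              intro h0
              have := (Nat.factorization_eq_zero_iff _ _).mp h0
              rcases this with h | h | h
              · exact h hq
              · exact h hqG
              · exact Nat.card_pos.ne' h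
            rw [h2] at h3
            exact hq.one_lt.ne' (Nat.dvd_one.mp h3)
          · rw [eq_top_iff, ← hK.sup_eq_top, sup_comm]
            exact sup_le_sup_left hQN K
        · refine ⟨Subgroup.normalizer ((Q : Subgroup G) : Set G), ?_,
            Sylow.normalizer_sup_eq_top' Q hQN⟩
          rw [Ne, Subgroup.normalizer_eq_top_iff]; exact hQn
      obtain ⟨L, hL1, hL2⟩ := hL
      have hlt : Nat.card L < n := by
        have hidx : L.index ≠ 1 := by rw [Ne, Subgroup.index_eq_one]; exact hL1
        have hci := Subgroup.card_mul_index L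
        rw [hn] at hci
        have hipos : 0 < L.index := Nat.pos_of_ne_zero Subgroup.index_ne_zero_of_finite
        have hcpos : 0 < Nat.card L := Nat.card_pos
        rw [← hci]
        have : 2 ≤ L.index := by omega
        nlinarith
      obtain ⟨H', hH'1, hH'2⟩ := IH _ hlt ↥L (N.subgroupOf L) rfl
      refine ⟨H'.map L.subtype, ?_, ?_⟩
      · have h1 : (H' ⊔ N.subgroupOf L).map L.subtype = L := by
          rw [hH'1, ← MonoidHom.range_eq_map, Subgroup.range_subtype]
        rw [Subgroup.map_sup, Subgroup.subgroupOf_map_subtype] at h1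
        rw [← hL2]
        apply le_antisymm
        · apply sup_le _ le_sup_right
          exact le_trans (Subgroup.map_subtype_le H') le_sup_left
        · apply sup_le _ le_sup_right
          calc L = H'.map L.subtype ⊔ N ⊓ L := h1.symm
            _ ≤ H'.map L.subtype ⊔ N := sup_le_sup_left inf_le_left _
      · intro q' hq' hd
        rw [Subgroup.card_map_of_injective (Subgroup.subtype_injective _)] at hd
        have h2 := hH'2 q' hq' hd
        have e : (N.subgroupOf L).index = N.index := by
          have e1 : N.relIndex L = N.index := by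
            rw [← Subgroup.relIndex_sup_right (K := N) (H := L), hL2, Subgroup.relIndex_top_right]
          exact e1
        rwa [e] at h2

theorem exists_supplement_primes {G : Type u} [Group G] [Finite G] (N : Subgroup G) [N.Normal] :
    ∃ H : Subgroup G, H ⊔ N = ⊤ ∧ ∀ q : ℕ, q.Prime → q ∣ Nat.card H → q ∣ N.index :=
  exists_supplement_primes_aux (Nat.card G) G N rfl

/-- A `q`-subgroup centralizes a nontrivial element of any normal subgroup of order divisible by
`q`. -/
theorem exists_fixed_of_pgroup_normal {G : Type*} [Group G] [Finite G] (q : ℕ) [Fact q.Prime]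
    (S : Subgroup G) (hS : IsPGroup q S) (M : Subgroup G) [M.Normal] (hqM : q ∣ Nat.card M) :
    ∃ x ∈ M, x ≠ 1 ∧ ∀ s ∈ S, s * x = x * s := by
  letI : MulAction ↥S ↥M := MulAction.compHom ↥M ((MulAut.conjNormal (H := M)).comp S.subtype)
  have hsmul : ∀ (s : ↥S) (m : ↥M), ((s • m : ↥M) : G) = (s : G) * (m : G) * (s : G)⁻¹ :=
    fun s m => rfl
  have h1 : (1 : ↥M) ∈ MulAction.fixedPoints ↥S ↥M := by
    intro s
    apply Subtype.ext
    rw [hsmul]; simp
  obtain ⟨b, hb, hb1⟩ := hS.exists_fixed_point_of_prime_dvd_card_of_fixed_point ↥M hqM h1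
  refine ⟨(b : G), b.2, ?_, ?_⟩
  · intro h
    apply hb1
    exact Subtype.ext h.symm
  · intro s hs
    have := congrArg Subtype.val (hb ⟨s, hs⟩)
    rw [hsmul] at this
    have e : s * (b : G) = s * (b : G) * s⁻¹ * s := by group
    rw [e]
    exact congrArg (fun z => z * s) this

end Cfsg.Agent.Helper22
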