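import Mathlib

set_option autoImplicit false

namespace Cfsg.Agent.Helper22

open Equiv
open scoped commutatorElement

/-- Every `p`-th power lies in the commutator subgroup. -/
def PT (p : ℕ) (G : Type*) [Group G] : Prop := ∀ x : G, x ^ p ∈ commutator G

/-- The subgroup of elements whose `p`-th power lies in the commutator subgroup. -/
def powSub (p : ℕ) (G : Type*) [Group G] : Subgroup G :=
  ((powMonoidHom p).comp (Abelianization.of (G := G))).ker

theorem mem_powSub (p : ℕ) {G : Type*} [Group G] (x : G) :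
    x ∈ powSub p G ↔ x ^ p ∈ commutator G := by
  unfold powSub
  rw [MonoidHom.mem_ker, ← Abelianization.ker_of, MonoidHom.mem_ker, map_pow]
  rfl

theorem pow_mem_commutator_of_hom {p : ℕ} {W G : Type*} [Group W] [Group G] (hW : PT p W)
    (ι : W →* G) (w : W) : (ι w) ^ p ∈ commutator G := by
  rw [← map_pow]
  have h1 : ι (w ^ p) ∈ (commutator W).map ι := Subgroup.mem_map_of_mem ι (hW w)
  have h2 : (commutator W).map ι ≤ commutator G := by
    rw [commutator_def, commutator_def, Subgroup.map_commutator]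
    exact Subgroup.commutator_mono le_top le_top
  exact h2 h1

theorem PT_of_mulEquiv {p : ℕ} {G H : Type*} [Group G] [Group H] (e : G ≃* H) (hG : PT p G) :
    PT p H := by
  intro y
  have h := pow_mem_commutator_of_hom hG e.toMonoidHom (e.symm y)
  simpa using h

/-- The base group embedding of a regular wreath product. -/
def wreathBase (W C : Type*) [Group W] [Group C] : (C → W) →* W ≀ᵣ C where
  toFun := fun f => ⟨f, 1⟩
  map_one' := rfl
  map_mul' := by
    intro f g
    ext
    · simp
    · simp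

theorem wreathBase_left {W C : Type*} [Group W] [Group C] (f : C → W) :
    (wreathBase W C f).left = f := rfl

theorem wreathBase_right {W C : Type*} [Group W] [Group C] (f : C → W) :
    (wreathBase W C f).right = 1 := rfl

theorem wreath_decomp {W C : Type*} [Group W] [Group C] (x : W ≀ᵣ C) :
    x = wreathBase W C x.left * RegularWreathProduct.inl x.right := by
  ext
  · simp [wreathBase_left, wreathBase_right]
  · simp [wreathBase_right]

theorem PT_wreath {p : ℕ} {W C : Type*} [Group W] [Group C] [Finite C] (hW : PT p W)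
    (hC : ∀ c : C, c ^ p = 1) : PT p (W ≀ᵣ C) := by
  classical
  intro x
  rw [← mem_powSub, wreath_decomp x]
  apply Subgroup.mul_mem
  · have hJ : Subgroup.pi Set.univ (fun _ : C => (⊤ : Subgroup W)) ≤
        (powSub p (W ≀ᵣ C)).comap (wreathBase W C) := by
      rw [Subgroup.pi_le_iff]
      intro q
      rintro _ ⟨w, -, rfl⟩
      rw [Subgroup.mem_comap, mem_powSub]
      exact pow_mem_commutator_of_hom hW
        ((wreathBase W C).comp (MonoidHom.mulSingle (fun _ : C => W) q)) w
    exact hJ ((Subgroup.mem_pi _).mpr (fun i _ => Subgroup.mem_top _))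
  · rw [mem_powSub, ← map_pow, hC, map_one]
    exact Subgroup.one_mem _

theorem PT_iterated {p : ℕ} (C : Type) [Group C] [Finite C] (hC : ∀ c : C, c ^ p = 1) :
    ∀ k : ℕ, PT p (IteratedWreathProduct C k) := by
  intro k
  induction k with
  | zero =>
    intro x
    haveI : Subsingleton (IteratedWreathProduct C 0) := (inferInstance : Subsingleton PUnit)
    rw [Subsingleton.elim (x ^ p) 1]
    exact Subgroup.one_mem _
  | succ k ih => exact PT_wreath (W := IteratedWreathProduct C k) (C := C) ih hC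

theorem PT_prod {p : ℕ} {H₁ H₂ : Type*} [Group H₁] [Group H₂] (h₁ : PT p H₁) (h₂ : PT p H₂) :
    PT p (H₁ × H₂) := by
  intro x
  have hx : x ^ p = (MonoidHom.inl H₁ H₂ x.1) ^ p * (MonoidHom.inr H₁ H₂ x.2) ^ p := by
    apply Prod.ext <;> simp
  rw [hx]
  exact Subgroup.mul_mem _ (pow_mem_commutator_of_hom h₁ _ _) (pow_mem_commutator_of_hom h₂ _ _)

theorem PT_sylow_of_embedding {p : ℕ} [Fact p.Prime] {G H : Type*} [Group G] [Finite G] [Group H]
    (g : H →* G) (hg : Function.Injective g)
    (hc : Nat.card H = p ^ (Nat.card G).factorization p)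
    (hH : PT p H) (P : Sylow p G) : PT p ↥(P : Subgroup G) := by
  have hc' : Nat.card g.range = p ^ (Nat.card G).factorization p := by
    rw [← hc]
    exact (Nat.card_congr (MonoidHom.ofInjective hg).toEquiv).symm
  let P' : Sylow p G := Sylow.ofCard g.range hc'
  have e : H ≃* ↥(P : Subgroup G) := (MonoidHom.ofInjective hg).trans (P'.equiv P)
  exact PT_of_mulEquiv e hH

theorem padicVal_factorial_split (p : ℕ) [hp : Fact p.Prime] (k m : ℕ)
    (h : p ^ k + m < p ^ (k + 1)) :
    padicValNat p (p ^ k + m).factorial =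
      (∑ i ∈ Finset.range k, p ^ i) + padicValNat p m.factorial := by
  have hp1 := hp.out.one_lt
  have hpk : 0 < p ^ k := pow_pos hp.out.pos k
  have hlog1 : Nat.log p (p ^ k + m) < k + 1 := Nat.log_lt_of_lt_pow (by omega) h
  have hlog2 : Nat.log p m < k + 1 := lt_of_le_of_lt (Nat.log_mono_right (by omega)) hlog1
  rw [padicValNat_factorial hlog1, padicValNat_factorial hlog2]
  have hsum : ∑ i ∈ Finset.Ico 1 (k + 1), (p ^ k + m) / p ^ i =
      ∑ i ∈ Finset.Ico 1 (k + 1), (p ^ k / p ^ i + m / p ^ i) := by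
    apply Finset.sum_congr rfl
    intro i hi
    rw [Finset.mem_Ico] at hi
    exact Nat.add_div_of_dvd_right (pow_dvd_pow p (by omega))
  rw [hsum, Finset.sum_add_distrib]
  congr 1
  have h1 : padicValNat p (p ^ k).factorial = ∑ i ∈ Finset.Ico 1 (k + 1), p ^ k / p ^ i :=
    padicValNat_factorial (by rw [Nat.log_pow hp1]; omega)
  rw [← h1, padicValNat_def (Nat.factorial_ne_zero _)]
  exact Nat.Prime.multiplicity_factorial_pow hp.out

/-- Conversion between `PT 2` for a subgroup and the statement in the ambient group. -/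
theorem PT_two_subgroup {G : Type*} [Group G] (K : Subgroup G)
    (h : ∀ x ∈ K, x ^ 2 ∈ ⁅K, K⁆) : PT 2 ↥K := by
  intro x
  have h1 : (x : G) ^ 2 ∈ (commutator ↥K).map K.subtype := by
    rw [Subgroup.map_subtype_commutator]
    exact h x.1 x.2
  obtain ⟨y, hy, hyx⟩ := h1
  have h2 : y = x ^ 2 := Subtype.ext hyx
  rw [← h2]
  exact hy

theorem PT_two_subgroup' {G : Type*} [Group G] (K : Subgroup G) (h : PT 2 ↥K) :
    ∀ x ∈ K, x ^ 2 ∈ ⁅K, K⁆ := by
  intro x hx
  rw [← Subgroup.map_subtype_commutator]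
  exact ⟨(⟨x, hx⟩ : K) ^ 2, h ⟨x, hx⟩, rfl⟩

/-- The subgroup of elements of `K` whose square lies in `⁅K, K⁆`. -/
def sqSub {G : Type*} [Group G] (K : Subgroup G) : Subgroup G where
  carrier := {x | x ∈ K ∧ x ^ 2 ∈ ⁅K, K⁆}
  one_mem' := ⟨K.one_mem, by rw [one_pow]; exact Subgroup.one_mem _⟩
  mul_mem' := by
    rintro x y ⟨hx, hx2⟩ ⟨hy, hy2⟩
    refine ⟨K.mul_mem hx hy, ?_⟩
    have e : (x * y) ^ 2 = x ^ 2 * ⁅x⁻¹, y⁆ * y ^ 2 := by
      rw [commutatorElement_def, pow_two, pow_two, pow_two]
      group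
    rw [e]
    exact Subgroup.mul_mem _ (Subgroup.mul_mem _ hx2
      (Subgroup.commutator_mem_commutator (K.inv_mem hx) hy)) hy2
  inv_mem' := by
    rintro x ⟨hx, hx2⟩
    refine ⟨K.inv_mem hx, ?_⟩
    rw [inv_pow]
    exact Subgroup.inv_mem _ hx2

theorem mem_sqSub {G : Type*} [Group G] (K : Subgroup G) (x : G) :
    x ∈ sqSub K ↔ x ∈ K ∧ x ^ 2 ∈ ⁅K, K⁆ := Iff.rfl

end Cfsg.Agent.Helper22
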