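import Mathlib
import Cfsg.Agent.Helper22.SylAb1

set_option autoImplicit false

namespace Cfsg.Agent.Helper22

open Equiv
open scoped commutatorElement

theorem E_prod_left {H₁ H₂ : Type*} [Group H₁] [Group H₂] (s₁ : H₁ →* ℤˣ) (s₂ : H₂ →* ℤˣ)
    (s : H₁ × H₂ →* ℤˣ) (hs : ∀ x : H₁ × H₂, s x = s₁ x.1 * s₂ x.2)
    (h₁ : PT 2 H₁) (e₁ : PT 2 ↥s₁.ker) (x : H₁ × H₂) (hx : x ∈ s.ker) :
    (MonoidHom.inl H₁ H₂) (x.1 ^ 2) ∈ ⁅s.ker, s.ker⁆ := by
  classical
  by_cases c₂ : ∀ y : H₂, s₂ y = 1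
  · have hx1 : x.1 ∈ s₁.ker := by
      rw [MonoidHom.mem_ker] at hx ⊢
      rw [hs, c₂, mul_one] at hx
      exact hx
    have h2 := PT_two_subgroup' s₁.ker e₁ x.1 hx1
    have h3 : (MonoidHom.inl H₁ H₂) (x.1 ^ 2) ∈ (⁅s₁.ker, s₁.ker⁆).map (MonoidHom.inl H₁ H₂) :=
      Subgroup.mem_map_of_mem _ h2
    rw [Subgroup.map_commutator] at h3
    have hle : (s₁.ker).map (MonoidHom.inl H₁ H₂) ≤ s.ker := by
      rintro _ ⟨a, ha, rfl⟩
      have ha' := MonoidHom.mem_ker.mp ha
      rw [MonoidHom.mem_ker, hs]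
      simp [ha']
    exact Subgroup.commutator_mono hle hle h3
  · obtain ⟨u, hu⟩ : ∃ u : H₂, s₂ u ≠ 1 := by
      by_contra hcon
      exact c₂ (fun y => by
        by_contra hy
        exact hcon ⟨y, hy⟩)
    have hu' : s₂ u = -1 := (Int.units_eq_one_or _).resolve_left hu
    have key : commutator H₁ ≤ (⁅s.ker, s.ker⁆).comap (MonoidHom.inl H₁ H₂) := by
      rw [commutator_def, Subgroup.commutator_le]
      intro a _ b _
      rw [Subgroup.mem_comap]
      have hA : ∀ a : H₁, ∃ a' : H₂, (a' = 1 ∨ a' = u) ∧ ((a, a') : H₁ × H₂) ∈ s.ker := by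
        intro a
        rcases Int.units_eq_one_or (s₁ a) with h | h
        · exact ⟨1, Or.inl rfl, by rw [MonoidHom.mem_ker, hs]; simp [h]⟩
        · exact ⟨u, Or.inr rfl, by rw [MonoidHom.mem_ker, hs]; simp [h, hu']⟩
      obtain ⟨a', ha', haK⟩ := hA a
      obtain ⟨b', hb', hbK⟩ := hA b
      have hcomm : ⁅a', b'⁆ = 1 := by
        rcases ha' with rfl | rfl <;> rcases hb' with rfl | rfl <;> simp [commutatorElement_def]
      have e0 : ⁅((a, a') : H₁ × H₂), (b, b')⁆ = (⁅a, b⁆, ⁅a', b'⁆) := rfl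
      have e : (MonoidHom.inl H₁ H₂) ⁅a, b⁆ = ⁅((a, a') : H₁ × H₂), (b, b')⁆ := by
        rw [e0, hcomm]
        rfl
      rw [e]
      exact Subgroup.commutator_mem_commutator haK hbK
    exact key (h₁ x.1)

theorem E_prod_right {H₁ H₂ : Type*} [Group H₁] [Group H₂] (s₁ : H₁ →* ℤˣ) (s₂ : H₂ →* ℤˣ)
    (s : H₁ × H₂ →* ℤˣ) (hs : ∀ x : H₁ × H₂, s x = s₁ x.1 * s₂ x.2)
    (h₂ : PT 2 H₂) (e₂ : PT 2 ↥s₂.ker) (x : H₁ × H₂) (hx : x ∈ s.ker) :
    (MonoidHom.inr H₁ H₂) (x.2 ^ 2) ∈ ⁅s.ker, s.ker⁆ := by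
  classical
  by_cases c₁ : ∀ y : H₁, s₁ y = 1
  · have hx1 : x.2 ∈ s₂.ker := by
      rw [MonoidHom.mem_ker] at hx ⊢
      rw [hs, c₁, one_mul] at hx
      exact hx
    have h2 := PT_two_subgroup' s₂.ker e₂ x.2 hx1
    have h3 : (MonoidHom.inr H₁ H₂) (x.2 ^ 2) ∈ (⁅s₂.ker, s₂.ker⁆).map (MonoidHom.inr H₁ H₂) :=
      Subgroup.mem_map_of_mem _ h2
    rw [Subgroup.map_commutator] at h3
    have hle : (s₂.ker).map (MonoidHom.inr H₁ H₂) ≤ s.ker := by
      rintro _ ⟨a, ha, rfl⟩
      have ha' := MonoidHom.mem_ker.mp ha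
      rw [MonoidHom.mem_ker, hs]
      simp [ha']
    exact Subgroup.commutator_mono hle hle h3
  · obtain ⟨u, hu⟩ : ∃ u : H₁, s₁ u ≠ 1 := by
      by_contra hcon
      exact c₁ (fun y => by
        by_contra hy
        exact hcon ⟨y, hy⟩)
    have hu' : s₁ u = -1 := (Int.units_eq_one_or _).resolve_left hu
    have key : commutator H₂ ≤ (⁅s.ker, s.ker⁆).comap (MonoidHom.inr H₁ H₂) := by
      rw [commutator_def, Subgroup.commutator_le]
      intro a _ b _
      rw [Subgroup.mem_comap]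
      have hA : ∀ a : H₂, ∃ a' : H₁, (a' = 1 ∨ a' = u) ∧ ((a', a) : H₁ × H₂) ∈ s.ker := by
        intro a
        rcases Int.units_eq_one_or (s₂ a) with h | h
        · exact ⟨1, Or.inl rfl, by rw [MonoidHom.mem_ker, hs]; simp [h]⟩
        · exact ⟨u, Or.inr rfl, by rw [MonoidHom.mem_ker, hs]; simp [h, hu']⟩
      obtain ⟨a', ha', haK⟩ := hA a
      obtain ⟨b', hb', hbK⟩ := hA b
      have hcomm : ⁅a', b'⁆ = 1 := by
        rcases ha' with rfl | rfl <;> rcases hb' with rfl | rfl <;> simp [commutatorElement_def]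
      have e0 : ⁅((a', a) : H₁ × H₂), (b', b)⁆ = (⁅a', b'⁆, ⁅a, b⁆) := rfl
      have e : (MonoidHom.inr H₁ H₂) ⁅a, b⁆ = ⁅((a', a) : H₁ × H₂), (b', b)⁆ := by
        rw [e0, hcomm]
        rfl
      rw [e]
      exact Subgroup.commutator_mem_commutator haK hbK
    exact key (h₂ x.2)

theorem E_prod {H₁ H₂ : Type*} [Group H₁] [Group H₂] (s₁ : H₁ →* ℤˣ) (s₂ : H₂ →* ℤˣ)
    (s : H₁ × H₂ →* ℤˣ) (hs : ∀ x : H₁ × H₂, s x = s₁ x.1 * s₂ x.2)
    (h₁ : PT 2 H₁) (h₂ : PT 2 H₂) (e₁ : PT 2 ↥s₁.ker) (e₂ : PT 2 ↥s₂.ker) : PT 2 ↥s.ker := by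
  apply PT_two_subgroup
  intro x hx
  have hx2 : x ^ 2 = (MonoidHom.inl H₁ H₂) (x.1 ^ 2) * (MonoidHom.inr H₁ H₂) (x.2 ^ 2) := by
    apply Prod.ext <;> simp
  rw [hx2]
  exact Subgroup.mul_mem _ (E_prod_left s₁ s₂ s hs h₁ e₁ x hx) (E_prod_right s₁ s₂ s hs h₂ e₂ x hx)

theorem inl_conj_base {W C : Type*} [Group W] [Group C] (c : C) (f : C → W) :
    RegularWreathProduct.inl c * wreathBase W C f * (RegularWreathProduct.inl c)⁻¹ =
      wreathBase W C (fun x => f (c⁻¹ * x)) := by
  ext x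
  · simp [wreathBase_left, wreathBase_right]
  · simp [wreathBase_right]

theorem E_wreath {W C : Type*} [Group W] [Group C] [Finite C] (hW : PT 2 W)
    (hC : ∀ c : C, c ^ 2 = 1) (c₀ : C) (hc₀ : c₀ ≠ 1) (s : W ≀ᵣ C →* ℤˣ)
    (hinl : ∀ c : C, s (RegularWreathProduct.inl c) = 1) : PT 2 ↥s.ker := by
  classical
  apply PT_two_subgroup
  have hsq : ∀ (q q' : C) (w : W), s (wreathBase W C (Pi.mulSingle q w)) =
      s (wreathBase W C (Pi.mulSingle q' w)) := by
    intro q q' w
    have e : (Pi.mulSingle q' w : C → W) = fun x => (Pi.mulSingle q w : C → W) ((q' * q⁻¹)⁻¹ * x) := by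
      funext x
      by_cases hx : x = q'
      · subst hx
        simp
      · rw [Pi.mulSingle_apply, Pi.mulSingle_apply, if_neg hx, if_neg]
        intro h
        apply hx
        calc x = (q' * q⁻¹) * ((q' * q⁻¹)⁻¹ * x) := by group
          _ = (q' * q⁻¹) * q := by rw [h]
          _ = q' := by group
    rw [e, ← inl_conj_base, map_mul, map_mul, map_inv, hinl]
    simp
  -- Claim 1
  have claim1 : ∀ q : C, commutator W ≤
      (⁅s.ker, s.ker⁆).comap ((wreathBase W C).comp (MonoidHom.mulSingle (fun _ : C => W) q)) := by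
    intro q
    have hqq : c₀ * q ≠ q := by
      intro h
      apply hc₀
      have := mul_right_cancel (h.trans (one_mul q).symm)
      exact this
    let σ : W →* ℤˣ := s.comp ((wreathBase W C).comp (MonoidHom.mulSingle (fun _ : C => W) q))
    have hσ : ∀ w : W, s (wreathBase W C (Pi.mulSingle (c₀ * q) w)) = σ w := fun w => hsq _ _ w
    rw [commutator_def, Subgroup.commutator_le]
    intro a _ b _
    rw [Subgroup.mem_comap]
    have hpair : ∃ a' b' : W, ⁅a', b'⁆ = 1 ∧ σ a * σ a' = 1 ∧ σ b * σ b' = 1 := by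
      rcases Int.units_eq_one_or (σ a) with ha | ha
      · exact ⟨1, b⁻¹, by simp [commutatorElement_def], by simp [ha], by simp⟩
      · rcases Int.units_eq_one_or (σ b) with hb | hb
        · exact ⟨a⁻¹, 1, by simp [commutatorElement_def], by simp, by simp [hb]⟩
        · exact ⟨a⁻¹, a, by simp [commutatorElement_def], by simp, by simp [ha, hb]⟩
    obtain ⟨a', b', hcomm, hsa, hsb⟩ := hpair
    let F : W → W → (C → W) := fun v v' => Pi.mulSingle q v * Pi.mulSingle (c₀ * q) v'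
    have hF : ∀ (v v' : W) (x : C), F v v' x = if x = q then v else if x = c₀ * q then v' else 1 := by
      intro v v' x
      simp only [F, Pi.mul_apply, Pi.mulSingle_apply]
      by_cases h1 : x = q
      · subst h1
        rw [if_pos rfl, if_neg (Ne.symm hqq), if_pos rfl, mul_one]
      · rw [if_neg h1, if_neg h1, one_mul]
    have hFK : ∀ v v' : W, σ v * σ v' = 1 → wreathBase W C (F v v') ∈ s.ker := by
      intro v v' h
      rw [MonoidHom.mem_ker]
      show s (wreathBase W C (Pi.mulSingle q v * Pi.mulSingle (c₀ * q) v')) = 1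
      rw [map_mul, map_mul, hσ]
      exact h
    have hcF : ⁅F a a', F b b'⁆ = Pi.mulSingle q ⁅a, b⁆ := by
      funext x
      show ⁅F a a' x, F b b' x⁆ = _
      rw [hF, hF, Pi.mulSingle_apply]
      by_cases h1 : x = q
      · rw [if_pos h1, if_pos h1, if_pos h1]
      · rw [if_neg h1, if_neg h1, if_neg h1]
        by_cases h2 : x = c₀ * q
        · rw [if_pos h2, if_pos h2]
          exact hcomm
        · rw [if_neg h2, if_neg h2]
          simp [commutatorElement_def]
    have e : ((wreathBase W C).comp (MonoidHom.mulSingle (fun _ : C => W) q)) ⁅a, b⁆ =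
        ⁅wreathBase W C (F a a'), wreathBase W C (F b b')⁆ := by
      rw [← map_commutatorElement, hcF]
      rfl
    rw [e]
    exact Subgroup.commutator_mem_commutator (hFK a a' hsa) (hFK b b' hsb)
  have claim2 : Subgroup.pi Set.univ (fun _ : C => commutator W) ≤
      (⁅s.ker, s.ker⁆).comap (wreathBase W C) := by
    rw [Subgroup.pi_le_iff]
    intro q
    rintro _ ⟨w, hw, rfl⟩
    exact claim1 q hw
  intro x hx
  have hle : x ∈ sqSub s.ker := by
    rw [wreath_decomp x]
    have hxb : wreathBase W C x.left ∈ s.ker := by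
      rw [MonoidHom.mem_ker] at hx ⊢
      have h1 := hx
      rw [wreath_decomp x, map_mul, hinl, mul_one] at h1
      exact h1
    apply Subgroup.mul_mem
    · rw [mem_sqSub]
      refine ⟨hxb, ?_⟩
      rw [← map_pow]
      apply claim2
      rw [Subgroup.mem_pi]
      intro i _
      exact hW (x.left i)
    · rw [mem_sqSub]
      refine ⟨MonoidHom.mem_ker.mpr (hinl _), ?_⟩
      rw [← map_pow, hC, map_one]
      exact Subgroup.one_mem _
  exact ((mem_sqSub _ _).mp hle).2

theorem sign_toPerm_inl {D Q Λ : Type*} [Group D] [Group Q] [MulAction D Λ] [Fintype Λ]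
    [DecidableEq Λ] [Fintype Q] [DecidableEq Q] (c : Q) :
    Perm.sign (RegularWreathProduct.toPerm D Q Λ (RegularWreathProduct.inl c)) =
      Perm.sign (Equiv.mulLeft c) ^ Fintype.card Λ := by
  have h : RegularWreathProduct.toPerm D Q Λ (RegularWreathProduct.inl c) =
      Equiv.prodCongrRight (fun _ : Λ => Equiv.mulLeft c) := by
    apply Equiv.ext
    rintro ⟨l, q⟩
    show ((RegularWreathProduct.inl c : D ≀ᵣ Q) • ((l, q) : Λ × Q)) = (l, c * q)
    rw [RegularWreathProduct.smul_def]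
    simp
  rw [h, Perm.sign_prodCongrRight]
  simp

theorem sign_iterated_inl (C : Type) [Group C] [Fintype C] [DecidableEq C] (k : ℕ) (hk : 1 ≤ k)
    (hcard : Even (Fintype.card C)) (c : C) :
    Perm.sign (iteratedWreathToPermHom C (k + 1)
      (RegularWreathProduct.inl c : IteratedWreathProduct C k ≀ᵣ C)) = 1 := by
  letI : MulAction (IteratedWreathProduct C k) (Fin k → C) :=
    MulAction.compHom (Fin k → C) (iteratedWreathToPermHom C k)
  have h : iteratedWreathToPermHom C (k + 1)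
      (RegularWreathProduct.inl c : IteratedWreathProduct C k ≀ᵣ C) =
      (Fin.succFunEquiv C k).symm.permCongr
        (RegularWreathProduct.toPerm (IteratedWreathProduct C k) C (Fin k → C)
          (RegularWreathProduct.inl c)) := rfl
  rw [h, Perm.sign_permCongr, sign_toPerm_inl]
  have hev : Even (Fintype.card (Fin k → C)) := by
    rw [Fintype.card_fun, Fintype.card_fin]
    exact hcard.pow_of_ne_zero (by omega)
  obtain ⟨j, hj⟩ := hev
  rw [hj, ← two_mul, pow_mul, Int.units_sq, one_pow]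

theorem E_iterated (C : Type) [Group C] [Fintype C] [DecidableEq C] (hC : ∀ c : C, c ^ 2 = 1)
    (hcard : Fintype.card C = 2) :
    ∀ k : ℕ, PT 2 ↥(Perm.sign.comp (iteratedWreathToPermHom C k)).ker := by
  intro k
  rcases k with _ | k
  · intro x
    haveI : Subsingleton (IteratedWreathProduct C 0) := (inferInstance : Subsingleton PUnit)
    have h1 : x ^ 2 = 1 := Subtype.ext (Subsingleton.elim _ _)
    rw [h1]
    exact Subgroup.one_mem _
  rcases k with _ | k
  · apply PT_two_subgroup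
    intro x _
    haveI : Subsingleton (IteratedWreathProduct C 0) := (inferInstance : Subsingleton PUnit)
    have h1 : x ^ 2 = 1 := by
      rw [pow_two]
      apply RegularWreathProduct.ext
      · funext y
        exact Subsingleton.elim _ _
      · show x.right * x.right = 1
        rw [← pow_two]
        exact hC _
    rw [h1]
    exact Subgroup.one_mem _
  · obtain ⟨c₀, hc₀⟩ : ∃ c₀ : C, c₀ ≠ 1 := by
      haveI : Nontrivial C := Fintype.one_lt_card_iff_nontrivial.mp (by rw [hcard]; norm_num)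
      exact exists_ne 1
    exact E_wreath (W := IteratedWreathProduct C (k + 1)) (C := C) (PT_iterated C hC (k + 1)) hC
      c₀ hc₀ (Perm.sign.comp (iteratedWreathToPermHom C (k + 1 + 1)))
      (fun c => sign_iterated_inl C (k + 1) (by omega) (by rw [hcard]; decide) c)

end Cfsg.Agent.Helper22
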