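import Mathlib
import Cfsg.Agent.Helper22.SylAb2

set_option autoImplicit false

namespace Cfsg.Agent.Helper22

open Equiv

theorem exists_sylow_model (p : ℕ) [hp : Fact p.Prime] : ∀ n : ℕ,
    ∃ (H : Type) (_ : Group H) (_ : Finite H) (f : H →* Perm (Fin n)),
      Function.Injective f ∧ Nat.card H = p ^ padicValNat p n.factorial ∧ PT p H ∧
        (p = 2 → PT 2 ↥(Perm.sign.comp f).ker) := by
  intro n
  induction n using Nat.strong_induction_on with
  | _ n ih =>
  by_cases hn : n < p
  · refine ⟨PUnit, inferInstance, inferInstance, 1, Function.injective_of_subsingleton _, ?_, ?_, ?_⟩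
    · have h0 : padicValNat p n.factorial = 0 := by
        apply padicValNat.eq_zero_of_not_dvd
        rw [hp.out.dvd_factorial]
        omega
      rw [h0]
      simp
    · intro x
      rw [Subsingleton.elim (x ^ p) 1]
      exact Subgroup.one_mem _
    · intro _ x
      have h1 : x ^ 2 = 1 := Subtype.ext (Subsingleton.elim _ _)
      rw [h1]
      exact Subgroup.one_mem _
  · have hp1 := hp.out.one_lt
    have hn0 : n ≠ 0 := by omega
    have hk1 : p ^ Nat.log p n ≤ n := Nat.pow_log_le_self p hn0
    have hk2 : n < p ^ (Nat.log p n + 1) := Nat.lt_pow_succ_log_self hp1 n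
    generalize Nat.log p n = k at hk1 hk2
    have hpk : 0 < p ^ k := pow_pos hp.out.pos k
    obtain ⟨m, hm⟩ : ∃ m, n = p ^ k + m := ⟨n - p ^ k, by omega⟩
    subst hm
    obtain ⟨H₂, iG, iF, f₂, hf₂, hc₂, hPT₂, hE₂⟩ := ih m (by omega)
    haveI : NeZero p := ⟨hp.out.ne_zero⟩
    have hCcard : Nat.card (Multiplicative (ZMod p)) = p := by
      rw [Nat.card_eq_fintype_card, Fintype.card_multiplicative, ZMod.card]
    have hCpow : ∀ c : Multiplicative (ZMod p), c ^ p = 1 := by
      intro c
      have h1 := pow_card_eq_one' (G := Multiplicative (ZMod p)) (x := c)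
      rwa [hCcard] at h1
    let f₁ := iteratedWreathToPermHom (Multiplicative (ZMod p)) k
    have hf₁ : Function.Injective f₁ := iteratedWreathToPermHomInj (Multiplicative (ZMod p)) k
    let e₁ : (Fin k → Multiplicative (ZMod p)) ≃ Fin (p ^ k) :=
      Finite.equivFinOfCardEq (by rw [Nat.card_fun, Nat.card_fin, hCcard])
    let e : Fin (p ^ k) ⊕ Fin m ≃ Fin (p ^ k + m) := finSumFinEquiv
    let f₁' : IteratedWreathProduct (Multiplicative (ZMod p)) k →* Perm (Fin (p ^ k)) :=
      e₁.permCongrHom.toMonoidHom.comp f₁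
    have hf₁' : Function.Injective f₁' := fun a b h => hf₁ (e₁.permCongrHom.injective h)
    let f : IteratedWreathProduct (Multiplicative (ZMod p)) k × H₂ →* Perm (Fin (p ^ k + m)) :=
      e.permCongrHom.toMonoidHom.comp
        ((Perm.sumCongrHom (Fin (p ^ k)) (Fin m)).comp (MonoidHom.prodMap f₁' f₂))
    have hf : Function.Injective f := by
      intro a b hab
      have h1 : MonoidHom.prodMap f₁' f₂ a = MonoidHom.prodMap f₁' f₂ b :=
        Perm.sumCongrHom_injective (e.permCongrHom.injective hab)
      exact Prod.ext (hf₁' (congrArg Prod.fst h1)) (hf₂ (congrArg Prod.snd h1))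
    have hPT₁ : PT p (IteratedWreathProduct (Multiplicative (ZMod p)) k) :=
      PT_iterated (Multiplicative (ZMod p)) hCpow k
    refine ⟨IteratedWreathProduct (Multiplicative (ZMod p)) k × H₂, inferInstance, inferInstance,
      f, hf, ?_, PT_prod hPT₁ hPT₂, ?_⟩
    · rw [Nat.card_prod, IteratedWreathProduct.card, hCcard, hc₂, ← pow_add,
        padicVal_factorial_split p k m hk2]
    · intro h2
      subst h2
      have hs : ∀ x : IteratedWreathProduct (Multiplicative (ZMod 2)) k × H₂,
          (Perm.sign.comp f) x = (Perm.sign.comp f₁) x.1 * (Perm.sign.comp f₂) x.2 := by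
        intro x
        show Perm.sign (e.permCongr (Perm.sumCongr (e₁.permCongr (f₁ x.1)) (f₂ x.2))) =
          Perm.sign (f₁ x.1) * Perm.sign (f₂ x.2)
        rw [Perm.sign_permCongr, Perm.sign_sumCongr, Perm.sign_permCongr]
      have hcard2 : Fintype.card (Multiplicative (ZMod 2)) = 2 := by
        rw [Fintype.card_multiplicative, ZMod.card]
      exact E_prod (Perm.sign.comp f₁) (Perm.sign.comp f₂) (Perm.sign.comp f) hs hPT₁ hPT₂
        (E_iterated (Multiplicative (ZMod 2)) hCpow hcard2 k) (hE₂ rfl)

theorem sylow_sym_PT (p : ℕ) [hp : Fact p.Prime] (n : ℕ) (P : Sylow p (Perm (Fin n))) :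
    PT p ↥(P : Subgroup (Perm (Fin n))) := by
  obtain ⟨H, iG, iF, f, hf, hc, hPT, -⟩ := exists_sylow_model p n
  exact PT_sylow_of_embedding f hf
    (by rw [hc, Nat.card_perm, Nat.card_fin, Nat.factorization_def _ hp.out]) hPT P

theorem sylow_alt_PT (p : ℕ) [hp : Fact p.Prime] (n : ℕ)
    (Q : Sylow p (alternatingGroup (Fin n))) :
    PT p ↥(Q : Subgroup (alternatingGroup (Fin n))) := by
  obtain ⟨H, iG, iF, f, hf, hc, hPT, hE⟩ := exists_sylow_model p n
  let s : H →* ℤˣ := Perm.sign.comp f
  let g : ↥s.ker →* alternatingGroup (Fin n) :=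
    (f.comp s.ker.subtype).codRestrict (alternatingGroup (Fin n))
      (fun x => Perm.mem_alternatingGroup.mpr (MonoidHom.mem_ker.mp x.2))
  have hg : Function.Injective g := by
    intro a b hab
    have h1 : f a.1 = f b.1 := congrArg Subtype.val hab
    exact Subtype.ext (hf h1)
  have ha0 : Nat.card (alternatingGroup (Fin n)) ≠ 0 := Nat.card_pos.ne'
  have hdvd : Nat.card ↥s.ker ∣ Nat.card (alternatingGroup (Fin n)) :=
    Subgroup.card_dvd_of_injective g hg
  have hidx : Nat.card ↥s.ker * s.ker.index = p ^ padicValNat p n.factorial := by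
    rw [← hc]
    exact Subgroup.card_mul_index s.ker
  have hodd_top : p ≠ 2 → s.ker = ⊤ := by
    intro h2
    rw [eq_top_iff]
    intro x _
    rw [MonoidHom.mem_ker]
    have h1 : s x ^ Nat.card H = 1 := by rw [← map_pow, pow_card_eq_one', map_one]
    rw [hc] at h1
    have hodd : Odd (p ^ padicValNat p n.factorial) := (hp.out.odd_of_ne_two h2).pow
    obtain ⟨j, hj⟩ := hodd
    rw [hj, pow_add, pow_mul, Int.units_sq, one_pow, one_mul, pow_one] at h1
    exact h1
  have hPTK : PT p ↥s.ker := by
    by_cases h2 : p = 2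
    · subst h2
      exact hE rfl
    · have e : ↥s.ker ≃* H := (MulEquiv.subgroupCongr (hodd_top h2)).trans Subgroup.topEquiv
      exact PT_of_mulEquiv e.symm hPT
  have hcK : Nat.card ↥s.ker = p ^ (Nat.card (alternatingGroup (Fin n))).factorization p := by
    rw [Nat.factorization_def _ hp.out]
    by_cases hn2 : 2 ≤ n
    · haveI : Nontrivial (Fin n) := Fin.nontrivial_iff_two_le.mpr hn2
      have h2a : 2 * Nat.card (alternatingGroup (Fin n)) = n.factorial := by
        have h1 : 2 * Nat.card (alternatingGroup (Fin n)) = Nat.card (Perm (Fin n)) := by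
          rw [Nat.card_eq_fintype_card, Nat.card_eq_fintype_card]
          exact two_mul_card_alternatingGroup
        rw [h1, Nat.card_perm, Nat.card_fin]
      have hv : padicValNat p n.factorial =
          padicValNat p 2 + padicValNat p (Nat.card (alternatingGroup (Fin n))) := by
        rw [← h2a, padicValNat.mul (by norm_num) ha0]
      by_cases h2 : p = 2
      · subst h2
        rw [padicValNat_self] at hv
        have hi : s.ker.index ∣ 2 := by
          rw [Subgroup.index_ker]
          have h3 := Subgroup.card_subgroup_dvd_card s.range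
          rwa [Nat.card_eq_fintype_card (α := ℤˣ), Fintype.card_units_int] at h3
        rcases (Nat.dvd_prime Nat.prime_two).mp hi with h1 | h1
        · rw [h1, mul_one] at hidx
          rw [hidx] at hdvd
          have h4 := (padicValNat_dvd_iff_le ha0).mp hdvd
          omega
        · rw [h1, hv, pow_add, pow_one, mul_comm 2] at hidx
          exact Nat.eq_of_mul_eq_mul_right (by norm_num) hidx
      · have h3 : padicValNat p 2 = 0 := padicValNat_primes h2
        rw [h3, zero_add] at hv
        rw [← hv, ← hc]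
        exact Nat.card_congr ((MulEquiv.subgroupCongr (hodd_top h2)).trans Subgroup.topEquiv).toEquiv
    · have hf1 : n.factorial = 1 := by
        rcases (by omega : n = 0 ∨ n = 1) with rfl | rfl <;> rfl
      have h1 : Nat.card (alternatingGroup (Fin n)) = 1 := by
        have h0 := Subgroup.card_subgroup_dvd_card (alternatingGroup (Fin n))
        rw [Nat.card_perm, Nat.card_fin, hf1, Nat.dvd_one] at h0
        exact h0
      rw [h1] at hdvd ⊢
      rw [Nat.dvd_one] at hdvd
      rw [hdvd]
      simp
  exact PT_sylow_of_embedding g hg hcK hPTK Q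

theorem sylow_sym_alt_result (p : ℕ) [Fact p.Prime] (n : ℕ) (P : Sylow p (Perm (Fin n)))
    (Q : Sylow p (alternatingGroup (Fin n))) :
    (∀ x : (P : Subgroup (Perm (Fin n))), x ^ p ∈ commutator (P : Subgroup (Perm (Fin n)))) ∧
    (∀ x : (Q : Subgroup (alternatingGroup (Fin n))),
      x ^ p ∈ commutator (Q : Subgroup (alternatingGroup (Fin n)))) :=
  ⟨sylow_sym_PT p n P, sylow_alt_PT p n Q⟩

end Cfsg.Agent.Helper22
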