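import Mathlib
import Cfsg.Agent.Helper11.Virtual1
import Cfsg.Agent.Helper25.CharKer
import Cfsg.Agent.Helper2.Artin

set_option autoImplicit false

namespace Cfsg.Agent.Helper22

open Cfsg Cfsg.Agent.Helper2
open scoped ComplexConjugate

universe u

section TIE

variable {G : Type u} [Group G] [Fintype G]

/-- Induction from the "normaliser" `N` of a TI-set `A` keeps the values on `A ∖ 1`. -/
theorem tiE_indFun_apply (N : Subgroup G) [Fintype N] (A : Set G)
    (hTI : ∀ g : G, g ∉ N → ∀ x ∈ A, g * x * g⁻¹ ∈ A → x = 1)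
    (α : N → ℂ) (hα : IsClassFunction N α) (hαA : ∀ x : N, (x : G) ∉ A → α x = 0)
    (y : N) (hy : (y : G) ∈ A) (hy1 : y ≠ 1) : indFun N α (y : G) = α y := by
  classical
  rw [indFun_apply]
  have h1 : ∀ x : G, extendByZero N α (x⁻¹ * (y : G) * x) =
      extendByZero N (fun _ => α y) x := by
    intro x
    by_cases hx : x ∈ N
    · have h2 : x⁻¹ * (y : G) * x = (((⟨x, hx⟩ : N)⁻¹ * y * ((⟨x, hx⟩ : N)⁻¹)⁻¹ : N) : G) := by
        simp
      rw [h2, extendByZero_coe, extendByZero_of_mem N _ hx]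
      exact hα y (⟨x, hx⟩ : N)⁻¹
    · rw [extendByZero_of_not_mem N _ hx]
      by_cases hm : x⁻¹ * (y : G) * x ∈ N
      · rw [extendByZero_of_mem N _ hm]
        apply hαA
        intro hA
        have hx' : x⁻¹ ∉ N := fun h => hx (by simpa using N.inv_mem h)
        have h3 := hTI x⁻¹ hx' (y : G) hy (by simpa using hA)
        exact hy1 (Subtype.ext h3)
      · exact extendByZero_of_not_mem N _ hm
  rw [Finset.sum_congr rfl (fun x _ => h1 x), sum_extendByZero]
  rw [Finset.sum_const, Finset.card_univ, nsmul_eq_mul, ← Nat.card_eq_fintype_card]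
  have hN : (Nat.card N : ℂ) ≠ 0 := natCard_ne_zero_complex N
  field_simp

/-- Induction from `N` is an isometry on class functions vanishing off `A ∖ 1`. -/
theorem tiE_classInner_indFun (N : Subgroup G) [Fintype N] (A : Set G)
    (hTI : ∀ g : G, g ∉ N → ∀ x ∈ A, g * x * g⁻¹ ∈ A → x = 1)
    (α β : N → ℂ) (hα1 : α 1 = 0) (hαA : ∀ x : N, (x : G) ∉ A → α x = 0)
    (hβ : IsClassFunction N β) (hβA : ∀ x : N, (x : G) ∉ A → β x = 0) :
    classInner (indFun N α) (indFun N β) = classInner α β := by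
  classical
  rw [frobenius_reciprocity N α (indFun N β) (indFun_isClassFunction N β)]
  unfold classInner
  congr 1
  apply Finset.sum_congr rfl
  intro x _
  by_cases hx : (x : G) ∈ A ∧ x ≠ 1
  · beta_reduce
    rw [tiE_indFun_apply N A hTI β hβ hβA x hx.1 hx.2]
  · have h0 : α x = 0 := by
      by_cases hxA : (x : G) ∈ A
      · have hx1 : x = 1 := by
          by_contra h
          exact hx ⟨hxA, h⟩
        rw [hx1, hα1]
      · exact hαA x hxA
    rw [h0, zero_mul, zero_mul]

/-- the induced function vanishes at elements with no conjugate in `A ∖ 1` -/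
theorem tiE_indFun_eq_zero (N : Subgroup G) (A : Set G) (α : N → ℂ) (hα1 : α 1 = 0)
    (hαA : ∀ x : N, (x : G) ∉ A → α x = 0) (x : G)
    (hx : ∀ g : G, g⁻¹ * x * g ∈ A → g⁻¹ * x * g = 1) : indFun N α x = 0 := by
  rw [indFun_apply, Finset.sum_eq_zero, mul_zero]
  intro g _
  by_cases hm : g⁻¹ * x * g ∈ N
  · rw [extendByZero_of_mem N _ hm]
    by_cases hA : g⁻¹ * x * g ∈ A
    · have h1 := hx g hA
      have h2 : (⟨g⁻¹ * x * g, hm⟩ : N) = 1 := Subtype.ext h1
      rw [h2, hα1]
    · exact hαA _ hA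
  · exact extendByZero_of_not_mem N _ hm

/-- the extension of a class function of `N` -/
noncomputable def tiExt (N : Subgroup G) (ψ : N → ℂ) : G → ℂ :=
  indFun N (ψ - (fun _ => ψ 1)) + (fun _ => ψ 1)

theorem tiExt_one (N : Subgroup G) (ψ : N → ℂ) : tiExt N ψ 1 = ψ 1 := by
  show indFun N (ψ - (fun _ => ψ 1)) 1 + ψ 1 = ψ 1
  rw [indFun_one_apply]
  simp

theorem tiExt_mem (N : Subgroup G) [Fintype N] (A : Set G)
    (hTI : ∀ g : G, g ∉ N → ∀ x ∈ A, g * x * g⁻¹ ∈ A → x = 1)
    (ψ : N → ℂ) (hψ : IsClassFunction N ψ) (hψA : ∀ x : N, (x : G) ∉ A → ψ x = ψ 1)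
    (y : N) (hy : (y : G) ∈ A) (hy1 : y ≠ 1) : tiExt N ψ y = ψ y := by
  show indFun N (ψ - (fun _ => ψ 1)) y + ψ 1 = ψ y
  rw [tiE_indFun_apply N A hTI _ _ _ y hy hy1]
  · simp
  · intro a b
    simp only [Pi.sub_apply]
    rw [hψ a b]
  · intro x hx
    simp only [Pi.sub_apply]
    rw [hψA x hx, sub_self]

theorem tiExt_of_not_conj (N : Subgroup G) (A : Set G) (ψ : N → ℂ)
    (hψA : ∀ x : N, (x : G) ∉ A → ψ x = ψ 1) (x : G)
    (hx : ∀ g : G, g⁻¹ * x * g ∈ A → g⁻¹ * x * g = 1) : tiExt N ψ x = ψ 1 := by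
  show indFun N (ψ - (fun _ => ψ 1)) x + ψ 1 = ψ 1
  rw [tiE_indFun_eq_zero N A _ _ _ x hx, zero_add]
  · simp
  · intro y hy
    simp only [Pi.sub_apply]
    rw [hψA y hy, sub_self]

theorem classInner_const' (a b : ℂ) :
    classInner (fun _ : G => a) (fun _ : G => b) = a * conj b := by
  unfold classInner
  rw [Finset.sum_const, Finset.card_univ, nsmul_eq_mul, ← Nat.card_eq_fintype_card]
  have hN : (Nat.card G : ℂ) ≠ 0 := natCard_ne_zero_complex _
  field_simp

theorem tiExt_irr (N : Subgroup G) (A : Set G)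
    (hTI : ∀ g : G, g ∉ N → ∀ x ∈ A, g * x * g⁻¹ ∈ A → x = 1)
    (ψ : IrrCharacter N)
    (hψA : ∀ x : N, (x : G) ∉ A → (ψ : N → ℂ) x = (ψ : N → ℂ) 1) :
    IsIrrCharacter G (tiExt N (ψ : N → ℂ)) := by
  classical
  haveI : Fintype N := Fintype.ofFinite _
  obtain ⟨d, hd⟩ : ∃ d : ℕ, d = charDegree (ψ : N → ℂ) := ⟨_, rfl⟩
  have hd1 : (ψ : N → ℂ) 1 = (d : ℂ) := by rw [hd]; exact Helper25.irr_one_eq_degree ψ
  have hdpos : 0 < d := by rw [hd]; exact Helper25.irr_degree_pos ψ
  have hψcl : IsClassFunction N (ψ : N → ℂ) := Helper1.isClassFunction_irr ψ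
  have hcH : IsCharacter N (fun _ : N => (d : ℂ)) := by
    have := isCharacter_nsmul d (isCharacter_one (G := N))
    convert this using 1
    funext x
    simp
  have hcG : IsCharacter G (fun _ : G => (d : ℂ)) := by
    have := isCharacter_nsmul d (isCharacter_one (G := G))
    convert this using 1
    funext x
    simp
  obtain ⟨θ, hθ⟩ : ∃ θ : N → ℂ, θ = (ψ : N → ℂ) - (fun _ => (d : ℂ)) := ⟨_, rfl⟩
  have hθ1 : θ 1 = 0 := by rw [hθ]; simp [hd1]
  have hθcl : IsClassFunction N θ := by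
    intro a b
    rw [hθ]
    simp only [Pi.sub_apply]
    rw [hψcl a b]
  have hθA : ∀ x : N, (x : G) ∉ A → θ x = 0 := by
    intro x hx
    rw [hθ]
    simp only [Pi.sub_apply]
    rw [hψA x hx, hd1, sub_self]
  have hθgen : IsGeneralizedCharacter N θ := by
    rw [hθ]
    exact isGeneralizedCharacter_sub (isGeneralizedCharacter_of_isCharacter (Helper25.irr_isCharacter ψ))
      (isGeneralizedCharacter_of_isCharacter hcH)
  have hfe : tiExt N (ψ : N → ℂ) = indFun N θ + (fun _ : G => (d : ℂ)) := by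
    unfold tiExt
    rw [hd1, hθ]
  have hgen : IsGeneralizedCharacter G (tiExt N (ψ : N → ℂ)) := by
    rw [hfe]
    exact isGeneralizedCharacter_add (isGeneralizedCharacter_indFun N hθgen)
      (isGeneralizedCharacter_of_isCharacter hcG)
  have e1 : classInner (ψ : N → ℂ) (ψ : N → ℂ) = 1 := Helper1.classInner_irr_self ψ
  have e2 : classInner (ψ : N → ℂ) (fun _ : N => (d : ℂ)) =
      (d : ℂ) * (if ψ = Helper25.trivChar N then 1 else 0) := by
    have h1 : (fun _ : N => (d : ℂ)) = (d : ℂ) • (Helper25.trivChar N : N → ℂ) := by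
      funext x
      simp
    rw [h1, classInner_smul_right, classInner_irr_irr, Complex.conj_natCast]
  have e3 : classInner (fun _ : N => (d : ℂ)) (ψ : N → ℂ) =
      (d : ℂ) * (if ψ = Helper25.trivChar N then 1 else 0) := by
    rw [classInner_conj_symm (ψ : N → ℂ), e2]
    split_ifs <;> simp
  have e4 : classInner (fun _ : N => (d : ℂ)) (fun _ : N => (d : ℂ)) = (d : ℂ) * d := by
    rw [classInner_const', Complex.conj_natCast]
  have e5 : classInner θ θ = 1 - 2 * ((d : ℂ) * (if ψ = Helper25.trivChar N then 1 else 0))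
      + (d : ℂ) * d := by
    rw [hθ, classInner_sub_left, classInner_sub_right, classInner_sub_right, e1, e2, e3, e4]
    ring
  have e6 : classInner θ (fun _ : N => (d : ℂ)) =
      (d : ℂ) * (if ψ = Helper25.trivChar N then 1 else 0) - (d : ℂ) * d := by
    rw [hθ, classInner_sub_left, e2, e4]
  have f1 : classInner (indFun N θ) (indFun N θ) = classInner θ θ :=
    tiE_classInner_indFun N A hTI θ θ hθ1 hθA hθcl hθA
  have f2 : classInner (indFun N θ) (fun _ : G => (d : ℂ)) =
      (d : ℂ) * (if ψ = Helper25.trivChar N then 1 else 0) - (d : ℂ) * d := by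
    rw [frobenius_reciprocity N θ _ (isClassFunction_of_isCharacter hcG)]
    exact e6
  have f3 : classInner (fun _ : G => (d : ℂ)) (indFun N θ) =
      (d : ℂ) * (if ψ = Helper25.trivChar N then 1 else 0) - (d : ℂ) * d := by
    rw [classInner_conj_symm (indFun N θ), f2]
    split_ifs <;> simp
  have f4 : classInner (fun _ : G => (d : ℂ)) (fun _ : G => (d : ℂ)) = (d : ℂ) * d := by
    rw [classInner_const', Complex.conj_natCast]
  have hnorm : classInner (tiExt N (ψ : N → ℂ)) (tiExt N (ψ : N → ℂ)) = 1 := by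
    rw [hfe, classInner_add_left, classInner_add_right, classInner_add_right, f1, f2, f3, f4, e5]
    ring
  obtain ⟨χ, hχ | hχ⟩ := Cfsg.Agent.Helper11.virtual_norm_one hgen hnorm
  · rw [hχ]; exact χ.2
  · exfalso
    have h1 := congrFun hχ 1
    rw [tiExt_one, hd1, Pi.neg_apply, Helper25.irr_one_eq_degree χ] at h1
    have h2 : ((d + charDegree (χ : G → ℂ) : ℕ) : ℂ) = 0 := by
      push_cast
      rw [h1]
      ring
    have h3 : d + charDegree (χ : G → ℂ) = 0 := by exact_mod_cast h2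
    omega

end TIE

end Cfsg.Agent.Helper22
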