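import Mathlib
import Cfsg.Prelude.Def_OddOrderLocal
import Cfsg.Agent.Helper22.TIExt
import Cfsg.Agent.Helper22.CyclicNorm

set_option autoImplicit false

namespace Cfsg.Agent.Helper22

open Cfsg Cfsg.Agent.Helper2
open scoped ComplexConjugate

universe u

/-- A TI subgroup `H` which has a normal complement in its normalizer (of coprime order)
has a normal complement in the whole group. -/
theorem ti_hall_complement {G : Type u} [Group G] [Finite G] (H : Subgroup G)
    (hTI : Cfsg.IsTISubset (H : Set G))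
    (hHall : (Nat.card H).Coprime (H.subgroupOf (Subgroup.normalizer (H : Set G))).index)
    (K : Subgroup (Subgroup.normalizer (H : Set G))) (hKn : K.Normal)
    (hKc : K.IsComplement' (H.subgroupOf (Subgroup.normalizer (H : Set G)))) :
    ∃ M : Subgroup G, M.Normal ∧ M.IsComplement' H := by
  classical
  haveI : Fintype G := Fintype.ofFinite G
  obtain ⟨N, hNdef⟩ : ∃ N : Subgroup G, N = Subgroup.normalizer (H : Set G) := ⟨_, rfl⟩
  subst hNdef
  haveI : Fintype (Subgroup.normalizer (H : Set G)) := Fintype.ofFinite _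
  haveI : Fintype H := Fintype.ofFinite H
  have hHN : H ≤ Subgroup.normalizer (H : Set G) := Subgroup.le_normalizer
  haveI hH'n : (H.subgroupOf (Subgroup.normalizer (H : Set G))).Normal :=
    Subgroup.normal_in_normalizer
  have hcardH' : Nat.card (H.subgroupOf (Subgroup.normalizer (H : Set G))) = Nat.card H :=
    Nat.card_congr (Subgroup.subgroupOfEquivOfLe hHN).toEquiv
  have hKidx : (H.subgroupOf (Subgroup.normalizer (H : Set G))).index = Nat.card K :=
    hKc.index_eq_card
  have hcop : (Nat.card H).Coprime (Nat.card K) := by rw [← hKidx]; exact hHall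
  have hKidx' : K.index = Nat.card H := by
    rw [hKc.symm.index_eq_card, hcardH']
  -- the projection onto `H`
  let e : (Subgroup.normalizer (H : Set G)) ⧸ K ≃* (H.subgroupOf (Subgroup.normalizer (H : Set G))) :=
    hKc.symm.QuotientMulEquiv
  let π : (Subgroup.normalizer (H : Set G)) →* H :=
    ((Subgroup.subgroupOfEquivOfLe hHN).toMonoidHom.comp e.toMonoidHom).comp (QuotientGroup.mk' K)
  have hπK : ∀ x : Subgroup.normalizer (H : Set G), x ∈ K → π x = 1 := by
    intro x hx
    show (Subgroup.subgroupOfEquivOfLe hHN) (e (QuotientGroup.mk x)) = 1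
    rw [(QuotientGroup.eq_one_iff x).mpr hx, map_one, map_one]
  have hπH : ∀ h : H, π ⟨h, hHN h.2⟩ = h := by
    intro h
    show (Subgroup.subgroupOfEquivOfLe hHN) (e (QuotientGroup.mk ⟨h, hHN h.2⟩)) = h
    have h1 : e.symm ⟨⟨h, hHN h.2⟩, by rw [Subgroup.mem_subgroupOf]; exact h.2⟩ =
        QuotientGroup.mk (⟨h, hHN h.2⟩ : Subgroup.normalizer (H : Set G)) := rfl
    rw [← h1, MulEquiv.apply_symm_apply]
    rfl
  have hπsurj : Function.Surjective π := fun h => ⟨_, hπH h⟩
  -- the TI set
  obtain ⟨A, hA⟩ : ∃ A : Set G, A = {x : G | x = 1 ∨ ∃ hx : x ∈ Subgroup.normalizer (H : Set G),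
      (⟨x, hx⟩ : Subgroup.normalizer (H : Set G)) ∉ K} := ⟨_, rfl⟩
  have hpowH : ∀ (x : G), x ∈ Subgroup.normalizer (H : Set G) → x ^ Nat.card K ∈ H := by
    intro x hx
    have h1 := Subgroup.pow_index_mem (H.subgroupOf (Subgroup.normalizer (H : Set G)))
      (⟨x, hx⟩ : Subgroup.normalizer (H : Set G))
    rw [hKidx, Subgroup.mem_subgroupOf] at h1
    simpa using h1
  have hpow1 : ∀ (x : G) (hx : x ∈ Subgroup.normalizer (H : Set G)),
      (⟨x, hx⟩ : Subgroup.normalizer (H : Set G)) ∉ K → x ^ Nat.card K ≠ 1 := by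
    intro x hx hxK h1
    apply hxK
    have h2 := Subgroup.pow_index_mem K (⟨x, hx⟩ : Subgroup.normalizer (H : Set G))
    rw [hKidx'] at h2
    have h3 : (⟨x, hx⟩ : Subgroup.normalizer (H : Set G)) ^ Nat.card K ∈ K := by
      have h4 : (⟨x, hx⟩ : Subgroup.normalizer (H : Set G)) ^ Nat.card K = 1 := by
        apply Subtype.ext
        rw [Subgroup.coe_pow, Subgroup.coe_one]
        exact h1
      rw [h4]; exact K.one_mem
    exact coprime_pow_mem K _ hcop h2 h3
  have hTIA : ∀ g : G, g ∉ Subgroup.normalizer (H : Set G) → ∀ x ∈ A, g * x * g⁻¹ ∈ A → x = 1 := by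
    intro g hg x hxA hgx
    by_contra hx1
    rw [hA] at hxA hgx
    rcases hxA with h | ⟨hx, hxK⟩
    · exact hx1 h
    · rcases hgx with h | ⟨hgx', _⟩
      · apply hx1
        have h2 : x = g⁻¹ * (g * x * g⁻¹) * g := by group
        rw [h2, h]; group
      · have hy := hpowH x hx
        have hy1 := hpow1 x hx hxK
        have hgy : g * x ^ Nat.card K * g⁻¹ ∈ H := by
          rw [← conj_pow]; exact hpowH _ hgx'
        exact hy1 (hTI g hg _ hy hgy)
  -- the irreducible characters
  have hψA : ∀ (ψ : IrrCharacter H) (x : Subgroup.normalizer (H : Set G)), (x : G) ∉ A →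
      (ψ : H → ℂ) (π x) = (ψ : H → ℂ) (π 1) := by
    intro ψ x hx
    have hxK : x ∈ K := by
      by_contra hxK
      apply hx
      rw [hA]
      exact Or.inr ⟨x.2, hxK⟩
    rw [hπK x hxK, map_one]
  have hirrN : ∀ ψ : IrrCharacter H,
      IsIrrCharacter (Subgroup.normalizer (H : Set G)) (fun x => (ψ : H → ℂ) (π x)) :=
    fun ψ => isIrrCharacter_comp_of_surjective π hπsurj ψ.2
  have hirr : ∀ ψ : IrrCharacter H, IsIrrCharacter G
      (tiExt (Subgroup.normalizer (H : Set G)) (fun x => (ψ : H → ℂ) (π x))) :=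
    fun ψ => tiExt_irr (Subgroup.normalizer (H : Set G)) A hTIA ⟨_, hirrN ψ⟩ (hψA ψ)
  obtain ⟨M, hMdef⟩ : ∃ M : Subgroup G, M = ⨅ ψ : IrrCharacter H,
      Helper25.irrKer (⟨_, hirr ψ⟩ : IrrCharacter G) := ⟨_, rfl⟩
  have hMn : M.Normal := by
    rw [hMdef]
    exact Subgroup.normal_iInf_normal (fun ψ => Helper25.irrKer_normal _)
  have hmemM : ∀ x, x ∈ M ↔ ∀ ψ : IrrCharacter H,
      tiExt (Subgroup.normalizer (H : Set G)) (fun x => (ψ : H → ℂ) (π x)) x =
      tiExt (Subgroup.normalizer (H : Set G)) (fun x => (ψ : H → ℂ) (π x)) 1 := by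
    intro x
    rw [hMdef]
    simp only [Subgroup.mem_iInf, Helper25.mem_irrKer]
  have hMH : ∀ h ∈ H, h ∈ M → h = 1 := by
    intro h hh hhM
    by_contra h1
    rw [hmemM] at hhM
    have h1' : (⟨h, hh⟩ : H) ≠ 1 := fun e => h1 (congrArg Subtype.val e)
    have hyA : ((⟨h, hHN hh⟩ : Subgroup.normalizer (H : Set G)) : G) ∈ A := by
      rw [hA]
      refine Or.inr ⟨hHN hh, ?_⟩
      intro hK
      have h2 : (⟨h, hHN hh⟩ : Subgroup.normalizer (H : Set G)) ∈
          K ⊓ H.subgroupOf (Subgroup.normalizer (H : Set G)) :=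
        Subgroup.mem_inf.mpr ⟨hK, Subgroup.mem_subgroupOf.mpr hh⟩
      rw [hKc.disjoint.eq_bot, Subgroup.mem_bot] at h2
      exact h1 (congrArg Subtype.val h2)
    have hy1 : (⟨h, hHN hh⟩ : Subgroup.normalizer (H : Set G)) ≠ 1 :=
      fun e => h1 (congrArg Subtype.val e)
    have e : ∀ ψ : IrrCharacter H, (ψ : H → ℂ) ⟨h, hh⟩ = (ψ : H → ℂ) 1 := by
      intro ψ
      have h2 := hhM ψ
      rw [tiExt_one] at h2
      have h3 := tiExt_mem (Subgroup.normalizer (H : Set G)) A hTIA
        (fun x => (ψ : H → ℂ) (π x))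
        (Helper1.isClassFunction_irr (⟨_, hirrN ψ⟩ : IrrCharacter (Subgroup.normalizer (H : Set G))))
        (hψA ψ) ⟨h, hHN hh⟩ hyA hy1
      have h4 : tiExt (Subgroup.normalizer (H : Set G)) (fun x => (ψ : H → ℂ) (π x)) h =
          (ψ : H → ℂ) (π ⟨h, hHN hh⟩) := h3
      rw [h4] at h2
      have h5 := hπH ⟨h, hh⟩
      rw [h5, map_one] at h2
      exact h2
    have so := Helper25.second_orthogonality (G := H) ⟨h, hh⟩ 1
    rw [if_neg (fun hc => h1' (isConj_one_left.mp hc))] at so
    have so1 := Helper25.second_orthogonality (G := H) 1 1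
    rw [if_pos (IsConj.refl 1)] at so1
    have h4 : (Nat.card (Subgroup.centralizer ({1} : Set H)) : ℂ) = 0 := by
      rw [← so1, ← so]
      apply Finset.sum_congr rfl
      intro ψ _
      rw [e ψ]
    exact natCard_ne_zero_complex _ h4
  have hdisj : Disjoint M H := by
    rw [Subgroup.disjoint_def]
    intro x hxM hxH
    exact hMH x hxH hxM
  -- elements outside `M` are conjugate into `N ∖ K`
  have hcomp : ∀ x : G, x ∉ M → ∃ g : G, ∃ hx : g⁻¹ * x * g ∈ Subgroup.normalizer (H : Set G),
      (⟨g⁻¹ * x * g, hx⟩ : Subgroup.normalizer (H : Set G)) ∉ K := by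
    intro x hxM
    by_contra hcon
    push_neg at hcon
    apply hxM
    rw [hmemM]
    intro ψ
    rw [tiExt_one]
    apply tiExt_of_not_conj (Subgroup.normalizer (H : Set G)) A _ (hψA ψ)
    intro g hg
    rw [hA] at hg
    rcases hg with h | ⟨hx, hxK⟩
    · exact h
    · exact absurd (hcon g hx) hxK
  -- counting
  let f : (G ⧸ Subgroup.normalizer (H : Set G)) ×
      {n : Subgroup.normalizer (H : Set G) // n ∉ K} → G :=
    fun p => p.1.out * (p.2.1 : G) * p.1.out⁻¹
  have hsub : ((M : Set G)ᶜ) ⊆ Set.range f := by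
    intro x hx
    obtain ⟨g, hgx, hgK⟩ := hcomp x hx
    obtain ⟨n₀, hn₀⟩ := QuotientGroup.mk_out_eq_mul (Subgroup.normalizer (H : Set G)) g
    have hmem : n₀⁻¹ * ⟨g⁻¹ * x * g, hgx⟩ * n₀ ∉ K := by
      intro hK
      apply hgK
      have h1 := hKn.conj_mem _ hK n₀
      have h2 : n₀ * (n₀⁻¹ * ⟨g⁻¹ * x * g, hgx⟩ * n₀) * n₀⁻¹ =
          (⟨g⁻¹ * x * g, hgx⟩ : Subgroup.normalizer (H : Set G)) := by group
      rw [h2] at h1
      exact h1
    refine ⟨(QuotientGroup.mk g, ⟨_, hmem⟩), ?_⟩
    show (QuotientGroup.mk g : G ⧸ Subgroup.normalizer (H : Set G)).out *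
      ((n₀⁻¹ * ⟨g⁻¹ * x * g, hgx⟩ * n₀ : Subgroup.normalizer (H : Set G)) : G) *
      (QuotientGroup.mk g : G ⧸ Subgroup.normalizer (H : Set G)).out⁻¹ = x
    rw [hn₀]
    simp only [Subgroup.coe_mul, Subgroup.coe_inv]
    group
  have hc1 : ((M : Set G)ᶜ).ncard ≤
      (Subgroup.normalizer (H : Set G)).index *
        (Nat.card (Subgroup.normalizer (H : Set G)) - Nat.card K) := by
    calc ((M : Set G)ᶜ).ncard ≤ (Set.range f).ncard := Set.ncard_le_ncard hsub (Set.toFinite _)
      _ = Nat.card (Set.range f) := (Nat.card_coe_set_eq _).symm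
      _ ≤ Nat.card ((G ⧸ Subgroup.normalizer (H : Set G)) ×
            {n : Subgroup.normalizer (H : Set G) // n ∉ K}) := Finite.card_range_le f
      _ = (Subgroup.normalizer (H : Set G)).index *
            (Nat.card (Subgroup.normalizer (H : Set G)) - Nat.card K) := by
          rw [Nat.card_prod]
          congr 1
          have h1 := Set.ncard_add_ncard_compl (K : Set (Subgroup.normalizer (H : Set G)))
          have h2 : Nat.card {n : Subgroup.normalizer (H : Set G) // n ∉ K} =
              ((K : Set (Subgroup.normalizer (H : Set G)))ᶜ).ncard :=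
            (Nat.card_coe_set_eq _)
          have h3 : (K : Set (Subgroup.normalizer (H : Set G))).ncard = Nat.card K :=
            (Nat.card_coe_set_eq _).symm
          omega
  have hc2 : (M : Set G).ncard + ((M : Set G)ᶜ).ncard = Nat.card G :=
    Set.ncard_add_ncard_compl (M : Set G)
  have hc3 : (M : Set G).ncard = Nat.card M := (Nat.card_coe_set_eq _).symm
  have hc4 : (Subgroup.normalizer (H : Set G)).index * Nat.card (Subgroup.normalizer (H : Set G)) =
      Nat.card G := Subgroup.index_mul_card _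
  have hc5 : Nat.card K * Nat.card H = Nat.card (Subgroup.normalizer (H : Set G)) := by
    rw [← hcardH']; exact hKc.card_mul_card
  have hc6 : Nat.card M * Nat.card H ≤ Nat.card G := by
    have h1 := Nat.card_le_card_of_injective _ (Subgroup.mul_injective_of_disjoint hdisj)
    rwa [Nat.card_prod] at h1
  have hc7 : Nat.card M * Nat.card H = Nat.card G := by
    have h1 : (Subgroup.normalizer (H : Set G)).index *
        (Nat.card (Subgroup.normalizer (H : Set G)) - Nat.card K) =
        (Subgroup.normalizer (H : Set G)).index * Nat.card (Subgroup.normalizer (H : Set G)) -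
        (Subgroup.normalizer (H : Set G)).index * Nat.card K := Nat.mul_sub _ _ _
    have h2 : (Subgroup.normalizer (H : Set G)).index * Nat.card K ≤
        (Subgroup.normalizer (H : Set G)).index * Nat.card (Subgroup.normalizer (H : Set G)) :=
      Nat.mul_le_mul_left _ (by rw [← hc5]; exact Nat.le_mul_of_pos_right _ Nat.card_pos)
    have h3 : (Subgroup.normalizer (H : Set G)).index * Nat.card K ≤ Nat.card M := by omega
    have h4 : (Subgroup.normalizer (H : Set G)).index * Nat.card K * Nat.card H = Nat.card G := by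
      rw [mul_assoc, hc5, hc4]
    have h5 := Nat.mul_le_mul_right (Nat.card H) h3
    omega
  exact ⟨M, hMn, Subgroup.isComplement'_of_card_mul_and_disjoint hc7 hdisj⟩

end Cfsg.Agent.Helper22
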