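import Mathlib
import Cfsg.Prelude.Def_OddOrderLocal
import Cfsg.Prelude.Def_Solvable
import Cfsg.Agent.Helper22.HallTI
import Cfsg.Agent.Helper22.CyclicNorm
import Cfsg.Agent.Helper22.ConjSmul

set_option autoImplicit false

namespace Cfsg.Agent.Helper22

open scoped Pointwise

universe u

/-- A TI subgroup that is a Hall subgroup of its normalizer is a Hall subgroup of the group. -/
theorem ti_hall_index_coprime {G : Type*} [Group G] [Finite G] (H : Subgroup G)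
    (hTI : Cfsg.IsTISubset (H : Set G))
    (hHall : (Nat.card H).Coprime (H.subgroupOf (Subgroup.normalizer (H : Set G))).index) :
    (Nat.card H).Coprime H.index := by
  have hHN : H ≤ Subgroup.normalizer (H : Set G) := Subgroup.le_normalizer
  rw [← Subgroup.relIndex_mul_index hHN]
  apply Nat.Coprime.mul_right hHall
  apply Nat.coprime_of_dvd
  intro r hr hrH hrN
  haveI : Fact r.Prime := ⟨hr⟩
  obtain ⟨x, hx⟩ := exists_prime_orderOf_dvd_card' (G := H) r hrH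
  have hxo : orderOf (x : G) = r := by rw [Subgroup.orderOf_coe]; exact hx
  have hR : IsPGroup r (Subgroup.zpowers (x : G)) :=
    IsPGroup.of_card (n := 1) (by rw [Nat.card_zpowers, hxo, pow_one])
  have hmod := hR.card_modEq_card_fixedPoints (G ⧸ Subgroup.normalizer (H : Set G))
  have key : ∀ q : G ⧸ Subgroup.normalizer (H : Set G),
      q ∈ MulAction.fixedPoints (Subgroup.zpowers (x : G)) (G ⧸ Subgroup.normalizer (H : Set G)) →
      q = QuotientGroup.mk 1 := by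
    intro q hq
    obtain ⟨g, rfl⟩ := QuotientGroup.mk_surjective q
    have h1 := hq ⟨(x : G), Subgroup.mem_zpowers _⟩
    have h2 : g⁻¹ * (x : G) * g ∈ Subgroup.normalizer (H : Set G) := by
      have h3 : (QuotientGroup.mk ((x : G) * g) : G ⧸ Subgroup.normalizer (H : Set G)) =
          QuotientGroup.mk g := h1
      rw [eq_comm, QuotientGroup.eq] at h3
      rwa [mul_assoc]
    have h5 : g⁻¹ * (x : G) * g ∈ H := by
      have h6 := Subgroup.pow_index_mem (H.subgroupOf (Subgroup.normalizer (H : Set G)))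
        (⟨g⁻¹ * (x : G) * g, h2⟩ : Subgroup.normalizer (H : Set G))
      rw [Subgroup.mem_subgroupOf] at h6
      have h6' : (g⁻¹ * (x : G) * g) ^
          (H.subgroupOf (Subgroup.normalizer (H : Set G))).index ∈ H := by simpa using h6
      have h7 : (g⁻¹ * (x : G) * g) ^ r ∈ H := by
        have e : g⁻¹ * (x : G) * g = g⁻¹ * (x : G) * g⁻¹⁻¹ := by rw [inv_inv]
        rw [e, conj_pow, ← hxo, pow_orderOf_eq_one]
        simp
      have hcop : Nat.Coprime (H.subgroupOf (Subgroup.normalizer (H : Set G))).index r :=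
        (Nat.Coprime.coprime_dvd_left hrH hHall).symm
      exact coprime_pow_mem H _ hcop h6' h7
    have h8 : g⁻¹ ∈ Subgroup.normalizer (H : Set G) := by
      by_contra hg
      have h9 := hTI g⁻¹ hg (x : G) x.2 (by rw [inv_inv]; exact h5)
      rw [h9, orderOf_one] at hxo
      exact hr.one_lt.ne hxo
    have h10 : g ∈ Subgroup.normalizer (H : Set G) := by
      simpa using Subgroup.inv_mem _ h8
    exact QuotientGroup.eq.mpr (by simpa using h8)
  have hfix : Nat.card (MulAction.fixedPoints (Subgroup.zpowers (x : G))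
      (G ⧸ Subgroup.normalizer (H : Set G))) = 1 := by
    rw [Nat.card_eq_one_iff_unique]
    refine ⟨⟨?_⟩, ⟨⟨(QuotientGroup.mk 1), ?_⟩⟩⟩
    · rintro ⟨a, ha⟩ ⟨b, hb⟩
      exact Subtype.ext ((key a ha).trans (key b hb).symm)
    · rintro ⟨y, hy⟩
      show (QuotientGroup.mk (y * 1) : G ⧸ Subgroup.normalizer (H : Set G)) = QuotientGroup.mk 1
      rw [mul_one]
      have hyH : y ∈ H := (Subgroup.zpowers_le.mpr x.2) hy
      exact QuotientGroup.eq.mpr (by simpa using Subgroup.inv_mem _ (hHN hyH))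
  rw [hfix] at hmod
  have h0 : (Subgroup.normalizer (H : Set G)).index ≡ 0 [MOD r] := Nat.modEq_zero_iff_dvd.mpr hrN
  have h1 : (0 : ℕ) ≡ 1 [MOD r] := h0.symm.trans hmod
  have h2 : r ∣ 1 := (Nat.modEq_iff_dvd' (by omega)).mp h1
  exact hr.one_lt.ne' (Nat.dvd_one.mp h2)

/-- In the situation of `ti_hall_complement`, a non-normal `H` is a Frobenius complement
of some Frobenius group. -/
theorem ti_hall_frob_compl {G : Type u} [Group G] [Finite G] (H : Subgroup G)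
    (hTI : Cfsg.IsTISubset (H : Set G))
    (hHall : (Nat.card H).Coprime (H.subgroupOf (Subgroup.normalizer (H : Set G))).index)
    (hnn : ¬ H.Normal) (M : Subgroup G) (hMn : M.Normal) (hMc : M.IsComplement' H) :
    ∃ (F : Type u) (_ : Group F) (_ : Finite F) (C : Subgroup F),
      Cfsg.IsFrobeniusComplement C ∧ Nonempty (H ≃* C) := by
  classical
  have hHallG := ti_hall_index_coprime H hTI hHall
  have hHN : H ≤ Subgroup.normalizer (H : Set G) := Subgroup.le_normalizer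
  have hMH : ∀ x, x ∈ M → x ∈ H → x = 1 := by
    intro x hxM hxH
    have h := hMc.disjoint
    rw [Subgroup.disjoint_def] at h
    exact h hxM hxH
  have hidxM : M.index = Nat.card H := hMc.symm.index_eq_card
  have hidxH : H.index = Nat.card M := hMc.index_eq_card
  have hcopMH : (Nat.card H).Coprime (Nat.card M) := by rw [← hidxH]; exact hHallG
  have hcent : ∀ h ∈ H, h ≠ 1 → ∀ x : G, h * x = x * h →
      x ∈ Subgroup.normalizer (H : Set G) := by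
    intro h hh h1 x hx
    by_contra hxN
    apply h1
    apply hTI x hxN h hh
    rw [← hx, mul_inv_cancel_right]
    exact hh
  have hcentK : ∀ h ∈ H, ∀ u ∈ M, u ∈ Subgroup.normalizer (H : Set G) → h * u * h⁻¹ = u := by
    intro h hh u huM huN
    have h1 : u * h * u⁻¹ ∈ H := (Subgroup.mem_normalizer_iff.mp huN h).mp hh
    have h2 : u * h * u⁻¹ * h⁻¹ ∈ H := H.mul_mem h1 (H.inv_mem hh)
    have h3 : u * h * u⁻¹ * h⁻¹ ∈ M := by
      have e : u * h * u⁻¹ * h⁻¹ = u * (h * u⁻¹ * h⁻¹) := by group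
      rw [e]
      exact M.mul_mem huM (hMn.conj_mem _ (M.inv_mem huM) h)
    have h4 := hMH _ h3 h2
    have e : h * u * h⁻¹ = (u * h * u⁻¹ * h⁻¹)⁻¹ * u := by group
    rw [e, h4, inv_one, one_mul]
  have hMnotN : ¬ M ≤ Subgroup.normalizer (H : Set G) := by
    intro hle
    apply hnn
    rw [← Subgroup.normalizer_eq_top_iff, eq_top_iff]
    intro g _
    obtain ⟨⟨⟨m, hm⟩, ⟨h, hh⟩⟩, e⟩ := hMc.2 g
    have e' : m * h = g := e
    rw [← e']
    exact Subgroup.mul_mem _ (hle hm) (hHN hh)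
  obtain ⟨K₀, hK₀⟩ : ∃ K₀ : Subgroup G, K₀ = M ⊓ Subgroup.normalizer (H : Set G) := ⟨_, rfl⟩
  have hK₀M : K₀ ≤ M := by rw [hK₀]; exact inf_le_left
  have hrel1 : K₀.relIndex M ≠ 1 := by
    intro h
    rw [Subgroup.relIndex_eq_one] at h
    exact hMnotN (fun x hx => by
      have h' := h hx
      rw [hK₀] at h'
      exact h'.2)
  obtain ⟨q, hq⟩ : ∃ q : ℕ, q = (K₀.relIndex M).minFac := ⟨_, rfl⟩
  have hqp : q.Prime := by rw [hq]; exact Nat.minFac_prime hrel1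
  haveI : Fact q.Prime := ⟨hqp⟩
  have hqrel : q ∣ K₀.relIndex M := by rw [hq]; exact Nat.minFac_dvd _
  have hrelcard : K₀.relIndex M * Nat.card K₀ = Nat.card M := by
    have h1 := (K₀.subgroupOf M).card_mul_index
    rw [Nat.card_congr (Subgroup.subgroupOfEquivOfLe hK₀M).toEquiv] at h1
    rw [mul_comm]; exact h1
  have hqM : q ∣ Nat.card M := by rw [← hrelcard]; exact Dvd.dvd.mul_right hqrel _
  have hqH : ¬ q ∣ Nat.card H := by
    intro h
    have h1 := Nat.dvd_gcd h hqM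
    rw [hcopMH.gcd_eq_one] at h1
    exact hqp.one_lt.ne' (Nat.dvd_one.mp h1)
  have hSyl : ∃ Q' : Subgroup G, Q' ≤ M ∧ IsPGroup q Q' ∧
      Nat.card Q' = q ^ (Nat.card M).factorization q ∧ ∀ h ∈ H, ∀ x ∈ Q', h * x * h⁻¹ ∈ Q' := by
    obtain ⟨P⟩ : Nonempty (Sylow q M) := inferInstance
    obtain ⟨Pm, hPm⟩ : ∃ Pm : Subgroup G, Pm = (P : Subgroup M).map M.subtype := ⟨_, rfl⟩
    have hPmM : Pm ≤ M := by rw [hPm]; exact Subgroup.map_subtype_le _
    have hPmcard : Nat.card Pm = q ^ (Nat.card M).factorization q := by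
      rw [hPm, Subgroup.card_map_of_injective M.subtype_injective]
      exact P.card_eq_multiplicity
    have hPmp : IsPGroup q Pm := IsPGroup.of_card hPmcard
    have hfr : Subgroup.normalizer (Pm : Set G) ⊔ M = ⊤ := by
      rw [hPm]; exact Sylow.normalizer_sup_eq_top P
    obtain ⟨L, hL⟩ : ∃ L : Subgroup G, L = Subgroup.normalizer (Pm : Set G) := ⟨_, rfl⟩
    rw [← hL] at hfr
    haveI : (M.subgroupOf L).Normal := Subgroup.normal_subgroupOf
    have hidx : (M.subgroupOf L).index = Nat.card H := by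
      show M.relIndex L = Nat.card H
      rw [← Subgroup.relIndex_sup_right, hfr, Subgroup.relIndex_top_right, hidxM]
    have hcardML : Nat.card (M.subgroupOf L) ∣ Nat.card M := by
      have h1 : Nat.card (M.subgroupOf L) = Nat.card ((M.subgroupOf L).map L.subtype) :=
        (Subgroup.card_map_of_injective L.subtype_injective).symm
      rw [h1, Subgroup.subgroupOf_map_subtype]
      exact Subgroup.card_dvd_of_le inf_le_left
    have hcop' : (Nat.card (M.subgroupOf L)).Coprime (M.subgroupOf L).index := by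
      rw [hidx]
      exact Nat.Coprime.coprime_dvd_left hcardML hcopMH.symm
    obtain ⟨H₁', hH₁'⟩ := Subgroup.exists_right_complement'_of_coprime hcop'
    obtain ⟨H₁, hH₁⟩ : ∃ H₁ : Subgroup G, H₁ = H₁'.map L.subtype := ⟨_, rfl⟩
    have hH₁card : Nat.card H₁ = Nat.card H := by
      rw [hH₁, Subgroup.card_map_of_injective L.subtype_injective, ← hidx]
      exact (hH₁'.symm.index_eq_card).symm
    have hH₁L : H₁ ≤ L := by rw [hH₁]; exact Subgroup.map_subtype_le _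
    obtain ⟨a, ha⟩ := hall_ti_le_conj H hHallG hTI H₁
      (fun r _ hrd => by rw [hH₁card] at hrd; exact hrd)
    have hsurj : ∀ h ∈ H, ∃ k ∈ H₁, a⁻¹ * k * a = h := by
      let f : H₁ → H := fun k => ⟨a⁻¹ * k * a, ha k k.2⟩
      have hinj : Function.Injective f := by
        intro k k' hkk'
        have h1 : a⁻¹ * (k : G) * a = a⁻¹ * (k' : G) * a := congrArg Subtype.val hkk'
        exact Subtype.ext (mul_left_cancel (mul_right_cancel h1))
      have hbij : Function.Bijective f :=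
        (Nat.bijective_iff_injective_and_card f).mpr ⟨hinj, hH₁card⟩
      intro h hh
      obtain ⟨k, hk⟩ := hbij.2 ⟨h, hh⟩
      exact ⟨k, k.2, congrArg Subtype.val hk⟩
    refine ⟨Pm.map (MulAut.conj a⁻¹).toMonoidHom, ?_, ?_, ?_, ?_⟩
    · rintro _ ⟨x, hx, rfl⟩
      show a⁻¹ * x * a⁻¹⁻¹ ∈ M
      exact hMn.conj_mem x (hPmM hx) a⁻¹
    · exact hPmp.map _
    · rw [Subgroup.card_map_of_injective (MulAut.conj a⁻¹).injective]
      exact hPmcard
    · intro h hh x hx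
      obtain ⟨k, hk, rfl⟩ := hsurj h hh
      obtain ⟨y, hy, rfl⟩ := hx
      have hkL : k ∈ L := hH₁L hk
      rw [hL, Subgroup.mem_normalizer_iff] at hkL
      refine ⟨k * y * k⁻¹, (hkL y).mp hy, ?_⟩
      show a⁻¹ * (k * y * k⁻¹) * a⁻¹⁻¹ = a⁻¹ * k * a * (a⁻¹ * y * a⁻¹⁻¹) * (a⁻¹ * k * a)⁻¹
      group
  obtain ⟨Q', hQ'M, hQ'p, hQ'card, hQ'H⟩ := hSyl
  obtain ⟨Q₀, hQ₀⟩ : ∃ Q₀ : Subgroup G, Q₀ = Q' ⊓ Subgroup.normalizer (H : Set G) := ⟨_, rfl⟩
  have hQ₀Q' : Q₀ ≤ Q' := by rw [hQ₀]; exact inf_le_left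
  have hQ₀K₀ : Q₀ ≤ K₀ := by rw [hQ₀, hK₀]; exact inf_le_inf_right _ hQ'M
  have hQ₀M : Q₀ ≤ M := hQ₀K₀.trans hK₀M
  have hQ'notQ₀ : ¬ Q' ≤ Q₀ := by
    intro hle
    have h1 : q ^ (Nat.card M).factorization q ∣ Nat.card K₀ := by
      rw [← hQ'card]; exact Subgroup.card_dvd_of_le (hle.trans hQ₀K₀)
    have h2 : q ^ ((Nat.card M).factorization q + 1) ∣ Nat.card M := by
      have h3 : q ^ ((Nat.card M).factorization q + 1) ∣ K₀.relIndex M * Nat.card K₀ := by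
        rw [pow_succ, mul_comm]
        exact Nat.mul_dvd_mul hqrel h1
      exact h3.trans (dvd_of_eq hrelcard)
    exact Nat.pow_succ_factorization_not_dvd Nat.card_pos.ne' hqp h2
  -- `H` centralizes `Q₀`
  have hcQ₀ : ∀ h ∈ H, ∀ u ∈ Q₀, h * u * h⁻¹ = u := by
    intro h hh u hu
    have hu' : u ∈ Subgroup.normalizer (H : Set G) := by
      rw [hQ₀] at hu; exact hu.2
    exact hcentK h hh u (hQ₀M hu) hu'
  have hcQ₀' : ∀ h ∈ H, ∀ u ∈ Q₀, h * u = u * h := by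
    intro h hh u hu
    have h1 := hcQ₀ h hh u hu
    calc h * u = h * u * h⁻¹ * h := by group
      _ = u * h := by rw [h1]
  -- normalizer condition
  haveI hnil : Group.IsNilpotent Q' := hQ'p.isNilpotent
  have hnc := Group.normalizerCondition_of_isNilpotent (G := Q')
  have hlt : Q₀.subgroupOf Q' < ⊤ := by
    rw [lt_top_iff_ne_top]
    intro h
    apply hQ'notQ₀
    intro x hx
    have h1 : (⟨x, hx⟩ : Q') ∈ Q₀.subgroupOf Q' := by rw [h]; trivial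
    exact Subgroup.mem_subgroupOf.mp h1
  obtain ⟨y', hy'N, hy'Q₀⟩ := SetLike.exists_of_lt (hnc _ hlt)
  have hyQ' : (y' : G) ∈ Q' := y'.2
  have hyQ₀ : (y' : G) ∉ Q₀ := fun h => hy'Q₀ (Subgroup.mem_subgroupOf.mpr h)
  have hynorm : ∀ u ∈ Q₀, (y' : G) * u * (y' : G)⁻¹ ∈ Q₀ ∧ (y' : G)⁻¹ * u * (y' : G) ∈ Q₀ := by
    intro u hu
    rw [Subgroup.mem_normalizer_iff] at hy'N
    constructor
    · have h1 := (hy'N ⟨u, hQ₀Q' hu⟩).mp (Subgroup.mem_subgroupOf.mpr hu)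
      exact Subgroup.mem_subgroupOf.mp h1
    · have h1 := (hy'N (y'⁻¹ * ⟨u, hQ₀Q' hu⟩ * y')).mpr (by
        have e : y' * (y'⁻¹ * ⟨u, hQ₀Q' hu⟩ * y') * y'⁻¹ = ⟨u, hQ₀Q' hu⟩ := by group
        rw [e]
        exact Subgroup.mem_subgroupOf.mpr hu)
      exact Subgroup.mem_subgroupOf.mp h1
  have hyN : (y' : G) ∈ Subgroup.normalizer (Q₀ : Set G) := by
    rw [Subgroup.mem_normalizer_iff]
    intro n
    constructor
    · intro hn; exact (hynorm n hn).1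
    · intro hn
      have h1 := (hynorm _ hn).2
      have e : (y' : G)⁻¹ * ((y' : G) * n * (y' : G)⁻¹) * (y' : G) = n := by group
      rw [e] at h1
      exact h1
  have hHnormQ₀ : H ≤ Subgroup.normalizer (Q₀ : Set G) := by
    intro h hh
    rw [Subgroup.mem_normalizer_iff]
    intro n
    constructor
    · intro hn
      have e := hcQ₀ h hh n hn
      show h * n * h⁻¹ ∈ Q₀
      rw [e]; exact hn
    · intro hn
      have hn' : h * n * h⁻¹ ∈ Q₀ := hn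
      have e := hcQ₀ h⁻¹ (H.inv_mem hh) _ hn'
      have e2 : h⁻¹ * (h * n * h⁻¹) * h⁻¹⁻¹ = n := by group
      rw [e2] at e
      show n ∈ Q₀
      rw [e]; exact hn'
  -- the subgroup `Q' H`
  let S : Subgroup G :=
    { carrier := {g | ∃ m ∈ Q', ∃ h ∈ H, g = m * h}
      mul_mem' := by
        rintro _ _ ⟨m, hm, h, hh, rfl⟩ ⟨m', hm', h', hh', rfl⟩
        refine ⟨m * (h * m' * h⁻¹), Q'.mul_mem hm (hQ'H h hh m' hm'), h * h', H.mul_mem hh hh', ?_⟩
        group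
      one_mem' := ⟨1, Q'.one_mem, 1, H.one_mem, by group⟩
      inv_mem' := by
        rintro _ ⟨m, hm, h, hh, rfl⟩
        refine ⟨h⁻¹ * m⁻¹ * h⁻¹⁻¹, hQ'H h⁻¹ (H.inv_mem hh) m⁻¹ (Q'.inv_mem hm), h⁻¹, H.inv_mem hh, ?_⟩
        group }
  have hSmem : ∀ g, g ∈ S ↔ ∃ m ∈ Q', ∃ h ∈ H, g = m * h := fun g => Iff.rfl
  obtain ⟨L₁, hL₁⟩ : ∃ L₁ : Subgroup G, L₁ = S ⊓ Subgroup.normalizer (Q₀ : Set G) := ⟨_, rfl⟩
  have hQ₀L₁ : Q₀ ≤ L₁ := by
    rw [hL₁]
    refine le_inf ?_ Subgroup.le_normalizer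
    intro u hu
    exact (hSmem u).mpr ⟨u, hQ₀Q' hu, 1, H.one_mem, by group⟩
  have hHL₁ : H ≤ L₁ := by
    rw [hL₁]
    refine le_inf ?_ hHnormQ₀
    intro h hh
    exact (hSmem h).mpr ⟨1, Q'.one_mem, h, hh, by group⟩
  have hyL₁ : (y' : G) ∈ L₁ := by
    rw [hL₁]
    exact ⟨(hSmem _).mpr ⟨y', hyQ', 1, H.one_mem, by group⟩, hyN⟩
  haveI hQ₀n : (Q₀.subgroupOf L₁).Normal :=
    (Subgroup.normal_subgroupOf_iff_le_normalizer hQ₀L₁).mpr (by rw [hL₁]; exact inf_le_right)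
  -- fixed point freeness
  have hfpf : ∀ h ∈ H, h ≠ 1 → ∀ x ∈ Q', x ∈ Subgroup.normalizer (Q₀ : Set G) →
      x⁻¹ * h * x * h⁻¹ ∈ Q₀ → x ∈ Q₀ := by
    intro h hh h1 x hxQ' _ hc
    have hpow : ∀ k : ℕ, (x⁻¹ * h * x * h⁻¹) ^ k = x⁻¹ * h ^ k * x * (h ^ k)⁻¹ := by
      intro k
      induction k with
      | zero => simp
      | succ k ih =>
        have hk : (x⁻¹ * h * x * h⁻¹) ^ k ∈ Q₀ := Q₀.pow_mem hc k
        have e1 := hcQ₀' h⁻¹ (H.inv_mem hh) _ hk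
        calc (x⁻¹ * h * x * h⁻¹) ^ (k + 1)
            = x⁻¹ * h * x * (h⁻¹ * (x⁻¹ * h * x * h⁻¹) ^ k) := by rw [pow_succ']; group
          _ = x⁻¹ * h * x * ((x⁻¹ * h * x * h⁻¹) ^ k * h⁻¹) := by rw [e1]
          _ = x⁻¹ * h * x * ((x⁻¹ * h ^ k * x * (h ^ k)⁻¹) * h⁻¹) := by rw [ih]
          _ = x⁻¹ * h ^ (k + 1) * x * (h ^ (k + 1))⁻¹ := by rw [pow_succ']; group
    have h2 : (x⁻¹ * h * x * h⁻¹) ^ orderOf h = 1 := by
      rw [hpow, pow_orderOf_eq_one]; group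
    obtain ⟨j, hj⟩ := hQ'p ⟨x⁻¹ * h * x * h⁻¹, hQ₀Q' hc⟩
    have hj' : (x⁻¹ * h * x * h⁻¹) ^ q ^ j = 1 := by
      have h3 := congrArg Subtype.val hj
      simpa using h3
    have h3 : orderOf (x⁻¹ * h * x * h⁻¹) ∣ orderOf h := orderOf_dvd_of_pow_eq_one h2
    have h4 : orderOf (x⁻¹ * h * x * h⁻¹) ∣ q ^ j := orderOf_dvd_of_pow_eq_one hj'
    have h5 : orderOf h ∣ Nat.card H := Subgroup.orderOf_dvd_natCard H hh
    have h6 : Nat.Coprime (Nat.card H) (q ^ j) :=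
      Nat.Coprime.pow_right j ((hqp.coprime_iff_not_dvd.mpr hqH).symm)
    have h7 : orderOf (x⁻¹ * h * x * h⁻¹) = 1 :=
      Nat.eq_one_of_dvd_coprimes h6 (h3.trans h5) h4
    have h8 : x⁻¹ * h * x * h⁻¹ = 1 := orderOf_eq_one_iff.mp h7
    have h9 : h * x = x * h := by
      have e : h * x = x * (x⁻¹ * h * x * h⁻¹) * h := by group
      rw [e, h8, mul_one]
    have h10 := hcent h hh h1 x h9
    rw [hQ₀]
    exact ⟨hxQ', h10⟩
  -- the Frobenius group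
  let ι : H →* (L₁ ⧸ Q₀.subgroupOf L₁) :=
    (QuotientGroup.mk' (Q₀.subgroupOf L₁)).comp (Subgroup.inclusion hHL₁)
  have hιeq : ∀ (h : H) (ℓ : L₁), ι h = QuotientGroup.mk ℓ ↔ (h : G)⁻¹ * (ℓ : G) ∈ Q₀ := by
    intro h ℓ
    show (QuotientGroup.mk (Subgroup.inclusion hHL₁ h) : L₁ ⧸ Q₀.subgroupOf L₁) =
      QuotientGroup.mk ℓ ↔ _
    rw [QuotientGroup.eq, Subgroup.mem_subgroupOf]
    rfl
  have hιinj : Function.Injective ι := by
    rw [injective_iff_map_eq_one]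
    intro h hh
    have h1 : ι h = QuotientGroup.mk (1 : L₁) := hh
    rw [hιeq] at h1
    have h2 : (h : G)⁻¹ ∈ Q₀ := by simpa using h1
    have h3 := hMH _ (hQ₀M h2) (H.inv_mem h.2)
    apply Subtype.ext
    rw [Subgroup.coe_one]
    exact inv_eq_one.mp h3
  refine ⟨L₁ ⧸ Q₀.subgroupOf L₁, inferInstance, inferInstance, ι.range, ⟨?_, ?_, ?_⟩,
    ⟨MonoidHom.ofInjective hιinj⟩⟩
  · intro hbot
    apply hnn
    have hHbot : H = ⊥ := by
      rw [eq_bot_iff]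
      intro h hh
      have h1 : ι ⟨h, hh⟩ ∈ ι.range := ⟨_, rfl⟩
      rw [hbot, Subgroup.mem_bot] at h1
      have h2 := hιinj (h1.trans (map_one ι).symm)
      rw [Subgroup.mem_bot]
      exact congrArg Subtype.val h2
    rw [hHbot]
    infer_instance
  · intro htop
    have h1 : (QuotientGroup.mk (⟨y', hyL₁⟩ : L₁) : L₁ ⧸ Q₀.subgroupOf L₁) ∈ ι.range := by
      rw [htop]; trivial
    obtain ⟨h, hh⟩ := h1
    rw [hιeq] at hh
    have h2 : (h : G)⁻¹ * (y' : G) ∈ Q₀ := hh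
    have h3 : (h : G)⁻¹ ∈ M := by
      have e : (h : G)⁻¹ = (h : G)⁻¹ * (y' : G) * (y' : G)⁻¹ := by group
      rw [e]
      exact M.mul_mem (hQ₀M h2) (M.inv_mem (hQ'M hyQ'))
    have h4 := hMH _ h3 (H.inv_mem h.2)
    rw [h4, one_mul] at h2
    exact hyQ₀ h2
  · intro g hg
    rw [eq_bot_iff]
    intro c hc
    rw [Subgroup.mem_bot]
    obtain ⟨hc1, hc2⟩ := Subgroup.mem_inf.mp hc
    rw [mem_conj_smul_iff] at hc2
    obtain ⟨h₁, rfl⟩ := hc1
    obtain ⟨h₂, hh₂⟩ := hc2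
    obtain ⟨ℓ, rfl⟩ := QuotientGroup.mk_surjective g
    have hℓ : (ℓ : G) ∈ S ⊓ Subgroup.normalizer (Q₀ : Set G) := by
      have h' : (ℓ : G) ∈ L₁ := ℓ.2
      have hle : L₁ ≤ S ⊓ Subgroup.normalizer (Q₀ : Set G) := le_of_eq hL₁
      exact hle h'
    obtain ⟨hℓS, hℓN⟩ := hℓ
    obtain ⟨m, hm, h₀, hh₀, hℓe⟩ := (hSmem _).mp hℓS
    have hmN : m ∈ Subgroup.normalizer (Q₀ : Set G) := by
      have e : m = (ℓ : G) * h₀⁻¹ := by rw [hℓe]; group
      rw [e]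
      exact Subgroup.mul_mem _ hℓN (Subgroup.inv_mem _ (hHnormQ₀ hh₀))
    -- the equation in the quotient
    have heq : ι h₂ = QuotientGroup.mk (ℓ⁻¹ * (Subgroup.inclusion hHL₁ h₁) * ℓ) := by
      rw [hh₂]; rfl
    rw [hιeq] at heq
    have hw : (h₂ : G)⁻¹ * ((ℓ : G)⁻¹ * (h₁ : G) * (ℓ : G)) ∈ Q₀ := by simpa using heq
    by_contra hne
    have hh₁ : h₁ ≠ 1 := by
      intro h
      apply hne
      rw [h, map_one]
    have hh₁' : (h₁ : G) ≠ 1 := fun h => hh₁ (Subtype.ext h)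
    -- conjugate by `h₀`
    have hw2 : m⁻¹ * (h₁ : G)⁻¹ * m * (h₀ * (h₂ : G) * h₀⁻¹) ∈ Q₀ := by
      have hw' := Q₀.inv_mem hw
      have e1 := hcQ₀ h₀ hh₀ _ hw'
      have e2 : h₀ * ((h₂ : G)⁻¹ * ((ℓ : G)⁻¹ * (h₁ : G) * (ℓ : G)))⁻¹ * h₀⁻¹ =
          m⁻¹ * (h₁ : G)⁻¹ * m * (h₀ * (h₂ : G) * h₀⁻¹) := by
        rw [hℓe]; group
      rw [← e2, e1]
      exact hw'
    have hh₃ : h₀ * (h₂ : G) * h₀⁻¹ ∈ H := H.mul_mem (H.mul_mem hh₀ h₂.2) (H.inv_mem hh₀)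
    have hmM : m ∈ M := hQ'M hm
    have h13 : (h₁ : G)⁻¹ * (h₀ * (h₂ : G) * h₀⁻¹) ∈ M := by
      have e : (h₁ : G)⁻¹ * (h₀ * (h₂ : G) * h₀⁻¹) =
          ((h₁ : G)⁻¹ * m⁻¹ * (h₁ : G)⁻¹⁻¹) * m *
            (m⁻¹ * (h₁ : G)⁻¹ * m * (h₀ * (h₂ : G) * h₀⁻¹)) := by group
      rw [e]
      exact M.mul_mem (M.mul_mem (hMn.conj_mem _ (M.inv_mem hmM) _) hmM) (hQ₀M hw2)
    have h14 := hMH _ h13 (H.mul_mem (H.inv_mem h₁.2) hh₃)
    have h15 : h₀ * (h₂ : G) * h₀⁻¹ = (h₁ : G) := by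
      have e : h₀ * (h₂ : G) * h₀⁻¹ = (h₁ : G) * ((h₁ : G)⁻¹ * (h₀ * (h₂ : G) * h₀⁻¹)) := by group
      rw [e, h14, mul_one]
    rw [h15] at hw2
    have hw3 : m⁻¹ * (h₁ : G)⁻¹ * m * ((h₁ : G)⁻¹)⁻¹ ∈ Q₀ := by
      rw [inv_inv]; exact hw2
    have hmQ₀ := hfpf (h₁ : G)⁻¹ (H.inv_mem h₁.2) (fun h => hh₁' (inv_eq_one.mp h)) m hm hmN hw3
    -- then `g ∈ C`
    apply hg
    refine ⟨⟨h₀, hh₀⟩, ?_⟩
    rw [hιeq]
    show h₀⁻¹ * (ℓ : G) ∈ Q₀
    rw [hℓe]
    have e := hcQ₀ h₀⁻¹ (H.inv_mem hh₀) m hmQ₀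
    have e2 : h₀⁻¹ * (m * h₀) = h₀⁻¹ * m * h₀⁻¹⁻¹ := by group
    rw [e2, e]
    exact hmQ₀

end Cfsg.Agent.Helper22
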