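import Mathlib
import Cfsg.Agent.Helper22.PByCyclic3

set_option autoImplicit false

namespace Cfsg.Agent.Helper22

open Subgroup

theorem comm_of_sq {G : Type*} [Group G] (a b : G) (ha : a ^ 2 = 1) (hb : b ^ 2 = 1)
    (hab : (a * b) ^ 2 = 1) : a * b = b * a := by
  have h1 : a⁻¹ = a := inv_eq_of_mul_eq_one_left (by rw [← pow_two]; exact ha)
  have h2 : b⁻¹ = b := inv_eq_of_mul_eq_one_left (by rw [← pow_two]; exact hb)
  have h3 : (a * b)⁻¹ = a * b := inv_eq_of_mul_eq_one_left (by rw [← pow_two]; exact hab)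
  rw [mul_inv_rev, h1, h2] at h3
  exact h3.symm

/-- Two distinct commuting involutions generate a Klein four-group. -/
theorem klein_of_commuting_involutions {G : Type*} [Group G] (u v : G) (hu : u * u = 1)
    (hv : v * v = 1) (huv : u * v = v * u) (hu1 : u ≠ 1) (hv1 : v ≠ 1) (hne : u ≠ v) :
    ∃ K : Subgroup G, u ∈ K ∧ v ∈ K ∧ Nat.card K = 4 ∧ (∀ k ∈ K, k ^ 2 = 1) ∧
      ∀ L : Subgroup G, u ∈ L → v ∈ L → K ≤ L := by
  have hzu : ∀ w ∈ zpowers u, w = 1 ∨ w = u := by
    intro w hw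
    obtain ⟨i, rfl⟩ := mem_zpowers_iff.mp hw
    exact zpow_two_cases' u hu i
  have hzv : ∀ w ∈ zpowers v, w = 1 ∨ w = v := by
    intro w hw
    obtain ⟨i, rfl⟩ := mem_zpowers_iff.mp hw
    exact zpow_two_cases' v hv i
  have hcomm : ∀ (a : ↥(zpowers u)) (b : ↥(zpowers v)),
      Commute ((zpowers u).subtype a) ((zpowers v).subtype b) := by
    intro a b
    show Commute (a : G) (b : G)
    rcases hzu a a.2 with h | h <;> rcases hzv b b.2 with h' | h'
    · rw [h]; exact Commute.one_left _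
    · rw [h]; exact Commute.one_left _
    · rw [h']; exact Commute.one_right _
    · rw [h, h']; exact huv
  let φ := (zpowers u).subtype.noncommCoprod (zpowers v).subtype hcomm
  have hφ : ∀ a b, φ (a, b) = (a : G) * (b : G) := fun a b => rfl
  have hinj : Function.Injective φ := by
    rw [injective_iff_map_eq_one]
    rintro ⟨a, b⟩ hab
    rw [hφ] at hab
    have h1 : (a : G) = 1 ∧ (b : G) = 1 := by
      rcases hzu a a.2 with h | h <;> rcases hzv b b.2 with h' | h'
      · exact ⟨h, h'⟩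
      · rw [h, h', one_mul] at hab; exact absurd hab hv1
      · rw [h, h', mul_one] at hab; exact absurd hab hu1
      · rw [h, h'] at hab
        exfalso; apply hne
        calc u = u * (v * v) := by rw [hv, mul_one]
          _ = u * v * v := by group
          _ = v := by rw [hab, one_mul]
    exact Prod.ext (Subtype.ext h1.1) (Subtype.ext h1.2)
  have hu2 : orderOf u = 2 := orderOf_eq_prime (by rw [pow_two]; exact hu) hu1
  have hv2 : orderOf v = 2 := orderOf_eq_prime (by rw [pow_two]; exact hv) hv1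
  refine ⟨φ.range, ⟨(⟨u, mem_zpowers u⟩, 1), by rw [hφ]; simp⟩,
    ⟨(1, ⟨v, mem_zpowers v⟩), by rw [hφ]; simp⟩, ?_, ?_, ?_⟩
  · rw [← Nat.card_congr (MonoidHom.ofInjective hinj).toEquiv, Nat.card_prod, Nat.card_zpowers,
      Nat.card_zpowers, hu2, hv2]
  · rintro _ ⟨⟨a, b⟩, rfl⟩
    have hcab : Commute (a : G) (b : G) := hcomm a b
    rw [hφ, hcab.mul_pow]
    have ha : (a : G) ^ 2 = 1 := by
      rcases hzu a a.2 with h | h
      · rw [h, one_pow]
      · rw [h, pow_two, hu]
    have hb : (b : G) ^ 2 = 1 := by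
      rcases hzv b b.2 with h | h
      · rw [h, one_pow]
      · rw [h, pow_two, hv]
    show (a : G) ^ 2 * (b : G) ^ 2 = 1
    rw [ha, hb, one_mul]
  · rintro L huL hvL _ ⟨⟨a, b⟩, rfl⟩
    rw [hφ]
    exact mul_mem ((zpowers_le.mpr huL) a.2) ((zpowers_le.mpr hvL) b.2)

/-- Subgroups of dihedral groups are cyclic or dihedral. -/
theorem dihedral_subgroup (m : ℕ) [NeZero m] (T : Subgroup (DihedralGroup m)) :
    IsCyclic ↥T ∨ ∃ d, d ∣ m ∧ Nonempty (↥T ≃* DihedralGroup d) := by
  classical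
  have hR : ∀ i : ZMod m, DihedralGroup.r i ∈ zpowers (DihedralGroup.r (1 : ZMod m)) := by
    intro i
    rw [mem_zpowers_iff]
    refine ⟨(i.val : ℤ), ?_⟩
    rw [zpow_natCast, DihedralGroup.r_one_pow, ZMod.natCast_zmod_val]
  have hRmem : ∀ x ∈ zpowers (DihedralGroup.r (1 : ZMod m)), ∃ i, x = DihedralGroup.r i := by
    intro x hx
    obtain ⟨k, rfl⟩ := mem_zpowers_iff.mp hx
    exact ⟨_, DihedralGroup.r_one_zpow k⟩
  have hsr : ∀ i : ZMod m, DihedralGroup.sr i ∉ zpowers (DihedralGroup.r (1 : ZMod m)) := by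
    intro i h
    obtain ⟨j, hj⟩ := hRmem _ h
    cases hj
  by_cases hT : T ≤ zpowers (DihedralGroup.r (1 : ZMod m))
  · left
    exact isCyclic_of_injective (Subgroup.inclusion hT) (Subgroup.inclusion_injective hT)
  · right
    obtain ⟨b, hbT, hbR⟩ : ∃ b ∈ T, b ∉ zpowers (DihedralGroup.r (1 : ZMod m)) := by
      by_contra hcon
      push_neg at hcon
      exact hT hcon
    obtain ⟨i, rfl⟩ : ∃ i, b = DihedralGroup.sr i := by
      rcases b with j | j
      · exact absurd (hR j) hbR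
      · exact ⟨j, rfl⟩
    set T₀ := T ⊓ zpowers (DihedralGroup.r (1 : ZMod m)) with hT₀
    haveI : IsCyclic ↥T₀ :=
      isCyclic_of_injective (Subgroup.inclusion (inf_le_right : T₀ ≤ _))
        (Subgroup.inclusion_injective _)
    obtain ⟨a₀, ha₀⟩ := IsCyclic.exists_generator (α := ↥T₀)
    have haT : (a₀ : DihedralGroup m) ∈ T := (mem_inf.mp a₀.2).1
    obtain ⟨j, hj⟩ := hRmem _ (mem_inf.mp a₀.2).2
    have hord : orderOf (a₀ : DihedralGroup m) = Nat.card T₀ := by
      rw [Subgroup.orderOf_coe]; exact orderOf_eq_card_of_forall_mem_zpowers ha₀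
    have hd : Nat.card T₀ ∣ m := by
      have h1 : Nat.card T₀ ∣ Nat.card (zpowers (DihedralGroup.r (1 : ZMod m))) :=
        Subgroup.card_dvd_of_le inf_le_right
      rwa [Nat.card_zpowers, DihedralGroup.orderOf_r_one] at h1
    have hT₀mem : ∀ x : DihedralGroup m, x ∈ T₀ → x ∈ zpowers (a₀ : DihedralGroup m) := by
      intro x hx
      obtain ⟨k, hk⟩ := mem_zpowers_iff.mp (ha₀ ⟨x, hx⟩)
      rw [mem_zpowers_iff]
      exact ⟨k, by have := congrArg Subtype.val hk; simpa using this⟩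
    have hidx : ((zpowers (a₀ : DihedralGroup m)).subgroupOf T).index = 2 := by
      rw [index_eq_two_iff]
      refine ⟨⟨DihedralGroup.sr i, hbT⟩, fun x => ?_⟩
      simp only [mem_subgroupOf, Subgroup.coe_mul]
      have hle : zpowers (a₀ : DihedralGroup m) ≤ zpowers (DihedralGroup.r (1 : ZMod m)) := by
        rw [zpowers_le]; exact (mem_inf.mp a₀.2).2
      rcases hx : (x : DihedralGroup m) with k | k
      · right
        refine ⟨hT₀mem _ (mem_inf.mpr ⟨hx ▸ x.2, hR k⟩), fun h => ?_⟩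
        rw [DihedralGroup.r_mul_sr] at h
        exact hsr _ (hle h)
      · left
        refine ⟨?_, fun h => hsr _ (hle h)⟩
        rw [DihedralGroup.sr_mul_sr]
        apply hT₀mem
        refine mem_inf.mpr ⟨?_, hR _⟩
        rw [← DihedralGroup.sr_mul_sr]
        exact mul_mem (hx ▸ x.2) hbT
    have hcardT : Nat.card T = 2 * Nat.card T₀ := by
      rw [← Subgroup.card_mul_index ((zpowers (a₀ : DihedralGroup m)).subgroupOf T), hidx,
        mul_comm]
      congr 1
      rw [Nat.card_congr (Subgroup.subgroupOfEquivOfLe (by rw [zpowers_le]; exact haT)).toEquiv,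
        Nat.card_zpowers, hord]
    haveI : NeZero (Nat.card T₀) := ⟨Nat.card_pos.ne'⟩
    refine ⟨Nat.card T₀, hd, ?_⟩
    apply Cfsg.Agent.Helper9.dihedral_equiv_of (Nat.card T₀) (⟨a₀, haT⟩ : ↥T)
      ⟨DihedralGroup.sr i, hbT⟩
    · rw [← hord, ← Subgroup.orderOf_coe]
    · apply Subtype.ext
      exact DihedralGroup.sr_mul_self i
    · apply Subtype.ext
      show DihedralGroup.sr i * (a₀ : DihedralGroup m) * (DihedralGroup.sr i)⁻¹ =
        (a₀ : DihedralGroup m)⁻¹
      rw [hj, DihedralGroup.inv_sr, DihedralGroup.inv_r, DihedralGroup.sr_mul_r,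
        DihedralGroup.sr_mul_sr]
      congr 1; ring
    · intro h
      obtain ⟨k, hk⟩ := mem_zpowers_iff.mp h
      have h1 : DihedralGroup.sr i = (a₀ : DihedralGroup m) ^ k := by
        have := congrArg Subtype.val hk
        simpa using this.symm
      apply hsr i
      rw [h1]
      exact zpow_mem (mem_inf.mp a₀.2).2 k
    · exact hcardT

/-- An automorphism of odd order of a dihedral `2`-group of order at least `8` is trivial. -/
theorem dihedral_aut_odd (j : ℕ) (hj : 2 ≤ j) (α : MulAut (DihedralGroup (2 ^ j))) (m₀ : ℕ)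
    (hodd : Odd m₀) (hα : α ^ m₀ = 1) : α = 1 := by
  haveI : NeZero (2 ^ j) := ⟨pow_ne_zero j (by norm_num)⟩
  have hm4 : 4 ≤ 2 ^ j := by
    calc 4 = 2 ^ 2 := by norm_num
      _ ≤ 2 ^ j := Nat.pow_le_pow_right (by norm_num) hj
  have hm₀ : m₀ ≠ 0 := by rintro rfl; simp at hodd
  have hpow : ∀ (t : ℕ) (x : DihedralGroup (2 ^ j)), (α ^ t) x = (⇑α)^[t] x := by
    intro t
    induction t with
    | zero => intro x; simp
    | succ t ih => intro x; rw [pow_succ, MulAut.mul_apply, ih, Function.iterate_succ_apply]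
  -- image of r 1
  obtain ⟨i, hi⟩ : ∃ i, α (DihedralGroup.r 1) = DihedralGroup.r i := by
    rcases h : α (DihedralGroup.r 1) with k | k
    · exact ⟨k, rfl⟩
    · exfalso
      have h1 : orderOf (α (DihedralGroup.r (1 : ZMod (2 ^ j)))) = 2 ^ j := by
        rw [MulEquiv.orderOf_eq, DihedralGroup.orderOf_r_one]
      rw [h, DihedralGroup.orderOf_sr] at h1
      omega
  have hr : ∀ k : ZMod (2 ^ j), α (DihedralGroup.r k) = DihedralGroup.r (i * k) := by
    intro k
    have h1 : DihedralGroup.r k = (DihedralGroup.r (1 : ZMod (2 ^ j))) ^ k.val := by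
      rw [DihedralGroup.r_one_pow, ZMod.natCast_zmod_val]
    rw [h1, map_pow, hi, DihedralGroup.r_pow, ZMod.natCast_zmod_val]
  have hrt : ∀ t : ℕ, (⇑α)^[t] (DihedralGroup.r 1) = DihedralGroup.r (i ^ t) := by
    intro t
    induction t with
    | zero => simp
    | succ t ih =>
      rw [Function.iterate_succ_apply', ih, hr, pow_succ, mul_comm]
  have hi1 : i ^ m₀ = 1 := by
    have h1 := hpow m₀ (DihedralGroup.r 1)
    rw [hα, MulAut.one_apply, hrt] at h1
    have h2 : DihedralGroup.r (1 : ZMod (2 ^ j)) = DihedralGroup.r (i ^ m₀) := h1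
    injection h2 with h3
    exact h3.symm
  have hi : i = 1 := by
    let u : (ZMod (2 ^ j))ˣ := Units.ofPowEqOne i m₀ hi1 hm₀
    have hu1 : u ^ m₀ = 1 := by
      apply Units.ext
      rw [Units.val_pow_eq_pow_val]
      exact hi1
    have hu2 : u ^ (2 ^ j).totient = 1 := ZMod.pow_totient u
    rw [Nat.totient_prime_pow Nat.prime_two (by omega)] at hu2
    have h1 : orderOf u ∣ m₀ := orderOf_dvd_of_pow_eq_one hu1
    have h2 : orderOf u ∣ 2 ^ (j - 1) * (2 - 1) := orderOf_dvd_of_pow_eq_one hu2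
    have h3 : Nat.Coprime m₀ (2 ^ (j - 1) * (2 - 1)) := by
      rw [show (2 - 1 : ℕ) = 1 from rfl, mul_one]
      exact Nat.Coprime.pow_right _ (Nat.coprime_two_right.mpr hodd)
    have h4 : orderOf u = 1 := Nat.eq_one_of_dvd_coprimes h3 h1 h2
    have h5 : u = 1 := orderOf_eq_one_iff.mp h4
    have : (u : ZMod (2 ^ j)) = 1 := by rw [h5]; rfl
    exact this
  have hr' : ∀ k : ZMod (2 ^ j), α (DihedralGroup.r k) = DihedralGroup.r k := by
    intro k; rw [hr, hi, one_mul]
  obtain ⟨i₀, hi₀⟩ : ∃ i₀, α (DihedralGroup.sr 0) = DihedralGroup.sr i₀ := by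
    rcases h : α (DihedralGroup.sr 0) with k | k
    · exfalso
      have h1 : α (DihedralGroup.sr 0) = α (DihedralGroup.r k) := by rw [h, hr']
      have h2 := α.injective h1
      cases h2
    · exact ⟨k, rfl⟩
  have hs : ∀ k : ZMod (2 ^ j), α (DihedralGroup.sr k) = DihedralGroup.sr (i₀ + k) := by
    intro k
    have h1 : DihedralGroup.sr k = DihedralGroup.sr 0 * DihedralGroup.r k := by
      rw [DihedralGroup.sr_mul_r, zero_add]
    rw [h1, map_mul, hi₀, hr', DihedralGroup.sr_mul_r]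
  have hst : ∀ t : ℕ, (⇑α)^[t] (DihedralGroup.sr 0) = DihedralGroup.sr ((t : ZMod (2 ^ j)) * i₀) := by
    intro t
    induction t with
    | zero => simp
    | succ t ih =>
      rw [Function.iterate_succ_apply', ih, hs]
      congr 1; push_cast; ring
  have hi₀0 : i₀ = 0 := by
    have h1 := hpow m₀ (DihedralGroup.sr 0)
    rw [hα, MulAut.one_apply, hst] at h1
    have h2 : DihedralGroup.sr (0 : ZMod (2 ^ j)) = DihedralGroup.sr ((m₀ : ZMod (2 ^ j)) * i₀) := h1
    injection h2 with h3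
    have hcop : Nat.Coprime m₀ (2 ^ j) := Nat.Coprime.pow_right _ (Nat.coprime_two_right.mpr hodd)
    have hunit : IsUnit (m₀ : ZMod (2 ^ j)) := (ZMod.isUnit_iff_coprime m₀ (2 ^ j)).mpr hcop
    exact (hunit.mul_right_eq_zero).mp h3.symm
  have hs' : ∀ k : ZMod (2 ^ j), α (DihedralGroup.sr k) = DihedralGroup.sr k := by
    intro k; rw [hs, hi₀0, zero_add]
  apply MulEquiv.ext
  intro x
  rcases x with k | k
  · exact hr' k
  · exact hs' k

theorem exists_two_ne_one {G : Type*} [Group G] (K : Subgroup G) (hK : Nat.card K = 4) :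
    ∃ a ∈ K, ∃ b ∈ K, a ≠ 1 ∧ b ≠ 1 ∧ a ≠ b := by
  haveI : Finite K := Nat.finite_of_card_ne_zero (by rw [hK]; norm_num)
  haveI := Fintype.ofFinite K
  have h2 : 2 < Fintype.card K := by rw [← Nat.card_eq_fintype_card, hK]; norm_num
  obtain ⟨a, b, c, hab, hac, hbc⟩ := Fintype.two_lt_card_iff.mp h2
  have hab' : (a : G) ≠ b := fun h => hab (Subtype.ext h)
  have hac' : (a : G) ≠ c := fun h => hac (Subtype.ext h)
  have hbc' : (b : G) ≠ c := fun h => hbc (Subtype.ext h)
  by_cases ha : (a : G) = 1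
  · refine ⟨b, b.2, c, c.2, ?_, ?_, hbc'⟩
    · intro h; exact hab' (ha.trans h.symm)
    · intro h; exact hac' (ha.trans h.symm)
  · by_cases hb : (b : G) = 1
    · refine ⟨a, a.2, c, c.2, ha, ?_, hac'⟩
      intro h; exact hbc' (hb.trans h.symm)
    · exact ⟨a, a.2, b, b.2, ha, hb, hab'⟩

end Cfsg.Agent.Helper22
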