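import Mathlib
import Cfsg.Agent.Helper22.TwoByCyclic

set_option autoImplicit false

namespace Cfsg.Agent.Helper22

open Subgroup

/-- restricted `2`-by-cyclic subgroups -/
def RPC2 (G : Type*) [Group G] : Prop :=
  ∀ H : Subgroup G, (∀ S : Sylow 2 ↥H, (S : Subgroup ↥H).Normal) →
        (∀ (S : Sylow 2 ↥H) [(S : Subgroup ↥H).Normal], IsCyclic (↥H ⧸ (S : Subgroup ↥H))) →
        IsCyclic H ∨ (∃ n : ℕ, Nonempty (H ≃* DihedralGroup (2 ^ n))) ∨
          Nonempty (H ≃* alternatingGroup (Fin 4))

theorem card_alt4 : Nat.card (alternatingGroup (Fin 4)) = 12 := by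
  have h := two_mul_nat_card_alternatingGroup (α := Fin 4)
  rw [Nat.card_perm, Nat.card_fin] at h
  have : Nat.factorial 4 = 24 := by decide
  omega

theorem rpc2_forward {G : Type*} [Group G] [Finite G] (P : Sylow 2 G) (hR : RPC2 G) :
    IsCyclic P ∨
      ((∃ n : ℕ, 1 ≤ n ∧ Nonempty ((P : Subgroup G) ≃* DihedralGroup (2 ^ n))) ∧
        ∀ K : Subgroup G, K ≤ P → Nat.card K = 4 → (∀ k ∈ K, k ^ 2 = 1) →
          centralizer (K : Set G) = K) := by
  haveI : Fact (Nat.Prime 2) := ⟨Nat.prime_two⟩
  have hP : IsCyclic ↥(P : Subgroup G) ∨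
      (∃ n : ℕ, 1 ≤ n ∧ Nonempty ((P : Subgroup G) ≃* DihedralGroup (2 ^ n))) := by
    obtain ⟨h1, h2, -⟩ := sylow_hyp_of (P : Subgroup G) (P : Subgroup G) le_rfl P.2
      (fun h hh t ht => mul_mem (mul_mem hh ht) (inv_mem hh)) 1 (one_mem _) le_sup_left 1
      (by norm_num) (by rw [pow_one]; exact one_mem _)
    rcases hR (P : Subgroup G) h1 h2 with hc | ⟨n, ⟨e⟩⟩ | ⟨⟨e⟩⟩
    · left; exact hc
    · by_cases hn : n = 0
      · left
        subst hn
        have h3 : Nat.card ↥(P : Subgroup G) = 2 := by
          rw [Nat.card_congr e.toEquiv, DihedralGroup.nat_card]; norm_num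
        exact isCyclic_of_prime_card (p := 2) h3
      · right; exact ⟨n, by omega, ⟨e⟩⟩
    · exfalso
      obtain ⟨k, hk⟩ := IsPGroup.iff_card.mp P.2
      have h3 : Nat.card ↥(P : Subgroup G) = 12 := by
        rw [Nat.card_congr e.toEquiv, card_alt4]
      rw [hk] at h3
      have h4 : 3 ∣ 2 ^ k := by rw [h3]; norm_num
      have h5 := Nat.Prime.dvd_of_dvd_pow Nat.prime_three h4
      revert h5; norm_num
  rcases hP with hc | hd
  · left; exact hc
  · right
    refine ⟨hd, ?_⟩
    intro K hKP hK4 hKexp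
    have hKcomm : ∀ a ∈ K, ∀ b ∈ K, a * b = b * a :=
      fun a ha b hb => comm_of_sq a b (hKexp a ha) (hKexp b hb) (hKexp _ (mul_mem ha hb))
    apply le_antisymm
    · intro c hc
      have hcK : ∀ q ∈ K, c * q = q * c := fun q hq => (mem_centralizer_iff.mp hc q hq).symm
      have ho : orderOf c ≠ 0 := (orderOf_pos c).ne'
      obtain ⟨a, m, hm, ham⟩ := Nat.exists_eq_pow_mul_and_not_dvd ho 2 (by norm_num)
      have hu : (c ^ m) ^ (2 ^ a) = 1 := by
        rw [← pow_mul, mul_comm, ← ham, pow_orderOf_eq_one]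
      have huc : ∀ q ∈ K, c ^ m * q = q * c ^ m :=
        fun q hq => ((show Commute c q from hcK q hq).pow_left m).eq
      have hT : IsPGroup 2 ↥(K ⊔ zpowers (c ^ m)) :=
        isPGroup_sup_zpowers K (P.2.to_le hKP) (c ^ m) a hu huc
      have hcN : c ∈ normalizer ((K ⊔ zpowers (c ^ m) : Subgroup G) : Set G) :=
        mem_normalizer_of_conj' _ c (conj_mem_sup_zpowers K c (c ^ m)
          (fun q hq => by rw [hcK q hq, mul_inv_cancel_right]; exact hq)
          ((Commute.refl c).pow_right m).eq)
      have hHle : (K ⊔ zpowers (c ^ m)) ⊔ zpowers c ≤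
          normalizer ((K ⊔ zpowers (c ^ m) : Subgroup G) : Set G) :=
        sup_le le_normalizer (zpowers_le.mpr hcN)
      obtain ⟨h1, h2, -⟩ := sylow_hyp_of ((K ⊔ zpowers (c ^ m)) ⊔ zpowers c)
        (K ⊔ zpowers (c ^ m)) le_sup_left hT (le_normalizer_iff.mp hHle) c
        (le_sup_right (a := K ⊔ zpowers (c ^ m)) (mem_zpowers c)) le_rfl m hm
        (le_sup_right (a := K) (mem_zpowers (c ^ m)))
      set H := (K ⊔ zpowers (c ^ m)) ⊔ zpowers c with hH
      have hKH : K ≤ H := le_sup_left.trans le_sup_left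
      have hcH : c ∈ H := le_sup_right (a := K ⊔ zpowers (c ^ m)) (mem_zpowers c)
      have hH1 : H ≤ centralizer (K : Set G) ⊓ centralizer ({c} : Set G) := by
        refine sup_le (sup_le ?_ ?_) ?_
        · intro q hq
          refine mem_inf.mpr ⟨mem_centralizer_iff.mpr (fun b hb => hKcomm b hb q hq), ?_⟩
          rw [mem_centralizer_iff]
          intro x hx
          rw [Set.mem_singleton_iff] at hx
          rw [hx]; exact hcK q hq
        · rw [zpowers_le]
          refine mem_inf.mpr ⟨mem_centralizer_iff.mpr (fun b hb => (huc b hb).symm), ?_⟩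
          rw [mem_centralizer_iff]
          intro x hx
          rw [Set.mem_singleton_iff] at hx
          rw [hx]; exact ((Commute.refl c).pow_right m).eq
        · rw [zpowers_le]
          refine mem_inf.mpr ⟨hc, ?_⟩
          rw [mem_centralizer_iff]
          intro x hx
          rw [Set.mem_singleton_iff] at hx
          rw [hx]
      have hHcomm : ∀ x ∈ H, ∀ y ∈ H, x * y = y * x := by
        intro x hx y hy
        have hxK : ∀ q ∈ K, q * x = x * q :=
          fun q hq => mem_centralizer_iff.mp (mem_inf.mp (hH1 hx)).1 q hq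
        have hxc : c * x = x * c :=
          mem_centralizer_iff.mp (mem_inf.mp (hH1 hx)).2 c (Set.mem_singleton c)
        have hle : H ≤ centralizer ({x} : Set G) := by
          refine sup_le (sup_le ?_ ?_) ?_
          · intro q hq
            rw [mem_centralizer_iff]
            intro z hz
            rw [Set.mem_singleton_iff] at hz
            rw [hz]; exact (hxK q hq).symm
          · rw [zpowers_le, mem_centralizer_iff]
            intro z hz
            rw [Set.mem_singleton_iff] at hz
            rw [hz]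
            exact ((show Commute x c from hxc.symm).pow_right m).eq
          · rw [zpowers_le, mem_centralizer_iff]
            intro z hz
            rw [Set.mem_singleton_iff] at hz
            rw [hz]; exact hxc.symm
        exact mem_centralizer_iff.mp (hle hy) x (Set.mem_singleton x)
      rcases hR H h1 h2 with hcyc | ⟨n, ⟨e⟩⟩ | ⟨⟨e⟩⟩
      · exfalso
        obtain ⟨k₁, hk₁, k₂, hk₂, h11, h21, hne⟩ := exists_two_ne_one K hK4
        have hx2 : (⟨k₁, hKH hk₁⟩ : ↥H) * ⟨k₁, hKH hk₁⟩ = 1 :=
          Subtype.ext (by rw [Subgroup.coe_mul, ← pow_two]; exact hKexp k₁ hk₁)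
        have hx1 : (⟨k₁, hKH hk₁⟩ : ↥H) ≠ 1 := fun h => h11 (congrArg Subtype.val h)
        have hxord : orderOf (⟨k₁, hKH hk₁⟩ : ↥H) = 2 :=
          orderOf_eq_prime (by rw [pow_two]; exact hx2) hx1
        have hy2 : (⟨k₂, hKH hk₂⟩ : ↥H) ^ 2 = 1 :=
          Subtype.ext (by rw [Subgroup.coe_pow]; exact hKexp k₂ hk₂)
        have hmem := mem_zpowers_of_pow_eq_one hcyc (⟨k₁, hKH hk₁⟩ : ↥H) ⟨k₂, hKH hk₂⟩ 2
          (by norm_num) hxord hy2
        obtain ⟨i, hi⟩ := mem_zpowers_iff.mp hmem
        rcases zpow_two_cases' _ hx2 i with h5 | h5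
        · rw [h5] at hi
          exact h21 (congrArg Subtype.val hi.symm)
        · rw [h5] at hi
          exact hne (congrArg Subtype.val hi)
      · have hDcomm : IsMulCommutative (DihedralGroup (2 ^ n)) := by
          refine ⟨⟨fun x y => ?_⟩⟩
          have := hHcomm (e.symm x) (e.symm x).2 (e.symm y) (e.symm y).2
          have h3 : e.symm x * e.symm y = e.symm y * e.symm x := Subtype.ext this
          apply e.symm.injective
          rw [map_mul, map_mul, h3]
        have h4 : 2 ^ n = 1 ∨ 2 ^ n = 2 := DihedralGroup.commutative_iff.mp hDcomm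
        have hcardH : Nat.card ↥H ≤ 4 := by
          rw [Nat.card_congr e.toEquiv, DihedralGroup.nat_card]
          rcases h4 with h | h <;> rw [h] <;> norm_num
        have hKeq : K = H := Subgroup.eq_of_le_of_card_ge hKH (by rw [hK4]; exact hcardH)
        rw [hKeq]; exact hcH
      · exfalso
        obtain ⟨x, y, hxy⟩ := (by decide : ∃ a b : alternatingGroup (Fin 4), a * b ≠ b * a)
        apply hxy
        have := hHcomm (e.symm x) (e.symm x).2 (e.symm y) (e.symm y).2
        have h3 : e.symm x * e.symm y = e.symm y * e.symm x := Subtype.ext this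
        apply e.symm.injective
        rw [map_mul, map_mul, h3]
    · exact fun a ha => mem_centralizer_iff.mpr (fun b hb => hKcomm b hb a ha)

theorem cyclic_of_cyclic_sylow2 {X : Type*} [Group X] [Finite X] (S : Sylow 2 X)
    [hSn : (S : Subgroup X).Normal] (hScyc : IsCyclic ↥(S : Subgroup X))
    (hQcyc : IsCyclic (X ⧸ (S : Subgroup X))) : IsCyclic X := by
  haveI : Fact (Nat.Prime 2) := ⟨Nat.prime_two⟩
  by_cases h2 : 2 ∣ Nat.card X
  · have hmin : (Nat.card X).minFac = 2 := (Nat.minFac_eq_two_iff _).mpr h2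
    have hNC := IsCyclic.normalizer_le_centralizer hmin (P := S) hScyc
    apply cyclic_of_commute S hScyc hQcyc
    intro s hs y _
    have hy : y ∈ normalizer ((S : Subgroup X) : Set X) := by
      rw [normalizer_eq_top]; exact mem_top y
    have := hNC hy
    rw [mem_centralizer_iff] at this
    exact this s hs
  · apply cyclic_of_commute S hScyc hQcyc
    intro s hs y _
    obtain ⟨k, hk⟩ := IsPGroup.iff_card.mp S.2
    have hk0 : k = 0 := by
      by_contra h0
      apply h2
      have h1 : Nat.card (S : Subgroup X) ∣ Nat.card X := Subgroup.card_subgroup_dvd_card _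
      rw [hk] at h1
      exact (dvd_pow_self 2 h0).trans h1
    rw [hk0, pow_zero, Subgroup.card_eq_one] at hk
    rw [hk, mem_bot] at hs
    rw [hs, one_mul, mul_one]

end Cfsg.Agent.Helper22
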