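import Mathlib
import Cfsg.Agent.Helper22.TwoByCyclic2
import Cfsg.Agent.S0228

set_option autoImplicit false

namespace Cfsg.Agent.Helper22

open Subgroup

/-- A group of order 12 with a self-centralizing normal Klein four-subgroup is `A₄`. -/
theorem alt4_of_klein {X : Type*} [Group X] [Finite X] (hX : Nat.card X = 12) (S : Sylow 2 X)
    [hSn : (S : Subgroup X).Normal] (hS4 : Nat.card (S : Subgroup X) = 4)
    (hcen : ∀ x : X, (∀ s ∈ (S : Subgroup X), x * s = s * x) → x ∈ (S : Subgroup X)) :
    Nonempty (X ≃* alternatingGroup (Fin 4)) := by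
  haveI : Fact (Nat.Prime 2) := ⟨Nat.prime_two⟩
  haveI : Fact (Nat.Prime 3) := ⟨Nat.prime_three⟩
  apply Cfsg.Agent.S0228.result hX
  intro z hz2 hzc
  have hzcomm : ∀ x : X, x * z = z * x := fun x => mem_center_iff.mp hzc x
  -- z ∈ S
  have hzS : z ∈ (S : Subgroup X) := by
    have hzp : IsPGroup 2 ↥(zpowers z) := by
      apply IsPGroup.of_card (n := 1)
      rw [Nat.card_zpowers, hz2, pow_one]
    obtain ⟨S', hS'⟩ := hzp.exists_le_sylow
    haveI := Sylow.unique_of_normal S hSn
    rw [Subsingleton.elim S' S] at hS'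
    exact hS' (mem_zpowers z)
  have hzz : z * z = 1 := by rw [← pow_two, ← hz2]; exact pow_orderOf_eq_one z
  have hz1 : z ≠ 1 := by
    intro h; rw [h, orderOf_one] at hz2; norm_num at hz2
  obtain ⟨y, hy⟩ := exists_prime_orderOf_dvd_card' (G := X) 3 (by rw [hX]; norm_num)
  -- a ∈ S, a ∉ ⟨z⟩
  have hZlt : zpowers z ≠ (S : Subgroup X) := by
    intro h
    have := congrArg (fun L : Subgroup X => Nat.card L) h
    simp only [Nat.card_zpowers, hz2, hS4] at this
    norm_num at this
  obtain ⟨a, haS, haZ⟩ : ∃ a ∈ (S : Subgroup X), a ∉ zpowers z := by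
    by_contra hcon
    push_neg at hcon
    exact hZlt (le_antisymm (zpowers_le.mpr hzS) hcon)
  have hZcases : ∀ w ∈ zpowers z, w = 1 ∨ w = z := by
    intro w hw
    obtain ⟨i, rfl⟩ := mem_zpowers_iff.mp hw
    exact zpow_two_cases' z hzz i
  -- index of ⟨z⟩ in S is 2
  have hidx : ((zpowers z).subgroupOf (S : Subgroup X)).index = 2 := by
    have h1 := Subgroup.card_mul_index ((zpowers z).subgroupOf (S : Subgroup X))
    rw [Nat.card_congr (Subgroup.subgroupOfEquivOfLe (zpowers_le.mpr hzS)).toEquiv,
      Nat.card_zpowers, hz2, hS4] at h1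
    omega
  have hcoset : ∀ s ∈ (S : Subgroup X), s ∉ zpowers z → a⁻¹ * s ∈ zpowers z := by
    intro s hs hsZ
    have := Subgroup.mul_mem_iff_of_index_two hidx
      (a := (⟨a⁻¹, inv_mem haS⟩ : ↥(S : Subgroup X))) (b := ⟨s, hs⟩)
    simp only [mem_subgroupOf, Subgroup.coe_mul] at this
    rw [this]
    constructor
    · intro h; exact absurd (by simpa using inv_mem h) haZ
    · intro h; exact absurd h hsZ
  -- y a y⁻¹ = a w
  have hyaS : y * a * y⁻¹ ∈ (S : Subgroup X) := hSn.conj_mem a haS y
  have hyaZ : y * a * y⁻¹ ∉ zpowers z := by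
    intro h
    apply haZ
    rcases hZcases _ h with h1 | h1
    · have : a = 1 := by
        have : a = y⁻¹ * (y * a * y⁻¹) * y := by group
        rw [this, h1]; group
      rw [this]; exact one_mem _
    · have : a = z := by
        have h2 : a = y⁻¹ * (y * a * y⁻¹) * y := by group
        rw [h2, h1, mul_assoc, ← hzcomm y, ← mul_assoc, inv_mul_cancel, one_mul]
      rw [this]; exact mem_zpowers z
  have hw := hcoset _ hyaS hyaZ
  -- y² commutes with a
  have hy2a : y ^ 2 * a = a * y ^ 2 := by
    have hwc : ∀ x : X, x * (a⁻¹ * (y * a * y⁻¹)) = (a⁻¹ * (y * a * y⁻¹)) * x := by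
      intro x
      rcases hZcases _ hw with h1 | h1
      · rw [h1, one_mul, mul_one]
      · rw [h1]; exact hzcomm x
    have hww : (a⁻¹ * (y * a * y⁻¹)) * (a⁻¹ * (y * a * y⁻¹)) = 1 := by
      rcases hZcases _ hw with h1 | h1
      · rw [h1, one_mul]
      · rw [h1]; exact hzz
    have h1 : y * a * y⁻¹ = a * (a⁻¹ * (y * a * y⁻¹)) := by group
    have h2 : y ^ 2 * a * (y ^ 2)⁻¹ = a := by
      calc y ^ 2 * a * (y ^ 2)⁻¹ = y * (y * a * y⁻¹) * y⁻¹ := by rw [pow_two]; group
        _ = y * (a * (a⁻¹ * (y * a * y⁻¹))) * y⁻¹ := by rw [← h1]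
        _ = (y * a * y⁻¹) * (y * (a⁻¹ * (y * a * y⁻¹)) * y⁻¹) := by group
        _ = (y * a * y⁻¹) * (a⁻¹ * (y * a * y⁻¹)) := by
            rw [hwc y, mul_assoc _ y y⁻¹, mul_inv_cancel, mul_one]
        _ = a * ((a⁻¹ * (y * a * y⁻¹)) * (a⁻¹ * (y * a * y⁻¹))) := by group
        _ = a := by rw [hww, mul_one]
    calc y ^ 2 * a = y ^ 2 * a * (y ^ 2)⁻¹ * y ^ 2 := by group
      _ = a * y ^ 2 := by rw [h2]
  have hy2S : y ^ 2 ∈ (S : Subgroup X) := by
    apply hcen
    intro s hs
    by_cases hsZ : s ∈ zpowers z
    · rcases hZcases _ hsZ with h1 | h1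
      · rw [h1, one_mul, mul_one]
      · rw [h1]; exact hzcomm _
    · have h3 := hcoset s hs hsZ
      have h4 : s = a * (a⁻¹ * s) := by group
      rw [h4]
      rcases hZcases _ h3 with h1 | h1
      · rw [h1, mul_one]; exact hy2a
      · rw [h1, ← mul_assoc, hy2a, mul_assoc, hzcomm (y ^ 2), ← mul_assoc]
  have h5 : orderOf (y ^ 2) = 3 := by
    rw [Nat.Coprime.orderOf_pow (by rw [hy]; norm_num), hy]
  have h6 : orderOf (y ^ 2) ∣ 4 := hS4 ▸ Subgroup.orderOf_dvd_natCard _ hy2S
  rw [h5] at h6
  revert h6; norm_num

theorem rpc2_backward {G : Type*} [Group G] [Finite G] (P : Sylow 2 G)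
    (hcase : IsCyclic P ∨
      ((∃ n : ℕ, 1 ≤ n ∧ Nonempty ((P : Subgroup G) ≃* DihedralGroup (2 ^ n))) ∧
        ∀ K : Subgroup G, K ≤ P → Nat.card K = 4 → (∀ k ∈ K, k ^ 2 = 1) →
          centralizer (K : Set G) = K)) : RPC2 G := by
  haveI : Fact (Nat.Prime 2) := ⟨Nat.prime_two⟩
  intro H hN hQ
  let S : Sylow 2 ↥H := default
  haveI hSn : (S : Subgroup ↥H).Normal := hN S
  have hQS : IsCyclic (↥H ⧸ (S : Subgroup ↥H)) := hQ S
  set S₁ : Subgroup G := (S : Subgroup ↥H).map H.subtype with hS₁
  have hS₁p : IsPGroup 2 ↥S₁ := S.2.map H.subtype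
  obtain ⟨P', hP'⟩ := hS₁p.exists_le_sylow
  obtain ⟨g, rfl⟩ : ∃ g : G, g • P = P' := MulAction.exists_smul_eq G P P'
  have hS₁P : ∀ s ∈ S₁, g⁻¹ * s * g ∈ (P : Subgroup G) :=
    fun s hs => (sylow_smul_mem_iff P g s).mp (hP' hs)
  have hmemS₁ : ∀ s : ↥H, s ∈ (S : Subgroup ↥H) ↔ (s : G) ∈ S₁ :=
    fun s => (mem_map_iff_mem (Subgroup.subtype_injective H)).symm
  let ι : ↥(S : Subgroup ↥H) →* ↥(P : Subgroup G) :=
    { toFun := fun s => ⟨g⁻¹ * ((s : ↥H) : G) * g, hS₁P _ ((hmemS₁ s.1).mp s.2)⟩
      map_one' := by apply Subtype.ext; simp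
      map_mul' := by intro a b; apply Subtype.ext; simp; group }
  have hι : Function.Injective ι := by
    intro a b hab
    have h3 : g⁻¹ * ((a : ↥H) : G) * g = g⁻¹ * ((b : ↥H) : G) * g := congrArg Subtype.val hab
    apply Subtype.ext; apply Subtype.ext
    exact mul_left_cancel (mul_right_cancel h3)
  rcases hcase with hPcyc | ⟨⟨n, hn, ⟨e⟩⟩, hKlein⟩
  · left
    haveI := hPcyc
    exact cyclic_of_cyclic_sylow2 S (isCyclic_of_injective ι hι) hQS
  · haveI : NeZero (2 ^ n) := ⟨pow_ne_zero n (by norm_num)⟩
    let ψ : ↥(S : Subgroup ↥H) →* DihedralGroup (2 ^ n) := e.toMonoidHom.comp ι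
    have hψ : Function.Injective ψ := e.injective.comp hι
    rcases dihedral_subgroup (2 ^ n) ψ.range with hc | ⟨d, hd, ⟨e'⟩⟩
    · left
      haveI := hc
      exact cyclic_of_cyclic_sylow2 S
        (isCyclic_of_injective ψ.rangeRestrict (MonoidHom.rangeRestrict_injective_iff.mpr hψ)) hQS
    · obtain ⟨j, -, rfl⟩ := (Nat.dvd_prime_pow Nat.prime_two).mp hd
      let eS : ↥(S : Subgroup ↥H) ≃* DihedralGroup (2 ^ j) := (MonoidHom.ofInjective hψ).trans e'
      have hScard : Nat.card (S : Subgroup ↥H) = 2 * 2 ^ j := by
        rw [Nat.card_congr eS.toEquiv, DihedralGroup.nat_card]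
      by_cases hj0 : j = 0
      · left
        subst hj0
        have h3 : Nat.card (S : Subgroup ↥H) = 2 := by rw [hScard]; norm_num
        exact cyclic_of_cyclic_sylow2 S (isCyclic_of_prime_card (p := 2) h3) hQS
      · -- Klein four-subgroup
        haveI : NeZero (2 ^ j) := ⟨pow_ne_zero j (by norm_num)⟩
        set hh : ZMod (2 ^ j) := ((2 ^ (j - 1) : ℕ) : ZMod (2 ^ j)) with hhdef
        have hhh : hh + hh = 0 := by
          rw [hhdef, ← Nat.cast_add, ← two_mul, ← pow_succ', Nat.sub_add_cancel (by omega)]
          exact ZMod.natCast_self _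
        have hh0 : hh ≠ 0 := by
          rw [hhdef, Ne, ZMod.natCast_eq_zero_iff]
          intro hdvd
          have h1 := Nat.le_of_dvd (by positivity) hdvd
          have h2 : 2 ^ (j - 1) < 2 ^ j := Nat.pow_lt_pow_right (by norm_num) (by omega)
          omega
        let θ : DihedralGroup (2 ^ j) →* G :=
          (H.subtype.comp (S : Subgroup ↥H).subtype).comp eS.symm.toMonoidHom
        have hθ : Function.Injective θ :=
          ((Subgroup.subtype_injective H).comp (Subgroup.subtype_injective _)).comp
            eS.symm.injective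
        have hθS : ∀ x, θ x ∈ S₁ := fun x => (hmemS₁ _).mp (eS.symm x).2
        have hu : θ (DihedralGroup.r hh) * θ (DihedralGroup.r hh) = 1 := by
          rw [← map_mul, DihedralGroup.r_mul_r, hhh, DihedralGroup.r_zero, map_one]
        have hv : θ (DihedralGroup.sr 0) * θ (DihedralGroup.sr 0) = 1 := by
          rw [← map_mul, DihedralGroup.sr_mul_self, map_one]
        have huv : θ (DihedralGroup.r hh) * θ (DihedralGroup.sr 0) =
            θ (DihedralGroup.sr 0) * θ (DihedralGroup.r hh) := by
          rw [← map_mul, ← map_mul, DihedralGroup.r_mul_sr, DihedralGroup.sr_mul_r]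
          congr 2
          rw [zero_sub, zero_add]
          exact neg_eq_of_add_eq_zero_left hhh
        have hu1 : θ (DihedralGroup.r hh) ≠ 1 := by
          intro h
          rw [← map_one θ] at h
          have h2 := hθ h
          rw [DihedralGroup.one_def] at h2
          injection h2 with h3
          exact hh0 h3
        have hv1 : θ (DihedralGroup.sr 0) ≠ 1 := by
          intro h
          rw [← map_one θ] at h
          have h2 := hθ h
          rw [DihedralGroup.one_def] at h2
          cases h2
        have hne : θ (DihedralGroup.r hh) ≠ θ (DihedralGroup.sr 0) := by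
          intro h
          have h2 := hθ h
          cases h2
        obtain ⟨K, huK, hvK, hK4, hKexp, hKmin⟩ :=
          klein_of_commuting_involutions _ _ hu hv huv hu1 hv1 hne
        have hKS₁ : K ≤ S₁ := hKmin S₁ (hθS _) (hθS _)
        -- transport to P
        have hCK : ∀ c ∈ centralizer (K : Set G), c ∈ K := by
          intro c hc
          have hK'P : K.map (MulAut.conj g⁻¹).toMonoidHom ≤ (P : Subgroup G) := by
            rintro _ ⟨q, hq, rfl⟩
            show g⁻¹ * q * g⁻¹⁻¹ ∈ (P : Subgroup G)
            rw [inv_inv]; exact hS₁P q (hKS₁ hq)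
          have hK'card : Nat.card (K.map (MulAut.conj g⁻¹).toMonoidHom) = 4 := by
            rw [Subgroup.card_map_of_injective (MulAut.conj g⁻¹).injective, hK4]
          have hK'exp : ∀ k ∈ K.map (MulAut.conj g⁻¹).toMonoidHom, k ^ 2 = 1 := by
            rintro _ ⟨q, hq, rfl⟩
            rw [← map_pow, hKexp q hq, map_one]
          have h1 := hKlein _ hK'P hK'card hK'exp
          have h2 := (conj_centralizer_iff K g c).mpr hc
          rw [h1] at h2
          obtain ⟨q, hq, hqc⟩ := h2
          have h3 : g⁻¹ * q * g⁻¹⁻¹ = g⁻¹ * c * g := hqc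
          rw [inv_inv] at h3
          have h4 : q = c := mul_left_cancel (mul_right_cancel h3)
          rw [← h4]; exact hq
        by_cases hj1 : j = 1
        · -- S is a Klein four-group
          subst hj1
          have hS4 : Nat.card (S : Subgroup ↥H) = 4 := by rw [hScard]; norm_num
          have hS₁4 : Nat.card S₁ = 4 := by
            rw [hS₁, Subgroup.card_map_of_injective (Subgroup.subtype_injective H), hS4]
          have hS₁K : K = S₁ := Subgroup.eq_of_le_of_card_ge hKS₁ (by rw [hS₁4, hK4])
          have hcen : ∀ x : ↥H, (∀ s ∈ (S : Subgroup ↥H), x * s = s * x) →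
              x ∈ (S : Subgroup ↥H) := by
            intro x hx
            rw [hmemS₁, ← hS₁K]
            apply hCK
            rw [mem_centralizer_iff]
            intro k hk
            rw [hS₁K] at hk
            obtain ⟨s, hs, rfl⟩ := hk
            exact (congrArg Subtype.val (hx s hs)).symm
          -- index of S divides 24 and is odd
          have hker : (MulAut.conjNormal : ↥H →* MulAut ↥(S : Subgroup ↥H)).ker ≤
              (S : Subgroup ↥H) := by
            intro x hx
            apply hcen
            intro s hs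
            have h1 : (MulAut.conjNormal x : MulAut ↥(S : Subgroup ↥H)) = 1 := hx
            have h2 := congrArg (fun β : MulAut ↥(S : Subgroup ↥H) =>
              ((β ⟨s, hs⟩ : ↥(S : Subgroup ↥H)) : ↥H)) h1
            simp only [MulAut.conjNormal_apply, MulAut.one_apply] at h2
            calc x * s = x * s * x⁻¹ * x := by group
              _ = s * x := by rw [h2]
          have hdvd24 : (S : Subgroup ↥H).index ∣ 24 := by
            have h1 : (S : Subgroup ↥H).index ∣
                (MulAut.conjNormal : ↥H →* MulAut ↥(S : Subgroup ↥H)).ker.index :=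
              Subgroup.index_dvd_of_le hker
            rw [Subgroup.index_ker] at h1
            have h2 : Nat.card (MulAut.conjNormal : ↥H →* MulAut ↥(S : Subgroup ↥H)).range ∣
                Nat.card (MulAut ↥(S : Subgroup ↥H)) := Subgroup.card_subgroup_dvd_card _
            have h3 : Nat.card (MulAut ↥(S : Subgroup ↥H)) ∣
                Nat.card (Equiv.Perm ↥(S : Subgroup ↥H)) :=
              Subgroup.card_dvd_of_injective (MulAut.toPerm ↥(S : Subgroup ↥H))
                (fun a b hab => MulEquiv.ext (fun x => by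
                  have := congrArg (fun σ : Equiv.Perm ↥(S : Subgroup ↥H) => σ x) hab
                  exact this))
            rw [Nat.card_perm, hS4] at h3
            have h4 : Nat.factorial 4 = 24 := by decide
            rw [h4] at h3
            exact h1.trans (h2.trans h3)
          have hodd : ¬ 2 ∣ (S : Subgroup ↥H).index := S.not_dvd_index
          have hidx : (S : Subgroup ↥H).index = 1 ∨ (S : Subgroup ↥H).index = 3 := by
            have h1 : (S : Subgroup ↥H).index ∣ 3 := by
              have hcop : Nat.Coprime (S : Subgroup ↥H).index 8 := by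
                have : (8 : ℕ) = 2 ^ 3 := by norm_num
                rw [this]
                exact Nat.Coprime.pow_right _
                  ((Nat.Prime.coprime_iff_not_dvd Nat.prime_two).mpr hodd).symm
              have h24 : (24 : ℕ) = 8 * 3 := by norm_num
              rw [h24] at hdvd24
              exact hcop.dvd_of_dvd_mul_left hdvd24
            exact (Nat.dvd_prime Nat.prime_three).mp h1
          rcases hidx with h1 | h3
          · right; left
            have hStop : (S : Subgroup ↥H) = ⊤ := index_eq_one.mp h1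
            exact ⟨1, ⟨(Subgroup.topEquiv.symm.trans (MulEquiv.subgroupCongr hStop.symm)).trans eS⟩⟩
          · right; right
            have hH12 : Nat.card ↥H = 12 := by
              rw [← Subgroup.card_mul_index (S : Subgroup ↥H), hS4, h3]
            exact alt4_of_klein hH12 S hS4 hcen
        · -- j ≥ 2
          right; left
          have hodd1 : ∀ y : ↥H, Odd (orderOf y) → y = 1 := by
            intro y hy
            let Ψ : ↥H →* MulAut (DihedralGroup (2 ^ j)) :=
              (MulAut.congr eS).toMonoidHom.comp MulAut.conjNormal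
            have h1 : Ψ y ^ orderOf y = 1 := by rw [← map_pow, pow_orderOf_eq_one, map_one]
            have h2 := dihedral_aut_odd j (by omega) (Ψ y) (orderOf y) hy h1
            have h3 : (MulAut.conjNormal y : MulAut ↥(S : Subgroup ↥H)) = 1 := by
              have : (MulAut.congr eS) (MulAut.conjNormal y) = 1 := h2
              exact (MulEquiv.map_eq_one_iff (MulAut.congr eS)).mp this
            have h4 : ∀ s ∈ (S : Subgroup ↥H), y * s * y⁻¹ = s := by
              intro s hs
              have h5 := congrArg (fun β : MulAut ↥(S : Subgroup ↥H) =>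
                ((β ⟨s, hs⟩ : ↥(S : Subgroup ↥H)) : ↥H)) h3
              simpa only [MulAut.conjNormal_apply, MulAut.one_apply] using h5
            have h5 : (y : G) ∈ centralizer (K : Set G) := by
              rw [mem_centralizer_iff]
              intro k hk
              obtain ⟨s, hs, rfl⟩ := hKS₁ hk
              have h6 := congrArg Subtype.val (h4 s hs)
              have h7 : (y : G) * (s : G) * (y : G)⁻¹ = (s : G) := h6
              show (s : G) * (y : G) = (y : G) * (s : G)
              calc (s : G) * (y : G) = (y : G) * (s : G) * (y : G)⁻¹ * (y : G) := by rw [h7]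
                _ = (y : G) * (s : G) := by group
            have h6 := hCK _ h5
            have h7 : orderOf (y : G) ∣ 4 := hK4 ▸ Subgroup.orderOf_dvd_natCard K h6
            rw [Subgroup.orderOf_coe] at h7
            have h8 : orderOf y = 1 := by
              have hcop : Nat.Coprime (orderOf y) 4 := by
                have : (4 : ℕ) = 2 ^ 2 := by norm_num
                rw [this]; exact Nat.Coprime.pow_right _ (Nat.coprime_two_right.mpr hy)
              exact Nat.Coprime.eq_one_of_dvd hcop h7
            exact orderOf_eq_one_iff.mp h8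
          have hStop : (S : Subgroup ↥H) = ⊤ := by
            by_contra hne
            have hidx1 : (S : Subgroup ↥H).index ≠ 1 := fun h => hne (index_eq_one.mp h)
            obtain ⟨q, hq, hqd⟩ := Nat.exists_prime_and_dvd hidx1
            haveI : Fact q.Prime := ⟨hq⟩
            have hqH : q ∣ Nat.card ↥H := hqd.trans (Subgroup.index_dvd_card _)
            obtain ⟨y, hy⟩ := exists_prime_orderOf_dvd_card' q hqH
            have hq2 : q ≠ 2 := by rintro rfl; exact S.not_dvd_index hqd
            have hyodd : Odd (orderOf y) := by rw [hy]; exact hq.odd_of_ne_two hq2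
            have := hodd1 y hyodd
            rw [this, orderOf_one] at hy
            exact hq.one_lt.ne' hy.symm
          exact ⟨j, ⟨(Subgroup.topEquiv.symm.trans (MulEquiv.subgroupCongr hStop.symm)).trans eS⟩⟩

end Cfsg.Agent.Helper22
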